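import Cfsg.Agent.H6.DCk
import Cfsg.Agent.H5.ThA

/-! Lyons project: generic tools on coded groups. -/

set_option autoImplicit false

namespace CfsgLY

open CfsgH5 CfsgH6 Subgroup

noncomputable section

variable {O : GOps} {Γ : Type*} [Group Γ] {C : GC O Γ} {R : ℕ → ℕ}

/-- the coded group restricted to a subgroup -/
def sub (C : GC O Γ) (S : Subgroup Γ) : GC O S := C.comap S.subtype S.subtype_injective

theorem sub_mem {S : Subgroup Γ} {M : ℕ} (h : C.Mem R S M) : (sub C S).Mem R ⊤ M := fun i hi => by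
  obtain ⟨g, hg, e⟩ := h i hi
  exact ⟨⟨g, hg⟩, trivial, e⟩

theorem sub_code {S : Subgroup Γ} (g : S) : C.code (S.subtype g) = (sub C S).code g := rfl

theorem sub_top {M : ℕ} (h : C.Mem R ⊤ M) : (sub C (C.gen R M)).gen R M = ⊤ := by
  have h1 := (sub_mem h.gen).gen_map (C' := C) (f := (C.gen R M).subtype) (pr := fun x => x) sub_code
  refine map_injective (C.gen R M).subtype_injective ?_
  rw [← h1, ← MonoidHom.range_eq_map, range_subtype]

theorem sub_fst {O₁ O₂ : GOps} {Γ₁ Γ₂ : Type*} [Group Γ₁] [Group Γ₂] {C₁ : GC O₁ Γ₁} {C₂ : GC O₂ Γ₂}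
    {B : ℕ} (h : ∀ g, C₁.code g < 2 ^ B) (S : Subgroup (Γ₁ × Γ₂)) (g : S) :
    C₁.code ((MonoidHom.fst _ _).comp S.subtype g) = pr1 B ((sub (C₁.prod C₂ B h) S).code g) :=
  GC.prod_fst (h := h) (g : Γ₁ × Γ₂)

theorem sub_snd {O₁ O₂ : GOps} {Γ₁ Γ₂ : Type*} [Group Γ₁] [Group Γ₂] {C₁ : GC O₁ Γ₁} {C₂ : GC O₂ Γ₂}
    {B : ℕ} (h : ∀ g, C₁.code g < 2 ^ B) (S : Subgroup (Γ₁ × Γ₂)) (g : S) :
    C₂.code ((MonoidHom.snd _ _).comp S.subtype g) = pr2 B ((sub (C₁.prod C₂ B h) S).code g) :=
  GC.prod_snd (h := h) (g : Γ₁ × Γ₂)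

/-- code of the product of a list of registers -/
def evL (O : GOps) (R : ℕ → ℕ) (l : List ℕ) : ℕ :=
  List.rec (motive := fun _ => ℕ) O.one (fun r _ ih => fH ih fun a => O.mul (force r R) a) l

/-- the product of a list of registers -/
def wl (C : GC O Γ) (R : ℕ → ℕ) (l : List ℕ) : Γ := (l.map fun i => C.el (R i)).prod

@[simp] theorem wl_nil : wl C R [] = 1 := rfl
@[simp] theorem wl_cons (r : ℕ) (l : List ℕ) : wl C R (r :: l) = C.el (R r) * wl C R l := by
  simp [wl]
theorem wl_append (l l' : List ℕ) : wl C R (l ++ l') = wl C R l * wl C R l' := by simp [wl]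

theorem wl_spec {H : Subgroup Γ} {M : ℕ} (hM : C.Mem R H M) {l : List ℕ}
    (h : allL l (tb M) = true) : wl C R l ∈ H ∧ C.code (wl C R l) = evL O R l := by
  rw [allL_iff] at h
  induction l with
  | nil => exact ⟨H.one_mem, C.code_one⟩
  | cons r l ih =>
    have h1 := hM.get (h r List.mem_cons_self)
    have h2 := ih fun i hi => h i (List.mem_cons_of_mem _ hi)
    rw [wl_cons]
    refine ⟨H.mul_mem h1.el_mem h2.1, ?_⟩
    rw [C.code_mul, h1.code_el, h2.2]
    show _ = fH (evL O R l) fun a => O.mul (force r R) a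
    rw [fH_eq, force_eq]

/-- two products of registers are equal -/
def eqL (O : GOps) (R : ℕ → ℕ) (M : ℕ) (l l' : List ℕ) : Bool :=
  band (band (allL l (tb M)) (allL l' (tb M))) (Nat.beq (evL O R l) (evL O R l'))

/-- two products of registers are different -/
def neL (O : GOps) (R : ℕ → ℕ) (M : ℕ) (l l' : List ℕ) : Bool :=
  band (band (allL l (tb M)) (allL l' (tb M))) (bnot (Nat.beq (evL O R l) (evL O R l')))

theorem eqL_sound {H : Subgroup Γ} {M : ℕ} (hM : C.Mem R H M) {l l' : List ℕ}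
    (h : eqL O R M l l' = true) : wl C R l = wl C R l' := by
  simp only [eqL, band_eq, Bool.and_eq_true, beq_true_iff] at h
  exact C.inj (by rw [(wl_spec hM h.1.1).2, (wl_spec hM h.1.2).2, h.2])

theorem neL_sound {H : Subgroup Γ} {M : ℕ} (hM : C.Mem R H M) {l l' : List ℕ}
    (h : neL O R M l l' = true) : wl C R l ≠ wl C R l' := fun e => by
  simp only [neL, band_eq, Bool.and_eq_true, bnot_eq, Bool.not_eq_true', ← Bool.not_eq_true,
    beq_true_iff] at h
  exact h.2 (by rw [← (wl_spec hM h.1.1).2, ← (wl_spec hM h.1.2).2, e])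

/-- a list of identities -/
theorem eqLs_sound {H : Subgroup Γ} {M : ℕ} (hM : C.Mem R H M) {L : List (List ℕ × List ℕ)}
    (h : allL L (fun p => eqL O R M p.1 p.2) = true) : ∀ p ∈ L, wl C R p.1 = wl C R p.2 :=
  fun p hp => eqL_sound hM ((allL_iff _ _).1 h p hp)

/-- list version of a straight line program: entries `(r, word)` -/
def slpL (O : GOps) (R : ℕ → ℕ) (L : List (ℕ × List ℕ)) : ℕ → Bool :=
  List.rec (motive := fun _ => ℕ → Bool) (fun _ => true)
    (fun e _ ih M => band (allL e.2 (tb M)) (band (Nat.beq (evL O R e.2) (force e.1 R))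
      (force (ins M e.1) ih))) L

/-- `M` with the heads of a program added -/
def insP (L : List (ℕ × List ℕ)) : ℕ → ℕ :=
  List.rec (motive := fun _ => ℕ → ℕ) (fun M => M) (fun e _ ih M => force (ins M e.1) ih) L

theorem slpL_cons {e : ℕ × List ℕ} {L : List (ℕ × List ℕ)} {M : ℕ} {H : Subgroup Γ}
    (hM : C.Mem R H M) (h : slpL O R (e :: L) M = true) :
    allL e.2 (tb M) = true ∧ C.el (R e.1) = wl C R e.2 ∧ C.Mem R H (ins M e.1) ∧
      slpL O R L (ins M e.1) = true := by
  have h : band (allL e.2 (tb M)) (band (Nat.beq (evL O R e.2) (force e.1 R))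
      (force (ins M e.1) (slpL O R L))) = true := h
  simp only [band_eq, force_eq, Bool.and_eq_true, beq_true_iff] at h
  have h1 := wl_spec hM h.1
  have h2 : C.code (wl C R e.2) = R e.1 := h1.2.trans h.2.1
  exact ⟨h.1, by rw [← h2, GC.el_code], hM.ins ⟨_, h1.1, h2⟩, h.2.2⟩

theorem slpL_sound {H : Subgroup Γ} {L : List (ℕ × List ℕ)} {M : ℕ} (hM : C.Mem R H M)
    (h : slpL O R L M = true) : C.Mem R H (insP L M) ∧ ∀ e ∈ L, C.el (R e.1) = wl C R e.2 := by
  induction L generalizing M with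
  | nil => exact ⟨hM, by simp⟩
  | cons e L ih =>
    obtain ⟨-, h2, h3, h4⟩ := slpL_cons hM h
    have := ih h3 h4
    refine ⟨?_, forall_cons h2 this.2⟩
    show C.Mem R H (force (ins M e.1) (insP L))
    rw [force_eq]; exact this.1

theorem map_wl {O' : GOps} {Γ' G : Type*} [Group Γ'] [Group G] {C' : GC O' Γ'} {R' : ℕ → ℕ}
    (φ : Γ →* G) (ψ : Γ' →* G) {M : ℕ}
    (ha : ∀ i, tb M i = true → φ (C.el (R i)) = ψ (C'.el (R' i))) {l : List ℕ}
    (h : allL l (tb M) = true) : φ (wl C R l) = ψ (wl C' R' l) := by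
  rw [allL_iff] at h
  induction l with
  | nil => simp
  | cons r l ih =>
    rw [wl_cons, wl_cons, map_mul, map_mul, ha r (h r List.mem_cons_self),
      ih fun i hi => h i (List.mem_cons_of_mem _ hi)]

/-- two homomorphisms agreeing on common letters agree on common registers -/
theorem slp2 {O' : GOps} {Γ' G : Type*} [Group Γ'] [Group G] {C' : GC O' Γ'} {R' : ℕ → ℕ}
    (φ : Γ →* G) (ψ : Γ' →* G) {L : List (ℕ × List ℕ)} {M : ℕ} (hM : C.Mem R ⊤ M)
    (hM' : C'.Mem R' ⊤ M) (h : slpL O R L M = true) (h' : slpL O' R' L M = true)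
    (ha : ∀ i, tb M i = true → φ (C.el (R i)) = ψ (C'.el (R' i))) :
    ∀ i, tb (insP L M) i = true → φ (C.el (R i)) = ψ (C'.el (R' i)) := by
  induction L generalizing M with
  | nil => exact ha
  | cons e L ih =>
    obtain ⟨h1, h2, h3, h4⟩ := slpL_cons hM h
    obtain ⟨-, h2', h3', h4'⟩ := slpL_cons hM' h'
    show ∀ i, tb (force (ins M e.1) (insP L)) i = true → _
    rw [force_eq]
    refine ih h3 h3' h4 h4' fun i hi => ?_
    rw [tb_eq, testBit_ins] at hi
    rcases hi with hi | rfl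
    · exact ha i (by rwa [tb_eq])
    · rw [h2, h2', map_wl φ ψ ha h1]

/-- Carmichael's bound for the double cover -/
theorem carmB [Finite Γ] (X : ℕ → Γ) (t : Γ) (n : ℕ) (ht : t * t = 1)
    (hc : ∀ i, i < n → Commute t (X i)) (h3 : ∀ i, i < n → X i ^ 3 = 1)
    (h2 : ∀ i j, i < j → j < n → (X i * X j) ^ 2 = t) :
    Nat.card (closure (insert t (X '' Set.Iio n))) ≤ (n + 2).factorial := by
  set S := closure (insert t (X '' Set.Iio n)) with hS
  have mt : t ∈ S := subset_closure (Set.mem_insert _ _)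
  have mX : ∀ i, i < n → X i ∈ S := fun i hi => subset_closure (Or.inr ⟨i, hi, rfl⟩)
  have hcen : ∀ g ∈ S, Commute t g := fun g hg => by
    induction hg using closure_induction with
    | mem x hx =>
      rcases hx with rfl | ⟨i, hi, rfl⟩
      exacts [Commute.refl _, hc i hi]
    | one => exact Commute.one_right _
    | mul x y _ _ h1 h2 => exact h1.mul_right h2
    | inv x _ h1 => exact h1.inv_right
  let Z : Subgroup S := zpowers ⟨t, mt⟩
  haveI : Z.Normal := ⟨by
    rintro _ ⟨k, rfl⟩ g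
    have : Commute g ((⟨t, mt⟩ : S) ^ k) :=
      Commute.zpow_right (Subtype.ext (hcen g g.2).symm.eq) k
    rw [this.eq, mul_inv_cancel_right]; exact ⟨k, rfl⟩⟩
  classical
  let Y : ℕ → S ⧸ Z := fun i => if h : i < n then ((⟨X i, mX i h⟩ : S) : S ⧸ Z) else 1
  have tq : ((⟨t, mt⟩ : S) : S ⧸ Z) = 1 := (QuotientGroup.eq_one_iff _).2 (mem_zpowers _)
  have b := CfsgH5.Th.carm_pure Y n (fun i hi => by
    simp only [Y, dif_pos hi]
    rw [← QuotientGroup.mk_pow, show (⟨X i, mX i hi⟩ : S) ^ 3 = 1 from Subtype.ext (h3 i hi)]; rfl)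
    (fun i j hij hj => by
    simp only [Y, dif_pos hj, dif_pos (hij.trans hj)]
    rw [← QuotientGroup.mk_mul, ← QuotientGroup.mk_pow, ← tq]
    exact congrArg _ (Subtype.ext (h2 i j hij hj)))
  have top : closure (Y '' Set.Iio n) = ⊤ := by
    rw [eq_top_iff]
    rintro q -
    obtain ⟨⟨g, hg⟩, rfl⟩ := QuotientGroup.mk_surjective q
    induction hg using closure_induction with
    | mem x hx =>
      rcases hx with rfl | ⟨i, hi, rfl⟩
      · rw [tq]; exact one_mem _
      · exact subset_closure ⟨i, hi, by simp only [Y]; rw [dif_pos (show i < n from hi)]⟩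
    | one => exact one_mem _
    | mul x y hx hy h1 h2 => exact mul_mem h1 h2
    | inv x hx h1 => exact inv_mem h1
  rw [top, card_top] at b
  have cz : Nat.card Z ≤ 2 := by
    rw [Nat.card_zpowers]
    exact orderOf_le_of_pow_eq_one (by norm_num) (Subtype.ext (by simpa [pow_two] using ht))
  rw [card_eq_card_quotient_mul_card_subgroup Z]
  nlinarith

end

end CfsgLY
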