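/-
The Lyons group: abstract amalgam data and the final comparison argument.
-/
import Mathlib

set_option autoImplicit false

universe u v

namespace CfsgLY

open Subgroup

/-- a completion of the amalgam: `mm` lists elements of the model `M` -/
structure AmG {M : Type} [Group M] (mm : ℕ → M) (rd : ℕ) (LA : List (ℕ × ℕ))
    (LS : List (ℕ × ℕ × ℕ)) (P : Type*) [Group P] where
  φ : M →* P
  σ : P
  sq : σ * σ = 1
  tri : (σ * φ (mm rd)) ^ 3 = 1
  cA : ∀ e ∈ LA, σ * φ (mm e.1) * σ = φ (mm e.2)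
  cS : ∀ e ∈ LS, φ (mm e.2.1) * (σ * φ (mm e.1) * σ) = σ * φ (mm e.1) * σ * φ (mm e.2.2)

theorem amg_surj {P G : Type*} [Group P] [Group G] {D : Subgroup P} (f : P →* G)
    (e : D.map f = ⊤) : Function.Surjective (f.comp D.subtype) := fun g => by
  obtain ⟨x, hx, rfl⟩ : g ∈ D.map f := e ▸ mem_top g
  exact ⟨⟨x, hx⟩, rfl⟩

namespace AmG

variable {M : Type} [Group M] {mm : ℕ → M} {rd : ℕ} {LA : List (ℕ × ℕ)} {LS : List (ℕ × ℕ × ℕ)}
  {P P' : Type*} [Group P] [Group P']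

/-- the subgroup generated by the amalgam -/
def cl (A : AmG mm rd LA LS P) : Subgroup P := closure (Set.range A.φ ∪ {A.σ})

/-- the product of two completions -/
def prod (A : AmG mm rd LA LS P) (B : AmG mm rd LA LS P') : AmG mm rd LA LS (P × P') where
  φ := A.φ.prod B.φ
  σ := (A.σ, B.σ)
  sq := Prod.ext A.sq B.sq
  tri := Prod.ext A.tri B.tri
  cA e he := Prod.ext (A.cA e he) (B.cA e he)
  cS e he := Prod.ext (A.cS e he) (B.cS e he)

theorem map_cl (A : AmG mm rd LA LS P) (B : AmG mm rd LA LS P') (f : P →* P')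
    (h1 : ∀ m, f (A.φ m) = B.φ m) (h2 : f A.σ = B.σ) : A.cl.map f = B.cl := by
  rw [cl, cl, MonoidHom.map_closure, Set.image_union, Set.image_singleton, h2, ← Set.range_comp]
  congr 3
  exact funext h1

/-- two generated completions are isomorphic when the universal bound is attained by a simple
one -/
theorem iso {L : Type} [Group L] [Finite L] (AL : AmG mm rd LA LS L) (N : ℕ)
    (hU : ∀ (Q : Type (max u v)) [Group Q] [Finite Q] (A : AmG mm rd LA LS Q) (π : Q →* L),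
      (∀ m, π (A.φ m) = AL.φ m) → π A.σ = AL.σ → Nat.card A.cl ≤ N)
    {G₁ : Type u} {G₂ : Type v} [Group G₁] [Finite G₁] [Nontrivial G₁] [Group G₂] [Finite G₂]
    [IsSimpleGroup G₂] (hc : Nat.card G₂ = N) (A₁ : AmG mm rd LA LS G₁) (g₁ : A₁.cl = ⊤)
    (A₂ : AmG mm rd LA LS G₂) (g₂ : A₂.cl = ⊤) : Nonempty (G₁ ≃* G₂) := by
  set A := A₁.prod (A₂.prod AL)
  have hD := hU _ A ((MonoidHom.snd _ _).comp (MonoidHom.snd _ _)) (fun _ => rfl) rfl
  have s₁ := amg_surj (MonoidHom.fst _ _) ((A.map_cl A₁ _ (fun _ => rfl) rfl).trans g₁)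
  have s₂ := amg_surj ((MonoidHom.fst _ _).comp (MonoidHom.snd _ _))
    ((A.map_cl A₂ _ (fun _ => rfl) rfl).trans g₂)
  have b₂ := (s₂.bijective_of_nat_card_le (hc ▸ hD))
  let e₂ := MulEquiv.ofBijective _ b₂
  have : IsSimpleGroup A.cl := e₂.isSimpleGroup
  have i₁ : Function.Injective ((MonoidHom.fst G₁ (G₂ × L)).comp A.cl.subtype) := by
    rw [← MonoidHom.ker_eq_bot_iff]
    refine (Normal.eq_bot_or_eq_top inferInstance).resolve_right fun e => ?_
    obtain ⟨g, hg⟩ := exists_ne (1 : G₁)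
    obtain ⟨x, rfl⟩ := s₁ g
    exact hg (MonoidHom.mem_ker.1 (e ▸ mem_top x))
  exact ⟨(MulEquiv.ofBijective _ ⟨i₁, s₁⟩).symm.trans e₂⟩

end AmG

end CfsgLY
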