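/-
The non-split double cover of `A₁₁`: Carmichael generators and uniqueness.
-/
import Cfsg.Agent.H5.ThA
import Cfsg.Prelude.Def_SporadicB

set_option autoImplicit false

namespace CfsgLY.L1

open Subgroup Equiv

/-- the three-cycles through two fixed points -/
def c11 (i : ℕ) : Perm (Fin 11) := swap 0 1 * swap 0 (Fin.ofNat 11 (i + 2))

theorem c11_cube : ∀ i, i < 9 → c11 i ^ 3 = 1 := by decide +kernel

theorem c11_sq : ∀ j, j < 9 → ∀ i, i < j → (c11 i * c11 j) ^ 2 = 1 := by decide +kernel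

theorem c11_mem {i : ℕ} (hi : i < 9) : c11 i ∈ alternatingGroup (Fin 11) := by
  have : ∀ i, i < 9 → Perm.sign (c11 i) = 1 := by decide +kernel
  exact Perm.mem_alternatingGroup.2 (this i hi)

theorem c11_closure : closure (c11 '' Set.Iio 9) = alternatingGroup (Fin 11) := by
  set H := closure (c11 '' Set.Iio 9)
  have hA : H ≤ alternatingGroup (Fin 11) := by
    refine (closure_le _).2 ?_
    rintro _ ⟨i, hi, rfl⟩
    exact c11_mem hi
  have h1 : ∀ a : Fin 11, a ≠ 0 → swap 0 1 * swap 0 a ∈ H := by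
    intro a ha
    by_cases h : a = 1
    · subst h; simp
    · have : ∀ a : Fin 11, a ≠ 0 → a ≠ 1 → a.1 - 2 < 9 ∧ c11 (a.1 - 2) = swap 0 1 * swap 0 a := by
        decide +kernel
      exact subset_closure ⟨a.1 - 2, (this a ha h).1, (this a ha h).2⟩
  have h2 : ∀ a : Fin 11, a ≠ 0 → ∀ g, g ∈ H ∨ g * swap 0 1 ∈ H →
      g * swap 0 a ∈ H ∨ g * swap 0 a * swap 0 1 ∈ H := by
    rintro a ha g (h | h)
    · right
      have := H.mul_mem h (H.inv_mem (h1 a ha))
      simpa [mul_assoc] using this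
    · left
      have := H.mul_mem h (h1 a ha)
      simpa [mul_assoc] using this
  have h3 : ∀ g : Perm (Fin 11), g ∈ H ∨ g * swap 0 1 ∈ H := by
    intro g
    induction g using Perm.swap_induction_on' with
    | one => exact Or.inl H.one_mem
    | mul_swap g a b hab ih =>
      by_cases ha : a = 0
      · subst ha; exact h2 b hab.symm g ih
      by_cases hb : b = 0
      · subst hb; rw [swap_comm]; exact h2 a ha g ih
      have : swap a b = swap 0 a * swap 0 b * swap 0 a := by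
        rw [swap_comm 0 b, swap_mul_swap_mul_swap hb hab.symm]
      rw [this, ← mul_assoc, ← mul_assoc]
      exact h2 a ha _ (h2 b hb _ (h2 a ha g ih))
  refine le_antisymm hA fun g hg => (h3 g).resolve_right fun h => ?_
  have e := Perm.mem_alternatingGroup.1 (hA h)
  rw [map_mul, Perm.mem_alternatingGroup.1 hg, Perm.sign_swap (by decide)] at e
  exact absurd e (by decide)

/-- a conjugating permutation -/
def cg (i j : ℕ) : Perm (Fin 11) :=
  swap (swap 2 (Fin.ofNat 11 (i + 2)) 3) (Fin.ofNat 11 (j + 2)) * swap 2 (Fin.ofNat 11 (i + 2))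

theorem c11_conj : ∀ j, j < 9 → ∀ i, i < j → ∃ g ∈ [cg i j, cg i j * swap 4 5],
    Perm.sign g = 1 ∧ g * c11 0 * g⁻¹ = c11 i ∧ g * c11 1 * g⁻¹ = c11 j := by decide +kernel

theorem card_alt : 2 * Nat.card (alternatingGroup (Fin 11)) = (9 + 2).factorial := by
  rw [two_mul_nat_card_alternatingGroup, Nat.card_perm, Nat.card_fin]

variable {H : Type*} [Group H]

/-- `π : H → A₁₁` is a non-split double cover with kernel `⟨t⟩` -/
structure DC (π : H →* Perm (Fin 11)) (t : H) : Prop where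
  rng : π.range = alternatingGroup (Fin 11)
  ker : ∀ h, π h = 1 ↔ h = 1 ∨ h = t
  t1 : t ≠ 1
  cen : ∀ h, h * t = t * h
  ns : ∀ L : Subgroup H, L.map π = alternatingGroup (Fin 11) → t ∈ L

theorem exists_DC (h : Cfsg.IsNonsplitDoubleCover H (alternatingGroup (Fin 11))) {t : H}
    (t1 : t ≠ 1) (tc : ∀ h, h * t = t * h) : ∃ π : H →* Perm (Fin 11), DC π t := by
  obtain ⟨h1, ⟨e⟩, h3⟩ := h
  let π : H →* Perm (Fin 11) := (alternatingGroup (Fin 11)).subtype.comp
    (e.toMonoidHom.comp (QuotientGroup.mk' _))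
  have tZ : t ∈ center H := mem_center_iff.2 tc
  have hZ : ∀ h, h ∈ center H ↔ h = 1 ∨ h = t := fun h => ⟨fun hh => by
    obtain ⟨y, -, hy⟩ := (Nat.card_eq_two_iff' (1 : center H)).1 h1
    by_cases e : h = 1
    · exact Or.inl e
    · exact Or.inr (congrArg Subtype.val ((hy ⟨h, hh⟩ fun e' => e (congrArg Subtype.val e')).trans
        (hy ⟨t, tZ⟩ fun e' => t1 (congrArg Subtype.val e')).symm)),
    by rintro (rfl | rfl); exacts [one_mem _, tZ]⟩
  have hk : ∀ h, π h = 1 ↔ h ∈ center H := fun h => by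
    simp [π, QuotientGroup.eq_one_iff]
  have hr : π.range = alternatingGroup (Fin 11) := by
    refine le_antisymm ?_ fun g hg => ?_
    · rintro _ ⟨h, rfl⟩; exact (e _).2
    · obtain ⟨h, hh⟩ := QuotientGroup.mk'_surjective _ (e.symm ⟨g, hg⟩)
      exact ⟨h, by simp only [π, MonoidHom.comp_apply, hh]; simp⟩
  refine ⟨π, hr, fun h => (hk h).trans (hZ h), t1, tc, fun L hL => ?_⟩
  by_contra tL
  refine h3 L (isComplement'_of_disjoint_and_mul_eq_univ ?_ ?_)
  · rw [disjoint_def]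
    intro x hx xL
    rcases (hZ x).1 hx with rfl | rfl
    · rfl
    · exact absurd xL tL
  · refine Set.eq_univ_of_forall fun g => ?_
    obtain ⟨l, hl, e1⟩ : π g ∈ L.map π := by rw [hL, ← hr]; exact ⟨g, rfl⟩
    exact ⟨g * l⁻¹, (hk _).1 (by rw [map_mul, map_inv, e1, mul_inv_cancel]), l, hl, by simp⟩

namespace DC

variable {π : H →* Perm (Fin 11)} {t : H} (h : DC π t)
include h

theorem πt : π t = 1 := (h.ker t).2 (Or.inr rfl)

theorem tt : t * t = 1 := by
  rcases (h.ker (t * t)).1 (by rw [map_mul, h.πt, mul_one]) with e | e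
  · exact e
  · exact absurd (mul_eq_left.1 e) h.t1

theorem mem (g : H) : π g ∈ alternatingGroup (Fin 11) := h.rng ▸ ⟨g, rfl⟩

theorem surj {σ : Perm (Fin 11)} (hσ : σ ∈ alternatingGroup (Fin 11)) : ∃ g, π g = σ := by
  rwa [← h.rng] at hσ

theorem eq_or {a b : H} (e : π a = π b) : a = b ∨ a = b * t := by
  rcases (h.ker (b⁻¹ * a)).1 (by rw [map_mul, map_inv, e, inv_mul_cancel]) with e1 | e1
  · exact Or.inl (inv_mul_eq_one.1 e1).symm
  · exact Or.inr (inv_mul_eq_iff_eq_mul.1 e1)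

theorem mul_t_pow (a : H) (n : ℕ) : (a * t) ^ n = a ^ n * t ^ n :=
  Commute.mul_pow (h.cen a) n

theorem t_odd {n : ℕ} (hn : Odd n) : t ^ n = t := by
  obtain ⟨k, rfl⟩ := hn
  rw [pow_succ, pow_mul, sq, h.tt, one_pow, one_mul]

/-- lifts of odd order are unique -/
theorem eq_of_odd {a b : H} {n : ℕ} (hn : Odd n) (ha : a ^ n = 1) (hb : b ^ n = 1)
    (e : π a = π b) : a = b := by
  refine (h.eq_or e).resolve_right fun e1 => h.t1 ?_
  rwa [e1, h.mul_t_pow, hb, one_mul, h.t_odd hn] at ha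

theorem lift_odd {σ : Perm (Fin 11)} (hσ : σ ∈ alternatingGroup (Fin 11)) {n : ℕ} (hn : Odd n)
    (e : σ ^ n = 1) : ∃ g, π g = σ ∧ g ^ n = 1 := by
  obtain ⟨g, rfl⟩ := h.surj hσ
  rcases (h.ker (g ^ n)).1 (by rw [map_pow, e]) with e1 | e1
  · exact ⟨g, rfl, e1⟩
  · exact ⟨g * t, by rw [map_mul, h.πt, mul_one], by rw [h.mul_t_pow, e1, h.t_odd hn, h.tt]⟩

theorem eq_top {L : Subgroup H} (hL : L.map π = alternatingGroup (Fin 11)) : L = ⊤ := by
  refine eq_top_iff.2 fun g _ => ?_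
  obtain ⟨l, hl, e⟩ : π g ∈ L.map π := hL ▸ h.mem g
  rcases h.eq_or e.symm with rfl | rfl
  exacts [hl, mul_mem hl (h.ns L hL)]

theorem ker_eq : π.ker = zpowers t := by
  refine le_antisymm (fun g hg => ?_) (zpowers_le.2 h.πt)
  rcases (h.ker g).1 hg with rfl | rfl
  exacts [one_mem _, mem_zpowers _]

theorem ord_t : orderOf t = 2 := orderOf_eq_prime (by rw [sq, h.tt]) h.t1

theorem card : Nat.card H = (9 + 2).factorial := by
  rw [← card_alt, ← h.rng, ← π.ker.card_mul_index, index_ker, h.ker_eq, Nat.card_zpowers, h.ord_t]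

theorem finite : Finite H := Nat.finite_of_card_ne_zero (by rw [h.card]; exact Nat.factorial_ne_zero _)

theorem gens : ∃ x : ℕ → H, (∀ i, i < 9 → π (x i) = c11 i ∧ x i ^ 3 = 1) ∧
    (∀ i j, i < j → j < 9 → (x i * x j) ^ 2 = t) ∧ closure (x '' Set.Iio 9) = ⊤ := by
  have := h.finite
  choose! x hx using fun i (hi : i < 9) => h.lift_odd (c11_mem hi) (by decide) (c11_cube i hi)
  have ht : closure (x '' Set.Iio 9) = ⊤ := h.eq_top (by
    rw [MonoidHom.map_closure, ← Set.image_comp, ← c11_closure]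
    congr 1
    exact Set.image_congr fun i hi => (hx i hi).1)
  have key : ∀ i j, i < j → j < 9 → ∃ g, (x i * x j) ^ 2 = g * (x 0 * x 1) ^ 2 * g⁻¹ := by
    intro i j hij hj
    obtain ⟨g, -, hg, e0, e1⟩ := c11_conj j hj i hij
    obtain ⟨g, rfl⟩ := h.surj (Perm.mem_alternatingGroup.2 hg)
    have f : ∀ a b, a < 9 → b < 9 → π g * c11 a * (π g)⁻¹ = c11 b → x b = g * x a * g⁻¹ :=
      fun a b ha hb e => h.eq_of_odd (n := 3) (by decide) (hx b hb).2
        (by rw [conj_pow, (hx a ha).2]; simp)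
        (by rw [map_mul, map_mul, map_inv, (hx a ha).1, (hx b hb).1, e])
    refine ⟨g, ?_⟩
    rw [f 0 i (by omega) (by omega) e0, f 1 j (by omega) hj e1, ← conj_pow]; congr 1; group
  refine ⟨x, hx, fun i j hij hj => ?_, ht⟩
  rcases (h.ker ((x 0 * x 1) ^ 2)).1 (by
    rw [map_pow, map_mul, (hx 0 (by omega)).1, (hx 1 (by omega)).1, c11_sq 1 (by omega) 0 (by omega)])
    with e | e
  · have := CfsgH5.Th.carm_pure x 9 (fun i hi => (hx i hi).2) fun i j hij hj => by
      obtain ⟨g, e1⟩ := key i j hij hj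
      rw [e1, e]; simp
    rw [ht, card_top, h.card] at this
    have := Nat.factorial_pos (9 + 2)
    omega
  · obtain ⟨g, e1⟩ := key i j hij hj
    rw [e1, e, h.cen, mul_inv_cancel_right]

/-- the universal property -/
theorem exists_hom {Γ : Type*} [Group Γ] [Finite Γ] {x : ℕ → H} (x3 : ∀ i, i < 9 → x i ^ 3 = 1)
    (x2 : ∀ i j, i < j → j < 9 → (x i * x j) ^ 2 = t) (xt : closure (x '' Set.Iio 9) = ⊤)
    (y : ℕ → Γ) (s : Γ) (y3 : ∀ i, i < 9 → y i ^ 3 = 1)
    (y2 : ∀ i j, i < j → j < 9 → (y i * y j) ^ 2 = s) (ss : s * s = 1)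
    (sc : ∀ i, i < 9 → y i * s = s * y i) :
    ∃ φ : H →* Γ, (∀ i, i < 9 → φ (x i) = y i) ∧ φ t = s := by
  have := h.finite
  let w : ℕ → H × Γ := fun i => (x i, y i)
  set K := closure (w '' Set.Iio 9) with hK
  have wK : ∀ i, i < 9 → w i ∈ K := fun i hi => subset_closure ⟨i, hi, rfl⟩
  have w2 : ∀ i j, i < j → j < 9 → (w i * w j) ^ 2 = (t, s) := fun i j hij hj =>
    Prod.ext (x2 i j hij hj) (y2 i j hij hj)
  have tK : (t, s) ∈ K := w2 0 1 (by omega) (by omega) ▸
    pow_mem (mul_mem (wK 0 (by omega)) (wK 1 (by omega))) 2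
  obtain ⟨-, hc, -⟩ := CfsgH5.Th.carm_rel (N := zpowers (t, s)) (K := K) w 9 (zpowers_le.2 tK) wK
    le_sup_right (fun i hi κ hκ => by
      obtain ⟨k, rfl⟩ := mem_zpowers_iff.1 hκ
      have : Commute (w i) (t, s) := Prod.ext (h.cen _) (sc i hi)
      rw [mul_assoc, ← (this.zpow_right k).eq, inv_mul_cancel_left]
      exact hκ)
    (fun i hi => by rw [show w i ^ 3 = 1 from Prod.ext (x3 i hi) (y3 i hi)]; exact one_mem _)
    (fun i j hij hj => w2 i j hij hj ▸ mem_zpowers _)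
  have ho : orderOf (t, s) ≤ 2 := orderOf_le_of_pow_eq_one two_pos
    (Prod.ext (by simp [sq, h.tt]) (by simp [sq, ss]))
  rw [Nat.card_zpowers, ← h.card] at hc
  let f : K →* H := (MonoidHom.fst H Γ).comp K.subtype
  have hf : Function.Surjective f := by
    have m1 : K.map (MonoidHom.fst _ _) = ⊤ := by
      rw [hK, MonoidHom.map_closure, ← Set.image_comp]; exact xt
    intro g
    obtain ⟨k, hk, e⟩ : g ∈ K.map (MonoidHom.fst _ _) := m1 ▸ mem_top g
    exact ⟨⟨k, hk⟩, e⟩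
  have hb : Function.Bijective f := hf.bijective_of_nat_card_le (by nlinarith)
  let e := MulEquiv.ofBijective f hb
  have he : ∀ a b (hab : (a, b) ∈ K), e.symm a = ⟨(a, b), hab⟩ := fun a b hab =>
    e.symm_apply_eq.2 rfl
  refine ⟨((MonoidHom.snd H Γ).comp K.subtype).comp e.symm.toMonoidHom, fun i hi => ?_, ?_⟩
  · change (e.symm (x i)).1.2 = _
    rw [he _ _ (wK i hi)]
  · change (e.symm t).1.2 = _
    rw [he _ _ tK]

/-- uniqueness of the non-split double cover -/
theorem exists_equiv {H' : Type*} [Group H'] {π' : H' →* Perm (Fin 11)} {t' : H'} (h' : DC π' t') :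
    ∃ e : H ≃* H', (∀ g, π' (e g) = π g) ∧ e t = t' := by
  have := h.finite
  have := h'.finite
  obtain ⟨x, x1, x2, xt⟩ := h.gens
  obtain ⟨y, y1, y2, yt⟩ := h'.gens
  obtain ⟨φ, e1, e2⟩ := h.exists_hom (fun i hi => (x1 i hi).2) x2 xt y t' (fun i hi => (y1 i hi).2)
    y2 h'.tt fun i _ => h'.cen _
  have hs : Function.Surjective φ := by
    rw [← MonoidHom.range_eq_top, eq_top_iff, ← yt, closure_le]
    rintro _ ⟨i, hi, rfl⟩
    exact ⟨x i, e1 i hi⟩
  refine ⟨MulEquiv.ofBijective φ (hs.bijective_of_nat_card_le (by rw [h.card, h'.card])),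
    fun g => ?_, e2⟩
  exact DFunLike.congr_fun (MonoidHom.eq_of_eqOn_dense (f := π'.comp φ) (g := π) xt (by
    rintro _ ⟨i, hi, rfl⟩
    rw [MonoidHom.comp_apply, e1 i hi, (x1 i hi).1, (y1 i hi).1])) g

end DC

end CfsgLY.L1
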