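/-
Lyons group, instantiation, part 1: facts about the model of `2.A₁₁`.
-/
import Cfsg.Agent.LY.H
import Cfsg.Agent.LY.L1a

set_option autoImplicit false
set_option maxRecDepth 100000

namespace CfsgLY

open CfsgH5 CfsgH6 Subgroup Equiv

theorem i1_conj {σ τ : Perm (Fin 11)} (hσ : σ ^ 2 = 1) (hτ : τ ^ 2 = 1)
    (e : τ.support.card = 2 * σ.cycleType.card) (h8 : swap 8 9 * τ * (swap 8 9)⁻¹ = τ) :
    ∃ g : Perm (Fin 11), Perm.sign g = 1 ∧ g * τ * g⁻¹ = σ := by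
  have h1 := Perm.cycleType_of_pow_prime_eq_one hσ
  have h2 := Perm.cycleType_of_pow_prime_eq_one hτ
  have h3 := τ.sum_cycleType
  rw [h2, Multiset.sum_replicate, e, smul_eq_mul] at h3
  obtain ⟨g, hg⟩ := isConj_iff.1 (Perm.isConj_of_cycleType_eq (σ := τ) (τ := σ) (by
    rw [h1, h2]; congr 1; omega))
  rcases Int.units_eq_one_or (Perm.sign g) with s | s
  · exact ⟨g, s, hg⟩
  · refine ⟨g * swap 8 9, by rw [map_mul, s, Perm.sign_swap (by decide)]; rfl, ?_⟩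
    rw [← hg]; nth_rewrite 2 [← h8]; group

theorem i1_perm {σ : Perm (Fin 11)} (hσ : σ ^ 2 = 1) (h1 : σ ≠ 1) (hs : Perm.sign σ = 1) :
    ∃ g : Perm (Fin 11), Perm.sign g = 1 ∧ (g * pm48 * g⁻¹ = σ ∨ g * pm16 * g⁻¹ = σ) := by
  have h2 := Perm.cycleType_of_pow_prime_eq_one hσ
  have h3 := σ.sum_cycleType_le
  have h4 := σ.sign_of_cycleType
  have h5 := Perm.card_cycleType_pos.2 h1
  rw [h2, Multiset.sum_replicate, smul_eq_mul] at h3 h4
  rw [Multiset.card_replicate, hs] at h4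
  rw [Fintype.card_fin] at h3
  have h6 : σ.cycleType.card = 2 ∨ σ.cycleType.card = 4 := by
    generalize σ.cycleType.card = n at h3 h4 h5
    have : n ≤ 5 := by omega
    interval_cases n <;> first | omega | exact absurd h4 (by decide)
  rcases h6 with e | e
  · obtain ⟨g, s, hg⟩ := i1_conj (τ := pm48) hσ (by decide) (by rw [e]; decide) (by decide)
    exact ⟨g, s, Or.inl hg⟩
  · obtain ⟨g, s, hg⟩ := i1_conj (τ := pm16) hσ (by decide) (by rw [e]; decide) (by decide)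
    exact ⟨g, s, Or.inr hg⟩

/-- the facts used about the model -/
structure HF {H : Type*} [Group H] (ρ : H →* Perm (Fin 11)) (r : ℕ → H) (A : Subgroup H) : Prop where
  ker : ∀ g, ρ g = 1 → g = 1 ∨ g = r 9
  rng : ρ.range = alternatingGroup (Fin 11)
  cen : ∀ h, h * r 9 = r 9 * h
  tt : r 9 * r 9 = 1
  t1 : r 9 ≠ 1
  r7 : ρ (r 7) = pm7
  r8 : ρ (r 8) = pm8
  r16 : ρ (r 16) = pm16
  r48 : ρ (r 48) = pm48
  e48 : r 48 * r 48 = r 9
  e50 : r 50 * r 16 = r 16 * r 9 * r 50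
  mem : ∀ g, ρ g 8 = 8 → ρ g 9 = 9 → ρ g 10 = 10 → g ∈ A

namespace HF

variable {H : Type*} [Group H] {ρ : H →* Perm (Fin 11)} {r : ℕ → H} {A : Subgroup H}
  (hf : HF ρ r A)
include hf

theorem i1_or {a b : H} (e : ρ a = ρ b) : a = b ∨ a = b * r 9 := by
  rcases hf.ker (b⁻¹ * a) (by rw [map_mul, map_inv, e, inv_mul_cancel]) with e1 | e1
  · exact Or.inl (inv_mul_eq_one.1 e1).symm
  · exact Or.inr (inv_mul_eq_iff_eq_mul.1 e1)

theorem i1_lift {g : Perm (Fin 11)} (s : Perm.sign g = 1) : ∃ h, ρ h = g := by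
  have : g ∈ ρ.range := hf.rng ▸ Perm.mem_alternatingGroup.2 s
  exact this

theorem i1_sign (h : H) : Perm.sign (ρ h) = 1 :=
  Perm.mem_alternatingGroup.1 (hf.rng ▸ ⟨h, rfl⟩)

theorem i1_F1 (u : H) (uu : u * u = 1) (u1 : u ≠ 1) (ut : u ≠ r 9) :
    ∃ h, h * r 16 * h⁻¹ = u := by
  obtain ⟨g, s, hg⟩ := i1_perm (σ := ρ u) (by rw [sq, ← map_mul, uu, map_one])
    (fun e => (hf.ker u e).elim u1 ut) (hf.i1_sign u)
  obtain ⟨h, rfl⟩ := hf.i1_lift s
  have e48 := hf.e48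
  have e50 := hf.e50
  rcases hg with hg | hg
  · exfalso
    rw [← hf.r48, ← map_inv, ← map_mul, ← map_mul] at hg
    have h1 : h * r 48 * h⁻¹ * (h * r 48 * h⁻¹) = r 9 := by
      rw [conj_mul, e48, hf.cen, mul_inv_cancel_right]
    rcases hf.i1_or hg with e | e
    · rw [e, uu] at h1; exact hf.t1 h1.symm
    · rw [e, mul_assoc, ← mul_assoc (r 9), ← hf.cen, mul_assoc, hf.tt, mul_one, uu] at h1
      exact hf.t1 h1.symm
  · rw [← hf.r16, ← map_inv, ← map_mul, ← map_mul] at hg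
    rcases hf.i1_or hg.symm with e | e
    · exact ⟨h, e.symm⟩
    · refine ⟨h * r 50, ?_⟩
      rw [e, mul_assoc h, e50, mul_assoc _ h⁻¹, hf.cen h⁻¹]; group

theorem i1_CH (h : H) (hc : Commute h (r 7)) : ∃ c ∈ A, ∃ j : ℕ, h = c * r 7 ^ j := by
  have h1 : ∀ i, ρ h (pm7 i) = pm7 (ρ h i) := fun i => by
    have := congrArg (fun g => ρ g i) hc.eq
    simpa [hf.r7] using this
  have h2 : pm7 (ρ h 8) ≠ ρ h 8 := by
    rw [← h1]; exact fun e => absurd ((ρ h).injective e) (by decide)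
  have h3 : ∀ a : Fin 11, pm7 a ≠ a → ∃ j : Fin 3, a = (pm7 ^ j.1) 8 ∧ pm7 a = (pm7 ^ j.1) 9 ∧
      pm7 (pm7 a) = (pm7 ^ j.1) 10 := by decide
  obtain ⟨j, e1, e2, e3⟩ := h3 _ h2
  rw [← h1] at e2 e3
  rw [← h1] at e3
  have hj : Commute h (r 7 ^ j.1)⁻¹ := (hc.pow_right _).inv_right
  refine ⟨h * (r 7 ^ j.1)⁻¹, ?_, j.1, by group⟩
  rw [hj.eq]
  refine hf.mem _ ?_ ?_ ?_ <;> rw [map_mul, map_inv, map_pow, hf.r7, Perm.mul_apply,
    Perm.inv_eq_iff_eq]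
  exacts [e1, e2, e3]

/-- an element conjugating `e1` into the centraliser of `x` normalises `X` -/
theorem i1_F1x (u : H) (uu : u * u = 1) (u1 : u ≠ 1) (ut : u ≠ r 9) (ux : Commute u (r 7)) :
    ∃ c ∈ A, ∃ i j : ℕ, c * (r 7 ^ j * r 8 ^ i) * r 16 * (c * (r 7 ^ j * r 8 ^ i))⁻¹ = u := by
  have h1 : ∀ i, ρ u (pm7 i) = pm7 (ρ u i) := fun i => by
    have := congrArg (fun g => ρ g i) ux.eq
    simpa [hf.r7] using this
  have h2 : ∀ i, ρ u (ρ u i) = i := fun i => by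
    rw [← Perm.mul_apply, ← map_mul, uu, map_one]; rfl
  have h3 : pm7 (ρ u 8) ≠ ρ u 8 := by
    rw [← h1]; exact fun e => absurd ((ρ u).injective e) (by decide)
  have h9 : ρ u 9 = pm7 (ρ u 8) := h1 8
  have h10 : ρ u 10 = pm7 (ρ u 9) := h1 9
  have h8 : ρ u 8 = 8 := by
    have h4 : ∀ a : Fin 11, pm7 a ≠ a → a = 8 ∨ a = 9 ∨ a = 10 := by decide
    have h5 := h2 8
    rcases h4 _ h3 with e | e | e
    · exact e
    · rw [e, h9, e] at h5; exact absurd h5 (by decide)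
    · rw [e, h10, h9, e] at h5; exact absurd h5 (by decide)
  rw [h8] at h9
  rw [h9] at h10
  obtain ⟨h, rfl⟩ := hf.i1_F1 u uu u1 ut
  have h4 : ∀ b, ρ (h * r 16 * h⁻¹) b = b → pm16 ((ρ h)⁻¹ b) = (ρ h)⁻¹ b := fun b e => by
    rw [map_mul, map_mul, map_inv, hf.r16, Perm.mul_apply, Perm.mul_apply,
      ← Perm.eq_inv_iff_eq] at e
    exact e
  have h5 : ∀ a b c : Fin 11, pm16 a = a → pm16 b = b → pm16 c = c → a ≠ b → b ≠ c → a ≠ c →
      ∃ i : Fin 2, ∃ j : Fin 3, (pm7 ^ j.1 * pm8 ^ i.1) a = 8 ∧ (pm7 ^ j.1 * pm8 ^ i.1) b = 9 ∧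
        (pm7 ^ j.1 * pm8 ^ i.1) c = 10 := by decide +kernel
  obtain ⟨i, j, e1, e2, e3⟩ := h5 _ _ _ (h4 8 h8) (h4 9 h9) (h4 10 h10)
    (by simp) (by simp) (by simp)
  refine ⟨h * (r 7 ^ j.1 * r 8 ^ i.1)⁻¹, ?_, i.1, j.1, by group⟩
  refine hf.mem _ ?_ ?_ ?_ <;> rw [map_mul, map_inv, map_mul, map_pow, map_pow, hf.r7, hf.r8,
    Perm.mul_apply, ← Perm.eq_inv_iff_eq, Perm.inv_eq_iff_eq]
  exacts [e1.symm, e2.symm, e3.symm]

end HF

theorem i1_cen' {H : Type*} [Group H] {t : H} {X : ℕ → H} (h : closure (X '' Set.Iio 9) = ⊤)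
    (hc : ∀ i, i < 9 → Commute t (X i)) (g : H) : g * t = t * g := by
  have : (⊤ : Subgroup H) ≤ centralizer {t} := by
    rw [← h, closure_le]
    rintro _ ⟨i, hi, rfl⟩
    exact mem_centralizer_singleton_iff.2 (hc i hi).symm
  exact mem_centralizer_singleton_iff.1 (this (mem_top g))

theorem hfH : HF rho (fun i => hh i) A8 where
  ker := rho_ker
  rng := rho_range
  cen := i1_cen' closH carHc
  tt := t_sq
  t1 := t_ne
  r7 := rho7
  r8 := rho8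
  r16 := rho16
  r48 := rho48
  e48 := by simpa [hw_cons, hw_nil] using hEq (l := [48, 48]) (l' := [9]) (by decide +kernel)
  e50 := by
    simpa [hw_cons, hw_nil, mul_assoc] using
      hEq (l := [50, 16]) (l' := [16, 9, 50]) (by decide +kernel)
  mem := mem_A8

end CfsgLY
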