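/-
Lyons project, package L2: the abstract model data and the facts used about them.
-/
import Mathlib

set_option autoImplicit false

namespace CfsgLY.L2

open Subgroup

/-- the commutator -/
def cm {M : Type*} [Group M] (a b : M) : M := a * b * a⁻¹ * b⁻¹

/-- The model data.  Pairs are common registers (the same word in `H` and in `M`). -/
structure MD (H M : Type*) where
  /-- `g 1, …, g 6` are the letters `a, …, f` -/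
  g : ℕ → H × M
  (x w t e1 y z d g4 g4' gc gc' aY aX : H × M)
  s : H
  (p v vs : M)
  (relA relP : List (List ℕ))
  (ca cb a1 b1 a2 b2 a3 b3 ea eb : ℕ)

namespace MD

variable {H M : Type*} [Group H] [Group M] (D : MD H M)

/-- the diagonal copy of `2.A₈` -/
def B : Subgroup (H × M) := closure (D.g '' Set.Icc 1 6)

/-- the diagonal copy of `(3 × 2.A₈).2` -/
def N0 : Subgroup (H × M) := closure (insert D.x (insert D.w (D.g '' Set.Icc 1 6)))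

/-- the letters of `M` -/
def gM : ℕ → M := Function.update (fun i => (D.g i).2) 7 D.p

/-- `3.McL` -/
def K : Subgroup M := closure (insert D.x.2 (D.gM '' Set.Icc 1 7))

/-- words in `W₀` -/
def W (a b : ℕ) : M := D.v ^ a * (D.g4.2 * D.v * D.g4.2⁻¹) ^ b

/-- their images if `v ↦ r` -/
def W' (r : M) (a b : ℕ) : M := r ^ a * (D.g4'.2 * r * D.g4'.2⁻¹) ^ b

end MD

variable {H M : Type*} [Group H] [Group M]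

/-- The facts about the models. -/
structure MF (D : MD H M) : Prop where
  -- pairs
  gsq : ∀ i, 1 ≤ i → i ≤ 6 → D.g i * D.g i = 1
  relA : ∀ l ∈ D.relA, (l.map D.g).prod = 1
  relA7 : ∀ l ∈ D.relA, 7 ∉ l
  cardB : Nat.card D.B ≤ 40320
  injB : ∀ c ∈ D.B, c.1 = 1 → c = 1
  x3 : D.x ^ 3 = 1
  x2 : D.x.2 ≠ 1
  xg : ∀ i, 1 ≤ i → i ≤ 6 → Commute D.x (D.g i)
  xB : ∀ c ∈ D.B, c.1 ≠ D.x.1
  t_eq : D.t = (D.g 1 * D.g 3) ^ 2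
  e1B : D.e1 ∈ D.B
  yB : D.y ∈ D.B
  zB : D.z ∈ D.B
  dB : D.d ∈ D.B
  g4B : D.g4 ∈ D.B
  g4B' : D.g4' ∈ D.B
  gcB : D.gc ∈ D.B
  gcB' : D.gc' ∈ D.B
  aYB : D.aY ∈ D.B
  wB : ∀ i, 1 ≤ i → i ≤ 6 → D.w * D.g i * D.w⁻¹ ∈ D.B
  wx : D.w * D.x * D.w⁻¹ = D.x⁻¹
  ww : D.w * D.w ∈ D.B
  aXw : ∃ c ∈ D.B, ∃ j : ℕ, D.aX = c * D.x ^ j * D.w
  -- `H`
  t1 : D.t.1 ≠ 1
  tt : D.t.1 * D.t.1 = 1
  tc : ∀ h : H, h * D.t.1 = D.t.1 * h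
  et : D.e1.1 ≠ D.t.1
  we : D.w.1 * D.e1.1 = D.e1.1 * D.w.1
  CH : ∀ h : H, Commute h D.x.1 → ∃ c ∈ D.B, ∃ j : ℕ, h = c.1 * D.x.1 ^ j
  F1 : ∀ u : H, u * u = 1 → u ≠ 1 → u ≠ D.t.1 → ∃ h, h * D.e1.1 * h⁻¹ = u
  F1x : ∀ u : H, u * u = 1 → u ≠ 1 → u ≠ D.t.1 → Commute u D.x.1 →
    ∃ c ∈ D.N0, c.1 * D.e1.1 * c.1⁻¹ = u
  genH : closure (insert D.s (Prod.fst '' (D.N0 : Set (H × M)))) = ⊤
  ss : D.s * D.s = 1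
  sx : D.s * D.x.1 * D.s = D.y.1
  sz : D.s * D.z.1 * D.s = D.z.1
  sd : (D.s * D.d.1) ^ 3 = 1
  sg4 : D.s * D.g4.1 * D.s = D.g4'.1
  sgc : D.s * D.gc.1 * D.s = D.gc'.1
  saY : D.s * D.aY.1 * D.s = D.aX.1
  gcy : Commute D.gc.1 D.y.1
  -- `M`
  pp : D.p * D.p = 1
  px : Commute D.p D.x.2
  relP : ∀ l ∈ D.relP, (l.map D.gM).prod = 1
  pk : ([7, 5, 2, 7, 5, 2].map D.gM).prod = D.x.2
  pw : D.w.2 * D.p * D.w.2⁻¹ = D.p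
  pt : D.p * D.t.2 * D.p = D.e1.2
  cardK : 3 * 22275 * 40320 ≤ Nat.card D.K
  genM : closure (insert D.w.2 (D.K : Set M)) = ⊤
  CK : ∀ k ∈ D.K, k * D.t.2 = D.t.2 * k → ∃ c ∈ D.B, ∃ j : ℕ, k = c.2 * D.x.2 ^ j
  vK : D.v ∈ D.K
  vt : D.t.2 * D.v * D.t.2 = D.v⁻¹
  vt1 : D.v ≠ D.t.2
  vy : Commute D.v D.y.2
  vz : Commute D.v D.z.2
  comm : cm D.v (D.gc.2 * D.v * D.gc.2⁻¹) = D.y.2 ^ D.ca * D.x.2 ^ D.cb
  ca3 : D.ca % 3 ≠ 0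
  nine : ∀ k ∈ D.K, Commute (k * D.t.2 * k⁻¹) D.y.2 → Commute (k * D.t.2 * k⁻¹) D.z.2 →
    ∀ r, r = k * D.t.2 * k⁻¹ * D.t.2 →
      cm r (D.gc'.2 * r * D.gc'.2⁻¹) = D.x.2 ^ D.ca * D.y.2 ^ D.cb → r = D.vs ∨ r = D.vs⁻¹
  sg1 : D.d.2 * D.v * D.d.2⁻¹ = D.W D.a1 D.b1
  sg2 : D.d.2 * D.W' D.vs⁻¹ D.a1 D.b1 * D.d.2⁻¹ = D.W D.a2 D.b2
  sg3 : D.d.2 * D.W' D.vs⁻¹ D.a2 D.b2 * D.d.2⁻¹ = D.W D.a3 D.b3
  sg4' : D.W' D.vs⁻¹ D.a3 D.b3 ≠ D.v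
  ep1 : D.aY.2 * D.v * D.aY.2⁻¹ = D.W D.ea D.eb
  ep2 : D.aX.2 * D.t.2 * D.vs * (D.aX.2 * D.t.2)⁻¹ ≠ D.W' D.vs D.ea D.eb

/-- the coset enumeration (`tc1c`) in the group `Γ` -/
def TC (relA relP : List (List ℕ)) (Γ : Type*) [Group Γ] : Prop :=
  ∀ (g : ℕ → Γ) (ζ : Γ), ζ ^ 3 = 1 → (∀ i, 1 ≤ i → i ≤ 7 → Commute ζ (g i)) →
    (∀ i, 1 ≤ i → i ≤ 7 → g i * g i = 1) → (∀ l ∈ relA, (l.map g).prod = 1) →
    (∀ l ∈ relP, (l.map g).prod = 1) → (∃ k : ℕ, ([7, 5, 2, 7, 5, 2].map g).prod = ζ ^ k) →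
    Nat.card (closure (insert ζ (g '' Set.Icc 1 7))) ≤
      3 * 22275 * Nat.card (closure (g '' Set.Icc 1 6))

/-- the output of L1 -/
structure In (D : MD H M) {G : Type*} [Group G] (φH : H →* G) (p : G) (k : ℕ) : Prop where
  inj : Function.Injective φH
  rng : ∀ g, Commute g (φH D.t.1) → g ∈ φH.range
  pp : p * p = 1
  px : Commute p (φH D.x.1)
  relP : ∀ l ∈ D.relP, (l.map (Function.update (fun i => φH (D.g i).1) 7 p)).prod = 1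
  hk : ([7, 5, 2, 7, 5, 2].map (Function.update (fun i => φH (D.g i).1) 7 p)).prod = φH D.x.1 ^ k
  hw : φH D.w.1 * p * (φH D.w.1)⁻¹ = p ∨ φH D.w.1 * p * (φH D.w.1)⁻¹ = p * φH (D.t.1 * D.e1.1)

/-- the output of L2 -/
def Out (D : MD H M) {G : Type*} [Group G] (φH : H →* G) : Prop :=
  ∃ φ : M →* G, (∀ c ∈ D.N0, φ c.2 = φH c.1) ∧ φH D.s * φ D.v * φH D.s = φ D.vs ∧
    closure (Set.range φ ∪ {φH D.s}) = ⊤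

end CfsgLY.L2
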