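/-
Lyons group: frames (elementary abelian groups of order 16 with a basis) and action tables.
-/
import Mathlib

set_option autoImplicit false

namespace CfsgLY.L5

variable {G : Type*} [Group G]

/-- the product of the members of `L` selected by the bits of `k` -/
def fr : List G → ℕ → G
  | [], _ => 1
  | a :: L, k => a ^ (k % 2) * fr L (k / 2)

/-- the linear map with images `m` of the basis vectors -/
def ap : List ℕ → ℕ → ℕ
  | [], _ => 0
  | x :: m, k => (if k % 2 = 1 then x else 0) ^^^ ap m (k / 2)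

/-- the sublist selected by the bits of `k` -/
def sel : List ℕ → ℕ → List ℕ
  | [], _ => []
  | i :: I, k => if k % 2 = 1 then i :: sel I (k / 2) else sel I (k / 2)

/-- value of a word -/
def ev (g : ℕ → G) (W : List ℕ) : G := (W.map g).prod

theorem ev_nil (g : ℕ → G) : ev g [] = 1 := rfl
theorem ev_cons (g : ℕ → G) (s : ℕ) (W : List ℕ) : ev g (s :: W) = g s * ev g W := by
  simp [ev]
theorem ev_append (g : ℕ → G) (V W : List ℕ) : ev g (V ++ W) = ev g V * ev g W := by
  simp [ev]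

theorem fr_zero (L : List G) : fr L 0 = 1 := by
  induction L with
  | nil => rfl
  | cons a L ih => simp [fr, ih]

theorem fr_sel (g : ℕ → G) (I : List ℕ) (k : ℕ) : fr (I.map g) k = ev g (sel I k) := by
  induction I generalizing k with
  | nil => rfl
  | cons i I ih =>
    rcases Nat.mod_two_eq_zero_or_one k with h | h <;> simp [fr, sel, h, ih, ev_cons]

theorem commute_fr {L : List G} {x : G} (h : ∀ a ∈ L, Commute x a) (k : ℕ) :
    Commute x (fr L k) := by
  induction L generalizing k with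
  | nil => exact Commute.one_right _
  | cons a L ih =>
    exact ((h a List.mem_cons_self).pow_right _).mul_right
      (ih (fun b hb => h b (List.mem_cons_of_mem _ hb)) _)

theorem fr_mul {L : List G} (h2 : ∀ a ∈ L, a * a = 1) (hc : ∀ a ∈ L, ∀ b ∈ L, Commute a b)
    (k l : ℕ) : fr L k * fr L l = fr L (k ^^^ l) := by
  induction L generalizing k l with
  | nil => simp [fr]
  | cons a L ih =>
    have h1 : ∀ k, Commute a (fr L k) :=
      commute_fr fun b hb => hc a List.mem_cons_self b (List.mem_cons_of_mem _ hb)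
    have h3 := ih (fun b hb => h2 b (List.mem_cons_of_mem _ hb))
      (fun b hb c hc' => hc b (List.mem_cons_of_mem _ hb) c (List.mem_cons_of_mem _ hc'))
      (k / 2) (l / 2)
    rw [fr, fr, fr, ((h1 _).pow_left _).symm.mul_mul_mul_comm, h3, Nat.xor_div_two, ← pow_add,
      Nat.xor_mod_two_eq]
    congr 1
    have h4 : a ^ 2 = 1 := by rw [sq]; exact h2 a List.mem_cons_self
    rw [pow_eq_pow_mod _ h4, ← Nat.add_mod]

/-- `g` conjugates the basis `L` to the elements of the frame `L'` coded by `m` -/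
def Mov (L L' : List G) (g : G) (m : List ℕ) : Prop :=
  List.Forall₂ (fun v i => g * v * g⁻¹ = fr L' i) L m

/-- the multiplication rule of a frame -/
def Mu (L : List G) : Prop := ∀ k l, fr L k * fr L l = fr L (k ^^^ l)

theorem Mov.app {L L' : List G} {g : G} {m : List ℕ} (h : Mov L L' g m) (hm : Mu L') (k : ℕ) :
    g * fr L k * g⁻¹ = fr L' (ap m k) := by
  induction h generalizing k with
  | nil => simp [fr, ap, fr_zero]
  | @cons v i L m e _ ih =>
    rw [fr, ap, ← hm, ← ih]
    rcases Nat.mod_two_eq_zero_or_one k with h | h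
    · simp [h, fr_zero]
    · simp only [h, pow_one, if_true, ← e]; group

theorem Mov.mul {L L' L'' : List G} {g h : G} {m m' : List ℕ} (h1 : Mov L L' g m)
    (h2 : Mov L' L'' h m') (hm : Mu L'') : Mov L L'' (h * g) (m.map (ap m')) := by
  induction h1 with
  | nil => exact List.Forall₂.nil
  | cons e _ ih =>
    refine List.Forall₂.cons ?_ ih
    rw [← h2.app hm, ← e]; group

theorem mov4 {a b c d : G} {L' : List G} {g : G} {i j k l : ℕ} :
    Mov [a, b, c, d] L' g [i, j, k, l] ↔ g * a * g⁻¹ = fr L' i ∧ g * b * g⁻¹ = fr L' j ∧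
      g * c * g⁻¹ = fr L' k ∧ g * d * g⁻¹ = fr L' l := by
  simp [Mov]

theorem fr1 (a b c d : G) : fr [a, b, c, d] 1 = a := by simp [fr]
theorem fr2 (a b c d : G) : fr [a, b, c, d] 2 = b := by simp [fr]
theorem fr3 (a b c d : G) : fr [a, b, c, d] 3 = a * b := by simp [fr]
theorem fr4 (a b c d : G) : fr [a, b, c, d] 4 = c := by simp [fr]
theorem fr5 (a b c d : G) : fr [a, b, c, d] 5 = a * c := by simp [fr]
theorem fr8 (a b c d : G) : fr [a, b, c, d] 8 = d := by simp [fr]
theorem fr9 (a b c d : G) : fr [a, b, c, d] 9 = a * d := by simp [fr]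

theorem mov_of_comm {a b c d g : G} (h : ∀ v ∈ [a, b, c, d], Commute g v) :
    Mov [a, b, c, d] [a, b, c, d] g [1, 2, 4, 8] := by
  rw [mov4, fr1, fr2, fr4, fr8]
  simp only [mul_inv_eq_iff_eq_mul]
  exact ⟨h a (by simp), h b (by simp), h c (by simp), h d (by simp)⟩

theorem Mov.inv {a b c d : G} {L : List G} {g : G} {m mi : List ℕ} (h : Mov L [a, b, c, d] g m)
    (hm : Mu [a, b, c, d]) (e : mi.map (ap m) = [1, 2, 4, 8]) : Mov [a, b, c, d] L g⁻¹ mi := by
  obtain ⟨i, j, k, l, rfl⟩ : ∃ i j k l, mi = [i, j, k, l] := by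
    have := congrArg List.length e
    match mi, this with
    | [i, j, k, l], _ => exact ⟨i, j, k, l, rfl⟩
  simp only [List.map_cons, List.map_nil, List.cons.injEq, and_true] at e
  have key : ∀ n, g⁻¹ * fr [a, b, c, d] (ap m n) * g⁻¹⁻¹ = fr L n := fun n => by
    rw [← h.app hm]; group
  rw [mov4, ← key i, ← key j, ← key k, ← key l, e.1, e.2.1, e.2.2.1, e.2.2.2, fr1, fr2, fr4, fr8]
  exact ⟨rfl, rfl, rfl, rfl⟩

/-- action of a word -/
def actW (T : ℕ → List ℕ) (W : List ℕ) : List ℕ :=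
  W.foldr (fun s m => m.map (ap (T s))) [1, 2, 4, 8]

theorem mov_word {a b c d : G} (hm : Mu [a, b, c, d]) {g : ℕ → G} {T : ℕ → List ℕ} {S : List ℕ}
    (h : ∀ s ∈ S, Mov [a, b, c, d] [a, b, c, d] (g s) (T s)) {W : List ℕ} (hW : ∀ s ∈ W, s ∈ S) :
    Mov [a, b, c, d] [a, b, c, d] (ev g W) (actW T W) := by
  induction W with
  | nil => exact mov_of_comm fun v _ => Commute.one_left v
  | cons s W ih =>
    rw [ev_cons]
    exact (ih fun s hs => hW s (List.mem_cons_of_mem _ hs)).mul (h s (hW s List.mem_cons_self)) hm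

/-- the identities expressing an action -/
def movR (I I' : List ℕ) (s : ℕ) (m : List ℕ) : List (List ℕ × List ℕ) :=
  List.zipWith (fun v i => ([s, v], sel I' i ++ [s])) I m

theorem mov_of_rel {g : ℕ → G} {I I' : List ℕ} {s : ℕ} {m : List ℕ}
    (h : ∀ r ∈ movR I I' s m, ev g r.1 = ev g r.2) (hl : I.length = m.length) :
    Mov (I.map g) (I'.map g) (g s) m := by
  induction I generalizing m with
  | nil =>
    cases m with
    | nil => exact List.Forall₂.nil
    | cons _ _ => simp at hl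
  | cons v I ih =>
    cases m with
    | nil => simp at hl
    | cons i m =>
      refine List.Forall₂.cons ?_ (ih (fun r hr => h r (List.mem_cons_of_mem _ hr)) (by simpa using hl))
      have := h _ List.mem_cons_self
      simp only [ev_append, ev_cons, ev_nil, mul_one] at this
      rw [fr_sel, this, mul_inv_cancel_right]

/-- the tables moving each basis vector inside its coset of the first one -/
def trv : List (List ℕ) :=
  [[1, 2, 4, 8], [1, 3, 4, 8], [1, 2, 5, 8], [1, 3, 5, 8], [1, 2, 4, 9], [1, 3, 4, 9], [1, 2, 5, 9],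
    [1, 3, 5, 9]]

/-- a frame whose centraliser is `E × ⟨x⟩` -/
structure Fm (L : List G) (x : G) : Prop where
  mu : Mu L
  inj : ∀ k < 16, fr L k = 1 → k = 0
  cx : ∀ k, Commute x (fr L k)
  x3 : x ^ 3 = 1
  cen : ∀ h, ∀ m ∈ trv, Mov L L h m → ∃ k < 16, ∃ j : ℕ, h = fr L k * x ^ j

theorem Mu.sq {L : List G} (h : Mu L) (k : ℕ) : fr L k * fr L k = 1 := by
  rw [h, Nat.xor_self, fr_zero]

theorem Mu.comm {L : List G} (h : Mu L) (k l : ℕ) : Commute (fr L k) (fr L l) := by
  rw [Commute, SemiconjBy, h, h, Nat.xor_comm]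

theorem Fm.eq {L : List G} {x : G} (F : Fm L x) {k l : ℕ} (e : fr L k = fr L l)
    (h : k ^^^ l < 16) : k ^^^ l = 0 :=
  F.inj _ h (by rw [← F.mu, e, F.mu.sq])

/-- two tables differ -/
def dif (A B : List ℕ) : Bool :=
  (List.zipWith (fun a b => a ^^^ b) A B).any fun z => decide (0 < z ∧ z < 16)

theorem Fm.uniq {L L' : List G} {x : G} (F : Fm L' x) {g : G} {A B : List ℕ} (h1 : Mov L L' g A)
    (h2 : Mov L L' g B) : dif A B = false := by
  induction h1 generalizing B with
  | nil => simp [dif]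
  | cons e _ ih =>
    cases h2 with
    | cons e' h2 =>
      have := ih h2
      simp only [dif, List.zipWith_cons_cons, List.any_cons, Bool.or_eq_false_iff,
        decide_eq_false_iff_not, not_and] at this ⊢
      exact ⟨fun h0 h16 => absurd (F.eq (e.symm.trans e') h16) h0.ne', this⟩

theorem Fm.triv {a b c d x : G} (F : Fm [a, b, c, d] x) (k j : ℕ) :
    Mov [a, b, c, d] [a, b, c, d] (fr [a, b, c, d] k * x ^ j) [1, 2, 4, 8] := by
  have key : ∀ l, Commute (fr [a, b, c, d] k * x ^ j) (fr [a, b, c, d] l) := fun l =>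
    (F.mu.comm k l).mul_left ((F.cx l).pow_left j)
  refine mov_of_comm fun v hv => ?_
  simp only [List.mem_cons, List.not_mem_nil, or_false] at hv
  rcases hv with rfl | rfl | rfl | rfl
  · simpa only [fr1] using key 1
  · simpa only [fr2] using key 2
  · simpa only [fr4] using key 4
  · simpa only [fr8] using key 8

/-- no element acts as a nontrivial transvection with centre the first basis vector -/
theorem Fm.no_trv {a b c d x : G} (F : Fm [a, b, c, d] x) {h : G} {m : List ℕ} (hm : m ∈ trv)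
    (e : Mov [a, b, c, d] [a, b, c, d] h m) : dif m [1, 2, 4, 8] = false := by
  obtain ⟨k, -, j, rfl⟩ := F.cen h m hm e
  exact F.uniq e (F.triv k j)

/-- the cube of `v x^j y` for commuting factors -/
theorem Fm.cube {L : List G} {x : G} (F : Fm L x) (k j : ℕ) {y : G} (h1 : Commute (fr L k) y)
    (h2 : Commute x y) (h3 : y ^ 3 = 1) : (fr L k * x ^ j * y) ^ 3 = fr L k := by
  rw [(h1.mul_left (h2.pow_left j)).mul_pow, ((F.cx k).symm.pow_right j).mul_pow, h3,
    ← pow_mul, mul_comm j, pow_mul, F.x3, one_pow, mul_one, mul_one, pow_succ, sq, F.mu.sq, one_mul]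

theorem Fm.pow_inv {L : List G} {x : G} (F : Fm L x) {j : ℕ} (h : x ^ j * x ^ j = 1) :
    x ^ j = 1 := by
  have : (x ^ j) ^ 3 = 1 := by rw [← pow_mul, mul_comm j, pow_mul, F.x3, one_pow]
  rwa [pow_succ, sq, h, one_mul] at this

/-- an odd-type power relation for a product of two involutions -/
theorem Fm.pw {L : List G} {x : G} (F : Fm L x) {p s : G} (hp : p * p = 1) (hs : s * s = 1)
    (cp : Commute x p) (cs : Commute x s) {n k j : ℕ} (e : (p * s) ^ n = fr L k * x ^ j)
    (hf : p * s * fr L k * (p * s)⁻¹ = fr L k → fr L k = 1) : (p * s) ^ n = 1 := by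
  have h1 : Commute (p * s) (x ^ j) := ((cp.mul_right cs).symm).pow_right j
  have h2 : Commute (p * s) (fr L k * x ^ j) := e ▸ (Commute.refl _).pow_right n
  have h3 : Commute (p * s) (fr L k) := by
    have := h2.mul_right h1.inv_right
    rwa [mul_inv_cancel_right] at this
  rw [hf (by rw [h3.eq, mul_inv_cancel_right]), one_mul] at e
  rw [e]
  refine F.pow_inv ?_
  have h4 : p * (p * s) * p⁻¹ = (p * s)⁻¹ := by
    rw [← mul_assoc, hp, one_mul, mul_inv_rev, inv_eq_of_mul_eq_one_right hs]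
  have h5 : p * (p * s) ^ n * p⁻¹ = ((p * s) ^ n)⁻¹ := by rw [← conj_pow, h4, inv_pow]
  rw [e, ← (cp.pow_left j).eq, mul_inv_cancel_right] at h5
  exact eq_inv_iff_mul_eq_one.1 h5

/-- transport of the frame property -/
theorem Fm.transport {a b c d a' b' c' d' x w : G} (F : Fm [a, b, c, d] x)
    (hm : Mu [a', b', c', d']) {m mi : List ℕ} (h : Mov [a, b, c, d] [a', b', c', d'] w m)
    (e : mi.map (ap m) = [1, 2, 4, 8]) (hx : w * x * w⁻¹ = x ^ 2)
    (cx : ∀ k, Commute x (fr [a', b', c', d'] k))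
    (c1 : ∀ k < 16, ap m k < 16 ∧ ap mi k < 16 ∧ (ap mi k = 0 → k = 0))
    (c2 : ∀ z ∈ trv, (m.map (ap z)).map (ap mi) ∈ trv) : Fm [a', b', c', d'] x where
  mu := hm
  inj k hk e' := by
    have := (h.inv hm e).app F.mu k
    rw [e', mul_one, mul_inv_cancel] at this
    exact (c1 k hk).2.2 (F.inj _ (c1 k hk).2.1 this.symm)
  cx := cx
  x3 := F.x3
  cen g z hz hg := by
    obtain ⟨k, hk, j, e'⟩ := F.cen _ _ (c2 z hz) ((h.mul hg hm).mul (h.inv hm e) F.mu)
    refine ⟨ap m k, (c1 k hk).1, 2 * j, ?_⟩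
    rw [← h.app hm, pow_mul, ← hx, conj_pow]
    calc g = w * (w⁻¹ * (g * w)) * w⁻¹ := by group
      _ = _ := by rw [e']; group

theorem mem_fr {a b c d : G} (hm : Mu [a, b, c, d]) {v : G}
    (hv : v ∈ Subgroup.closure ({a, b, c, d} : Set G)) : ∃ k < 16, v = fr [a, b, c, d] k := by
  induction hv using Subgroup.closure_induction with
  | mem v hv =>
    rcases hv with rfl | rfl | rfl | rfl
    exacts [⟨1, by norm_num, (fr1 ..).symm⟩, ⟨2, by norm_num, (fr2 ..).symm⟩,
      ⟨4, by norm_num, (fr4 ..).symm⟩, ⟨8, by norm_num, (fr8 ..).symm⟩]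
  | one => exact ⟨0, by norm_num, (fr_zero _).symm⟩
  | mul u v _ _ h1 h2 =>
    obtain ⟨k, hk, rfl⟩ := h1
    obtain ⟨l, hl, rfl⟩ := h2
    exact ⟨k ^^^ l, Nat.xor_lt_two_pow (n := 4) hk hl, hm k l⟩
  | inv u _ h1 =>
    obtain ⟨k, hk, rfl⟩ := h1
    exact ⟨k, hk, inv_eq_of_mul_eq_one_right (hm.sq k)⟩

/-- the table with the letter `7` acting by `m` -/
def up (T : ℕ → List ℕ) (m : List ℕ) : ℕ → List ℕ := fun s => if s = 7 then m else T s

theorem mov_up {L : List G} {g : ℕ → G} {T : ℕ → List ℕ} {S : List ℕ}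
    (h : ∀ s ∈ S, Mov L L (g s) (T s)) {m : List ℕ} (h7 : Mov L L (g 7) m) :
    ∀ s ∈ 7 :: S, Mov L L (g s) (up T m s) := fun s hs => by
  unfold up
  split_ifs with e
  · rw [e]; exact h7
  · exact h s ((List.mem_cons.1 hs).resolve_left e)

/-- certificate that only the tables of `good` are possible -/
def chkG (T : ℕ → List ℕ) (S : List ℕ) (good cert : List (List ℕ)) : Prop :=
  ∀ i < 16, ∀ j < 16, [2, 1, i, j] ∈ good ∨ (∃ k < 16, k ≠ 0 ∧ ap [2, 1, i, j] k = 0) ∨
    ((∀ s ∈ cert.getD (16 * i + j) [], s ∈ 7 :: S) ∧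
      actW (up T [2, 1, i, j]) (cert.getD (16 * i + j) []) ∈ trv ∧
      dif (actW (up T [2, 1, i, j]) (cert.getD (16 * i + j) [])) [1, 2, 4, 8] = true)

set_option synthInstance.maxSize 4000 in
instance decChkG (T : ℕ → List ℕ) (S : List ℕ) (good cert : List (List ℕ)) :
    Decidable (chkG T S good cert) := by unfold chkG; infer_instance

theorem Fm.good {a b c d x : G} (F : Fm [a, b, c, d] x) {g : ℕ → G} {T : ℕ → List ℕ} {S : List ℕ}
    (h : ∀ s ∈ S, Mov [a, b, c, d] [a, b, c, d] (g s) (T s)) {good cert : List (List ℕ)}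
    (hc : chkG T S good cert) (h1 : g 7 * a * (g 7)⁻¹ = b) (h2 : g 7 * b * (g 7)⁻¹ = a)
    (h3 : ∀ v ∈ [c, d], g 7 * v * (g 7)⁻¹ ∈ Subgroup.closure ({a, b, c, d} : Set G)) :
    ∃ m ∈ good, Mov [a, b, c, d] [a, b, c, d] (g 7) m := by
  obtain ⟨i, hi, e1⟩ := mem_fr F.mu (h3 c (by simp))
  obtain ⟨j, hj, e2⟩ := mem_fr F.mu (h3 d (by simp))
  have h7 : Mov [a, b, c, d] [a, b, c, d] (g 7) [2, 1, i, j] :=
    mov4.2 ⟨by rw [fr2, h1], by rw [fr1, h2], e1, e2⟩
  rcases hc i hi j hj with e | ⟨k, hk, k0, e⟩ | ⟨e3, e4, e5⟩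
  · exact ⟨_, e, h7⟩
  · have := h7.app F.mu k
    rw [e, fr_zero, mul_inv_eq_one, mul_eq_left] at this
    exact absurd (F.inj k hk this) k0
  · rw [F.no_trv e4 (mov_word F.mu (mov_up h h7) e3)] at e5
    exact absurd e5 (by decide)

end CfsgLY.L5
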