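/-
Lyons group: the involution `p` swapping `t` and `e1` and its relations.
-/
import Cfsg.Agent.LY.L5a

set_option autoImplicit false
set_option maxRecDepth 100000

namespace CfsgLY

namespace L5

def IE : List ℕ := [10, 11, 12, 1]
def IF : List ℕ := [10, 11, 13, 3]
def SE : List ℕ := [1, 2, 3, 5, 6, 8, 10, 11, 12, 13]
def SF : List ℕ := [1, 2, 3, 4, 5, 8, 10, 11, 12, 13]
def SB : List ℕ := [1, 2, 3, 5, 8, 10, 11, 12, 13]
def TE (s : ℕ) : List ℕ := ([[1, 2, 4, 8], [1, 2, 4, 8], [1, 3, 4, 12], [1, 2, 7, 9], [1, 2, 4, 8], [1, 3, 12, 8], [1, 7, 4, 9], [1, 2, 4, 8], [1, 2, 4, 8], [1, 2, 4, 8], [1, 2, 4, 8], [1, 2, 4, 8], [1, 2, 4, 8], [1, 2, 5, 10]] : List (List ℕ)).getD s []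
def TF (s : ℕ) : List ℕ := ([[1, 2, 4, 8], [1, 2, 6, 9], [1, 3, 4, 12], [1, 2, 4, 8], [1, 7, 4, 9], [1, 3, 12, 8], [1, 2, 4, 8], [1, 2, 4, 8], [1, 2, 4, 8], [1, 2, 4, 8], [1, 2, 4, 8], [1, 2, 4, 8], [1, 2, 5, 11], [1, 2, 4, 8]] : List (List ℕ)).getD s []
def piE : List ℕ := [2, 1, 8, 4]
def piF : List ℕ := [2, 1, 4, 12]
def gE : List (List ℕ) := [[2, 1, 4, 12], [2, 1, 5, 15], [2, 1, 6, 13], [2, 1, 7, 14], [2, 1, 8, 4], [2, 1, 9, 7], [2, 1, 10, 5], [2, 1, 11, 6], [2, 1, 12, 8], [2, 1, 13, 11], [2, 1, 14, 9], [2, 1, 15, 10]]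
def gF : List (List ℕ) := [[2, 1, 4, 12], [2, 1, 5, 14], [2, 1, 6, 15], [2, 1, 7, 13], [2, 1, 8, 4], [2, 1, 9, 6], [2, 1, 10, 7], [2, 1, 11, 5], [2, 1, 12, 8], [2, 1, 13, 10], [2, 1, 14, 11], [2, 1, 15, 9]]
def cE : List (List ℕ) := [[], [], [], [], [], [], [], [], [], [], [], [], [], [], [], [], [], [], [], [], [], [], [], [], [], [], [], [], [], [], [], [], [], [], [], [], [], [], [], [], [], [], [], [], [], [], [], [], [], [], [], [], [], [], [], [], [], [], [], [], [], [], [], [], [], [], [], [], [], [], [], [], [7, 13, 7, 3], [7, 7, 13], [7, 7, 13], [7, 13, 7, 3], [], [7, 7, 13], [7, 7, 13], [7, 5, 2, 7, 5, 3, 2], [], [], [], [], [], [], [], [], [7, 7, 3], [7, 3, 7], [7, 3, 7], [7, 7, 3], [7, 5, 2, 7, 5, 3, 2], [7, 13, 7], [7, 13, 7], [], [], [], [], [], [], [], [], [], [7, 7, 3], [7, 3, 7], [7, 3, 7], [7, 7, 3], [7, 13, 7], [], [7, 5, 2, 7, 13, 5, 2], [7, 13, 7], [], [], [], [], [],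 [], [], [], [7, 13, 7, 3], [7, 7, 13], [7, 7, 13], [7, 13, 7, 3], [7, 7, 13], [5, 7, 2, 5, 7, 3, 2], [], [7, 7, 13], [], [], [], [], [], [7, 5, 2, 7, 13, 5, 2], [7, 7, 3], [7, 3, 7], [], [], [], [], [7, 5, 7, 2, 7], [5, 7, 7, 13, 2], [7, 2, 5, 7, 3], [5, 7, 7, 3, 2], [], [], [], [], [7, 7, 3], [7, 3, 7], [7, 13, 5, 2, 7, 5, 2], [], [], [], [], [], [5, 7, 7, 3, 2], [5, 3, 7, 7, 2], [7, 2, 5, 7], [5, 7, 7, 2], [], [], [], [], [5, 7, 2, 5, 7, 3, 2], [], [7, 3, 7], [7, 7, 3], [], [], [], [], [5, 7, 13, 7, 2], [5, 7, 7, 2], [5, 7, 3, 7, 2], [7, 2, 5, 7], [], [], [], [], [7, 3, 7], [7, 7, 3], [], [5, 7, 2, 5, 7, 3, 2], [], [], [], [], [5, 3, 7, 7, 2], [7, 2, 5, 7], [5, 7, 7, 2], [5, 7, 7, 13, 2], [], [], [], [], [7, 2, 7, 5, 7], [7, 3, 7, 5, 2], [7, 7, 5, 3, 2], [7, 13, 7, 5, 2], [], [7, 7, 13], [7, 5, 2, 7, 5, 3, 2], [7, 7, 3], [], [], [], [], [], [], [], [], [7, 5, 2, 7, 3], [7, 13, 7, 5, 2],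 [7, 7, 5, 2], [7, 5, 2, 7], [7, 7, 3], [7, 5, 3, 2, 7, 5, 2], [7, 7, 13], [], [], [], [], [], [], [], [], [], [13, 7, 7, 5, 2], [7, 5, 2, 7], [7, 7, 13, 5, 2], [7, 7, 5, 2], [7, 7, 3], [], [7, 7, 13], [7, 5, 2, 7, 5, 3, 2], [], [], [], [], [], [], [], [], [7, 7, 13, 5, 2], [7, 7, 5, 2], [7, 5, 2, 7], [7, 7, 5, 3, 2], [7, 5, 3, 2, 7, 5, 2], [7, 7, 13], [], [7, 7, 3], [], [], [], []]
def cF : List (List ℕ) := [[], [], [], [], [], [], [], [], [], [], [], [], [], [], [], [], [], [], [], [], [], [], [], [], [], [], [], [], [], [], [], [], [], [], [], [], [], [], [], [], [], [], [], [], [], [], [], [], [], [], [], [], [], [], [], [], [], [], [], [], [], [], [], [], [], [], [], [], [], [], [], [], [7, 1, 7, 12], [7, 7, 12], [7, 7, 12], [7, 1, 7, 12], [], [7, 7, 12], [7, 7, 12], [5, 7, 2, 5, 7, 2, 1], [], [], [], [], [], [], [], [], [7, 7, 1], [7, 12, 7], [7, 12, 7], [7, 7, 1], [7, 7, 1], [5, 7,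 2, 5, 7, 2, 1], [], [7, 7, 1], [], [], [], [], [], [], [], [], [7, 7, 1], [7, 12, 7], [7, 12, 7], [7, 7, 1], [2, 7, 5, 2, 7, 5, 1], [7, 7, 1], [7, 7, 1], [], [], [], [], [], [], [], [], [], [7, 1, 7, 12], [7, 7, 12], [7, 7, 12], [7, 1, 7, 12], [7, 7, 12], [], [7, 5, 7, 5, 7, 5, 1], [7, 7, 12], [], [], [], [], [], [7, 7, 12], [7, 5, 2, 7, 5, 2, 1], [7, 12, 7], [], [], [], [], [7, 5, 7, 2, 7], [7, 2, 5, 7, 12], [5, 7, 7, 2, 1], [2, 5, 7, 7, 1], [], [], [], [], [2, 7, 5, 2, 7, 5, 1], [7, 12, 7], [], [7, 7, 12], [], [], [], [], [7, 2, 5, 7, 1], [5, 7, 1, 7, 2], [7, 2, 5, 7], [5, 7, 7, 2], [], [], [], [], [7, 7, 12], [5, 7, 2, 5, 7, 2, 1], [7, 12, 7], [], [], [], [], [], [5, 7, 7, 12, 2], [5, 7, 7, 2], [2, 5, 7, 7, 1], [7, 2, 5, 7], [], [], [], [], [7, 12, 7], [], [7, 7, 12], [7, 5, 2, 7, 5, 2, 1], [], [], [], [], [5, 7, 7, 2, 1], [7, 2, 5, 7], [5, 7, 7, 2], [7, 2, 5, 7, 1], [], [], [], [], [7,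 2, 7, 5, 7], [7, 7, 5, 2, 1], [7, 1, 7, 5, 2], [7, 5, 2, 7, 1], [], [7, 5, 2, 7, 5, 2, 1], [7, 1, 7], [7, 7, 1], [], [], [], [], [], [], [], [], [2, 7, 7, 5, 1], [12, 7, 7, 5, 2], [7, 7, 5, 2], [7, 5, 2, 7], [7, 7, 1], [7, 1, 7], [], [7, 5, 2, 7, 5, 2, 1], [], [], [], [], [], [], [], [], [7, 5, 2, 7, 12], [7, 5, 2, 7], [7, 5, 2, 7, 1], [7, 7, 5, 2], [7, 7, 1], [7, 1, 7], [2, 5, 7, 2, 5, 7, 1], [], [], [], [], [], [], [], [], [], [7, 7, 5, 2, 1], [7, 7, 5, 2], [7, 5, 2, 7], [2, 7, 7, 5, 1], [7, 5, 2, 1, 7, 5, 2], [], [7, 1, 7], [7, 7, 1], [], [], [], []]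
def iE : List (List ℕ) := [[], [], [2], [2], [13], [13], [2], [2], [3], [3], [3], [3], [6], [6], [6, 2], [6, 2]]
def WS : List (List ℕ) := [[], [1], [12], [3], [13], [12, 1], [3, 1], [13, 1], [3, 12], [13, 12], [13, 3], [5, 2], [2, 5], [3, 12, 1], [13, 12, 1], [13, 3, 1], [5, 2, 1], [2, 5, 1], [13, 3, 12], [5, 2, 12], [2, 5, 12], [5, 2, 3], [2, 5, 3], [5, 2, 13], [2, 5, 13], [5, 1, 2], [5, 3, 2], [2, 12, 5], [2, 13, 5], [13, 3, 12, 1], [5, 2, 3, 1], [2, 5, 3, 1], [5, 2, 13, 1], [2, 5, 13, 1], [5, 3, 2, 1], [2, 13, 5, 1], [5, 2, 3, 12], [2, 5, 3, 12], [5, 2, 13, 12], [2, 5, 13, 12], [5, 3, 2, 12], [2, 13, 5, 12], [5, 1, 2, 3], [2, 12, 5, 3], [5, 1, 2, 13], [2, 12, 5, 13], [5, 3, 1, 2], [2, 13, 12, 5]]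
/-- possible tables of `w` from `E` to `E'` with their inverses -/
def OM : List (List ℕ × List ℕ) := [([1, 2, 12, 8], [1, 2, 12, 8]), ([1, 2, 13, 10], [1, 2, 15, 10])]
/-- possible tables of `w` from `E'` to `E` with their inverses -/
def OM' : List (List ℕ × List ℕ) := [([1, 2, 12, 8], [1, 2, 12, 8]), ([1, 2, 15, 10], [1, 2, 13, 10])]

def extra : List (List ℕ × List ℕ) :=
  [([1, 1], []), ([2, 2], []), ([3, 3], []), ([4, 4], []), ([5, 5], []), ([6, 6], []),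
   ([10, 10], []), ([11, 11], []), ([12, 12], []), ([13, 13], []), ([8, 8, 8], []),
   ([8, 2], [2, 8]), ([8, 4], [4, 8]), ([8, 5], [5, 8]), ([8, 6], [6, 8]), ([9, 8], [8, 8, 9]),
   ([5, 2, 5, 2, 5, 2], []),
   ([1, 3, 1, 3], [10]), ([3, 1, 3, 1], [10]), ([1, 2, 3, 2, 3, 1, 3, 2, 3, 2], [11]),
   ([2, 3, 2, 3, 1, 3, 2, 3, 2, 1], [11]), ([1, 2, 1, 2], [12]), ([2, 1, 2, 1], [12]),
   ([2, 3, 2, 3], [13]), ([3, 2, 3, 2], [13])]

/-- the identities of `2.A11` that are used, for the tables `om`, `om'` of `w` -/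
def rel (om om' : List ℕ) : List (List ℕ × List ℕ) :=
  extra ++ SE.flatMap (fun s => movR IE IE s (TE s)) ++ SF.flatMap (fun s => movR IF IF s (TF s)) ++
    movR IE IF 9 om ++ movR IF IE 9 om'

variable {G : Type*} [Group G]

/-- the basic facts about the letters -/
structure Bas (g : ℕ → G) (om om' : List ℕ) : Prop where
  ex : ∀ r ∈ extra, ev g r.1 = ev g r.2
  mE : ∀ s ∈ SE, Mov [g 10, g 11, g 12, g 1] [g 10, g 11, g 12, g 1] (g s) (TE s)
  mF : ∀ s ∈ SF, Mov [g 10, g 11, g 13, g 3] [g 10, g 11, g 13, g 3] (g s) (TF s)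
  w1 : Mov [g 10, g 11, g 12, g 1] [g 10, g 11, g 13, g 3] (g 9) om
  w2 : Mov [g 10, g 11, g 13, g 3] [g 10, g 11, g 12, g 1] (g 9) om'

theorem bas_of {g : ℕ → G} {om om' : List ℕ} (h : ∀ r ∈ rel om om', ev g r.1 = ev g r.2)
    (l1 : om.length = 4) (l2 : om'.length = 4) : Bas g om om' := by
  simp only [rel, List.mem_append, List.mem_flatMap] at h
  refine ⟨fun r hr => h r (by tauto), fun s hs => ?_, fun s hs => ?_, ?_, ?_⟩
  · exact mov_of_rel (I := IE) (I' := IE) (fun r hr => h r (.inl (.inl (.inl (.inr ⟨s, hs, hr⟩)))))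
      ((by decide : ∀ s ∈ SE, IE.length = (TE s).length) s hs)
  · exact mov_of_rel (I := IF) (I' := IF) (fun r hr => h r (.inl (.inl (.inr ⟨s, hs, hr⟩))))
      ((by decide : ∀ s ∈ SF, IF.length = (TF s).length) s hs)
  · exact mov_of_rel (I := IE) (I' := IF) (fun r hr => h r (.inl (.inr hr))) l1.symm
  · exact mov_of_rel (I := IF) (I' := IE) (fun r hr => h r (.inr hr)) l2.symm

theorem Bas.congr {g g' : ℕ → G} {om om' : List ℕ} (B : Bas g om om')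
    (e : ∀ s, s ≠ 7 → g' s = g s) : Bas g' om om' := by
  have e1 := e 1 (by decide)
  have e3 := e 3 (by decide)
  have e9 := e 9 (by decide)
  have e10 := e 10 (by decide)
  have e11 := e 11 (by decide)
  have e12 := e 12 (by decide)
  have e13 := e 13 (by decide)
  have key : ∀ W : List ℕ, 7 ∉ W → ev g' W = ev g W := fun W hW => by
    rw [ev, ev, List.map_congr_left fun s hs => e s (fun h => hW (h ▸ hs))]
  refine ⟨fun r hr => ?_, fun s hs => ?_, fun s hs => ?_, ?_, ?_⟩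
  · have := (by decide : ∀ r ∈ extra, 7 ∉ r.1 ∧ 7 ∉ r.2) r hr
    rw [key _ this.1, key _ this.2, B.ex r hr]
  · rw [e1, e10, e11, e12, e s (by rintro rfl; revert hs; decide)]; exact B.mE s hs
  · rw [e3, e10, e11, e13, e s (by rintro rfl; revert hs; decide)]; exact B.mF s hs
  · rw [e1, e3, e9, e10, e11, e12, e13]; exact B.w1
  · rw [e1, e3, e9, e10, e11, e12, e13]; exact B.w2

section

variable {g : ℕ → G} {om om' : List ℕ}

local notation "LE" => [g 10, g 11, g 12, g 1]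
local notation "LF" => [g 10, g 11, g 13, g 3]

theorem Bas.sq (B : Bas g om om') {s : ℕ} (hs : ([s, s], []) ∈ extra) : g s * g s = 1 := by
  simpa [ev] using B.ex _ hs

theorem Bas.cx (B : Bas g om om') {s : ℕ} (hs : ([8, s], [s, 8]) ∈ extra) : Commute (g 8) (g s) := by
  simpa [ev, Commute, SemiconjBy] using B.ex _ hs

theorem comm_of_mov {a b c d h : G} (e : Mov [a, b, c, d] [a, b, c, d] h [1, 2, 4, 8]) :
    ∀ v ∈ [a, b, c, d], Commute h v := by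
  rw [mov4, fr1, fr2, fr4, fr8] at e
  simp only [mul_inv_eq_iff_eq_mul] at e
  simp only [List.mem_cons, List.not_mem_nil, or_false, forall_eq_or_imp, forall_eq]
  exact e

theorem Bas.muE (B : Bas g om om') : Mu LE := by
  refine fr_mul ?_ ?_
  · simp only [List.mem_cons, List.not_mem_nil, or_false, forall_eq_or_imp, forall_eq]
    exact ⟨B.sq (by decide), B.sq (by decide), B.sq (by decide), B.sq (by decide)⟩
  · intro a ha
    simp only [List.mem_cons, List.not_mem_nil, or_false] at ha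
    rcases ha with rfl | rfl | rfl | rfl
    exacts [comm_of_mov (B.mE 10 (by decide)), comm_of_mov (B.mE 11 (by decide)),
      comm_of_mov (B.mE 12 (by decide)), comm_of_mov (B.mE 1 (by decide))]

theorem Bas.muF (B : Bas g om om') : Mu LF := by
  refine fr_mul ?_ ?_
  · simp only [List.mem_cons, List.not_mem_nil, or_false, forall_eq_or_imp, forall_eq]
    exact ⟨B.sq (by decide), B.sq (by decide), B.sq (by decide), B.sq (by decide)⟩
  · intro a ha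
    simp only [List.mem_cons, List.not_mem_nil, or_false] at ha
    rcases ha with rfl | rfl | rfl | rfl
    exacts [comm_of_mov (B.mF 10 (by decide)), comm_of_mov (B.mF 11 (by decide)),
      comm_of_mov (B.mF 13 (by decide)), comm_of_mov (B.mF 3 (by decide))]

/-- the centraliser hypothesis -/
def HC (g : ℕ → G) : Prop :=
  ∀ h, Commute h (g 10) → (∀ v ∈ [g 11, g 12, g 1], h * v * h⁻¹ = v ∨ h * v * h⁻¹ = g 10 * v) →
    ∃ v ∈ Subgroup.closure ({g 10, g 11, g 12, g 1} : Set G), ∃ j : ℕ, h = v * g 8 ^ j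

theorem Bas.fmE (B : Bas g om om') (t1 : g 10 ≠ 1) (hC : HC g) : Fm LE (g 8) where
  mu := B.muE
  inj k hk e := by
    rcases (by decide +kernel : ∀ k < 16, k = 0 ∨ k = 1 ∨ ((∀ s ∈ iE.getD k [], s ∈ SE) ∧
      k ^^^ ap (actW TE (iE.getD k [])) k = 1)) k hk with h | rfl | ⟨h1, h2⟩
    · exact h
    · exact absurd ((fr1 ..).symm.trans e) t1
    · have := (mov_word B.muE B.mE h1).app B.muE k
      rw [e, mul_one, mul_inv_cancel] at this
      have h3 := B.muE k (ap (actW TE (iE.getD k [])) k)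
      rw [← this, e, h2, fr1, one_mul] at h3
      exact absurd h3.symm t1
  cx := commute_fr (comm_of_mov (B.mE 8 (by decide)))
  x3 := by simpa [ev, pow_succ, mul_assoc] using B.ex ([8, 8, 8], []) (by decide)
  cen h m hm e := by
    have key : Commute h (g 10) ∧
        ∀ v ∈ [g 11, g 12, g 1], h * v * h⁻¹ = v ∨ h * v * h⁻¹ = g 10 * v := by
      simp only [trv, List.mem_cons, List.not_mem_nil, or_false] at hm
      rcases hm with rfl | rfl | rfl | rfl | rfl | rfl | rfl | rfl <;>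
      · simp only [mov4, fr1, fr2, fr3, fr4, fr5, fr8, fr9] at e
        refine ⟨mul_inv_eq_iff_eq_mul.1 e.1, ?_⟩
        simp only [List.mem_cons, List.not_mem_nil, or_false, forall_eq_or_imp, forall_eq]
        tauto
    obtain ⟨v, hv, j, rfl⟩ := hC h key.1 key.2
    obtain ⟨k, hk, rfl⟩ := mem_fr B.muE hv
    exact ⟨k, hk, j, rfl⟩

theorem Bas.wx (B : Bas g om om') : g 9 * g 8 * (g 9)⁻¹ = g 8 ^ 2 := by
  have := B.ex ([9, 8], [8, 8, 9]) (by decide)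
  simp only [ev_cons, ev_nil, mul_one] at this
  rw [this, pow_two]; group

theorem Bas.fmF (B : Bas g om om') (F : Fm LE (g 8)) {oi : List ℕ} (ho : (om, oi) ∈ OM) :
    Fm LF (g 8) := by
  obtain ⟨c0, c1, c2⟩ := (by decide +kernel : ∀ o ∈ OM, o.2.map (ap o.1) = [1, 2, 4, 8] ∧
    (∀ k < 16, ap o.1 k < 16 ∧ ap o.2 k < 16 ∧ (ap o.2 k = 0 → k = 0)) ∧
    ∀ z ∈ trv, (o.1.map (ap z)).map (ap o.2) ∈ trv) _ ho
  exact F.transport B.muF B.w1 c0 B.wx (commute_fr (comm_of_mov (B.mF 8 (by decide)))) c1 c2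

/-- an element centralising both frames lies in `V × ⟨x⟩` -/
theorem Bas.cenV (B : Bas g om om') (F : Fm LE (g 8)) {h : G} (h1 : Mov LE LE h [1, 2, 4, 8])
    (h2 : Mov LF LF h [1, 2, 4, 8]) : ∃ k < 4, ∃ j : ℕ, h = fr LE k * g 8 ^ j := by
  obtain ⟨k, hk, j, rfl⟩ := F.cen h _ (by decide) h1
  refine ⟨k, ?_, j, rfl⟩
  have key : ∀ s ∈ [13, 3], fr LE (ap (TE s) k) = fr LE k := fun s hs => by
    have hs' : g s ∈ LF := by
      simp only [List.mem_cons, List.not_mem_nil, or_false] at hs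
      rcases hs with rfl | rfl <;> simp
    have c1 := comm_of_mov h2 _ hs'
    have c2 := (comm_of_mov (B.mF 8 (by decide)) _ hs').pow_left j
    have c3 := c1.mul_left c2.inv_left
    rw [mul_inv_cancel_right] at c3
    rw [← (B.mE s ((by decide : ∀ s ∈ [13, 3], s ∈ SE) s hs)).app F.mu, ← c3.eq, mul_inv_cancel_right]
  have := (by decide +kernel : ∀ k < 16, ap (TE 13) k ^^^ k < 16 ∧ ap (TE 3) k ^^^ k < 16 ∧
    (ap (TE 13) k ^^^ k = 0 → ap (TE 3) k ^^^ k = 0 → k < 4)) k hk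
  exact this.2.2 (F.eq (key 13 (by simp)) this.1) (F.eq (key 3 (by simp)) this.2.1)

theorem chkGE : chkG TE SE gE cE := by decide +kernel
theorem chkGF : chkG TF SF gF cF := by decide +kernel

theorem chkP : ∀ m ∈ gE, ∀ m' ∈ gF, m'.length = 4 ∧
    (∀ s ∈ sel IF (m'.getD 2 0) ++ sel IF (m'.getD 3 0), s ∈ SE) ∧
    (dif (actW (up TE m) [7, 13]) (actW (up TE m) (sel IF (m'.getD 2 0) ++ [7])) = true ∨
     dif (actW (up TE m) [7, 3]) (actW (up TE m) (sel IF (m'.getD 3 0) ++ [7])) = true ∨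
     ∃ W ∈ WS, actW (up TE m) (7 :: W) = piE ∧ actW (up TF m') (7 :: W) = piF) := by
  decide +kernel

theorem Bas.exists_p0 (B : Bas g om om') (F : Fm LE (g 8)) (F' : Fm LF (g 8))
    (h1 : g 7 * g 10 * (g 7)⁻¹ = g 11) (h2 : g 7 * g 11 * (g 7)⁻¹ = g 10)
    (hE : ∀ v ∈ [g 12, g 1], g 7 * v * (g 7)⁻¹ ∈
      Subgroup.closure ({g 10, g 11, g 12, g 1} : Set G))
    (hF : ∀ v ∈ [g 13, g 3], g 7 * v * (g 7)⁻¹ ∈
      Subgroup.closure ({g 10, g 11, g 13, g 3} : Set G)) :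
    ∃ p, Mov LE LE p piE ∧ Mov LF LF p piF := by
  obtain ⟨m, hm, e1⟩ := F.good B.mE chkGE h1 h2 hE
  obtain ⟨m', hm', e2⟩ := F'.good B.mF chkGF h1 h2 hF
  have a1 := mov_up B.mE e1
  have a2 := mov_up B.mF e2
  obtain ⟨l4, hs, h⟩ := chkP m hm m' hm'
  obtain ⟨i, j, k, l, rfl⟩ : ∃ i j k l, m' = [i, j, k, l] := by
    match m', l4 with
    | [i, j, k, l], _ => exact ⟨i, j, k, l, rfl⟩
  have key : ∀ s n, s ∈ SE → (∀ u ∈ sel IF n, u ∈ SE) → g 7 * g s * (g 7)⁻¹ = fr LF n →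
      dif (actW (up TE m) [7, s]) (actW (up TE m) (sel IF n ++ [7])) = false := fun s n b1 b2 b3 => by
    have c1 := mov_word F.mu a1 (W := [7, s]) (by simp [b1])
    have c2 := mov_word F.mu a1 (W := sel IF n ++ [7]) fun u hu => by
      rcases List.mem_append.1 hu with hu | hu
      · exact List.mem_cons_of_mem _ (b2 u hu)
      · simp [List.mem_singleton.1 hu]
    have c3 : ev g [7, s] = ev g (sel IF n ++ [7]) := by
      rw [ev_append, ← fr_sel]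
      simp only [ev_cons, ev_nil, mul_one]
      exact mul_inv_eq_iff_eq_mul.1 b3
    exact F.uniq c1 (c3 ▸ c2)
  rcases h with h | h | ⟨W, hW, b1, b2⟩
  · rw [key 13 _ (by decide) (fun u hu => hs u (List.mem_append_left _ hu)) (mov4.1 e2).2.2.1] at h
    exact absurd h (by decide)
  · rw [key 3 _ (by decide) (fun u hu => hs u (List.mem_append_right _ hu)) (mov4.1 e2).2.2.2] at h
    exact absurd h (by decide)
  · have := (by decide +kernel : ∀ W ∈ WS, (∀ s ∈ 7 :: W, s ∈ 7 :: SE) ∧ ∀ s ∈ 7 :: W, s ∈ 7 :: SF) W hW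
    exact ⟨ev g (7 :: W), b1 ▸ mov_word F.mu a1 this.1, b2 ▸ mov_word F'.mu a2 this.2⟩

theorem ev_pow (g : ℕ → G) (W : List ℕ) (n : ℕ) :
    ev g (List.replicate n W).flatten = ev g W ^ n := by
  induction n with
  | zero => simp [ev]
  | succ n ih => rw [List.replicate_succ, List.flatten_cons, ev_append, ih, pow_succ']

theorem Bas.p0_comm (B : Bas g om om') (F : Fm LE (g 8)) (h7 : Mov LE LE (g 7) piE) :
    Commute (g 7) (g 8) := by
  have a1 := mov_up B.mE h7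
  have b1 := ((h7.inv F.mu (mi := piE) (by decide)).mul (B.mE 8 (by decide)) F.mu).mul h7 F.mu
  obtain ⟨k, -, j, e⟩ := F.cen _ _ (by decide) b1
  have b2 := F.cube k j (Commute.one_right _) (Commute.one_right _) (one_pow 3)
  rw [mul_one, ← e, ← mul_assoc, conj_pow, F.x3, mul_one, mul_inv_cancel] at b2
  rw [← b2, one_mul, ← mul_assoc] at e
  obtain ⟨k', -, j', e'⟩ := F.cen _ _ (by decide +kernel)
    (mov_word F.mu a1 (W := (List.replicate 5 [7, 6]).flatten) (by decide))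
  rw [ev_pow] at e'
  simp only [ev_cons, ev_nil, mul_one] at e'
  have c6 : Commute (g 8) (g 6) := B.cx (by decide)
  have b3 : g 7 * g 6 * g 8 * (g 7 * g 6)⁻¹ = g 8 ^ j := by
    rw [← e, mul_assoc (g 7), ← c6.eq]; group
  have b4 : ∀ n : ℕ, (g 7 * g 6) ^ n * g 8 * ((g 7 * g 6) ^ n)⁻¹ = g 8 ^ j ^ n := fun n => by
    induction n with
    | zero => simp
    | succ n ih =>
      rw [pow_succ' j, pow_mul, ← b3, conj_pow, ← ih, pow_succ']
      simp only [mul_inv_rev, mul_assoc]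
  have b5 := b4 5
  rw [e', ← ((F.cx k').mul_right ((Commute.refl _).pow_right j')).eq, mul_inv_cancel_right,
    pow_eq_pow_mod (j ^ 5) F.x3, Nat.pow_mod] at b5
  rw [pow_eq_pow_mod j F.x3] at e
  have b6 : (j % 3) ^ 5 % 3 = j % 3 := by
    have := Nat.mod_lt j (show 0 < 3 by norm_num)
    generalize j % 3 = r at this
    interval_cases r <;> rfl
  rw [b6, ← e] at b5
  exact mul_inv_eq_iff_eq_mul.1 b5.symm

theorem Bas.exists_p (B : Bas g om om') (F : Fm LE (g 8)) (F' : Fm LF (g 8))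
    (h7 : Mov LE LE (g 7) piE) (h7' : Mov LF LF (g 7) piF) :
    ∃ p, p * p = 1 ∧ Commute p (g 8) ∧ Mov LE LE p piE ∧ Mov LF LF p piF := by
  have c := B.p0_comm F h7
  obtain ⟨k, hk, j, e⟩ := B.cenV F (h7.mul h7 F.mu) (h7'.mul h7' F'.mu)
  have c1 : Commute (g 7) (fr LE k) := by
    have b1 : Commute (g 7) (fr LE k * g 8 ^ j) := e ▸ (Commute.refl _).mul_right (Commute.refl _)
    have := b1.mul_right (c.pow_right j).inv_right
    rwa [mul_inv_cancel_right] at this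
  have c2 := h7.app F.mu k
  rw [c1.eq, mul_inv_cancel_right] at c2
  obtain ⟨k', hk', b1⟩ := (by decide : ∀ k < 4, k ^^^ ap piE k < 16 ∧ (k ^^^ ap piE k = 0 →
    ∃ k' < 2, ap piE k' ^^^ k ^^^ k' = 0)) k hk |>.2 (F.eq c2
      ((by decide : ∀ k < 4, k ^^^ ap piE k < 16) k hk))
  have b2 : fr LF k' = fr LE k' := by interval_cases k' <;> simp [fr]
  refine ⟨g 7 * (fr LE k' * g 8 ^ j), ?_, c.mul_left ((F.cx k').symm.mul_left
    ((Commute.refl _).pow_left j)), (F.triv k' j).mul h7 F.mu, b2 ▸ (F'.triv k' j).mul h7' F'.mu⟩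
  have b3 : g 7 * fr LE k' = fr LE (ap piE k') * g 7 := by rw [← h7.app F.mu]; group
  have b4 := (c.pow_right j).eq
  have b5 := ((F.cx k').pow_left j).eq
  have b6 : (g 8 ^ j) ^ 3 = 1 := by rw [← pow_mul, mul_comm j, pow_mul, F.x3, one_pow]
  calc g 7 * (fr LE k' * g 8 ^ j) * (g 7 * (fr LE k' * g 8 ^ j))
      = g 7 * fr LE k' * (g 8 ^ j * g 7) * (fr LE k' * g 8 ^ j) := by group
    _ = fr LE (ap piE k') * (g 7 * g 7) * (g 8 ^ j * fr LE k') * g 8 ^ j := by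
      rw [b3, ← b4]; group
    _ = fr LE (ap piE k') * fr LE k * (g 8 ^ j * fr LE k') * g 8 ^ j * g 8 ^ j := by
      rw [e, b5, mul_assoc (fr LE _), mul_assoc (fr LE k), ← mul_assoc (g 8 ^ j), b5]; group
    _ = fr LE (ap piE k') * fr LE k * fr LE k' * (g 8 ^ j) ^ 3 := by rw [b5]; group
    _ = 1 := by rw [b6, F.mu, F.mu, b1, fr_zero, mul_one]

/-- `relP` without the relator `p e b p e b` -/
def relP : List (List ℕ) := [[7,1,3,1,3,7,2,3,2,3,1,3,2,3,2,1], [7,1,2,3,2,3,1,3,2,3,2,7,3,1,3,1], [7,1,2,1,2,7,1], [7,1,7,2,1,2,1], [7,2,3,2,3,7,3,2,3,2], [7,3,7,3,3,2,3,2], [7,2,7,2,7,2], [7,5,7,5,7,5], [7,6,7,6,7,6,7,6,7,6], [7,4,5,4,7,4,5,4,7,4,5,4,7,4,5,4,7,4,5,4], [7,5,4,5,7,5,4,5,7,5,4,5,7,5,4,5,7,5,4,5], [7,6,5,6,7,6,5,6,7,6,5,6,7,6,5,6,7,6,5,6]]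

theorem Fm.five {a b c d x : G} (F : Fm [a, b, c, d] x) {T : ℕ → List ℕ} {S : List ℕ}
    (h : ∀ s ∈ S, Mov [a, b, c, d] [a, b, c, d] (g s) (T s)) (hp : g 7 * g 7 = 1)
    (cp : Commute x (g 7)) (W : List ℕ) (hs : ev g W * ev g W = 1) (cs : Commute x (ev g W))
    (hW : ∀ s ∈ 7 :: W, s ∈ S) (c1 : actW T (List.replicate 5 (7 :: W)).flatten ∈ trv)
    (c2 : ∀ k < 16, ap (actW T (7 :: W)) k ^^^ k < 16 ∧ (ap (actW T (7 :: W)) k ^^^ k = 0 → k = 0)) :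
    ev g (List.replicate 5 (7 :: W)).flatten = 1 := by
  obtain ⟨k, hk, j, e⟩ := F.cen _ _ c1 (mov_word F.mu h fun s hs => by
    obtain ⟨V, h1, h2⟩ := List.mem_flatten.1 hs
    exact hW s (List.eq_of_mem_replicate h1 ▸ h2))
  rw [ev_pow, ev_cons] at e ⊢
  refine F.pw hp hs cp cs e fun e' => ?_
  rw [← ev_cons, (mov_word F.mu h hW).app F.mu] at e'
  rw [(c2 k hk).2 (F.eq e' (c2 k hk).1), fr_zero]

theorem Bas.rels (B : Bas g om om') (F : Fm LE (g 8)) (F' : Fm LF (g 8))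
    (hp : g 7 * g 7 = 1) (cp : Commute (g 7) (g 8))
    (h7 : Mov LE LE (g 7) piE) (h7' : Mov LF LF (g 7) piF) : ∀ l ∈ relP, ev g l = 1 := by
  have a1 := mov_up B.mE h7
  have a2 := mov_up B.mF h7'
  have pi : (g 7)⁻¹ = g 7 := inv_eq_of_mul_eq_one_right hp
  have s2 : g 2 * g 2 = 1 := B.sq (by decide)
  have s4 : g 4 * g 4 = 1 := B.sq (by decide)
  have s5 : g 5 * g 5 = 1 := B.sq (by decide)
  have s6 : g 6 * g 6 = 1 := B.sq (by decide)
  have c2 : Commute (g 8) (g 2) := B.cx (by decide)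
  have c4 : Commute (g 8) (g 4) := B.cx (by decide)
  have c5 : Commute (g 8) (g 5) := B.cx (by decide)
  have c6 : Commute (g 8) (g 6) := B.cx (by decide)
  have cj : ∀ {L : List G} {m : List ℕ} (_ : Mu L) (_ : Mov L L (g 7) m) (k : ℕ) (A C : List ℕ),
      ev g A = fr L k → ev g C = fr L (ap m k) → ev g (7 :: A ++ 7 :: C) = 1 :=
    fun hm h k A C e1 e2 => by
      rw [ev_append, ev_cons, ev_cons, e1, e2, ← mul_assoc]
      nth_rw 2 [← pi]
      rw [h.app hm, hm.sq]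
  have three : ∀ s ∈ [2, 5], g s * g s = 1 → Commute (g 8) (g s) →
      ev g (List.replicate 3 [7, s]).flatten = 1 := fun s hs b1 b2 => by
    obtain ⟨d1, d2, d3, d4, d5, d6⟩ := (by decide +kernel : ∀ s ∈ [2, 5],
      (∀ u ∈ (List.replicate 3 [7, s]).flatten, u ∈ 7 :: SE) ∧
      (∀ u ∈ (List.replicate 3 [7, s]).flatten, u ∈ 7 :: SF) ∧
      actW (up TE piE) (List.replicate 3 [7, s]).flatten = [1, 2, 4, 8] ∧
      actW (up TF piF) (List.replicate 3 [7, s]).flatten = [1, 2, 4, 8] ∧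
      (∀ u ∈ [7, s], u ∈ 7 :: SE) ∧
      ∀ k < 4, ap (actW (up TE piE) [7, s]) k ^^^ k < 16 ∧
        (ap (actW (up TE piE) [7, s]) k ^^^ k = 0 → k = 0)) s hs
    obtain ⟨k, hk, j, e⟩ := B.cenV F (d3 ▸ mov_word F.mu a1 d1) (d4 ▸ mov_word F'.mu a2 d2)
    have e0 : ev g [7, s] = g 7 * g s := by simp [ev]
    rw [ev_pow, e0] at e ⊢
    refine F.pw hp b1 cp.symm b2 e fun e' => ?_
    rw [← e0, (mov_word F.mu a1 d5).app F.mu] at e'
    rw [(d6 k hk).2 (F.eq e' (d6 k hk).1), fr_zero]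
  have pal : ∀ i j : ℕ, g i * g i = 1 → g j * g j = 1 → ev g [i, j, i] * ev g [i, j, i] = 1 :=
    fun i j b1 b2 => by
      simp only [ev_cons, ev_nil, mul_one]
      calc g i * (g j * g i) * (g i * (g j * g i)) = g i * (g j * (g i * g i) * g j) * g i := by group
        _ = 1 := by rw [b1, mul_one, b2, mul_one, b1]
  have pc : ∀ i j : ℕ, Commute (g 8) (g i) → Commute (g 8) (g j) → Commute (g 8) (ev g [i, j, i]) :=
    fun i j b1 b2 => by
      simp only [ev_cons, ev_nil, mul_one]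
      exact b1.mul_right (b2.mul_right b1)
  have x1 : ∀ {A : List ℕ} {s : ℕ}, (A, [s]) ∈ extra → ev g A = g s := fun h => by
    simpa [ev_cons, ev_nil] using B.ex _ h
  simp only [relP, List.mem_cons, List.not_mem_nil, or_false, forall_eq_or_imp, forall_eq]
  refine ⟨cj F.mu h7 1 [1, 3, 1, 3] _ ((x1 (by decide)).trans (fr1 ..).symm)
      ((x1 (by decide)).trans (fr2 ..).symm),
    cj F.mu h7 2 [1, 2, 3, 2, 3, 1, 3, 2, 3, 2] _ ((x1 (by decide)).trans (fr2 ..).symm)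
      ((x1 (by decide)).trans (fr1 ..).symm),
    cj F.mu h7 4 [1, 2, 1, 2] _ ((x1 (by decide)).trans (fr4 ..).symm)
      ((mul_one _).trans (fr8 ..).symm),
    cj F.mu h7 8 [1] _ ((mul_one _).trans (fr8 ..).symm) ((x1 (by decide)).trans (fr4 ..).symm),
    cj F'.mu h7' 4 [2, 3, 2, 3] _ ((x1 (by decide)).trans (fr4 ..).symm)
      ((x1 (by decide)).trans (fr4 ..).symm),
    cj F'.mu h7' 8 [3] _ ((mul_one _).trans (fr8 ..).symm) ?_,
    three 2 (by simp) s2 c2, three 5 (by simp) s5 c5,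
    F.five a1 hp cp.symm [6] (by simpa [ev] using s6) (by simpa [ev] using c6) (by decide)
      (by decide +kernel) (by decide +kernel),
    F'.five a2 hp cp.symm [4, 5, 4] (pal _ _ s4 s5) (pc _ _ c4 c5) (by decide)
      (by decide +kernel) (by decide +kernel),
    F'.five a2 hp cp.symm [5, 4, 5] (pal _ _ s5 s4) (pc _ _ c5 c4) (by decide)
      (by decide +kernel) (by decide +kernel),
    F.five a1 hp cp.symm [6, 5, 6] (pal _ _ s6 s5) (pc _ _ c6 c5) (by decide)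
      (by decide +kernel) (by decide +kernel)⟩
  rw [ev_cons, x1 (s := 13) (by decide)]
  have := F'.mu 8 4
  rwa [fr8, fr4] at this

theorem Bas.hk (B : Bas g om om') (F : Fm LE (g 8)) (F' : Fm LF (g 8))
    (hp : g 7 * g 7 = 1) (h7 : Mov LE LE (g 7) piE) (h7' : Mov LF LF (g 7) piF) :
    ∃ k : ℕ, ev g [7, 5, 2, 7, 5, 2] = g 8 ^ k := by
  have a1 := mov_up B.mE h7
  have a2 := mov_up B.mF h7'
  obtain ⟨k, hk, j, e⟩ := B.cenV F (mov_word F.mu a1 (W := [7, 5, 2, 7, 5, 2]) (by decide))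
    (mov_word F'.mu a2 (W := [7, 5, 2, 7, 5, 2]) (by decide))
  refine ⟨j, ?_⟩
  have y3 : (g 5 * g 2) ^ 3 = 1 := by
    simpa [ev, pow_succ, mul_assoc] using B.ex ([5, 2, 5, 2, 5, 2], []) (by decide)
  have c2 : Commute (g 8) (g 2) := B.cx (by decide)
  have c5 : Commute (g 8) (g 5) := B.cx (by decide)
  have b1 : Commute (fr LE k) (g 5 * g 2) := by
    have := (mov_word F.mu B.mE (W := [5, 2]) (by decide)).app F.mu k
    rw [(by decide : ∀ k < 4, ap (actW TE [5, 2]) k = k) k hk] at this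
    simp only [ev_cons, ev_nil, mul_one] at this
    exact (mul_inv_eq_iff_eq_mul.1 this).symm
  have b2 := F.cube k j b1.inv_right (c5.mul_right c2).inv_right (by rw [inv_pow, y3, inv_one])
  have b3 : ev g [7, 5, 2, 7, 5, 2] * (g 5 * g 2)⁻¹ = g 7 * (g 5 * g 2) * (g 7)⁻¹ := by
    simp only [ev_cons, ev_nil, mul_one]
    rw [inv_eq_of_mul_eq_one_right hp]; group
  rw [← e, b3, conj_pow, y3, mul_one, mul_inv_cancel] at b2
  rw [e, ← b2, one_mul]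

theorem Bas.hw (B : Bas g om om') (F : Fm LE (g 8)) (F' : Fm LF (g 8)) {oi oi' : List ℕ}
    (ho : (om, oi) ∈ OM) (ho' : (om', oi') ∈ OM') {p : G}
    (hp : p * p = 1) (cp : Commute p (g 8)) (h7 : Mov LE LE p piE) (h7' : Mov LF LF p piF) :
    g 9 * p * (g 9)⁻¹ = p ∨ g 9 * p * (g 9)⁻¹ = p * (g 10 * g 11) := by
  obtain ⟨c1, c2⟩ := (by decide : ∀ o ∈ OM, o.2.map (ap o.1) = [1, 2, 4, 8] ∧
    ((piF.map (ap o.2)).map (ap piE)).map (ap o.1) = [1, 2, 4, 8]) _ ho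
  obtain ⟨c3, c4⟩ := (by decide : ∀ o ∈ OM', o.2.map (ap o.1) = [1, 2, 4, 8] ∧
    ((piE.map (ap o.2)).map (ap piF)).map (ap o.1) = [1, 2, 4, 8]) _ ho'
  have a1 := ((h7.mul (B.w2.inv F.mu c3) F'.mu).mul h7' F'.mu).mul B.w2 F.mu
  have a2 := ((h7'.mul (B.w1.inv F'.mu c1) F.mu).mul h7 F.mu).mul B.w1 F'.mu
  obtain ⟨k, hk, j, e⟩ := B.cenV F (c4 ▸ a1) (c2 ▸ a2)
  have pi : p⁻¹ = p := inv_eq_of_mul_eq_one_right hp
  have b1 : g 9 * p * (g 9)⁻¹ = fr LE k * g 8 ^ j * p := by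
    rw [← e]
    calc _ = g 9 * (p * ((g 9)⁻¹ * (p * p))) := by rw [hp]; group
      _ = _ := by group
  have b2 : fr LE k * g 8 ^ j * p * (fr LE k * g 8 ^ j * p) = 1 := by
    rw [← b1]
    calc _ = g 9 * (p * p) * (g 9)⁻¹ := by group
      _ = 1 := by rw [hp]; group
  have b3 : p * fr LE k = fr LE (ap piE k) * p := by rw [← h7.app F.mu]; group
  have b4 : fr LE (k ^^^ ap piE k) * g 8 ^ (j + j) * 1 = 1 := by
    calc _ = fr LE k * fr LE (ap piE k) * (g 8 ^ j * g 8 ^ j) * (p * p) := by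
          rw [hp, F.mu, pow_add]
      _ = fr LE k * (fr LE (ap piE k) * g 8 ^ j) * (g 8 ^ j * p) * p := by
          simp only [mul_assoc]
      _ = fr LE k * g 8 ^ j * (fr LE (ap piE k) * p) * g 8 ^ j * p := by
        rw [← ((F.cx _).pow_left j).eq, ← (cp.pow_right j).eq]; simp only [mul_assoc]
      _ = fr LE k * g 8 ^ j * p * (fr LE k * g 8 ^ j * p) := by rw [← b3]; simp only [mul_assoc]
      _ = 1 := b2
  have b5 := F.cube (k ^^^ ap piE k) (j + j) (Commute.one_right _) (Commute.one_right _) (one_pow 3)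
  rw [b4, one_pow] at b5
  rw [← b5, one_mul, mul_one, pow_add] at b4
  rw [F.pow_inv b4, mul_one] at b1
  have b6 := (by decide : ∀ k < 4, k ^^^ ap piE k < 16 ∧ (k ^^^ ap piE k = 0 → k = 0 ∨ k = 3)) k hk
  rcases b6.2 (F.inj _ b6.1 b5.symm) with rfl | rfl
  · left; rw [b1, fr_zero, one_mul]
  · right; rw [b1, ← fr3 (g 10) (g 11) (g 12) (g 1), b3]; rfl

end

theorem main {om om' oi oi' : List ℕ} (ho : (om, oi) ∈ OM) (ho' : (om', oi') ∈ OM') (g : ℕ → G)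
    (hR : ∀ r ∈ rel om om', ev g r.1 = ev g r.2) (t1 : g 10 ≠ 1) (hC : HC g) (n : G)
    (h1 : n * g 10 * n⁻¹ = g 11) (h2 : n * g 11 * n⁻¹ = g 10)
    (hE : ∀ v ∈ [g 12, g 1], n * v * n⁻¹ ∈ Subgroup.closure ({g 10, g 11, g 12, g 1} : Set G))
    (hF : ∀ v ∈ [g 13, g 3], n * v * n⁻¹ ∈ Subgroup.closure ({g 10, g 11, g 13, g 3} : Set G)) :
    ∃ p, p * p = 1 ∧ Commute p (g 8) ∧ (∀ l ∈ relP, ev (Function.update g 7 p) l = 1) ∧
      (∃ k : ℕ, ev (Function.update g 7 p) [7, 5, 2, 7, 5, 2] = g 8 ^ k) ∧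
      (g 9 * p * (g 9)⁻¹ = p ∨ g 9 * p * (g 9)⁻¹ = p * (g 10 * g 11)) := by
  have B := bas_of hR ((by decide : ∀ o ∈ OM, o.1.length = 4) _ ho)
    ((by decide : ∀ o ∈ OM', o.1.length = 4) _ ho')
  have F := B.fmE t1 hC
  have F' := B.fmF F ho
  have B' : ∀ q, Bas (Function.update g 7 q) om om' := fun q =>
    B.congr fun s hs => Function.update_of_ne hs _ _
  obtain ⟨p0, a1, a2⟩ := (B' n).exists_p0 F F' h1 h2 hE hF
  obtain ⟨p, b1, b2, b3, b4⟩ := (B' p0).exists_p F F' a1 a2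
  exact ⟨p, b1, b2, (B' p).rels F F' b1 b2 b3 b4, (B' p).hk F F' b1 b3 b4,
    B.hw F F' ho ho' b1 b2 b3 b4⟩

end L5

end CfsgLY
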