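/-
Lyons group: the identities of `L5.rel` hold in the model of `2.A11`.
-/
import Cfsg.Agent.LY.H
import Cfsg.Agent.LY.L5

set_option autoImplicit false
set_option maxRecDepth 100000

namespace CfsgLY.L5

open CfsgH5 CfsgH6

/-- the register of a letter -/
def reg (s : ℕ) : ℕ := [0, 10, 11, 12, 13, 14, 15, 0, 7, 8, 9, 16, 17, 18].getD s 0

/-- the letters in the model -/
noncomputable def gH (s : ℕ) : H6 := hh (reg s)

theorem ev_gH (W : List ℕ) : ev gH W = hw (W.map reg) := by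
  induction W with
  | nil => rfl
  | cons s W ih => rw [ev_cons, ih, List.map_cons, hw_cons]; rfl

theorem om_mem : (([1, 2, 13, 10], [1, 2, 15, 10]) : List ℕ × List ℕ) ∈ OM := by decide
theorem om_mem' : (([1, 2, 15, 10], [1, 2, 13, 10]) : List ℕ × List ℕ) ∈ OM' := by decide

theorem rel_H6 : ∀ r ∈ rel [1, 2, 13, 10] [1, 2, 15, 10], ev gH r.1 = ev gH r.2 := fun r hr => by
  have h : allL (rel [1, 2, 13, 10] [1, 2, 15, 10])
    (fun r => eqL OH RH MH (r.1.map reg) (r.2.map reg)) = true := by decide +kernel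
  rw [ev_gH, ev_gH]
  exact hEq ((allL_iff _ _).1 h r hr)

variable {G : Type*} [Group G]

theorem ev_map (φ : H6 →* G) (W : List ℕ) : ev (fun s => φ (gH s)) W = φ (ev gH W) := by
  induction W with
  | nil => simp [ev_nil]
  | cons s W ih => rw [ev_cons, ev_cons, ih, map_mul]

theorem rel_map (φ : H6 →* G) : ∀ r ∈ rel [1, 2, 13, 10] [1, 2, 15, 10],
    ev (fun s => φ (gH s)) r.1 = ev (fun s => φ (gH s)) r.2 := fun r hr => by
  rw [ev_map, ev_map, rel_H6 r hr]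

/-- the basic facts in the model and in its images -/
theorem bas_map (φ : H6 →* G) : Bas (fun s => φ (gH s)) [1, 2, 13, 10] [1, 2, 15, 10] :=
  bas_of (rel_map φ) rfl rfl

/-- item 5 for the image of the model -/
theorem main_H6 (φ : H6 →* G) (t1 : φ (hh 9) ≠ 1)
    (hC : ∀ h, Commute h (φ (hh 9)) → (∀ v ∈ [φ (hh 16), φ (hh 17), φ (hh 10)],
      h * v * h⁻¹ = v ∨ h * v * h⁻¹ = φ (hh 9) * v) →
      ∃ v ∈ Subgroup.closure ({φ (hh 9), φ (hh 16), φ (hh 17), φ (hh 10)} : Set G),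
        ∃ j : ℕ, h = v * φ (hh 7) ^ j)
    (n : G) (h1 : n * φ (hh 9) * n⁻¹ = φ (hh 16)) (h2 : n * φ (hh 16) * n⁻¹ = φ (hh 9))
    (hE : ∀ v ∈ [φ (hh 17), φ (hh 10)], n * v * n⁻¹ ∈
      Subgroup.closure ({φ (hh 9), φ (hh 16), φ (hh 17), φ (hh 10)} : Set G))
    (hF : ∀ v ∈ [φ (hh 18), φ (hh 12)], n * v * n⁻¹ ∈
      Subgroup.closure ({φ (hh 9), φ (hh 16), φ (hh 18), φ (hh 12)} : Set G)) :
    ∃ p, p * p = 1 ∧ Commute p (φ (hh 7)) ∧
      (∀ l ∈ relP, (l.map (Function.update (fun s => φ (gH s)) 7 p)).prod = 1) ∧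
      (∃ k : ℕ, ([7, 5, 2, 7, 5, 2].map (Function.update (fun s => φ (gH s)) 7 p)).prod =
        φ (hh 7) ^ k) ∧
      (φ (hh 8) * p * (φ (hh 8))⁻¹ = p ∨ φ (hh 8) * p * (φ (hh 8))⁻¹ = p * φ (hh 9 * hh 16)) := by
  rw [map_mul]
  exact main om_mem om_mem' (fun s => φ (gH s)) (rel_map φ) t1 hC n h1 h2 hE hF

end CfsgLY.L5
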