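import Cfsg.Agent.LY.M0D0

set_option autoImplicit false
set_option maxRecDepth 100000
set_option linter.all false
set_option Elab.async false

namespace CfsgLY

open CfsgH5 CfsgH6 Subgroup MulAction Pointwise

noncomputable section

theorem mchk8 : band (allL ml7 fun e => band (can2 275 (force (hd e) R2)) (band (Nat.ble 1 (tl e)) (Nat.beq (powC (ops2 275) (force (hd e) R2) (tl e)) (ops2 275).one))) (subM 2251799813685248 (insL ml7 0)) = true := by decide +kernel
theorem mchk11 : band (allL ml10 fun e => band (P.canF (force (hd e) R1)) (band (Nat.ble 1 (tl e)) (Nat.beq (powC P.ops (force (hd e) R1) (tl e)) P.ops.one))) (subM 1152921504606846976 (insL ml10 0)) = true := by decide +kernel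
end

end CfsgLY
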