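import Cfsg.Agent.LY.M0D0

set_option autoImplicit false
set_option maxRecDepth 100000
set_option linter.all false
set_option Elab.async false

namespace CfsgLY

open CfsgH5 CfsgH6 Subgroup MulAction Pointwise

noncomputable section

theorem mchk13 : slpL OM RM LB0 64512 = true := by decide +kernel
end

end CfsgLY
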