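import Cfsg.Agent.LY.M0D0

set_option autoImplicit false
set_option maxRecDepth 100000
set_option linter.all false
set_option Elab.async false

namespace CfsgLY

open CfsgH5 CfsgH6 Subgroup MulAction Pointwise

noncomputable section

theorem mchk14 : slpL OM RM LB1 1681660089204734 = true := by decide +kernel
theorem mchk15 : slpL OH RH LB0 64512 = true := by decide +kernel
theorem mchk16 : slpL OH RH LB1 1681660089204734 = true := by decide +kernel
theorem mchk17 : slpL OM RM LM0 4503599627370494 = true := by decide +kernel
theorem mchk18 : slpL OM RM LM1 144115188075855870 = true := by decide +kernel
end

end CfsgLY
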