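import Cfsg.Agent.LY.M0K0
import Cfsg.Agent.LY.M0K1
import Cfsg.Agent.LY.M0K2
import Cfsg.Agent.LY.M0K3
import Cfsg.Agent.LY.M0K4

set_option autoImplicit false
set_option maxRecDepth 100000
set_option linter.all false
set_option Elab.async false

namespace CfsgLY

open CfsgH5 CfsgH6 Subgroup MulAction Pointwise

noncomputable section

theorem mval3 : C1.Mem R1 ⊤ 2251799813750144 := MC.mem_units (PP.mc P_ok) (PP.canF_sound P_ok) mchk2
theorem mval6 : CF.Mem R2 ⊤ 64896 := MC.mem_units (mc2 275) (can2_sound (by decide)) mchk5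
theorem mval9 : CF.Mem R2 ⊤ 2251799813750144 := mval6.lor' (MC.mem_units (mc2 275) (can2_sound (by decide)) mchk8) (by decide +kernel)
theorem mval12 : C1.Mem R1 ⊤ 1152921504606846976 := MC.mem_units (PP.mc P_ok) (PP.canF_sound P_ok) mchk11
theorem vM0 : CM0.Mem RM ⊤ 2251799813750144 := (GC.mem_prod mval3 mval9).top
theorem vM : CM.Mem RM ⊤ 2251799813750144 := sub_mem vM0.gen
theorem topM : CM.gen RM 2251799813750144 = ⊤ := sub_top vM0
theorem vS : C1.In ⊤ (R1 60) := mval12.get (by decide +kernel)
theorem slpM0 : slpL OM RM LB0 64512 = true := mchk13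
theorem slpM1 : slpL OM RM LB1 1681660089204734 = true := mchk14
theorem slpB0 : slpL OH RH LB0 64512 = true := mchk15
theorem slpB1 : slpL OH RH LB1 1681660089204734 = true := mchk16
theorem slpM2 : slpL OM RM LM0 4503599627370494 = true := mchk17
theorem slpM3 : slpL OM RM LM1 144115188075855870 = true := mchk18
theorem slpM4 : slpL OM RM LM2 2475880076409032728660410366 = true := mchk19
theorem memM : CM.Mem RM ⊤ MM := by
  have h0 := (slpL_sound (vM.sub (M' := 64512) (by decide +kernel)) slpM0).1
  have h1 := (slpL_sound (h0.lor' vM (M'' := 1681660089204734) (by decide +kernel)) slpM1).1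
  have h2 := (slpL_sound (h1.lor' vM (M'' := 4503599627370494) (by decide +kernel)) slpM2).1
  have h3 := (slpL_sound (h2.sub (M' := 144115188075855870) (by decide +kernel)) slpM3).1
  exact (slpL_sound (h3.sub (M' := 2475880076409032728660410366) (by decide +kernel)) slpM4).1.sub (by decide +kernel)
theorem mEq {l l' : List ℕ} (h : eqL OM RM MM l l' = true) : mw l = mw l' := eqL_sound memM h
theorem mNe {l l' : List ℕ} (h : neL OM RM MM l l' = true) : mw l ≠ mw l' := neL_sound memM h
theorem fst_mm {r : ℕ} (h : tb MM r = true) : C1.el (R1 r) = fstM (mm r) := (memM.get h).el_map hM1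
/-- the registers `MM` and `60` are valid in `GL111` -/
theorem mem1 : C1.Mem R1 ⊤ (ins MM 60) := (memM.map hM1).top.ins vS
end

end CfsgLY
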