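/-
Lyons group, instantiation: the model data.
-/
import Cfsg.Agent.LY.M0
import Cfsg.Agent.LY.L2a
import Cfsg.Agent.LY.L5m

set_option autoImplicit false

namespace CfsgLY

/-- the pair of a common register -/
noncomputable def pr (r : ℕ) : H6 × M6 := (hh r, mm r)

/-- the model data (`relA` is the list of relators of the coset enumeration) -/
noncomputable def DD (relA : List (List ℕ)) : L2.MD H6 M6 where
  g i := pr (L5.reg i)
  x := pr 7
  w := pr 8
  t := pr 9
  e1 := pr 16
  y := pr 19
  z := pr 20
  d := pr 21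
  g4 := pr 46
  g4' := pr 47
  gc := pr 44
  gc' := pr 45
  aY := pr 48
  aX := pr 49
  s := hh 60
  p := mm 51
  v := mm 52
  vs := mm 53
  relA := relA
  relP := L5.relP
  ca := 2
  cb := 1
  a1 := 2
  b1 := 1
  a2 := 1
  b2 := 1
  a3 := 2
  b3 := 0
  ea := 2
  eb := 2

end CfsgLY
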