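/-
Lyons project: the strong embedding argument.
-/
import Cfsg.Agent.BS.Final
import Cfsg.Agent.H4.Dihedral

set_option autoImplicit false

namespace CfsgLY

open Subgroup

universe u

variable {G : Type u} [Group G] [Finite G]

/-- the involutions of a strongly embedded subgroup of a simple group commute -/
theorem se_comm [IsSimpleGroup G] (hna : ∃ a b : G, a * b ≠ b * a) {M : Subgroup G}
    (hM : Cfsg.IsStronglyEmbedded M) {u v : G} (hu : u ∈ M) (hv : v ∈ M) (uu : u * u = 1)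
    (vv : v * v = 1) : u * v = v * u := by
  obtain ⟨h4, _, X, hX⟩ := CfsgBS.exists_R1_of_se CfsgBS.thmA hna hM
  by_cases u1 : u = 1
  · simp [u1]
  by_cases v1 : v = 1
  · simp [v1]
  exact X.I_comm h4 (X.mem_I.2 ⟨hX.ge hu, u1, uu⟩) (X.I_subset_Q (X.mem_I.2 ⟨hX.ge hv, v1, vv⟩))

/-- if the involutions of `C(z) ≤ M` are fused in `M`, then `M` has one class of involutions -/
theorem one_class {M : Subgroup G} {z : G} (zz : z * z = 1)
    (hC : ∀ g, g * z = z * g → g ∈ M)
    (fus : ∀ u, u ≠ 1 → u * u = 1 → u * z = z * u → ∃ g ∈ M, g * z * g⁻¹ = u)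
    {u : G} (hu : u ∈ M) (u1 : u ≠ 1) (uu : u * u = 1) : ∃ g ∈ M, g * z * g⁻¹ = u := by
  have zM : z ∈ M := hC z rfl
  rcases Nat.even_or_odd (orderOf (u * z)) with he | ho
  · have h2 := CfsgH4.orderOf_pow_half he (orderOf_pos _).ne'
    have hm : (u * z) ^ (orderOf (u * z) / 2) ∈ zpowers (u * z) := npow_mem_zpowers _ _
    have w2 := CfsgH4.mul_self_of_orderOf h2
    have c1 := CfsgH4.dih_commute_left uu zz hm w2
    have c2 := CfsgH4.dih_commute_right uu zz hm w2
    obtain ⟨g, hg, e⟩ := fus _ (CfsgH4.ne_one_of_orderOf h2) w2 c2.eq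
    rw [← e] at c1
    obtain ⟨k, hk, e'⟩ := fus (g⁻¹ * u * g) (by
      intro h; apply u1
      calc u = g * (g⁻¹ * u * g) * g⁻¹ := by group
        _ = 1 := by rw [h]; group) (by
      calc g⁻¹ * u * g * (g⁻¹ * u * g) = g⁻¹ * (u * u) * g := by group
        _ = 1 := by rw [uu]; group) (by
      calc g⁻¹ * u * g * z = g⁻¹ * (u * (g * z * g⁻¹)) * g := by group
        _ = g⁻¹ * (g * z * g⁻¹ * u) * g := by rw [c1.eq]
        _ = _ := by group)
    refine ⟨g * k, M.mul_mem hg hk, ?_⟩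
    calc g * k * z * (g * k)⁻¹ = g * (k * z * k⁻¹) * g⁻¹ := by group
      _ = u := by rw [e']; group
  · obtain ⟨n, hn⟩ := CfsgH4.dih_conj_of_odd uu zz ho
    exact ⟨_, M.pow_mem (M.mul_mem hu zM) n, hn⟩

/-- a subgroup `M` of a simple group containing `C(z)` and fusing the involutions of `C(z)` is the
whole group as soon as it contains two non-commuting involutions -/
theorem eq_top_of_fus [IsSimpleGroup G] {M : Subgroup G} {z : G} (z1 : z ≠ 1) (zz : z * z = 1)
    (hC : ∀ g, g * z = z * g → g ∈ M)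
    (fus : ∀ u, u ≠ 1 → u * u = 1 → u * z = z * u → ∃ g ∈ M, g * z * g⁻¹ = u)
    {a b : G} (ha : a ∈ M) (hb : b ∈ M) (aa : a * a = 1) (bb : b * b = 1) (ab : a * b ≠ b * a) :
    M = ⊤ := by
  by_contra hM
  have zM : z ∈ M := hC z rfl
  have oz : orderOf z = 2 := orderOf_eq_prime (by rw [sq, zz]) z1
  refine ab (se_comm ⟨a, b, ab⟩ (M := M) ⟨hM, ?_, fun g hg => ?_⟩ ha hb aa bb)
  · exact even_iff_two_dvd.2 (oz ▸ M.orderOf_dvd_natCard zM)
  · by_contra ho
    rw [Nat.not_odd_iff_even, even_iff_two_dvd] at ho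
    obtain ⟨⟨u, hu0⟩, ou⟩ := exists_prime_orderOf_dvd_card' 2 ho
    have ou' : orderOf u = 2 := by rw [← ou, Subgroup.orderOf_mk]
    obtain ⟨hu, x, hx, e⟩ := hu0
    have u1 := CfsgH4.ne_one_of_orderOf ou'
    have uu := CfsgH4.mul_self_of_orderOf ou'
    have e' : g * x * g⁻¹ = u := e
    have x1 : x ≠ 1 := by rintro rfl; exact u1 (by simpa using e'.symm)
    have xx : x * x = 1 := by
      calc x * x = g⁻¹ * (u * u) * g := by rw [← e']; group
        _ = 1 := by rw [uu]; group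
    obtain ⟨k, hk, ek⟩ := one_class zz hC fus hu u1 uu
    obtain ⟨l, hl, el⟩ := one_class zz hC fus hx x1 xx
    have := hC (k⁻¹ * g * l) (by
      calc k⁻¹ * g * l * z = k⁻¹ * (g * (l * z * l⁻¹) * g⁻¹) * g * l := by group
        _ = k⁻¹ * (k * z * k⁻¹) * g * l := by rw [el, e', ek]
        _ = _ := by group)
    apply hg
    have := M.mul_mem (M.mul_mem hk this) (M.inv_mem hl)
    simpa [mul_assoc] using this

end CfsgLY
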