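/-
Lyons project: the strong embedding argument in arbitrary finite groups, and general lemmas.
-/
import Cfsg.Agent.LY.SE
import Cfsg.Agent.H9.HdB

set_option autoImplicit false

namespace CfsgLY

open Subgroup

universe u

section
variable {G : Type u} [Group G] [Finite G]

theorem se_of_fus {M : Subgroup G} {z : G} (z1 : z ≠ 1) (zz : z * z = 1)
    (hC : ∀ g, g * z = z * g → g ∈ M)
    (fus : ∀ u, u ≠ 1 → u * u = 1 → u * z = z * u → ∃ g ∈ M, g * z * g⁻¹ = u) (hM : M ≠ ⊤) :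
    Cfsg.IsStronglyEmbedded M := by
  have zM : z ∈ M := hC z rfl
  have oz : orderOf z = 2 := orderOf_eq_prime (by rw [sq, zz]) z1
  refine ⟨hM, even_iff_two_dvd.2 (oz ▸ M.orderOf_dvd_natCard zM), fun g hg => ?_⟩
  by_contra ho
  rw [Nat.not_odd_iff_even, even_iff_two_dvd] at ho
  obtain ⟨⟨u, hu0⟩, ou⟩ := exists_prime_orderOf_dvd_card' 2 ho
  have ou' : orderOf u = 2 := by rw [← ou, Subgroup.orderOf_mk]
  obtain ⟨hu, x, hx, e⟩ := hu0
  have u1 := CfsgH4.ne_one_of_orderOf ou'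
  have uu := CfsgH4.mul_self_of_orderOf ou'
  have e' : g * x * g⁻¹ = u := e
  have x1 : x ≠ 1 := by rintro rfl; exact u1 (by simpa using e'.symm)
  have xx : x * x = 1 := by
    calc x * x = g⁻¹ * (u * u) * g := by rw [← e']; group
      _ = 1 := by rw [uu]; group
  obtain ⟨k, hk, ek⟩ := one_class zz hC fus hu u1 uu
  obtain ⟨l, hl, el⟩ := one_class zz hC fus hx x1 xx
  have := hC (k⁻¹ * g * l) (by
    calc k⁻¹ * g * l * z = k⁻¹ * (g * (l * z * l⁻¹) * g⁻¹) * g * l := by group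
      _ = k⁻¹ * (k * z * k⁻¹) * g * l := by rw [el, e', ek]
      _ = _ := by group)
  apply hg
  have := M.mul_mem (M.mul_mem hk this) (M.inv_mem hl)
  simpa [mul_assoc] using this

theorem eq_top_of_fus' {M : Subgroup G} {z : G} (z1 : z ≠ 1) (zz : z * z = 1)
    (hC : ∀ g, g * z = z * g → g ∈ M)
    (fus : ∀ u, u ≠ 1 → u * u = 1 → u * z = z * u → ∃ g ∈ M, g * z * g⁻¹ = u)
    {a c : G} (aa : a * a = 1) (cc : c * c = 1) (ac : (a * c) ^ 2 = z) : M = ⊤ := by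
  by_contra hM
  have se := se_of_fus z1 zz hC fus hM
  have sea := CfsgBS.sea_of_se se
  have ai : a⁻¹ = a := inv_eq_of_mul_eq_one_right aa
  have ci : c⁻¹ = c := inv_eq_of_mul_eq_one_right cc
  have zi : z⁻¹ = z := inv_eq_of_mul_eq_one_right zz
  have zc' : z = c * a * c * a := by
    rw [← zi, ← ac, sq, mul_inv_rev, mul_inv_rev, ai, ci]; group
  have az : a * z = z * a := by
    conv_lhs => rw [zc']
    rw [← ac, sq]; group
  have cz : c * z = z * c := by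
    conv_rhs => rw [zc']
    rw [← ac, sq]; group
  have a1 : a ≠ 1 := by rintro rfl; exact z1 (by rw [← ac, one_mul, sq, cc])
  have c1 : c ≠ 1 := by rintro rfl; exact z1 (by rw [← ac, mul_one, sq, aa])
  have az' : a ≠ z := by
    rintro rfl
    apply z1
    calc a = (a * c) ^ 2 := ac.symm
      _ = a * (c * a) * c := by rw [sq]; group
      _ = 1 := by rw [cz, ← mul_assoc, aa, one_mul, cc]
  let γ : G ⧸ M := ((1 : G) : G ⧸ M)
  have fix : ∀ g, g • γ = γ ↔ g ∈ M := fun g => by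
    change ((g * 1 : G) : G ⧸ M) = ((1 : G) : G ⧸ M) ↔ _
    rw [QuotientGroup.eq]; simp
  obtain ⟨m, hm⟩ := not_forall.1 (mt (eq_top_iff' M).2 hM)
  have hs : CfsgBS.Split (⊤ : Subgroup G) γ :=
    ⟨⟨z, trivial, z1, zz, (fix z).2 (hC z rfl)⟩, m, trivial, mt (fix m).1 hm⟩
  have h4 : CfsgBS.FourIn (⊤ : Subgroup G) := ⟨a, trivial, z, trivial, a1, z1, az', aa, zz, az⟩
  have I := CfsgBS.ih1_of CfsgBS.thmS (fun G _ _ Ω _ _ _ _ _ => CfsgBS.thmA G Ω) sea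
    (Nat.lt_succ_self _) hs h4
  have k := I.sq_mem a trivial c trivial ⟨a1, aa, (fix a).2 (hC a az)⟩ ⟨c1, cc, (fix c).2 (hC c cz)⟩
  rw [← sq, ac, CfsgBS.mem_Ker] at k
  have o := sea.odd_stab γ (m • γ) (mt (fun e => (fix m).1 e.symm) hm)
  have oz : orderOf z = 2 := orderOf_eq_prime (by rw [sq, zz]) z1
  have := Subgroup.orderOf_dvd_natCard
    (MulAction.stabilizer G γ ⊓ MulAction.stabilizer G (m • γ)) (x := z)
    ⟨(fix z).2 (hC z rfl), k.2 _ ⟨m, trivial, rfl⟩⟩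
  rw [oz] at this
  exact (Nat.not_even_iff_odd.2 o) (even_iff_two_dvd.2 this)

/-- the relative form -/
theorem le_of_fus {Γ M : Subgroup G} {z : G} (zΓ : z ∈ Γ) (z1 : z ≠ 1) (zz : z * z = 1)
    (hC : ∀ g ∈ Γ, g * z = z * g → g ∈ M)
    (fus : ∀ u ∈ Γ, u ≠ 1 → u * u = 1 → u * z = z * u → ∃ g ∈ Γ, g ∈ M ∧ g * z * g⁻¹ = u)
    {a c : G} (ha : a ∈ Γ) (hc : c ∈ Γ) (aa : a * a = 1) (cc : c * c = 1) (ac : (a * c) ^ 2 = z) :
    Γ ≤ M ∧ ∀ u ∈ Γ, u ≠ 1 → u * u = 1 → ∃ g ∈ Γ, g * z * g⁻¹ = u := by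
  have hC' : ∀ g : Γ, g * ⟨z, zΓ⟩ = ⟨z, zΓ⟩ * g → g ∈ M.subgroupOf Γ :=
    fun g e => hC g g.2 (congrArg Subtype.val e)
  have fus' : ∀ u : Γ, u ≠ 1 → u * u = 1 → u * ⟨z, zΓ⟩ = ⟨z, zΓ⟩ * u →
      ∃ g ∈ M.subgroupOf Γ, g * ⟨z, zΓ⟩ * g⁻¹ = u := fun u u1 uu e => by
    obtain ⟨g, g1, g2, g3⟩ := fus u u.2 (fun e => u1 (Subtype.ext e)) (congrArg Subtype.val uu)
      (congrArg Subtype.val e)
    exact ⟨⟨g, g1⟩, g2, Subtype.ext g3⟩
  have zz' : (⟨z, zΓ⟩ : Γ) * ⟨z, zΓ⟩ = 1 := Subtype.ext zz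
  have top := eq_top_of_fus' (G := Γ) (M := M.subgroupOf Γ) (z := ⟨z, zΓ⟩)
    (fun e => z1 (congrArg Subtype.val e)) zz' hC' fus' (a := ⟨a, ha⟩) (c := ⟨c, hc⟩)
    (Subtype.ext aa) (Subtype.ext cc) (Subtype.ext ac)
  refine ⟨subgroupOf_eq_top.1 top, fun u hu u1 uu => ?_⟩
  obtain ⟨g, -, e⟩ := one_class zz' hC' fus' (u := ⟨u, hu⟩) (top ▸ mem_top _)
    (fun e => u1 (congrArg Subtype.val e)) (Subtype.ext uu)
  exact ⟨g, g.2, congrArg Subtype.val e⟩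

theorem le_of_four (X N : Subgroup G) [X.Normal] (hX : ∀ ξ ∈ X, ξ * ξ = 1 → ξ = 1) {u v : G}
    (u2 : u * u = 1) (v2 : v * v = 1) (uv : u * v = v * u)
    (hu : ∀ n ∈ N, u * n * u⁻¹ ∈ N) (hv : ∀ n ∈ N, v * n * v⁻¹ ∈ N)
    (xu : ∀ ξ ∈ X, u * ξ = ξ * u) (xv : ∀ ξ ∈ X, v * ξ = ξ * v)
    (cu : ∀ n ∈ N, n * u = u * n → n ∈ X) (cv : ∀ n ∈ N, n * v = v * n → n ∈ X)
    (cw : ∀ n ∈ N, n * (u * v) = u * v * n → n ∈ X) : N ≤ X := by
  let π := QuotientGroup.mk' X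
  have key : ∀ e : G, e * e = 1 → (∀ ξ ∈ X, e * ξ = ξ * e) → (∀ n ∈ N, n * e = e * n → n ∈ X) →
      ∀ y ∈ N.map π, π e * y * (π e)⁻¹ = y → y = 1 := by
    rintro e ee xe ce _ ⟨n, hn, rfl⟩ h
    have h1 : n⁻¹ * (e * n * e⁻¹) ∈ X := by
      rw [← QuotientGroup.eq_one_iff]
      change π _ = 1
      rw [map_mul, map_mul, map_mul, map_inv, map_inv, h, inv_mul_cancel]
    have ei : e⁻¹ = e := inv_eq_of_mul_eq_one_right ee
    have h2 := hX _ h1 (by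
      have h3 := xe _ h1
      rw [ei] at h3 ⊢
      calc n⁻¹ * (e * n * e) * (n⁻¹ * (e * n * e)) = n⁻¹ * e * n * (e * (n⁻¹ * (e * n * e))) := by group
        _ = n⁻¹ * e * n * (n⁻¹ * (e * n * e) * e) := by rw [h3]
        _ = n⁻¹ * (e * e) * n * (e * e) := by group
        _ = 1 := by rw [ee]; group)
    refine (QuotientGroup.eq_one_iff n).2 (ce n hn ?_)
    rw [inv_mul_eq_one] at h2
    conv_lhs => rw [h2]
    group
  have nrm : ∀ e : G, (∀ n ∈ N, e * n * e⁻¹ ∈ N) → ∀ y ∈ N.map π, π e * y * (π e)⁻¹ ∈ N.map π := by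
    rintro e he _ ⟨n, hn, rfl⟩
    exact ⟨_, he n hn, by simp⟩
  have := CfsgH9.Hd.eq_one_of_four (O := N.map π) (u := π u) (v := π v)
    (by rw [← map_mul, u2, map_one]) (by rw [← map_mul, v2, map_one]) (nrm u hu) (nrm v hv)
    (key u u2 xu cu) (key v v2 xv cv) (by
      rw [← map_mul]
      refine key (u * v) ?_ (fun ξ hξ => ?_) cw
      · calc u * v * (u * v) = u * (v * u) * v := by group
          _ = 1 := by rw [← uv, ← mul_assoc, u2, one_mul, v2]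
      · rw [mul_assoc, xv ξ hξ, ← mul_assoc, xu ξ hξ, mul_assoc])
  exact fun n hn => (QuotientGroup.eq_one_iff n).1 (this _ ⟨n, hn, rfl⟩)

end

/-- adjoining an element normalising `W` with square in `W` -/
theorem ext2 {Γ : Type*} [Group Γ] (W : Subgroup Γ) (ω : Γ) (hn : ∀ q ∈ W, ω * q * ω⁻¹ ∈ W)
    (h2 : ω * ω ∈ W) : ∃ W' : Subgroup Γ, ∀ q, q ∈ W' ↔ q ∈ W ∨ q * ω⁻¹ ∈ W := by
  have hn' : ∀ q ∈ W, ω⁻¹ * q * ω ∈ W := fun q hq => by
    have := W.mul_mem (W.mul_mem (W.inv_mem h2) (hn q hq)) h2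
    convert this using 1; group
  refine ⟨⟨⟨⟨{q | q ∈ W ∨ q * ω⁻¹ ∈ W}, ?_⟩, Or.inl W.one_mem⟩, ?_⟩, fun q => Iff.rfl⟩
  · rintro a b (ha | ha) (hb | hb)
    · exact Or.inl (W.mul_mem ha hb)
    · exact Or.inr (by rw [mul_assoc]; exact W.mul_mem ha hb)
    · exact Or.inr (by convert W.mul_mem ha (hn b hb) using 1; group)
    · exact Or.inl (by convert W.mul_mem (W.mul_mem ha (hn _ hb)) h2 using 1; group)
  · rintro a (ha | ha)
    · exact Or.inl (W.inv_mem ha)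
    · exact Or.inr (by convert W.mul_mem (hn' _ (W.inv_mem ha)) (W.inv_mem h2) using 1; group)

/-- a subgroup of a product which is a graph -/
theorem hom_of_graph {G K : Type*} [Group G] [Group K] (W : Subgroup (G × K))
    (h1 : ∀ k, ∃ g, (g, k) ∈ W) (h2 : ∀ q ∈ W, q.2 = 1 → q.1 = 1) :
    ∃ φ : K →* G, ∀ q ∈ W, φ q.2 = q.1 := by
  choose f hf using h1
  have u : ∀ q ∈ W, f q.2 = q.1 := fun q hq => by
    have := h2 _ (W.mul_mem (W.inv_mem hq) (hf q.2)) (by simp)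
    simpa [inv_mul_eq_one, eq_comm] using this
  exact ⟨MonoidHom.mk' f fun a b => u _ (W.mul_mem (hf a) (hf b)), u⟩

theorem inj_of_card {Γ K : Type*} [Group Γ] [Group K] [Finite Γ] (W : Subgroup Γ) (f : Γ →* K)
    (hc : Nat.card W ≤ Nat.card (W.map f)) : ∀ q ∈ W, f q = 1 → q = 1 := by
  intro q hq e
  have b := (f.subgroupMap_surjective W).bijective_of_nat_card_le hc
  have := b.1 (a₁ := ⟨q, hq⟩) (a₂ := 1) (Subtype.ext (by simpa using e))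
  exact congrArg Subtype.val this

end CfsgLY
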