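/-
Lyons group, instantiation, part 2: pairs of common registers.
-/
import Cfsg.Agent.LY.ID
import Cfsg.Agent.LY.I1
import Cfsg.Agent.LY.SE2

set_option autoImplicit false
set_option maxRecDepth 100000

namespace CfsgLY

open CfsgH5 CfsgH6 Subgroup Equiv

attribute [local irreducible] CfsgH6.GC.el

/-- the product of pairs -/
noncomputable def pw (l : List ℕ) : H6 × M6 := (l.map pr).prod

theorem pw_nil : pw [] = 1 := rfl
theorem pw_cons (r : ℕ) (l : List ℕ) : pw (r :: l) = pr r * pw l := by simp [pw]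

theorem pw_eq (l : List ℕ) : pw l = (hw l, mw l) := by
  induction l with
  | nil => rfl
  | cons r l ih => rw [pw_cons, ih]; exact Prod.ext (wl_cons r l).symm (wl_cons r l).symm

theorem pEq {l l' : List ℕ} (h1 : eqL OH RH MH l l' = true) (h2 : eqL OM RM MM l l' = true) :
    pw l = pw l' := by rw [pw_eq, pw_eq, hEq h1, mEq h2]

theorem pEqs {L : List (List ℕ × List ℕ)} (h1 : allL L (fun p => eqL OH RH MH p.1 p.2) = true)
    (h2 : allL L (fun p => eqL OM RM MM p.1 p.2) = true) : ∀ p ∈ L, pw p.1 = pw p.2 :=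
  fun p hp => pEq ((allL_iff _ _).1 h1 p hp) ((allL_iff _ _).1 h2 p hp)

theorem pr_B0 : ∀ e ∈ LB0, pr e.1 = pw e.2 := fun e he => by
  rw [pw_eq]
  exact Prod.ext ((slpL_sound (memH.sub (M' := 64512) (by decide +kernel)) slpB0).2 e he)
    ((slpL_sound (memM.sub (M' := 64512) (by decide +kernel)) slpM0).2 e he)

theorem pr_B1 : ∀ e ∈ LB1, pr e.1 = pw e.2 := fun e he => by
  rw [pw_eq]
  exact Prod.ext ((slpL_sound (memH.sub (M' := 1681660089204734) (by decide +kernel)) slpB1).2 e he)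
    ((slpL_sound (memM.sub (M' := 1681660089204734) (by decide +kernel)) slpM1).2 e he)

theorem i2_mem {Γ : Type*} [Group Γ] {f : ℕ → Γ} {S : Subgroup Γ} {U l : List ℕ}
    (hU : ∀ i ∈ U, f i ∈ S) (h : ∀ i ∈ l, i ∈ U) : (l.map f).prod ∈ S :=
  S.list_prod_mem fun _ hx => by
    obtain ⟨i, hi, rfl⟩ := List.mem_map.1 hx
    exact hU i (h i hi)

theorem pw_mem {S : Subgroup (H6 × M6)} {U l : List ℕ} (hU : ∀ i ∈ U, pr i ∈ S)
    (h : ∀ i ∈ l, i ∈ U) : pw l ∈ S := i2_mem hU h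

theorem gen_le_of {O : GOps} {Γ : Type*} [Group Γ] {C : GC O Γ} {R : ℕ → ℕ} {M : ℕ} (n : ℕ)
    {U : List ℕ} {S : Subgroup Γ} (h1 : M < 2 ^ n) (h2 : ∀ i, i < n → M.testBit i = true → i ∈ U)
    (h : ∀ i ∈ U, C.el (R i) ∈ S) : C.gen R M ≤ S := by
  rw [GC.gen, closure_le]
  rintro _ ⟨i, hi, rfl⟩
  refine h i (h2 i ?_ hi)
  by_contra hn
  rw [Nat.testBit_lt_two_pow (h1.trans_le (Nat.pow_le_pow_right two_pos (not_lt.1 hn)))] at hi
  exact absurd hi (by simp)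

variable (rA : List (List ℕ))

theorem gB0 : ∀ i ∈ [10, 11, 12, 13, 14, 15], pr i ∈ (DD rA).B := by
  intro i hi
  simp only [List.mem_cons, List.not_mem_nil, or_false] at hi
  rcases hi with rfl | rfl | rfl | rfl | rfl | rfl
  exacts [subset_closure ⟨1, by simp, rfl⟩, subset_closure ⟨2, by simp, rfl⟩,
    subset_closure ⟨3, by simp, rfl⟩, subset_closure ⟨4, by simp, rfl⟩,
    subset_closure ⟨5, by simp, rfl⟩, subset_closure ⟨6, by simp, rfl⟩]

theorem gB1 : ∀ i ∈ [9, 10, 11, 12, 13, 14, 15], pr i ∈ (DD rA).B := by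
  intro i hi
  rcases List.mem_cons.1 hi with rfl | hi
  · rw [pr_B0 (9, [10, 12, 10, 12]) (by decide)]
    exact pw_mem (gB0 rA) (by decide)
  · exact gB0 rA i hi

/-- the registers of `2.A₈` -/
def UB : List ℕ := [10, 11, 12, 13, 14, 15] ++ LB0.map Prod.fst

theorem prB : ∀ i ∈ UB, pr i ∈ (DD rA).B := by
  intro i hi
  rcases List.mem_append.1 hi with hi | hi
  · exact gB0 rA i hi
  · obtain ⟨e, he, rfl⟩ := List.mem_map.1 hi
    rw [pr_B0 e he]
    have : ∀ e ∈ LB0, ∀ i ∈ e.2, i ∈ [9, 10, 11, 12, 13, 14, 15] := by decide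
    exact pw_mem (gB1 rA) (this e he)

theorem BN0 : (DD rA).B ≤ (DD rA).N0 :=
  closure_mono ((Set.subset_insert _ _).trans (Set.subset_insert _ _))

/-- all common registers -/
def UN : List ℕ := [7, 8] ++ UB ++ LB1.map Prod.fst

theorem prN : ∀ i ∈ UN, pr i ∈ (DD rA).N0 := by
  have h1 : ∀ i ∈ [7, 8] ++ UB, pr i ∈ (DD rA).N0 := by
    intro i hi
    rcases List.mem_append.1 hi with hi | hi
    · simp only [List.mem_cons, List.not_mem_nil, or_false] at hi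
      rcases hi with rfl | rfl
      exacts [subset_closure (Or.inl rfl), subset_closure (Or.inr (Or.inl rfl))]
    · exact BN0 rA (prB rA i hi)
  intro i hi
  rcases List.mem_append.1 hi with hi | hi
  · exact h1 i hi
  · obtain ⟨e, he, rfl⟩ := List.mem_map.1 hi
    rw [pr_B1 e he]
    have : ∀ e ∈ LB1, ∀ i ∈ e.2, i ∈ [7, 8] ++ UB := by decide
    exact pw_mem h1 (this e he)

def LI1 : List (List ℕ × List ℕ) :=
  (List.range 6).map (fun i => ([i + 1, i + 1, i + 1], [])) ++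
  (List.range 6).map (fun i => ([9, i + 1], [i + 1, 9])) ++
  (List.range 6).flatMap (fun j => (List.range j).map fun i => ([i + 1, j + 1, i + 1, j + 1], [9])) ++
  [([9, 9], [])]

def LI2 : List (List ℕ × List ℕ) :=
  [([10], [1, 2, 2, 1, 3, 5, 4, 6, 3, 5]), ([11], [1, 2, 3, 5, 1, 2, 4, 6, 9]),
    ([12], [1, 3, 2, 4, 1, 3, 6, 5, 9]), ([13], [1, 3, 2, 5, 1, 3, 6, 4]),
    ([14], [1, 2, 4, 3, 1, 2, 5, 6, 9]), ([15], [1, 2, 2, 1, 3, 4, 5, 6, 3, 4, 9])]

def LI3 : List (List ℕ × List ℕ) :=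
  [([7, 7, 7], []), ([7, 10], [10, 7]), ([7, 11], [11, 7]), ([7, 12], [12, 7]), ([7, 13], [13, 7]),
    ([7, 14], [14, 7]), ([7, 15], [15, 7]), ([8, 10], [12, 16, 8]), ([8, 11], [13, 21, 13, 9, 8]),
    ([8, 12], [10, 16, 8]), ([8, 13], [5, 2, 21, 9, 8]), ([8, 14], [10, 50, 9, 8]),
    ([8, 15], [21, 8]), ([7, 8, 7], [8]), ([8, 8], []), ([49], [2, 5, 4, 6, 2, 5, 7, 8])]

theorem pI1 : ∀ p ∈ LI1, pw p.1 = pw p.2 := pEqs (by decide +kernel) (by decide +kernel)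
theorem pI2 : ∀ p ∈ LI2, pw p.1 = pw p.2 := pEqs (by decide +kernel) (by decide +kernel)
theorem pI3 : ∀ p ∈ LI3, pw p.1 = pw p.2 := pEqs (by decide +kernel) (by decide +kernel)

theorem mf_cardB : Nat.card (DD rA).B ≤ 40320 := by
  have h := carmB (fun i => pr (i + 1)) (pr 9) 6
    (by simpa [pw_cons, pw_nil] using pI1 ([9, 9], []) (by decide))
    (fun i hi => by
      have : ∀ i, i < 6 → ([9, i + 1], [i + 1, 9]) ∈ LI1 := by decide
      have := pI1 _ (this i hi)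
      simp only [pw_cons, pw_nil, mul_one] at this
      exact this)
    (fun i hi => by
      have : ∀ i, i < 6 → ([i + 1, i + 1, i + 1], []) ∈ LI1 := by decide
      have := pI1 _ (this i hi)
      simp only [pw_cons, pw_nil, mul_one] at this
      rw [pow_three, this])
    (fun i j hij hj => by
      have : ∀ j, j < 6 → ∀ i, i < j → ([i + 1, j + 1, i + 1, j + 1], [9]) ∈ LI1 := by decide
      have := pI1 _ (this j hj i hij)
      simp only [pw_cons, pw_nil, mul_one] at this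
      rw [sq, mul_assoc, this])
  refine le_trans (card_le_of_le ((closure_le _).2 ?_)) h
  have hU : ∀ i ∈ [9, 1, 2, 3, 4, 5, 6],
      pr i ∈ closure (insert (pr 9) ((fun i => pr (i + 1)) '' Set.Iio 6)) := by
    intro i hi
    rcases List.mem_cons.1 hi with rfl | hi
    · exact subset_closure (Or.inl rfl)
    · have : ∀ i ∈ [1, 2, 3, 4, 5, 6], i - 1 < 6 ∧ i - 1 + 1 = i := by decide
      exact subset_closure (Or.inr ⟨i - 1, (this i hi).1, by simp only [(this i hi).2]⟩)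
  rintro _ ⟨i, ⟨h1, h2⟩, rfl⟩
  have : ∀ i, i < 7 → 1 ≤ i → ∃ p ∈ LI2, p.1 = [L5.reg i] ∧ ∀ j ∈ p.2, j ∈ [9, 1, 2, 3, 4, 5, 6] := by
    decide
  obtain ⟨p, hp, e1, e2⟩ := this i (by omega) h1
  have h3 := pI2 p hp
  rw [e1, pw_cons, pw_nil, mul_one] at h3
  change pr (L5.reg i) ∈ Subgroup.closure _
  rw [h3]
  exact pw_mem hU e2

theorem A8_le : A8 ≤ (DD rA).B.map (MonoidHom.fst _ _) :=
  gen_le_of 7 (U := [1, 2, 3, 4, 5, 6]) (by decide) (by decide) fun i hi =>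
    ⟨pr i, prB rA i (by revert i; decide), rfl⟩

theorem mf_injB : ∀ c ∈ (DD rA).B, c.1 = 1 → c = 1 :=
  inj_of_card _ (MonoidHom.fst _ _)
    ((mf_cardB rA).trans (A8_lb.trans (card_le_of_le (A8_le rA))))

theorem eqB {l l' : List ℕ} (h1 : ∀ i ∈ l, i ∈ UB) (h2 : ∀ i ∈ l', i ∈ UB)
    (h : eqL OH RH MH l l' = true) : pw l = pw l' := by
  rw [← mul_inv_eq_one]
  refine mf_injB [] _ (mul_mem (pw_mem (prB _) h1) (inv_mem (pw_mem (prB _) h2))) ?_
  rw [Prod.fst_mul, Prod.fst_inv, pw_eq, pw_eq, mul_inv_eq_one]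
  exact hEq h

theorem mf_xB : ∀ c ∈ (DD rA).B, c.1 ≠ (DD rA).x.1 := by
  have : (DD rA).B ≤ ((MulAction.stabilizer (Perm (Fin 11)) (8 : Fin 11)).comap rho).comap
      (MonoidHom.fst _ _) := by
    refine (closure_le _).2 ?_
    rintro _ ⟨i, ⟨h1, h2⟩, rfl⟩
    change rho (hh (L5.reg i)) 8 = 8
    interval_cases i
    exacts [(congrArg (· 8) rho10).trans rfl, (congrArg (· 8) rho11).trans rfl,
      (congrArg (· 8) rho12).trans rfl, (congrArg (· 8) rho13).trans rfl,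
      (congrArg (· 8) rho14).trans rfl, (congrArg (· 8) rho15).trans rfl]
  intro c hc e
  have h1 : rho c.1 8 = 8 := this hc
  rw [e] at h1
  exact absurd ((congrArg (· 8) rho7).symm.trans h1) (by decide)

theorem mf_genH : closure (insert (DD rA).s (Prod.fst '' ((DD rA).N0 : Set (H6 × M6)))) = ⊤ := by
  rw [eq_top_iff, ← Hs_top]
  refine gen_le_of 61 (U := [60, 1, 2, 3, 4, 5, 6, 7, 8]) (by decide) (by decide +kernel)
    fun i hi => subset_closure ?_
  rcases List.mem_cons.1 hi with rfl | hi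
  · exact Or.inl rfl
  · exact Or.inr ⟨pr i, prN rA i (by revert i; decide), rfl⟩

theorem mf_CH (h : H6) (hc : Commute h (DD rA).x.1) :
    ∃ c ∈ (DD rA).B, ∃ j : ℕ, h = c.1 * (DD rA).x.1 ^ j := by
  obtain ⟨c, hc, j, e⟩ := hfH.i1_CH h hc
  obtain ⟨c, hc', rfl⟩ := A8_le rA hc
  exact ⟨c, hc', j, e⟩

theorem mf_F1x (u : H6) (uu : u * u = 1) (u1 : u ≠ 1) (ut : u ≠ (DD rA).t.1)
    (ux : Commute u (DD rA).x.1) :
    ∃ c ∈ (DD rA).N0, c.1 * (DD rA).e1.1 * c.1⁻¹ = u := by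
  obtain ⟨c, hc, i, j, e⟩ := hfH.i1_F1x u uu u1 ut ux
  obtain ⟨c, hc', rfl⟩ := A8_le rA hc
  refine ⟨c * (pr 7 ^ j * pr 8 ^ i), mul_mem (BN0 rA hc') (mul_mem
    (pow_mem (prN rA 7 (by decide)) j) (pow_mem (prN rA 8 (by decide)) i)), ?_⟩
  rw [Prod.fst_mul, Prod.fst_mul, Prod.pow_fst, Prod.pow_fst]
  exact e

end CfsgLY
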