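/-
Lyons group: the amalgam, its completion in the model and in the group under study.
-/
import Cfsg.Agent.LY.I2
import Cfsg.Agent.LY.AmG

set_option autoImplicit false
set_option maxRecDepth 100000

namespace CfsgLY

open CfsgH5 CfsgH6 Subgroup Equiv

attribute [local irreducible] CfsgH6.GC.el

/-- completions of the Lyons amalgam -/
abbrev Am (Q : Type*) [Group Q] := AmG (fun r => mm r) 21 LA LS Q

/-- the identities with `s` (register `60`) -/
def LAm (L : List (ℕ × ℕ)) : List (List ℕ × List ℕ) :=
  [([60, 60], []), ([60, 21, 60, 21, 60, 21], [])] ++ L.map (fun e => ([60, e.1, 60], [e.2])) ++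
    LS.map fun e => ([e.2.1, 60, e.1, 60], [60, e.1, 60, e.2.2])

/-- a completion from the identities -/
def amOf {Q : Type*} [Group Q] (φ : M6 →* Q) (f : ℕ → Q) (L : List (ℕ × ℕ))
    (h : ∀ p ∈ LAm L, (p.1.map f).prod = (p.2.map f).prod)
    (hf : ∀ r ∈ [21, 22, 23, 24, 25, 26, 27, 28, 29, 30, 31, 32, 33, 34, 35, 36, 37, 38, 39, 40, 41,
      42, 43], φ (mm r) = f r)
    (hL : ∀ e ∈ LA.take 4, e ∈ L) (hv : f 60 * φ (mm 52) * f 60 = φ (mm 53)) : Am Q where
  φ := φ
  σ := f 60
  sq := by simpa using h ([60, 60], []) (by simp [LAm])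
  tri := by
    rw [hf 21 (by decide)]
    simpa [pow_three, mul_assoc] using h ([60, 21, 60, 21, 60, 21], []) (by simp [LAm])
  cA e he := by
    rcases (by decide : ∀ e ∈ LA, e ∈ LA.take 4 ∨ e = (52, 53)) e he with h1 | rfl
    · rw [hf e.1 (by revert e; decide), hf e.2 (by revert e; decide)]
      simpa [mul_assoc] using h ([60, e.1, 60], [e.2])
        (List.mem_append_left _ (List.mem_append_right _ (List.mem_map_of_mem (hL e h1))))
    · exact hv
  cS e he := by
    rw [hf e.1 (by revert e; decide), hf e.2.1 (by revert e; decide), hf e.2.2 (by revert e; decide)]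
    simpa [mul_assoc] using h ([e.2.1, 60, e.1, 60], [60, e.1, 60, e.2.2])
      (List.mem_append_right _ (List.mem_map_of_mem he))

theorem am_GL : ∀ p ∈ LAm LA, wl C1 R1 p.1 = wl C1 R1 p.2 := eqLs_sound mem1 (by decide +kernel)

theorem am_H : ∀ p ∈ LAm (LA.take 4), hw p.1 = hw p.2 := eqLs_sound memH (by decide +kernel)

/-- the completion in `GL₁₁₁(5)` -/
noncomputable def amGL : Am GL111 :=
  amOf fstM (fun r => C1.el (R1 r)) LA am_GL
    (fun r hr => (fst_mm (by revert r; decide +kernel)).symm) (by decide) (by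
      have := am_GL ([60, 52, 60], [53]) (by decide)
      simp only [wl_cons, wl_nil, mul_one, ← mul_assoc] at this
      rw [← fst_mm (by decide +kernel), ← fst_mm (by decide +kernel)]
      exact this)

theorem amGL_φ : amGL.φ = fstM := rfl
theorem amGL_σ : amGL.σ = s6 := rfl

theorem am_of_out {G : Type*} [Group G] {rA : List (List ℕ)} {φH : H6 →* G}
    (h : L2.Out (DD rA) φH) : ∃ A : Am G, A.cl = ⊤ := by
  obtain ⟨φ, h1, h2, h3⟩ := h
  refine ⟨amOf φ (fun r => φH (hh r)) (LA.take 4) (fun p hp => ?_)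
    (fun r hr => h1 (pr r) (prN rA r (by revert r; decide))) (fun _ he => he) h2, h3⟩
  have := congrArg φH (am_H p hp)
  simp only [hw, wl, map_list_prod, List.map_map] at this
  exact this

end CfsgLY
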