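/-
The Lyons group: final comparison, in terms of the abstract amalgam.
-/
import Cfsg.Agent.LY.AmG
import Cfsg.Agent.S0454

set_option autoImplicit false

universe u v

namespace CfsgLY

open Subgroup

variable {M : Type} [Group M] (mm : ℕ → M) (rd : ℕ) (LA : List (ℕ × ℕ)) (LS : List (ℕ × ℕ × ℕ))

/-- the universal bound -/
def SpecU {L : Type} [Group L] (AL : AmG mm rd LA LS L) : Prop :=
  ∀ (Q : Type u) [Group Q] [Finite Q] (A : AmG mm rd LA LS Q) (π : Q →* L),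
    (∀ m, π (A.φ m) = AL.φ m) → π A.σ = AL.σ → Nat.card A.cl ≤ 51765179004000000

/-- the local analysis -/
def SpecE : Prop :=
  ∀ (G : Type u) [Group G] [Finite G] [IsSimpleGroup G] (t : G), orderOf t = 2 →
    Cfsg.IsNonsplitDoubleCover (centralizer ({t} : Set G)) (alternatingGroup (Fin 11)) →
    ∃ A : AmG mm rd LA LS G, A.cl = ⊤

variable {mm rd LA LS} {L : Type} [Group L] [Finite L] {AL : AmG mm rd LA LS L}

theorem ly_iso (hE₀ : SpecE.{0} mm rd LA LS) :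
    ∃ (H : Type) (_ : Group H), Cfsg.IsLy H ∧ ∀ (_ : SpecU.{u} mm rd LA LS AL)
      (_ : SpecE.{u} mm rd LA LS) (G : Type u) [Group G] [Finite G] [IsSimpleGroup G] (t : G),
      orderOf t = 2 →
      Cfsg.IsNonsplitDoubleCover (centralizer ({t} : Set G)) (alternatingGroup (Fin 11)) →
      Nonempty (G ≃* H) := by
  obtain ⟨H, hH, -, -, t₀, h1, h2⟩ := Cfsg.Agent.S0454.result
  refine ⟨H, inferInstance, hH, fun hU hE G _ _ _ t ht hC => ?_⟩
  have := hH.1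
  obtain ⟨A₂, g₂⟩ := hE₀ H t₀ h1 h2
  obtain ⟨A₁, g₁⟩ := hE G t ht hC
  exact AmG.iso.{u, 0} AL _ hU hH.2 A₁ g₁ A₂ g₂

theorem s0452_of (hE₀ : SpecE.{0} mm rd LA LS) (hU : SpecU.{u} mm rd LA LS AL)
    (hE : SpecE.{u} mm rd LA LS) {G : Type u} [Group G] [Finite G] [IsSimpleGroup G] (t : G)
    (ht : Cfsg.IsTwoCentralInvolution t)
    (hC : Cfsg.IsNonsplitDoubleCover (centralizer ({t} : Set G)) (alternatingGroup (Fin 11))) :
    Cfsg.IsLy G := by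
  obtain ⟨H, _, hH, h⟩ := ly_iso.{u} (AL := AL) hE₀
  obtain ⟨e⟩ := h hU hE G t ht.1 hC
  exact ⟨inferInstance, (Nat.card_congr e.toEquiv).trans hH.2⟩

theorem s0453_of (hE₀ : SpecE.{0} mm rd LA LS) (hU : SpecU.{u} mm rd LA LS AL)
    (hE : SpecE.{u} mm rd LA LS) (hU' : SpecU.{v} mm rd LA LS AL) (hE' : SpecE.{v} mm rd LA LS)
    {G : Type u} {H : Type v} [Group G] [Finite G] [IsSimpleGroup G] [Group H] [Finite H]
    [IsSimpleGroup H] (t : G) (s : H) (ht : orderOf t = 2) (hs : orderOf s = 2)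
    (hG : Cfsg.IsNonsplitDoubleCover (centralizer ({t} : Set G)) (alternatingGroup (Fin 11)))
    (hH : Cfsg.IsNonsplitDoubleCover (centralizer ({s} : Set H)) (alternatingGroup (Fin 11))) :
    Nonempty (G ≃* H) := by
  obtain ⟨K, hK, -, -, t₀, h1, h2⟩ := Cfsg.Agent.S0454.result
  have := hK.1
  obtain ⟨A, g⟩ := hE₀ K t₀ h1 h2
  obtain ⟨A₁, g₁⟩ := hE G t ht hG
  obtain ⟨A₂, g₂⟩ := hE' H s hs hH
  obtain ⟨e₁⟩ := AmG.iso.{u, 0} AL _ hU hK.2 A₁ g₁ A g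
  obtain ⟨e₂⟩ := AmG.iso.{v, 0} AL _ hU' hK.2 A₂ g₂ A g
  exact ⟨e₁.trans e₂.symm⟩

end CfsgLY
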