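/-
Lyons project: the word identities in the model `M6` used by L2.
-/
import Cfsg.Agent.LY.M0
import Cfsg.Agent.LY.L2a
import Cfsg.Agent.LY.L5

set_option autoImplicit false
set_option maxRecDepth 100000

namespace CfsgLY.IM

open CfsgH5 CfsgH6 Subgroup CfsgLY.L2

theorem mw_cons (r : ℕ) (l : List ℕ) : mw (r :: l) = mm r * mw l := wl_cons r l
theorem mw_nil : mw [] = 1 := rfl

/-- the register of a letter -/
def rg (i : ℕ) : ℕ := if i = 7 then 51 else 9 + i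

section
variable {g : ℕ → M6} (h6 : ∀ i, 1 ≤ i → i ≤ 6 → g i = mm (9 + i)) (h7 : g 7 = mm 51)
include h6 h7

theorem g_eq {i : ℕ} (h1 : 1 ≤ i) (h2 : i ≤ 7) : g i = mm (rg i) := by
  rcases h2.eq_or_lt with rfl | h
  · exact h7
  · rw [h6 i h1 (by omega), rg, if_neg h.ne]

theorem prod_eq {l : List ℕ} (hl : ∀ i ∈ l, 1 ≤ i ∧ i ≤ 7) : (l.map g).prod = mw (l.map rg) := by
  rw [mw, wl, List.map_map]
  exact congrArg List.prod (List.map_congr_left fun i hi => g_eq h6 h7 (hl i hi).1 (hl i hi).2)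

theorem relP : ∀ l ∈ L5.relP, (l.map g).prod = 1 := fun l hl => by
  have h1 : ∀ l ∈ L5.relP, ∀ i ∈ l, 1 ≤ i ∧ i ≤ 7 := by decide +kernel
  have h2 : allL L5.relP (fun l => eqL OM RM MM (l.map rg) []) = true := by decide +kernel
  rw [prod_eq h6 h7 (h1 l hl)]
  exact mEq ((allL_iff _ _).1 h2 l hl)

theorem pk : ([7, 5, 2, 7, 5, 2].map g).prod = mm 7 := by
  rw [prod_eq h6 h7 (by decide)]
  have := mEq (l := [7, 5, 2, 7, 5, 2].map rg) (l' := [7]) (by decide +kernel)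
  rwa [mw_cons 7, mw_nil, mul_one] at this

theorem K_eq : Subgroup.closure (insert (mm 7) (g '' Set.Icc 1 7)) = K6 := by
  refine congrArg Subgroup.closure (Set.ext fun a => ?_ : _ = CM.els RM 2251799813749888)
  constructor
  · rintro (rfl | ⟨i, ⟨h1, h2⟩, rfl⟩)
    · exact ⟨7, by decide +kernel, rfl⟩
    · refine ⟨rg i, ?_, g_eq h6 h7 h1 h2⟩
      have : ∀ i, i ≤ 7 → 1 ≤ i → Nat.testBit 2251799813749888 (rg i) = true := by decide +kernel
      exact this i h2 h1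
  · rintro ⟨i, hi, rfl⟩
    have h2 : i < 52 := by
      by_contra hn
      rw [Nat.testBit_lt_two_pow (lt_of_lt_of_le (by norm_num)
        (Nat.pow_le_pow_right (by norm_num) (not_lt.1 hn)))] at hi
      exact absurd hi (by simp)
    have h : ∀ i, i < 52 → Nat.testBit 2251799813749888 i = true →
      i = 7 ∨ ∃ j, j ≤ 7 ∧ 1 ≤ j ∧ rg j = i := by decide +kernel
    rcases h i h2 hi with rfl | ⟨j, j7, j1, rfl⟩
    · exact Or.inl rfl
    · exact Or.inr ⟨j, ⟨j1, j7⟩, g_eq h6 h7 j1 j7⟩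

end

theorem memK6 : CM.Mem RM K6 2251799813749888 := (memM.sub (by decide +kernel)).gen

theorem genM : Subgroup.closure (insert (mm 8) (K6 : Set M6)) = ⊤ := by
  rw [eq_top_iff, ← topM]
  refine GC.Mem.gen_le (GC.Mem.lor' (M := 2251799813749888) (M' := 256) (fun i hi => ?_)
    (fun i hi => ?_) (by decide +kernel))
  · obtain ⟨a, ha, e⟩ := memK6 i hi
    exact ⟨a, subset_closure (Or.inr ha), e⟩
  · have h8 : i = 8 := by
      have := Nat.testBit_two_pow (n := 8) (m := i)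
      rw [show 2 ^ 8 = 256 from rfl, hi] at this
      exact (of_decide_eq_true this.symm).symm
    subst h8
    exact (memM.get (by decide +kernel)).of_mem (subset_closure (Or.inl rfl))

/-- identities `(l, l')` checked at once -/
def ids : List (List ℕ × List ℕ) :=
  [([51, 51], []), ([51, 7], [7, 51]), ([8, 51], [51, 8]), ([51, 9, 51], [16]), ([52, 9, 52, 9], []),
   ([52, 19], [19, 52]), ([52, 20], [20, 52]), ([44, 45], []), ([52, 53], []),
   ([52, 44, 52, 45, 53, 44, 53, 45], [19, 19, 7]), ([46, 52], [54, 46]), ([47, 52], [54, 54, 47]),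
   ([47, 53], [54, 47]), ([21, 52], [52, 52, 54, 21]), ([21, 52, 52, 54, 54], [52, 54, 21]),
   ([21, 52, 54, 54], [52, 52, 21]), ([48, 52], [52, 52, 54, 54, 48]),
   ([52], [13, 11, 51, 13, 15, 51, 15, 10, 13, 51, 10, 12, 10, 12, 51, 13, 10, 15, 51, 15, 13, 51,
     11, 13, 10, 12, 10, 12])]

theorem ids_ok : ∀ e ∈ ids, mw e.1 = mw e.2 := eqLs_sound memM (by decide +kernel)

theorem idn (n : ℕ) (h : n < ids.length := by decide) : mw (ids[n]).1 = mw (ids[n]).2 :=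
  ids_ok _ (List.getElem_mem h)

theorem pp : mm 51 * mm 51 = 1 := by simpa [ids, mw_cons, mw_nil] using idn 0

theorem px : Commute (mm 51) (mm 7) := by simpa [ids, mw_cons, mw_nil, Commute, SemiconjBy] using idn 1

theorem pw : mm 8 * mm 51 * (mm 8)⁻¹ = mm 51 := by
  rw [mul_inv_eq_iff_eq_mul]; simpa [ids, mw_cons, mw_nil] using idn 2

theorem pt : mm 51 * mm 9 * mm 51 = mm 16 := by simpa [ids, mw_cons, mw_nil, mul_assoc] using idn 3

theorem vt : mm 9 * mm 52 * mm 9 = (mm 52)⁻¹ := by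
  refine (inv_eq_of_mul_eq_one_right ?_).symm
  simpa [ids, mw_cons, mw_nil, mul_assoc] using idn 4

theorem vy : Commute (mm 52) (mm 19) := by simpa [ids, mw_cons, mw_nil, Commute, SemiconjBy] using idn 5

theorem vz : Commute (mm 52) (mm 20) := by simpa [ids, mw_cons, mw_nil, Commute, SemiconjBy] using idn 6

theorem i44 : (mm 44)⁻¹ = mm 45 :=
  inv_eq_of_mul_eq_one_right (by simpa [ids, mw_cons, mw_nil] using idn 7)

theorem i45 : (mm 45)⁻¹ = mm 44 := by rw [← i44, inv_inv]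

theorem i52 : (mm 52)⁻¹ = mm 53 :=
  inv_eq_of_mul_eq_one_right (by simpa [ids, mw_cons, mw_nil] using idn 8)

theorem i53 : (mm 53)⁻¹ = mm 52 := by rw [← i52, inv_inv]

theorem comm : cm (mm 52) (mm 44 * mm 52 * (mm 44)⁻¹) = mm 19 ^ 2 * mm 7 ^ 1 := by
  simp only [cm, mul_inv_rev, i44, i45, i52]
  simpa [ids, mw_cons, mw_nil, mul_assoc, sq] using idn 9

theorem v2 : mm 46 * mm 52 * (mm 46)⁻¹ = mm 54 := by
  rw [mul_inv_eq_iff_eq_mul]; simpa [ids, mw_cons, mw_nil] using idn 10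

theorem v2' : mm 47 * mm 52 * (mm 47)⁻¹ = mm 54 * mm 54 := by
  rw [mul_inv_eq_iff_eq_mul]; simpa [ids, mw_cons, mw_nil, mul_assoc] using idn 11

theorem v2'' : mm 47 * mm 53 * (mm 47)⁻¹ = mm 54 := by
  rw [mul_inv_eq_iff_eq_mul]; simpa [ids, mw_cons, mw_nil, mul_assoc] using idn 12

theorem sg1 : mm 21 * mm 52 * (mm 21)⁻¹ = mm 52 ^ 2 * (mm 46 * mm 52 * (mm 46)⁻¹) ^ 1 := by
  rw [v2, mul_inv_eq_iff_eq_mul]; simpa [ids, mw_cons, mw_nil, mul_assoc, sq] using idn 13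

theorem sg2 : mm 21 * ((mm 53)⁻¹ ^ 2 * (mm 47 * (mm 53)⁻¹ * (mm 47)⁻¹) ^ 1) * (mm 21)⁻¹ =
    mm 52 ^ 1 * (mm 46 * mm 52 * (mm 46)⁻¹) ^ 1 := by
  rw [i53, v2, v2', mul_inv_eq_iff_eq_mul]; simpa [ids, mw_cons, mw_nil, mul_assoc, sq] using idn 14

theorem sg3 : mm 21 * ((mm 53)⁻¹ ^ 1 * (mm 47 * (mm 53)⁻¹ * (mm 47)⁻¹) ^ 1) * (mm 21)⁻¹ =
    mm 52 ^ 2 * (mm 46 * mm 52 * (mm 46)⁻¹) ^ 0 := by
  rw [i53, v2, v2', mul_inv_eq_iff_eq_mul]; simpa [ids, mw_cons, mw_nil, mul_assoc, sq] using idn 15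

theorem sg4' : (mm 53)⁻¹ ^ 2 * (mm 47 * (mm 53)⁻¹ * (mm 47)⁻¹) ^ 0 ≠ mm 52 := by
  rw [i53]
  simpa [mw_cons, mw_nil, sq] using mNe (l := [52, 52]) (l' := [52]) (by decide +kernel)

theorem ep1 : mm 48 * mm 52 * (mm 48)⁻¹ = mm 52 ^ 2 * (mm 46 * mm 52 * (mm 46)⁻¹) ^ 2 := by
  rw [v2, mul_inv_eq_iff_eq_mul]; simpa [ids, mw_cons, mw_nil, mul_assoc, sq] using idn 16

theorem ep2 : mm 49 * mm 9 * mm 53 * (mm 49 * mm 9)⁻¹ ≠
    mm 53 ^ 2 * (mm 47 * mm 53 * (mm 47)⁻¹) ^ 2 := by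
  rw [v2'', Ne, mul_inv_eq_iff_eq_mul]
  simpa only [mw_cons, mw_nil, mul_assoc, sq, mul_one] using
    mNe (l := [49, 9, 53]) (l' := [53, 53, 54, 54, 49, 9]) (by decide +kernel)

theorem vt1 : mm 52 ≠ mm 9 := by
  simpa only [mw_cons, mw_nil, mul_one] using mNe (l := [52]) (l' := [9]) (by decide +kernel)

theorem x2 : mm 7 ≠ 1 := by
  simpa only [mw_cons, mw_nil, mul_one] using mNe (l := [7]) (l' := []) (by decide +kernel)

theorem vK : mm 52 ∈ K6 := by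
  have h := ids_ok ([52], [13, 11, 51, 13, 15, 51, 15, 10, 13, 51, 10, 12, 10, 12, 51, 13, 10, 15,
    51, 15, 13, 51, 11, 13, 10, 12, 10, 12]) (by decide +kernel)
  have h' := (wl_spec memK6 (l := [13, 11, 51, 13, 15, 51, 15, 10, 13, 51, 10, 12, 10, 12, 51, 13,
    10, 15, 51, 15, 13, 51, 11, 13, 10, 12, 10, 12]) (by decide +kernel)).1
  dsimp only at h
  rw [mw_cons 52, mw_nil, mul_one] at h
  rw [h]
  exact h'

end CfsgLY.IM
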