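/-
Lyons project: the `M`-side fields of `MF (DD relA)`.
-/
import Cfsg.Agent.LY.IM
import Cfsg.Agent.LY.ID

set_option autoImplicit false

namespace CfsgLY

open CfsgLY.L2

variable (relA : List (List ℕ))

theorem DD_gM6 : ∀ i, 1 ≤ i → i ≤ 6 → (DD relA).gM i = mm (9 + i) := fun i h1 h6 => by
  rw [MD.gM, Function.update_of_ne (by omega)]
  change mm (L5.reg i) = _
  interval_cases i <;> rfl

theorem DD_gM7 : (DD relA).gM 7 = mm 51 := Function.update_self _ _ _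

theorem DD_K : (DD relA).K = K6 := IM.K_eq (DD_gM6 relA) (DD_gM7 relA)

theorem mf_x2 : (DD relA).x.2 ≠ 1 := IM.x2
theorem mf_pp : (DD relA).p * (DD relA).p = 1 := IM.pp
theorem mf_px : Commute (DD relA).p (DD relA).x.2 := IM.px
theorem mf_relP : ∀ l ∈ (DD relA).relP, (l.map (DD relA).gM).prod = 1 :=
  IM.relP (DD_gM6 relA) (DD_gM7 relA)
theorem mf_pk : ([7, 5, 2, 7, 5, 2].map (DD relA).gM).prod = (DD relA).x.2 :=
  IM.pk (DD_gM6 relA) (DD_gM7 relA)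
theorem mf_pw : (DD relA).w.2 * (DD relA).p * (DD relA).w.2⁻¹ = (DD relA).p := IM.pw
theorem mf_pt : (DD relA).p * (DD relA).t.2 * (DD relA).p = (DD relA).e1.2 := IM.pt
theorem mf_genM : Subgroup.closure (insert (DD relA).w.2 ((DD relA).K : Set M6)) = ⊤ := by
  rw [DD_K]; exact IM.genM
theorem mf_vK : (DD relA).v ∈ (DD relA).K := by rw [DD_K]; exact IM.vK
theorem mf_vt : (DD relA).t.2 * (DD relA).v * (DD relA).t.2 = (DD relA).v⁻¹ := IM.vt
theorem mf_vt1 : (DD relA).v ≠ (DD relA).t.2 := IM.vt1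
theorem mf_vy : Commute (DD relA).v (DD relA).y.2 := IM.vy
theorem mf_vz : Commute (DD relA).v (DD relA).z.2 := IM.vz
theorem mf_comm : cm (DD relA).v ((DD relA).gc.2 * (DD relA).v * (DD relA).gc.2⁻¹) =
    (DD relA).y.2 ^ (DD relA).ca * (DD relA).x.2 ^ (DD relA).cb := IM.comm
theorem mf_ca3 : (DD relA).ca % 3 ≠ 0 := (by decide : 2 % 3 ≠ 0)
theorem mf_sg1 : (DD relA).d.2 * (DD relA).v * (DD relA).d.2⁻¹ =
    (DD relA).W (DD relA).a1 (DD relA).b1 := IM.sg1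
theorem mf_sg2 : (DD relA).d.2 * (DD relA).W' (DD relA).vs⁻¹ (DD relA).a1 (DD relA).b1 *
    (DD relA).d.2⁻¹ = (DD relA).W (DD relA).a2 (DD relA).b2 := IM.sg2
theorem mf_sg3 : (DD relA).d.2 * (DD relA).W' (DD relA).vs⁻¹ (DD relA).a2 (DD relA).b2 *
    (DD relA).d.2⁻¹ = (DD relA).W (DD relA).a3 (DD relA).b3 := IM.sg3
theorem mf_sg4' : (DD relA).W' (DD relA).vs⁻¹ (DD relA).a3 (DD relA).b3 ≠ (DD relA).v := IM.sg4'
theorem mf_ep1 : (DD relA).aY.2 * (DD relA).v * (DD relA).aY.2⁻¹ =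
    (DD relA).W (DD relA).ea (DD relA).eb := IM.ep1
theorem mf_ep2 : (DD relA).aX.2 * (DD relA).t.2 * (DD relA).vs * ((DD relA).aX.2 * (DD relA).t.2)⁻¹ ≠
    (DD relA).W' (DD relA).vs (DD relA).ea (DD relA).eb := IM.ep2
theorem mf_cardK (h : 3 * 22275 * 40320 ≤ Nat.card K6) : 3 * 22275 * 40320 ≤ Nat.card (DD relA).K := by
  rw [DD_K]; exact h

end CfsgLY
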