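/-
Lyons group: the relators of the McLaughlin amalgam.
-/
import Cfsg.Agent.H5.KW

set_option autoImplicit false

namespace CfsgLY

open CfsgH5 CfsgH5.KT Subgroup

/-- relators of `2.A8` in the letters `1, …, 6` -/
def relA : List (List ℕ) := [[1,4,1,4,1,4], [2,5,2,5,2,5], [3,6,3,6,3,6], [1,5,1,5], [2,4,2,4], [2,6,2,6], [3,5,3,5], [1,2,1,2,1,2,1,2], [2,3,2,3,2,3,2,3], [4,5,4,5,4,5,4,5], [5,6,5,6,5,6,5,6], [1,3,1,3,1,6,1,6], [1,3,1,3,3,4,3,4], [1,3,1,3,4,6,4,6], [1,3,1,3,1,1,3,1,3,1], [1,3,1,3,2,1,3,1,3,2], [1,3,1,3,5,1,3,1,3,5], [1,3,1,3,6,1,3,1,3,6], [1,2,4,1,2,4,1,2,4], [1,4,5,1,4,5,1,4,5], [2,3,5,2,3,5,2,3,5], [2,5,6,2,5,6,2,5,6], [1,2,5,1,2,5,1,2,5], [2,4,5,2,4,5,2,4,5], [1,3,1,3,2,3,6,2,3,6,2,3,6], [1,3,1,3,3,5,6,3,5,6,3,5,6]]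

/-- the relators with the letter `7`, except the one that kills the centre -/
def relP' : List (List ℕ) := [[7,1,3,1,3,7,2,3,2,3,1,3,2,3,2,1], [7,1,2,3,2,3,1,3,2,3,2,7,3,1,3,1], [7,1,2,1,2,7,1], [7,1,7,2,1,2,1], [7,2,3,2,3,7,3,2,3,2], [7,3,7,3,3,2,3,2], [7,2,7,2,7,2], [7,5,7,5,7,5], [7,6,7,6,7,6,7,6,7,6], [7,4,5,4,7,4,5,4,7,4,5,4,7,4,5,4,7,4,5,4], [7,5,4,5,7,5,4,5,7,5,4,5,7,5,4,5,7,5,4,5], [7,6,5,6,7,6,5,6,7,6,5,6,7,6,5,6,7,6,5,6]]

/-- the relators with the letter `7` -/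
def relP : List (List ℕ) := [7,5,2,7,5,2] :: relP'

/-- a rotation of a relator (or of a square) or of its reverse, given by a code -/
def rotC (rels : List (List ℕ)) (d : ℕ) : List ℕ :=
  (if d % 2 = 0 then rels.getD (d / 2 % 64) [] else (rels.getD (d / 2 % 64) []).reverse).rotate (d / 128)

/-- an entry of a list -/
def nth {α : Type} (l : List α) (d : α) : ℕ → α :=
  List.rec (motive := fun _ => ℕ → α) (fun _ => d)
    (fun a _ ih i => Nat.rec (motive := fun _ => α) a (fun j _ => ih j) i) l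

/-- an explicit relator table -/
def rtT (TB : List (List (List ℕ))) (x c : ℕ) : List ℕ := nth (nth TB [] x) [x] c

/-- check of the table -/
def okT (rels : List (List ℕ)) (TB : List (List (List ℕ))) (D : List (List ℕ)) (L : ℕ) : Bool :=
  (List.range (L + 1)).all fun x => (List.range (nth TB [] x).length).all fun c =>
    (rtT TB x c).all (fun y => decide (0 < y ∧ y ≤ L)) &&
      (rtT TB x c == [x] || x :: rtT TB x c == rotC rels ((D.getD x []).getD c 0))

variable {G : Type*} [Group G] {g : ℕ → G}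

theorem nth_eq {α : Type} (l : List α) (d : α) (n : ℕ) : nth l d n = l.getD n d := by
  induction l generalizing n with
  | nil => cases n <;> rfl
  | cons a l ih => cases n with
    | zero => rfl
    | succ n => exact ih n

theorem let_T {rels : List (List ℕ)} {TB : List (List (List ℕ))} {D : List (List ℕ)} {L : ℕ}
    (hg : ∀ x, g x * g x = 1) (hr : ∀ l ∈ rels, wl g l = 1) (h : okT rels TB D L = true) :
    Let g (rtT TB) L := by
  refine ⟨hg, fun x c h1 h2 => ?_⟩
  have h0 : Wd L [x] ∧ wl g [x] * g x = 1 :=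
    ⟨by simpa [Wd] using ⟨h1, h2⟩, by simpa [wl] using hg x⟩
  by_cases hc : c < (nth TB [] x).length
  · simp only [okT, List.all_eq_true, List.mem_range, Bool.and_eq_true, Bool.or_eq_true,
      decide_eq_true_eq, beq_iff_eq] at h
    obtain ⟨k1, k2 | k2⟩ := h x (by omega) c hc
    · rw [k2]; exact h0
    · refine ⟨k1, ?_⟩
      rw [← wl_cons, k2, rotC]
      generalize (D.getD x []).getD c 0 = d
      have e1 : wl g (rels.getD (d / 2 % 64) []) = 1 := by
        rcases h : rels[d / 2 % 64]? with _ | l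
        · simp [List.getD, h, wl]
        · simp only [List.getD, h, Option.getD_some]
          exact hr l (List.mem_of_getElem? h)
      split_ifs
      · exact wl_rotate e1 _
      · exact wl_rotate (by rw [wl_reverse hg, e1, inv_one]) _
  · rw [rtT, nth_eq, List.getD_eq_default _ _ (not_lt.1 hc)]
    exact h0

theorem wl_eq_one (hg : ∀ x, g x * g x = 1) {l : List ℕ} (h : (l.map g).prod = 1) : wl g l = 1 := by
  have := wl_reverse hg l.reverse
  rw [List.reverse_reverse] at this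
  rw [this, wl, List.reverse_reverse, h, inv_one]

end CfsgLY
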