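/-
Lyons group, instantiation, part 3: the facts `MF` and the amalgam.
-/
import Cfsg.Agent.LY.I2
import Cfsg.Agent.LY.IM2
import Cfsg.Agent.LY.T0
import Cfsg.Agent.LY.AmG

set_option autoImplicit false
set_option maxRecDepth 100000

namespace CfsgLY

open CfsgH5 CfsgH6 Subgroup Equiv

attribute [local irreducible] CfsgH6.GC.el

theorem i3_map (l : List ℕ) : (l.map (DD relA).g).prod = pw (l.map L5.reg) := by
  rw [pw, List.map_map]; rfl

def LH3 : List (List ℕ × List ℕ) :=
  [([8, 16], [16, 8]), ([60, 60], []), ([60, 7, 60], [19]), ([60, 20, 60], [20]),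
    ([60, 21, 60, 21, 60, 21], []), ([60, 46, 60], [47]), ([60, 44, 60], [45]),
    ([60, 48, 60], [49]), ([44, 19], [19, 44])]

theorem hI3 : ∀ p ∈ LH3, hw p.1 = hw p.2 := eqLs_sound memH (by decide +kernel)

theorem i3_p {l l' : List ℕ} (h : (l, l') ∈ LI3) : pw l = pw l' := pI3 _ h
theorem i3_h {l l' : List ℕ} (h : (l, l') ∈ LH3) : hw l = hw l' := hI3 _ h

theorem i3_wB {i : ℕ} {l : List ℕ} (h : ([8, i], l ++ [8]) ∈ LI3) (hl : ∀ j ∈ l, j ∈ UB) :
    pr 8 * pr i * (pr 8)⁻¹ ∈ (DD relA).B := by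
  have h1 := i3_p h
  rw [pw, pw, List.map_append, List.prod_append] at h1
  simp only [List.map_cons, List.map_nil, List.prod_cons, List.prod_nil, mul_one] at h1
  rw [h1, mul_inv_cancel_right]
  exact pw_mem (prB _) hl

theorem i3_xg {i : ℕ} (h : ([7, i], [i, 7]) ∈ LI3) : Commute (pr 7) (pr i) := by
  have h1 := i3_p h
  simp only [pw_cons, pw_nil, mul_one] at h1
  exact h1

theorem mf_of (hK : 3 * 22275 * 40320 ≤ Nat.card K6)
    (hC : ∀ k ∈ (DD relA).K, k * (DD relA).t.2 = (DD relA).t.2 * k →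
      ∃ c ∈ (DD relA).B, ∃ j : ℕ, k = c.2 * (DD relA).x.2 ^ j)
    (h9 : ∀ k ∈ (DD relA).K, Commute (k * (DD relA).t.2 * k⁻¹) (DD relA).y.2 →
      Commute (k * (DD relA).t.2 * k⁻¹) (DD relA).z.2 →
      ∀ r, r = k * (DD relA).t.2 * k⁻¹ * (DD relA).t.2 →
        L2.cm r ((DD relA).gc'.2 * r * (DD relA).gc'.2⁻¹) =
          (DD relA).x.2 ^ (DD relA).ca * (DD relA).y.2 ^ (DD relA).cb →
        r = (DD relA).vs ∨ r = (DD relA).vs⁻¹) : L2.MF (DD relA) where
  gsq i h1 h6 := by
    have h2 : ∀ i, i < 7 → 1 ≤ i → (∀ j ∈ [L5.reg i, L5.reg i], j ∈ UB) ∧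
      eqL OH RH MH [L5.reg i, L5.reg i] [] = true := by decide +kernel
    have h3 := eqB (h2 i (by omega) h1).1 (by simp) (h2 i (by omega) h1).2
    simp only [pw_cons, pw_nil, mul_one] at h3
    exact h3
  relA l hl := by
    have h2 : ∀ l ∈ relA, (∀ j ∈ l.map L5.reg, j ∈ UB) ∧
      eqL OH RH MH (l.map L5.reg) [] = true := by decide +kernel
    rw [i3_map]
    exact eqB (h2 l hl).1 (by simp) (h2 l hl).2
  relA7 := (by decide : ∀ l ∈ relA, 7 ∉ l)
  cardB := mf_cardB _
  injB := mf_injB _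
  x3 := by
    have h1 := i3_p (l := [7, 7, 7]) (l' := []) (by decide)
    simp only [pw_cons, pw_nil, mul_one] at h1
    exact (pow_three _).trans h1
  x2 := mf_x2 _
  xg i h1 h6 := by
    have : ∀ i, i < 7 → 1 ≤ i → ([7, L5.reg i], [L5.reg i, 7]) ∈ LI3 := by decide
    exact i3_xg (this i (by omega) h1)
  xB := mf_xB _
  t_eq := by
    have h1 := pr_B0 (9, [10, 12, 10, 12]) (by decide)
    simp only [pw_cons, pw_nil, mul_one] at h1
    exact h1.trans (by rw [sq, mul_assoc]; rfl)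
  e1B := prB _ 16 (by decide)
  yB := prB _ 19 (by decide)
  zB := prB _ 20 (by decide)
  dB := prB _ 21 (by decide)
  g4B := prB _ 46 (by decide)
  g4B' := prB _ 47 (by decide)
  gcB := prB _ 44 (by decide)
  gcB' := prB _ 45 (by decide)
  aYB := prB _ 48 (by decide)
  wB i h1 h6 := by
    interval_cases i
    exacts [i3_wB (i := 10) (l := [12, 16]) (by decide) (by decide),
      i3_wB (i := 11) (l := [13, 21, 13, 9]) (by decide) (by decide),
      i3_wB (i := 12) (l := [10, 16]) (by decide) (by decide),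
      i3_wB (i := 13) (l := [5, 2, 21, 9]) (by decide) (by decide),
      i3_wB (i := 14) (l := [10, 50, 9]) (by decide) (by decide),
      i3_wB (i := 15) (l := [21]) (by decide) (by decide)]
  wx := by
    have h1 := i3_p (l := [7, 8, 7]) (l' := [8]) (by decide)
    simp only [pw_cons, pw_nil, mul_one] at h1
    change pr 8 * pr 7 * (pr 8)⁻¹ = (pr 7)⁻¹
    rw [mul_inv_eq_iff_eq_mul, eq_inv_mul_iff_mul_eq, h1]
  ww := by
    have h1 := i3_p (l := [8, 8]) (l' := []) (by decide)
    simp only [pw_cons, pw_nil, mul_one] at h1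
    change pr 8 * pr 8 ∈ (DD relA).B
    rw [h1]; exact one_mem _
  aXw := ⟨pw [2, 5, 4, 6, 2, 5], pw_mem (prB _) (by decide), 1, by
    have h1 := i3_p (l := [49]) (l' := [2, 5, 4, 6, 2, 5, 7, 8]) (by decide)
    simp only [pw_cons, pw_nil, mul_one] at h1
    change pr 49 = _ * pr 7 ^ 1 * pr 8
    simp only [h1, pw_cons, pw_nil, mul_one, pow_one, mul_assoc]⟩
  t1 := t_ne
  tt := t_sq
  tc := hfH.cen
  et := by
    have h1 := hNe (l := [16]) (l' := [9]) (by decide +kernel)
    simp only [hw_cons, hw_nil, mul_one] at h1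
    exact h1
  we := by
    have h1 := i3_h (l := [8, 16]) (l' := [16, 8]) (by decide)
    simp only [hw_cons, hw_nil, mul_one] at h1
    exact h1
  CH := mf_CH _
  F1 := hfH.i1_F1
  F1x := mf_F1x _
  genH := mf_genH _
  ss := by
    have h1 := i3_h (l := [60, 60]) (l' := []) (by decide)
    simp only [hw_cons, hw_nil, mul_one] at h1
    exact h1
  sx := by
    have h1 := i3_h (l := [60, 7, 60]) (l' := [19]) (by decide)
    simp only [hw_cons, hw_nil, mul_one, ← mul_assoc] at h1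
    exact h1
  sz := by
    have h1 := i3_h (l := [60, 20, 60]) (l' := [20]) (by decide)
    simp only [hw_cons, hw_nil, mul_one, ← mul_assoc] at h1
    exact h1
  sd := by
    have h1 := i3_h (l := [60, 21, 60, 21, 60, 21]) (l' := []) (by decide)
    simp only [hw_cons, hw_nil, mul_one] at h1
    change (hh 60 * hh 21) ^ 3 = 1
    rw [pow_three, mul_assoc, mul_assoc, h1]
  sg4 := by
    have h1 := i3_h (l := [60, 46, 60]) (l' := [47]) (by decide)
    simp only [hw_cons, hw_nil, mul_one, ← mul_assoc] at h1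
    exact h1
  sgc := by
    have h1 := i3_h (l := [60, 44, 60]) (l' := [45]) (by decide)
    simp only [hw_cons, hw_nil, mul_one, ← mul_assoc] at h1
    exact h1
  saY := by
    have h1 := i3_h (l := [60, 48, 60]) (l' := [49]) (by decide)
    simp only [hw_cons, hw_nil, mul_one, ← mul_assoc] at h1
    exact h1
  gcy := by
    have h1 := i3_h (l := [44, 19]) (l' := [19, 44]) (by decide)
    simp only [hw_cons, hw_nil, mul_one] at h1
    exact h1
  pp := mf_pp _
  px := mf_px _
  relP := mf_relP _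
  pk := mf_pk _
  pw := mf_pw _
  pt := mf_pt _
  cardK := mf_cardK _ hK
  genM := mf_genM _
  CK := hC
  vK := mf_vK _
  vt := mf_vt _
  vt1 := mf_vt1 _
  vy := mf_vy _
  vz := mf_vz _
  comm := mf_comm _
  ca3 := mf_ca3 _
  nine := h9
  sg1 := mf_sg1 _
  sg2 := mf_sg2 _
  sg3 := mf_sg3 _
  sg4' := mf_sg4' _
  ep1 := mf_ep1 _
  ep2 := mf_ep2 _

end CfsgLY
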