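/-
Lyons, L1: involutions of the double cover, the elementary abelian subgroups `E`, `E'`.
-/
import Cfsg.Agent.LY.L1b
import Cfsg.Agent.H4.ZStar

set_option autoImplicit false

namespace CfsgLY.L1

open Subgroup Equiv

theorem leaf_of {g : Perm (Fin 11)} (h : g * pE = pE * g) : leaf (ls g) = true := by
  have h0 : ∀ y, ap lE (g y).1 = (g (pE y)).1 := fun y => by
    rw [← ls_pE, ap_ls, ← Perm.mul_apply, ← h, Perm.mul_apply]
  have h1 : ∀ y, pE (g y) = g y ↔ pE y = y := fun y => by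
    rw [← Perm.mul_apply, ← h, Perm.mul_apply, g.apply_eq_iff_eq]
  have h2 : ∀ y, pE y ≠ y → (g y).1 ∈ List.range 8 := fun y hy =>
    (by decide +kernel : ∀ y, pE y ≠ y → y.1 ∈ List.range 8) _ (mt (h1 y).1 hy)
  have h3 : ∀ y, pE y = y → (g y).1 ∈ [8, 9, 10] := fun y hy =>
    (by decide +kernel : ∀ y, pE y = y → y.1 ∈ [8, 9, 10]) _ ((h1 y).2 hy)
  have e0 : ap lE (g 0).1 = (g 2).1 := (h0 0).trans (by rw [show pE 0 = 2 by decide +kernel])
  have e1 : ap lE (g 1).1 = (g 3).1 := (h0 1).trans (by rw [show pE 1 = 3 by decide +kernel])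
  have e4 : ap lE (g 4).1 = (g 6).1 := (h0 4).trans (by rw [show pE 4 = 6 by decide +kernel])
  have e5 : ap lE (g 5).1 = (g 7).1 := (h0 5).trans (by rw [show pE 5 = 7 by decide +kernel])
  have key := enum
  simp only [List.all_eq_true, Bool.or_eq_true, Bool.not_eq_true'] at key
  have nw' : ∀ (y : Fin 11) (l : List (Fin 11)), y ∉ l → ¬ nw (g y).1 (l.map fun i => (g i).1) = false :=
    fun y l hy => by
      simp only [nw, Bool.not_eq_false', List.contains_iff_mem, List.mem_map, not_exists, not_and]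
      intro i hi e
      exact hy (g.injective (Fin.ext e) ▸ hi)
  have k1 := (key _ (h2 0 (by decide +kernel)) _ (h2 1 (by decide +kernel))).resolve_left
    (by rw [e0]; exact nw' 1 [0, 2] (by decide))
  have k2 := (k1 _ (h2 4 (by decide +kernel))).resolve_left
    (by rw [e0, e1]; exact nw' 4 [0, 2, 1, 3] (by decide))
  have k3 := (k2 _ (h2 5 (by decide +kernel))).resolve_left
    (by rw [e0, e1, e4]; exact nw' 5 [0, 2, 1, 3, 4, 6] (by decide))
  have k4 := (k3 _ (h3 8 (by decide +kernel)) _ (h3 9 (by decide +kernel))).resolve_left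
    (nw' 9 [8] (by decide))
  have k5 := (k4 _ (h3 10 (by decide +kernel))).resolve_left (nw' 10 [8, 9] (by decide))
  rw [mk, e0, e1, e4, e5] at k5
  exact k5

theorem ne_ls {g k : Perm (Fin 11)} (h : ls g ≠ ls k) : g ≠ k := mt (congrArg ls) h

theorem all_of {l : List (Perm (Fin 11))} {p : Perm (Fin 11) → Prop} [DecidablePred p]
    (h : (l.all fun y => decide (p y)) = true) : ∀ y ∈ l, p y := by simpa using h

theorem sign_el : ∀ v ∈ el8 pE pU pA, Perm.sign v = 1 := by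
  have h1 : Perm.sign pE = 1 := by simp +decide [pE]
  have h2 : Perm.sign pU = 1 := by simp +decide [pU]
  have h3 : Perm.sign pA = 1 := by simp +decide [pA]
  simp [el8, h1, h2, h3]

theorem P1 {g : Perm (Fin 11)} (h1 : g * pE = pE * g) (h2 : g * pU = pU * g) (h3 : g * pA = pA * g)
    (hs : Perm.sign g = 1) : ∃ v ∈ el8 pE pU pA, ∃ j : ℕ, g = v * pX ^ j := by
  have h := leaf_of h1
  simp only [leaf, Bool.and_eq_true, Bool.or_eq_true, Bool.not_eq_true', List.contains_iff_mem] at h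
  have h4 := h.1.resolve_left (by
    rw [← ls_pU, ← ls_pA, ← ls_mul, ← ls_mul, ← ls_mul, ← ls_mul, h2, h3]; simp)
  obtain ⟨v, hv, j, -, e | e⟩ := LX_eq _ h4
  · exact ⟨v, hv, j, ls_inj e⟩
  · rw [ls_inj e, map_mul, map_mul, map_pow, sign_el v hv,
      (by simp +decide [pX] : Perm.sign pX = 1),
      Perm.sign_swap (by decide)] at hs
    simp at hs

theorem mem_LI {g : Perm (Fin 11)} (h1 : g * pE = pE * g) (h2 : g * g = 1) (h3 : g.support.card = 8)
    (h4 : (g * pE).support.card = 8) : ls g ∈ LI := by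
  have h := leaf_of h1
  simp only [leaf, Bool.and_eq_true, Bool.or_eq_true, Bool.not_eq_true', List.contains_iff_mem] at h
  refine h.2.resolve_left ?_
  rw [← ls_pE, ← ls_mul, ← ls_mul, mv_ls, mv_ls, h2, h3, h4]
  decide +kernel

theorem mem_of_ls {g : Perm (Fin 11)} {l : List (Perm (Fin 11))} (h : ls g ∈ l.map ls) : g ∈ l := by
  obtain ⟨k, hk, e⟩ := List.mem_map.1 h
  exact ls_inj e ▸ hk

theorem P2 {g k : Perm (Fin 11)} (hg : ls g ∈ LI) (hk : ls k ∈ LI) (h1 : g * k = k * g)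
    (h2 : (g * k).support.card = 8) (h3 : (g * k * pE).support.card = 8) :
    g ∈ el8 pE pU pA ∧ k ∈ el8 pE pU pA ∨ g ∈ el8 pE pU' pC ∧ k ∈ el8 pE pU' pC := by
  have h := pairs
  simp only [List.all_eq_true, Bool.or_eq_true, Bool.not_eq_true', Bool.and_eq_true,
    List.contains_iff_mem] at h
  have h4 := h _ hg _ hk
  rw [← ls_pE, ← ls_mul, ← ls_mul, ← ls_mul, mv_ls, mv_ls, h2, h3, h1, ← LE_eq, ← LE'_eq] at h4
  simp only [beq_self_eq_true, Bool.true_eq_false, false_or] at h4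
  exact h4.imp (And.imp mem_of_ls mem_of_ls) (And.imp mem_of_ls mem_of_ls)

theorem cyc_inv {σ : Perm (Fin 11)} (h : σ * σ = 1) :
    σ.cycleType = Multiset.replicate σ.cycleType.card 2 ∧ σ.support.card = 2 * σ.cycleType.card := by
  have h1 : σ.cycleType = Multiset.replicate σ.cycleType.card 2 :=
    Multiset.eq_replicate_card.2 fun n hn => le_antisymm (Nat.le_of_dvd two_pos
      ((Perm.dvd_of_mem_cycleType hn).trans (orderOf_dvd_of_pow_eq_one (by rw [sq, h]))))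
      (Perm.two_le_of_mem_cycleType hn)
  refine ⟨h1, ?_⟩
  rw [← Perm.sum_cycleType, h1]; simp [mul_comm]

theorem conj_inv' {σ τ : Perm (Fin 11)} (h : σ * σ = 1) (h' : τ * τ = 1)
    (hσ : σ ∈ alternatingGroup (Fin 11)) (hτ : τ ∈ alternatingGroup (Fin 11))
    (e : σ.support.card = τ.support.card) (e' : σ.support.card ≤ 9) :
    ∃ g ∈ alternatingGroup (Fin 11), g * σ * g⁻¹ = τ := by
  obtain ⟨h1, h2⟩ := cyc_inv h
  obtain ⟨h3, h4⟩ := cyc_inv h'
  obtain ⟨g, hg⟩ := isConj_iff.1 (alternatingGroup.isConj_of (σ := ⟨σ, hσ⟩) (τ := ⟨τ, hτ⟩)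
    (Perm.isConj_iff_cycleType_eq.2 (by
      change σ.cycleType = τ.cycleType
      rw [h1, h3]; congr 1; omega)) (by simpa using e'))
  exact ⟨g, g.2, congrArg Subtype.val hg⟩

variable {H : Type*} [Group H] {π : H →* Perm (Fin 11)} {t : H}

theorem DC.supp (h : DC π t) {v : H} (vv : v * v = 1) (v1 : v ≠ 1) (vt : v ≠ t) :
    (π v).support.card = 8 := by
  have h1 : π v * π v = 1 := by rw [← map_mul, vv, map_one]
  obtain ⟨h2, h3⟩ := cyc_inv h1
  have h4 := Perm.sign_of_cycleType (π v)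
  rw [Perm.mem_alternatingGroup.1 (h.mem v), Perm.sum_cycleType, h3] at h4
  have h5 : (π v).support.card ≤ 11 := by simpa using Finset.card_le_univ (π v).support
  have h6 : (π v).support.card ≠ 0 := fun e => by
    rw [Finset.card_eq_zero, Perm.support_eq_empty_iff, h.ker] at e
    exact e.elim v1 vt
  have h7 : (π v).support.card ≠ 4 := fun e => by
    obtain ⟨x, x1, x2, -⟩ := h.gens
    have e1 : π (x 0 * x 1) = c11 0 * c11 1 := by
      rw [map_mul, (x1 0 (by omega)).1, (x1 1 (by omega)).1]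
    obtain ⟨g, hg, e2⟩ := conj_inv' h1 (τ := π (x 0 * x 1)) (by rw [e1]; exact ls_inj (by decide +kernel)) (h.mem v)
      (h.mem _) (by rw [e, e1, ← mv_ls]; decide +kernel) (by omega)
    obtain ⟨g, rfl⟩ := h.surj hg
    have e3 := x2 0 1 (by omega) (by omega)
    rw [← map_inv, ← map_mul, ← map_mul] at e2
    have e4 : (g * v * g⁻¹) ^ 2 = 1 := by rw [conj_pow, sq, vv]; simp
    rcases h.eq_or e2 with e5 | e5 <;> rw [e5] at e4
    · exact h.t1 (e3.symm.trans e4)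
    · rw [h.mul_t_pow, e3, sq, h.tt, mul_one] at e4; exact h.t1 e4
  generalize (π v).cycleType.card = k at h3 h4
  rw [h3] at h5 h6 h7 ⊢
  have h8 : k ≤ 5 := by omega
  interval_cases k <;> first | omega | exact absurd h4 (by decide)

theorem DC.F1 (h : DC π t) {e b : H} (he : π e = pE) (hb : b * e * b⁻¹ = e * t) {v : H}
    (vv : v * v = 1) (v1 : v ≠ 1) (vt : v ≠ t) : ∃ g, g * e * g⁻¹ = v := by
  obtain ⟨g, hg, e2⟩ := conj_inv' (σ := π e) (τ := π v) (by rw [he]; exact ls_inj (by decide +kernel))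
    (by rw [← map_mul, vv, map_one]) (h.mem e) (h.mem v)
    (by rw [h.supp vv v1 vt, he, ← mv_ls]; decide +kernel) (by rw [he, ← mv_ls]; decide +kernel)
  obtain ⟨g, rfl⟩ := h.surj hg
  rw [← map_inv, ← map_mul, ← map_mul] at e2
  rcases h.eq_or e2.symm with e3 | e3
  · exact ⟨g, e3.symm⟩
  · refine ⟨g * b, ?_⟩
    rw [e3, mul_assoc (g * e), h.cen, show g * b * e * (g * b)⁻¹ = g * (b * e * b⁻¹) * g⁻¹ by group,
      hb]; group

/-- automorphisms induced by the symmetric group -/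
theorem DC.exists_twist (h : DC π t) (σ : Perm (Fin 11)) : ∃ θ : H ≃* H,
    (∀ g, π (θ g) = σ * π g * σ⁻¹) ∧ θ t = t ∧
    ∀ a b : H, ∀ n, Odd n → a ^ n = 1 → b ^ n = 1 → σ * π a * σ⁻¹ = π b → θ a = b := by
  have hc : ∀ τ : Perm (Fin 11), (alternatingGroup (Fin 11)).map (MulAut.conj τ).toMonoidHom =
      alternatingGroup (Fin 11) := fun τ => Normal.conj_smul_eq_self τ _
  have h' : DC ((MulAut.conj σ).toMonoidHom.comp π) t :=
    ⟨by rw [MonoidHom.range_comp, h.rng, hc], fun g => by rw [← h.ker]; simp, h.t1, h.cen,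
      fun L hL => h.ns L (by
        rw [← map_map, ← hc σ] at hL
        exact map_injective (MulAut.conj σ).injective hL)⟩
  obtain ⟨θ, e1, e2⟩ := h'.exists_equiv h
  exact ⟨θ, e1, e2, fun a b n hn ha hb e => h.eq_of_odd hn (by rw [← map_pow, ha, map_one]) hb
    ((e1 a).trans e)⟩

theorem DC.mem_cl (h : DC π t) {e u a y : H} (hy : π y ∈ el8 (π e) (π u) (π a)) :
    y ∈ closure ({t, e, u, a} : Set H) := by
  have h0 : t ∈ closure ({t, e, u, a} : Set H) := subset_closure (by simp)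
  have h1 : e ∈ closure ({t, e, u, a} : Set H) := subset_closure (by simp)
  have h2 : u ∈ closure ({t, e, u, a} : Set H) := subset_closure (by simp)
  have h3 : a ∈ closure ({t, e, u, a} : Set H) := subset_closure (by simp)
  obtain ⟨v, hv, e1⟩ : ∃ v ∈ closure ({t, e, u, a} : Set H), π y = π v := by
    simp only [el8, List.mem_cons, List.not_mem_nil, or_false, ← map_mul] at hy
    rcases hy with e1 | e1 | e1 | e1 | e1 | e1 | e1 | e1
    exacts [⟨1, one_mem _, e1.trans (map_one π).symm⟩, ⟨_, h1, e1⟩, ⟨_, h2, e1⟩, ⟨_, h3, e1⟩,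
      ⟨_, mul_mem h1 h2, e1⟩, ⟨_, mul_mem h1 h3, e1⟩, ⟨_, mul_mem h2 h3, e1⟩,
      ⟨_, mul_mem (mul_mem h1 h2) h3, e1⟩]
  rcases h.eq_or e1 with rfl | rfl
  exacts [hv, mul_mem hv h0]

/-- the image of `w` -/
def pW : Perm (Fin 11) := swap 1 3 * swap 4 5 * swap 6 7 * swap 9 10

/-- the letters -/
structure Let (π : H →* Perm (Fin 11)) (t e u u' a c x w : H) : Prop extends DC π t where
  pe : π e = pE
  pu : π u = pU
  pu' : π u' = pU'
  pa : π a = pA
  pc : π c = pC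
  px : π x = pX
  pw : π w = pW
  ee : e * e = 1
  uu : u * u = 1
  uu' : u' * u' = 1
  aa : a * a = 1
  cc : c * c = 1
  eu : e * u = u * e
  ea : e * a = a * e
  ua : u * a = a * u
  eu' : e * u' = u' * e
  ec : e * c = c * e
  uc : u' * c = c * u'
  we : w * e = e * w
  be : ∃ b, b * e * b⁻¹ = e * t

variable {G : Type*} [Group G] {e u u' a c x w : H} {φ : H →* G}

theorem map_cl (φ : H →* G) {y : H} (hy : y ∈ closure ({t, e, u, a} : Set H)) :
    φ y ∈ closure ({φ t, φ e, φ u, φ a} : Set G) := by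
  have := mem_map_of_mem φ hy
  rwa [MonoidHom.map_closure, Set.image_insert_eq, Set.image_insert_eq, Set.image_insert_eq,
    Set.image_singleton] at this

theorem Let.hC (h : Let π t e u u' a c x w) (inj : Function.Injective φ)
    (rng : ∀ g, Commute g (φ t) → g ∈ φ.range) (g : G) (hg : Commute g (φ t))
    (h1 : ∀ v ∈ [φ e, φ u, φ a], g * v * g⁻¹ = v ∨ g * v * g⁻¹ = φ t * v) :
    ∃ v ∈ closure ({φ t, φ e, φ u, φ a} : Set G), ∃ j : ℕ, g = v * φ x ^ j := by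
  obtain ⟨g, rfl⟩ := rng g hg
  have key : ∀ y, φ y ∈ [φ e, φ u, φ a] → π g * π y = π y * π g := fun y hy => by
    have := h1 _ hy
    rw [← map_inv, ← map_mul, ← map_mul, ← map_mul, inj.eq_iff, inj.eq_iff] at this
    rw [← mul_inv_eq_iff_eq_mul, ← map_inv, ← map_mul, ← map_mul]
    rcases this with e1 | e1 <;> rw [e1]
    rw [map_mul, h.πt, one_mul]
  obtain ⟨v, hv, j, e1⟩ := P1 (h.pe ▸ key e (by simp)) (h.pu ▸ key u (by simp))
    (h.pa ▸ key a (by simp)) (Perm.mem_alternatingGroup.1 (h.mem g))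
  refine ⟨φ (g * (x ^ j)⁻¹), map_cl φ (h.mem_cl ?_), j, by simp⟩
  rw [h.pe, h.pu, h.pa, map_mul, map_inv, map_pow, h.px, e1, mul_inv_cancel_right]
  exact hv

theorem DC.img (h : DC π t) (inj : Function.Injective φ)
    (rng : ∀ g, Commute g (φ t) → g ∈ φ.range) (pe : π e = pE) {n : G}
    (n1 : n * φ t * n⁻¹ = φ e) (n2 : n * φ e * n⁻¹ = φ t) (uu : u * u = 1) (aa : a * a = 1)
    (eu : e * u = u * e) (ea : e * a = a * e) (ua : u * a = a * u)
    (ne : ∀ y ∈ [π u, π a, π u * π a], y ≠ 1 ∧ y ≠ pE) :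
    ∃ u₁ a₁, φ u₁ = n * φ u * n⁻¹ ∧ φ a₁ = n * φ a * n⁻¹ ∧
      (π u₁ ∈ el8 pE pU pA ∧ π a₁ ∈ el8 pE pU pA ∨ π u₁ ∈ el8 pE pU' pC ∧ π a₁ ∈ el8 pE pU' pC) := by
  have c1 : ∀ y, e * y = y * e → ∃ y₁, φ y₁ = n * φ y * n⁻¹ := fun y hy => rng _ (by
    rw [← n2, Commute, SemiconjBy, conj_mul, conj_mul, ← map_mul, ← hy, map_mul])
  have c2 : ∀ {y y₁ z z₁}, φ y₁ = n * φ y * n⁻¹ → φ z₁ = n * φ z * n⁻¹ →
      φ (y₁ * z₁) = n * φ (y * z) * n⁻¹ := fun e1 e2 => by
    rw [map_mul, e1, e2, conj_mul, map_mul]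
  have c3 : ∀ {y y₁ z z₁}, φ y₁ = n * φ y * n⁻¹ → φ z₁ = n * φ z * n⁻¹ → (y₁ = z₁ ↔ y = z) :=
    fun e1 e2 => by rw [← inj.eq_iff, e1, e2, mul_left_inj, mul_right_inj, inj.eq_iff]
  have c0 : φ 1 = n * φ 1 * n⁻¹ := by simp
  have c4 : ∀ {y y₁}, φ y₁ = n * φ y * n⁻¹ → y * y = 1 → π y ≠ 1 ∧ π y ≠ pE →
      (π y₁).support.card = 8 := fun e1 yy hy => h.supp ((c3 (c2 e1 e1) c0).2 yy)
        (mt (c3 e1 c0).1 fun e => hy.1 (by rw [e, map_one]))
        (mt (c3 e1 n2.symm).1 fun e => hy.2 (by rw [e, pe]))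
  have c5 : ∀ {y y₁}, φ y₁ = n * φ y * n⁻¹ → y * y = 1 → π y ≠ 1 ∧ π y ≠ pE →
      (π y₁ * pE).support.card = 8 := fun {y y₁} e1 yy hy => by
    rw [← pe, ← map_mul]
    exact c4 (c2 e1 n1.symm) (by rw [← sq, h.mul_t_pow, sq, sq, yy, h.tt, one_mul])
      (by rwa [map_mul, h.πt, mul_one])
  have c6 : ∀ {y y₁}, φ y₁ = n * φ y * n⁻¹ → y * y = 1 → π y ≠ 1 ∧ π y ≠ pE → ls (π y₁) ∈ LI :=
    fun {y y₁} e1 yy hy => mem_LI (by
      rw [← pe, ← map_mul, ← map_mul, (c3 (c2 e1 n1.symm) (c2 n1.symm e1)).2 (h.cen y)])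
      (by rw [← map_mul, (c3 (c2 e1 e1) c0).2 yy, map_one]) (c4 e1 yy hy) (c5 e1 yy hy)
  obtain ⟨u₁, e1⟩ := c1 u eu
  obtain ⟨a₁, e2⟩ := c1 a ea
  have ua2 : u * a * (u * a) = 1 := by
    rw [← mul_assoc, mul_assoc u, ← ua, ← mul_assoc, uu, one_mul, aa]
  have h3 := ne (π u * π a) (by simp)
  rw [← map_mul] at h3
  refine ⟨u₁, a₁, e1, e2, P2 (c6 e1 uu (ne _ (by simp))) (c6 e2 aa (ne _ (by simp))) ?_ ?_ ?_⟩
  · rw [← map_mul, ← map_mul, (c3 (c2 e1 e2) (c2 e2 e1)).2 ua]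
  · rw [← map_mul]; exact c4 (c2 e1 e2) ua2 h3
  · rw [← map_mul]; exact c5 (c2 e1 e2) ua2 h3

theorem DC.comm_cl (h : DC π t) (eu : e * u = u * e) (ea : e * a = a * e) (ua : u * a = a * u)
    {y z : H} (hy : y ∈ closure ({t, e, u, a} : Set H)) (hz : z ∈ closure ({t, e, u, a} : Set H)) :
    y * z = z * y := by
  have := isMulCommutative_closure (k := ({t, e, u, a} : Set H)) (by
    have := h.cen
    simp only [Set.mem_insert_iff, Set.mem_singleton_iff]
    rintro _ (rfl | rfl | rfl | rfl) _ (rfl | rfl | rfl | rfl) <;> simp [*])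
  exact setLike_mul_comm hy hz

theorem Let.exists_n [Finite G] [IsSimpleGroup G] (h : Let π t e u u' a c x w)
    (inj : Function.Injective φ) (rng : ∀ g, Commute g (φ t) → g ∈ φ.range) :
    ∃ n : G, n * φ t * n⁻¹ = φ e ∧ n * φ e * n⁻¹ = φ t ∧
      (∀ v ∈ [φ u, φ a], n * v * n⁻¹ ∈ closure ({φ t, φ e, φ u, φ a} : Set G)) ∧
      ∀ v ∈ [φ u', φ c], n * v * n⁻¹ ∈ closure ({φ t, φ e, φ u', φ c} : Set G) := by
  obtain ⟨b, hb⟩ := h.be
  have tt : φ t * φ t = 1 := by rw [← map_mul, h.tt, map_one]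
  have ot : orderOf (φ t) = 2 := by rw [orderOf_injective φ inj, h.ord_t]
  have e1 : π e ≠ 1 := by rw [h.pe]; exact ne_ls (by decide +kernel)
  have et : φ e ≠ φ t := fun e2 => e1 (by rw [inj e2, h.πt])
  have F1 : ∀ g, Commute (g * φ t * g⁻¹) (φ t) → g * φ t * g⁻¹ ≠ φ t →
      ∃ k, φ k * φ e * (φ k)⁻¹ = g * φ t * g⁻¹ := fun g hg hne => by
    obtain ⟨v, hv⟩ := rng _ hg
    obtain ⟨k, hk⟩ := h.F1 h.pe hb (v := v) (inj (by rw [map_mul, hv, conj_mul, tt]; simp))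
      (fun e => h.t1 (inj (by rw [e, map_one, eq_comm, conj_eq_one_iff] at hv; rw [hv, map_one])))
      (fun e => hne (by rw [← hv, e]))
    exact ⟨k, by rw [← hv, ← hk]; simp⟩
  obtain ⟨g, hg⟩ : ∃ g, g * φ t * g⁻¹ = φ e := by
    by_contra hn
    have hi := CfsgH4.zstar tt (CfsgH4.isol_of_commute ot fun v hv hc => by
      obtain ⟨g, rfl⟩ := isConj_iff.1 hv
      by_contra hne
      obtain ⟨k, hk⟩ := F1 g hc.symm hne
      refine hn ⟨(φ k)⁻¹ * g, ?_⟩
      rw [show (φ k)⁻¹ * g * φ t * ((φ k)⁻¹ * g)⁻¹ = (φ k)⁻¹ * (g * φ t * g⁻¹) * φ k by group, ← hk]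
      group)
    rcases (inferInstance : (Cfsg.pPrimeCore 2 G).Normal).eq_bot_or_eq_top with e2 | e2
    · have hc : ∀ g, g * φ t = φ t * g := fun g => by
        have := hi g
        rw [e2, mem_bot, mul_inv_eq_one, mul_inv_eq_iff_eq_mul] at this
        exact this.symm
      have hn : (zpowers (φ t)).Normal := ⟨fun k hk g => by
        obtain ⟨i, rfl⟩ := mem_zpowers_iff.1 hk
        rwa [((show Commute g (φ t) from hc g).zpow_right i).eq, mul_inv_cancel_right]⟩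
      rcases hn.eq_bot_or_eq_top with e3 | e3
      · exact h.t1 (inj (by rw [map_one, ← mem_bot, ← e3]; exact mem_zpowers _))
      · have : φ e ∈ (zpowers t).map φ := by rw [MonoidHom.map_zpowers, e3]; exact mem_top _
        rw [mem_map_iff_mem inj, ← h.ker_eq] at this
        exact e1 this
    · have := CfsgH4.odd_card_pPrimeCore (G := G)
      rw [e2] at this
      exact this.not_two_dvd_nat (ot ▸ orderOf_dvd_natCard ⊤ (mem_top _))
  obtain ⟨k, hk⟩ := F1 g⁻¹ (by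
      have : Commute (φ t) (φ e) := by rw [Commute, SemiconjBy, ← map_mul, ← h.cen, map_mul]
      rw [← hg] at this
      simpa [mul_assoc] using this.conj g⁻¹) (fun e2 => et (by
      rw [← hg]; nth_rewrite 1 [← e2]; group))
  have n1 : g * φ k * φ t * (g * φ k)⁻¹ = φ e := by
    rw [mul_assoc g, ← map_mul, h.cen, map_mul, ← hg]; group
  have n2 : g * φ k * φ e * (g * φ k)⁻¹ = φ t := by
    rw [show g * φ k * φ e * (g * φ k)⁻¹ = g * (φ k * φ e * (φ k)⁻¹) * g⁻¹ by group, hk]; group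
  generalize g * φ k = n at n1 n2
  obtain ⟨u₁, a₁, f1, f2, f3⟩ := h.img inj rng h.pe n1 n2 h.uu h.aa h.eu h.ea h.ua
    (by
      rw [h.pu, h.pa]
      exact fun y hy => (all_of (p := fun y => ls y ≠ ls 1 ∧ ls y ≠ ls pE) (by decide +kernel)
        y hy).imp ne_ls ne_ls)
  obtain ⟨u₂, c₂, f4, f5, f6⟩ := h.img inj rng h.pe n1 n2 h.uu' h.cc h.eu' h.ec h.uc
    (by
      rw [h.pu', h.pc]
      exact fun y hy => (all_of (p := fun y => ls y ≠ ls 1 ∧ ls y ≠ ls pE) (by decide +kernel)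
        y hy).imp ne_ls ne_ls)
  have mE : ∀ {y}, π y ∈ el8 pE pU pA → y ∈ closure ({t, e, u, a} : Set H) := fun hy =>
    h.mem_cl (by rwa [h.pe, h.pu, h.pa])
  have mF : ∀ {y}, π y ∈ el8 pE pU' pC → y ∈ closure ({t, e, u', c} : Set H) := fun hy =>
    h.mem_cl (by rwa [h.pe, h.pu', h.pc])
  have nc : u₁ * c₂ ≠ c₂ * u₁ := fun e2 => by
    have := congrArg φ e2
    rw [map_mul, map_mul, f1, f5, conj_mul, conj_mul, mul_left_inj, mul_right_inj, ← map_mul,
      ← map_mul] at this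
    have := congrArg π (inj this)
    rw [map_mul, map_mul, h.pu, h.pc] at this
    exact absurd this (ne_ls (by decide +kernel))
  rcases f3 with f3 | f3 <;> rcases f6 with f6 | f6
  · exact absurd (h.comm_cl h.eu h.ea h.ua (mE f3.1) (mE f6.2)) nc
  · refine ⟨n, n1, n2, ?_, ?_⟩ <;> simp only [List.forall_mem_cons, List.not_mem_nil, false_imp_iff,
      implies_true, and_true, ← f1, ← f2, ← f4, ← f5]
    exacts [⟨map_cl φ (mE f3.1), map_cl φ (mE f3.2)⟩, ⟨map_cl φ (mF f6.1), map_cl φ (mF f6.2)⟩]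
  · have cw : ∀ y z, φ z = n * φ y * n⁻¹ → φ w * n * φ y * (φ w * n)⁻¹ = φ (w * z * w⁻¹) :=
      fun y z e2 => by rw [map_mul, map_mul, map_inv, e2]; group
    have w1 : ∀ {y}, π y ∈ el8 pE pU' pC → π (w * y * w⁻¹) ∈ el8 pE pU pA := fun hy => by
      rw [map_mul, map_mul, map_inv, h.pw]
      exact mem_of_ls (all_of (p := fun y => ls (pW * y * pW⁻¹) ∈ (el8 pE pU pA).map ls)
        (by decide +kernel) _ hy)
    have w2 : ∀ {y}, π y ∈ el8 pE pU pA → π (w * y * w⁻¹) ∈ el8 pE pU' pC := fun hy => by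
      rw [map_mul, map_mul, map_inv, h.pw]
      exact mem_of_ls (all_of (p := fun y => ls (pW * y * pW⁻¹) ∈ (el8 pE pU' pC).map ls)
        (by decide +kernel) _ hy)
    refine ⟨φ w * n, by rw [cw _ _ n1.symm, h.we, mul_inv_cancel_right],
      by rw [cw _ _ n2.symm, h.cen, mul_inv_cancel_right], ?_, ?_⟩ <;>
      simp only [List.forall_mem_cons, List.not_mem_nil, false_imp_iff, implies_true, and_true,
        cw _ _ f1, cw _ _ f2, cw _ _ f4, cw _ _ f5]
    exacts [⟨map_cl φ (mE (w1 f3.1)), map_cl φ (mE (w1 f3.2))⟩,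
      ⟨map_cl φ (mF (w2 f6.1)), map_cl φ (mF (w2 f6.2))⟩]
  · exact absurd (h.comm_cl h.eu' h.ec h.uc (mF f3.1) (mF f6.2)) nc

end CfsgLY.L1
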