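/-
Lyons, L1: the embedding of the model `2.A₁₁` and the element `p`.
-/
import Cfsg.Agent.LY.L1c
import Cfsg.Agent.LY.L5m

set_option autoImplicit false

namespace CfsgLY.L1

open Subgroup Equiv

theorem hEq2 {a b c d : ℕ} (h : eqL OH RH MH [a, b] [c, d] = true) : hh a * hh b = hh c * hh d := by
  simpa [hw_cons, hw_nil] using hEq h

theorem hSq {a : ℕ} (h : eqL OH RH MH [a, a] [] = true) : hh a * hh a = 1 := by
  simpa [hw_cons, hw_nil] using hEq h

theorem dcH : DC rho (hh 9) := by
  have h9 : rho (hh 9) = 1 := rho9.trans (ls_inj (by decide +kernel))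
  have hc : ∀ h, h * hh 9 = hh 9 * h := fun h => by
    have : (⊤ : Subgroup H6) ≤ centralizer {hh 9} := by
      rw [← closH, closure_le]
      rintro _ ⟨i, hi, rfl⟩
      exact mem_centralizer_singleton_iff.2 (carHc i hi).symm.eq
    exact mem_centralizer_singleton_iff.1 (this (mem_top h))
  refine ⟨rho_range, fun h => ⟨rho_ker h, ?_⟩, t_ne, hc, fun L hL => ?_⟩
  · rintro (rfl | rfl)
    exacts [map_one _, h9]
  · have key : ∀ i, i < 9 → hh (51 + i) ∈ L := fun i hi => by
      obtain ⟨l, hl, e⟩ : rho (hh (51 + i)) ∈ L.map rho := by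
        rw [hL, ← rho_range]; exact ⟨_, rfl⟩
      rcases rho_ker ((hh (51 + i))⁻¹ * l) (by rw [map_mul, map_inv, e, inv_mul_cancel]) with e1 | e1
      · exact inv_mul_eq_one.1 e1 ▸ hl
      · have := pow_mem hl 4
        rwa [inv_mul_eq_iff_eq_mul.1 e1, Commute.mul_pow (hc _), show 4 = 3 + 1 from rfl, pow_succ,
          carH3 i hi, one_mul, show 3 + 1 = 2 * 2 from rfl, pow_mul, sq (hh 9), t_sq, one_pow,
          mul_one] at this
    rw [← carH2 0 1 (by omega) (by omega)]
    exact pow_mem (mul_mem (key 0 (by omega)) (key 1 (by omega))) 2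

theorem letH : Let rho (hh 9) (hh 16) (hh 17) (hh 18) (hh 10) (hh 12) (hh 7) (hh 8) :=
  { dcH with
    pe := rho16.trans (ls_inj (by decide +kernel))
    pu := rho17.trans (ls_inj (by decide +kernel))
    pu' := rho18.trans (ls_inj (by decide +kernel))
    pa := rho10.trans (ls_inj (by decide +kernel))
    pc := rho12.trans (ls_inj (by decide +kernel))
    px := rho7.trans (ls_inj (by decide +kernel))
    pw := rho8.trans (ls_inj (by decide +kernel))
    ee := hSq (by decide +kernel)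
    uu := hSq (by decide +kernel)
    uu' := hSq (by decide +kernel)
    aa := hSq (by decide +kernel)
    cc := hSq (by decide +kernel)
    eu := hEq2 (by decide +kernel)
    ea := hEq2 (by decide +kernel)
    ua := hEq2 (by decide +kernel)
    eu' := hEq2 (by decide +kernel)
    ec := hEq2 (by decide +kernel)
    uc := hEq2 (by decide +kernel)
    we := hEq2 (by decide +kernel)
    be := ⟨hh 11, mul_inv_eq_iff_eq_mul.2 (by
      simpa [hw_cons, hw_nil, mul_assoc] using
        hEq (l := [11, 16]) (l' := [16, 9, 11]) (by decide +kernel))⟩ }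

variable {G : Type*} [Group G]

theorem exists_phi {t : G} (ht : orderOf t = 2)
    (hC : Cfsg.IsNonsplitDoubleCover (centralizer ({t} : Set G)) (alternatingGroup (Fin 11))) :
    ∃ φ : H6 →* G, Function.Injective φ ∧ φ (hh 9) = t ∧ ∀ g, Commute g t → g ∈ φ.range := by
  have tC : t ∈ centralizer ({t} : Set G) := mem_centralizer_singleton_iff.2 rfl
  obtain ⟨π, hπ⟩ := exists_DC hC (t := ⟨t, tC⟩)
    (fun e => by rw [show t = 1 from congrArg Subtype.val e, orderOf_one] at ht; omega)
    fun h => Subtype.ext (mem_centralizer_singleton_iff.1 h.2)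
  obtain ⟨e, -, e2⟩ := dcH.exists_equiv hπ
  refine ⟨(centralizer {t}).subtype.comp e.toMonoidHom, (subtype_injective _).comp e.injective,
    congrArg Subtype.val e2, fun g hg => ⟨e.symm ⟨g, mem_centralizer_singleton_iff.2 hg.eq⟩, ?_⟩⟩
  simp

/-- the output of L1 -/
structure Out1 (φ : H6 →* G) (p : G) (k : ℕ) : Prop where
  inj : Function.Injective φ
  rng : ∀ g, Commute g (φ (hh 9)) → g ∈ φ.range
  pp : p * p = 1
  px : Commute p (φ (hh 7))
  relP : ∀ l ∈ L5.relP, (l.map (Function.update (fun s => φ (L5.gH s)) 7 p)).prod = 1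
  hk : ([7, 5, 2, 7, 5, 2].map (Function.update (fun s => φ (L5.gH s)) 7 p)).prod = φ (hh 7) ^ k
  hw : φ (hh 8) * p * (φ (hh 8))⁻¹ = p ∨ φ (hh 8) * p * (φ (hh 8))⁻¹ = p * φ (hh 9 * hh 16)

theorem exists_L1 [Finite G] [IsSimpleGroup G] {t : G} (ht : orderOf t = 2)
    (hC : Cfsg.IsNonsplitDoubleCover (centralizer ({t} : Set G)) (alternatingGroup (Fin 11))) :
    ∃ (φ : H6 →* G) (p : G) (k : ℕ), Out1 φ p k := by
  obtain ⟨φ, inj, rfl, rng⟩ := exists_phi ht hC
  obtain ⟨n, h1, h2, hE, hF⟩ := letH.exists_n inj rng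
  obtain ⟨p, p1, p2, p3, ⟨k, p4⟩, p5⟩ := L5.main_H6 φ (fun e => t_ne (inj (e.trans (map_one φ).symm)))
    (letH.hC inj rng) n h1 h2 hE hF
  exact ⟨φ, p, k, inj, rng, p1, p2, p3, p4, p5⟩

end CfsgLY.L1
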