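/-
Lyons, L1: twisting the embedding by the outer automorphism.
-/
import Cfsg.Agent.LY.L1

set_option autoImplicit false

namespace CfsgLY.L1

open Subgroup Equiv

theorem hCube {a : ℕ} (h : eqL OH RH MH [a, a, a] [] = true) : hh a ^ 3 = 1 := by
  simpa [hw_cons, hw_nil, pow_succ, mul_assoc] using hEq h

theorem exists_theta : ∃ θ : H6 ≃* H6, (∀ g ∈ A8, θ g = g) ∧ θ (hh 7) = (hh 7)⁻¹ ∧
    (θ (hh 8) = hh 8 ∨ θ (hh 8) = hh 8 * hh 9) := by
  obtain ⟨θ, h1, -, h3⟩ := dcH.exists_twist (swap 9 10)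
  have key : ∀ r π, rho (hh r) = π → eqL OH RH MH [r, r, r] [] = true →
      ls (swap 9 10 * π * (swap 9 10)⁻¹) = ls π → θ (hh r) = hh r := fun r π e1 e2 e3 =>
    h3 _ _ 3 (by decide) (hCube e2) (hCube e2) (by rw [e1, ls_inj e3])
  refine ⟨θ, fun g hg => (closure_le (θ.toMonoidHom.eqLocus (MonoidHom.id _))).2 ?_ hg,
    h3 _ _ 3 (by decide) (hCube (by decide +kernel)) (by rw [inv_pow, hCube (by decide +kernel), inv_one])
      (by rw [map_inv, rho7]; exact ls_inj (by decide +kernel)),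
    dcH.eq_or (by rw [h1, rho8]; exact ls_inj (by decide +kernel))⟩
  rintro _ ⟨i, hi, rfl⟩
  have h4 : i < 7 := by
    by_contra h
    rw [Nat.testBit_lt_two_pow (lt_of_lt_of_le (by norm_num : 126 < 2 ^ 7)
      (Nat.pow_le_pow_right two_pos (not_lt.1 h)))] at hi
    exact absurd hi (by decide)
  change θ (hh i) = hh i
  interval_cases i
  · exact absurd hi (by decide)
  · exact key _ _ rho1 (by decide +kernel) (by decide +kernel)
  · exact key _ _ rho2 (by decide +kernel) (by decide +kernel)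
  · exact key _ _ rho3 (by decide +kernel) (by decide +kernel)
  · exact key _ _ rho4 (by decide +kernel) (by decide +kernel)
  · exact key _ _ rho5 (by decide +kernel) (by decide +kernel)
  · exact key _ _ rho6 (by decide +kernel) (by decide +kernel)

theorem memA {r : ℕ} {π : Perm (Fin 11)} (e : rho (hh r) = π) (h : π 8 = 8 ∧ π 9 = 9 ∧ π 10 = 10) :
    hh r ∈ A8 := mem_A8 _ (e ▸ h.1) (e ▸ h.2.1) (e ▸ h.2.2)

variable {G : Type*} [Group G] {φ : H6 →* G} {p : G} {k : ℕ}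

theorem Out1.ptp (h : Out1 φ p k) : p * φ (hh 9) * p = φ (hh 16) := by
  have h1 := h.relP [7, 1, 3, 1, 3, 7, 2, 3, 2, 3, 1, 3, 2, 3, 2, 1] (by decide)
  have h2 : hh 9 = hh 10 * hh 12 * hh 10 * hh 12 := by
    simpa [hw_cons, hw_nil, mul_assoc] using
      hEq (l := [9]) (l' := [10, 12, 10, 12]) (by decide +kernel)
  have h3 : hh 11 * hh 12 * hh 11 * hh 12 * hh 10 * hh 12 * hh 11 * hh 12 * hh 11 * hh 10 * hh 16 = 1 := by
    simpa [hw_cons, hw_nil, mul_assoc] using
      hEq (l := [11, 12, 11, 12, 10, 12, 11, 12, 11, 10, 16]) (l' := []) (by decide +kernel)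
  rw [← inv_eq_of_mul_eq_one_right h3, h2, map_inv, eq_inv_iff_mul_eq_one, ← h1]
  simp [L5.gH, L5.reg, mul_assoc]

theorem Out1.twist (h : Out1 φ p k) : ∃ φ' : H6 →* G, Out1 φ' p (2 * k) := by
  obtain ⟨θ, h1, h2, h3⟩ := exists_theta
  have e9 := h1 _ (memA rho9 (by decide))
  have e16 := h1 _ (memA rho16 (by decide))
  have key : ∀ l : List ℕ, (∀ s ∈ l, s ∈ [1, 2, 3, 4, 5, 6, 7]) →
      l.map (Function.update (fun s => φ (θ (L5.gH s))) 7 p) =
        l.map (Function.update (fun s => φ (L5.gH s)) 7 p) := fun l hl =>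
    List.map_congr_left fun s hs => by
      have := hl s hs
      simp only [List.mem_cons, List.not_mem_nil, or_false] at this
      rcases this with rfl | rfl | rfl | rfl | rfl | rfl | rfl <;>
        simp only [Function.update_apply, Nat.reduceEqDiff, OfNat.one_ne_ofNat, if_false, if_true]
      exacts [congrArg φ (h1 _ (memA rho10 (by decide))), congrArg φ (h1 _ (memA rho11 (by decide))),
        congrArg φ (h1 _ (memA rho12 (by decide))), congrArg φ (h1 _ (memA rho13 (by decide))),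
        congrArg φ (h1 _ (memA rho14 (by decide))), congrArg φ (h1 _ (memA rho15 (by decide)))]
  refine ⟨φ.comp θ.toMonoidHom, h.inj.comp θ.injective, fun g hg => ?_, h.pp, ?_, fun l hl => ?_,
    ?_, ?_⟩ <;> simp only [MonoidHom.comp_apply, MulEquiv.coe_toMonoidHom] at *
  · obtain ⟨a, rfl⟩ := h.rng g (e9 ▸ hg)
    exact ⟨θ.symm a, by simp⟩
  · rw [h2, map_inv]; exact h.px.inv_right
  · rw [key l ((by decide : ∀ l ∈ L5.relP, ∀ s ∈ l, s ∈ [1, 2, 3, 4, 5, 6, 7]) l hl)]
    exact h.relP l hl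
  · rw [key _ (by decide), h.hk, h2, pow_mul, ← map_pow φ _ 2]
    congr 2
    rw [inv_pow, eq_inv_iff_mul_eq_one, ← pow_succ', hCube (by decide +kernel)]
  · rw [map_mul θ, e9, e16]
    rcases h3 with e | e <;> rw [e]
    · exact h.hw
    · have tt : φ (hh 9) * φ (hh 9) = 1 := by rw [← map_mul, t_sq, map_one]
      have h4 : φ (hh 9) * p * (φ (hh 9))⁻¹ = p * φ (hh 9 * hh 16) := by
        rw [← dcH.cen, map_mul, ← h.ptp, ← mul_assoc, ← mul_assoc, ← mul_assoc, h.pp, one_mul,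
          inv_eq_of_mul_eq_one_right tt]
      have h5 : φ (hh 8) * φ (hh 9 * hh 16) * (φ (hh 8))⁻¹ = φ (hh 9 * hh 16) := by
        rw [← map_mul, ← mul_assoc, dcH.cen, mul_assoc, letH.we, ← mul_assoc, map_mul _ _ (hh 8),
          mul_inv_cancel_right]
      have h6 : φ (hh 8 * hh 9) * p * (φ (hh 8 * hh 9))⁻¹ =
          φ (hh 8) * p * (φ (hh 8))⁻¹ * φ (hh 9 * hh 16) := by
        calc _ = φ (hh 8) * (φ (hh 9) * p * (φ (hh 9))⁻¹) * (φ (hh 8))⁻¹ := by rw [map_mul]; group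
          _ = _ := by rw [h4]; nth_rewrite 2 [← h5]; group
      rw [h6]
      rcases h.hw with e1 | e1 <;> rw [e1]
      · exact Or.inr rfl
      · left
        rw [mul_assoc, ← map_mul, ← dcH.cen, ← sq, dcH.mul_t_pow, sq, sq, letH.ee, t_sq, one_mul,
          map_one, mul_one]

/-- normalisation of the exponent -/
theorem Out1.norm (h : Out1 φ p k) (hk : k % 3 ≠ 0) :
    ∃ (φ' : H6 →* G) (k' : ℕ), k' % 3 = 1 ∧ Out1 φ' p k' := by
  by_cases e : k % 3 = 1
  · exact ⟨φ, k, e, h⟩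
  · obtain ⟨φ', h'⟩ := h.twist
    exact ⟨φ', 2 * k, by omega, h'⟩

end CfsgLY.L1
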