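/-
Lyons project, package L2: basic consequences of the model facts, and the homomorphism `φ`.
-/
import Cfsg.Agent.LY.L2a
import Cfsg.Agent.LY.SE2

set_option autoImplicit false
set_option linter.unusedSectionVars false

namespace CfsgLY.L2

open Subgroup

variable {H M : Type*} [Group H] [Group M] {D : MD H M}

theorem pow3_eq_one {Γ : Type*} [Group Γ] {a : Γ} (h3 : a ^ 3 = 1) (h2 : a * a = 1) : a = 1 := by
  rw [pow_succ, sq, h2, one_mul] at h3; exact h3

namespace MF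

variable (h : MF D)
include h

omit h in
theorem gB {i : ℕ} (h1 : 1 ≤ i) (h6 : i ≤ 6) : D.g i ∈ D.B := subset_closure ⟨i, ⟨h1, h6⟩, rfl⟩

omit h in
theorem BN : D.B ≤ D.N0 := closure_mono fun _ hc => Or.inr (Or.inr hc)

omit h in
theorem xN : D.x ∈ D.N0 := subset_closure (Or.inl rfl)

omit h in
theorem wN : D.w ∈ D.N0 := subset_closure (Or.inr (Or.inl rfl))

theorem tB : D.t ∈ D.B := h.t_eq ▸ D.B.pow_mem (D.B.mul_mem (gB le_rfl (by omega)) (gB (by omega) (by omega))) 2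

theorem eqB {c c' : H × M} (hc : c ∈ D.B) (hc' : c' ∈ D.B) (e : c.1 = c'.1) : c = c' := by
  have := h.injB _ (D.B.mul_mem (D.B.inv_mem hc) hc') (by simp [e])
  rwa [inv_mul_eq_one] at this

theorem tt' : D.t * D.t = 1 := h.injB _ (D.B.mul_mem h.tB h.tB) h.tt

theorem tt2 : D.t.2 * D.t.2 = 1 := congrArg Prod.snd h.tt'

theorem tcB {c : H × M} (hc : c ∈ D.B) : c * D.t = D.t * c :=
  h.eqB (D.B.mul_mem hc h.tB) (D.B.mul_mem h.tB hc) (h.tc _)

theorem tcB2 {c : H × M} (hc : c ∈ D.B) : c.2 * D.t.2 = D.t.2 * c.2 := congrArg Prod.snd (h.tcB hc)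

theorem xcB {c : H × M} (hc : c ∈ D.B) : Commute D.x c := by
  induction hc using closure_induction with
  | mem c hc => obtain ⟨i, hi, rfl⟩ := hc; exact h.xg i hi.1 hi.2
  | one => exact Commute.one_right _
  | mul a b _ _ ha hb => exact ha.mul_right hb
  | inv a _ ha => exact ha.inv_right

theorem xcB1 {c : H × M} (hc : c ∈ D.B) : Commute D.x.1 c.1 := congrArg Prod.fst (h.xcB hc).eq

theorem xcB2 {c : H × M} (hc : c ∈ D.B) : Commute D.x.2 c.2 := congrArg Prod.snd (h.xcB hc).eq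

theorem wB' {c : H × M} (hc : c ∈ D.B) : D.w * c * D.w⁻¹ ∈ D.B := by
  induction hc using closure_induction with
  | mem c hc => obtain ⟨i, hi, rfl⟩ := hc; exact h.wB i hi.1 hi.2
  | one => simp
  | mul a b _ _ ha hb => convert D.B.mul_mem ha hb using 1; group
  | inv a _ ha => convert D.B.inv_mem ha using 1; group

theorem x31 : D.x.1 ^ 3 = 1 := congrArg Prod.fst h.x3

theorem x32 : D.x.2 ^ 3 = 1 := congrArg Prod.snd h.x3

theorem x1 : D.x.1 ≠ 1 := fun e => h.xB 1 D.B.one_mem e.symm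

theorem xpowB {c : H × M} (hc : c ∈ D.B) {j : ℕ} (e : c.1 = D.x.1 ^ j) : c = 1 := by
  rw [← Nat.mod_add_div j 3, pow_add, pow_mul, h.x31, one_pow, mul_one] at e
  have : j % 3 = 0 ∨ j % 3 = 1 ∨ j % 3 = 2 := by omega
  rcases this with e' | e' | e' <;> rw [e'] at e
  · exact h.injB c hc (by simpa using e)
  · exact absurd (by simpa using e) (h.xB c hc)
  · refine absurd ?_ (h.xB _ (D.B.mul_mem hc hc))
    rw [Prod.fst_mul, e, ← pow_add, show 2 + 2 = 3 + 1 from rfl, pow_succ, h.x31, one_mul]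

theorem memN0 {c : H × M} (hc : c ∈ D.N0) :
    ∃ b ∈ D.B, ∃ j : ℕ, c = b * D.x ^ j ∨ c = b * D.x ^ j * D.w := by
  have xi : ∀ j : ℕ, (D.x ^ j)⁻¹ = D.x ^ (2 * j) := fun j => inv_eq_of_mul_eq_one_right (by
    rw [← pow_add, show j + 2 * j = 3 * j by ring, pow_mul, h.x3, one_pow])
  let B0 : Subgroup (H × M) :=
    { carrier := {c | ∃ b ∈ D.B, ∃ j : ℕ, c = b * D.x ^ j}
      mul_mem' := by
        rintro _ _ ⟨a, ha, i, rfl⟩ ⟨b, hb, j, rfl⟩
        refine ⟨a * b, D.B.mul_mem ha hb, i + j, ?_⟩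
        rw [mul_assoc, ← mul_assoc (D.x ^ i), ((h.xcB hb).pow_left i).eq, pow_add]; group
      one_mem' := ⟨1, D.B.one_mem, 0, by simp⟩
      inv_mem' := by
        rintro _ ⟨a, ha, i, rfl⟩
        refine ⟨a⁻¹, D.B.inv_mem ha, 2 * i, ?_⟩
        rw [mul_inv_rev, xi, ((h.xcB (D.B.inv_mem ha)).pow_left _).eq] }
  obtain ⟨W, hW⟩ := ext2 B0 D.w (by
    rintro _ ⟨a, ha, i, rfl⟩
    refine ⟨_, h.wB' ha, 2 * i, ?_⟩
    rw [← xi, ← inv_pow, ← h.wx, conj_pow]; group) ⟨_, h.ww, 0, by simp⟩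
  have : D.N0 ≤ W := (closure_le _).2 (by
    rintro c (rfl | rfl | ⟨i, hi, rfl⟩)
    · exact (hW _).2 (Or.inl ⟨1, D.B.one_mem, 1, by simp⟩)
    · exact (hW _).2 (Or.inr (by simp))
    · exact (hW _).2 (Or.inl ⟨_, gB hi.1 hi.2, 0, by simp⟩))
  rcases (hW c).1 (this hc) with ⟨b, hb, j, e⟩ | ⟨b, hb, j, e⟩
  · exact ⟨b, hb, j, Or.inl e⟩
  · exact ⟨b, hb, j, Or.inr (by rw [← e]; group)⟩

omit h in
theorem gM6 {i : ℕ} (h6 : i ≤ 6) : D.gM i = (D.g i).2 := Function.update_of_ne (by omega) _ _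

omit h in
theorem gM7 : D.gM 7 = D.p := Function.update_self _ _ _

omit h in
theorem BK {c : H × M} (hc : c ∈ D.B) : c.2 ∈ D.K := by
  induction hc using closure_induction with
  | mem c hc =>
    obtain ⟨i, hi, rfl⟩ := hc
    exact subset_closure (Or.inr ⟨i, ⟨hi.1, hi.2.trans (by omega)⟩, gM6 hi.2⟩)
  | one => exact D.K.one_mem
  | mul a b _ _ ha hb => exact D.K.mul_mem ha hb
  | inv a _ ha => exact D.K.inv_mem ha

omit h in
theorem xK : D.x.2 ∈ D.K := subset_closure (Or.inl rfl)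

omit h in
theorem pK : D.p ∈ D.K := subset_closure (Or.inr ⟨7, ⟨by omega, le_rfl⟩, gM7⟩)

omit h in
theorem K_ind {P : Subgroup M} (hx : D.x.2 ∈ P) (hp : D.p ∈ P) (hB : ∀ c ∈ D.B, c.2 ∈ P) :
    D.K ≤ P := (closure_le _).2 (by
  rintro _ (rfl | ⟨i, hi, rfl⟩)
  · exact hx
  · rcases hi.2.eq_or_lt with rfl | h7
    · rw [gM7]; exact hp
    · rw [gM6 (by omega)]; exact hB _ (gB hi.1 (by omega)))

theorem Kx {k : M} (hk : k ∈ D.K) : Commute D.x.2 k :=
  (mem_centralizer_singleton_iff.1 (K_ind (P := centralizer {D.x.2})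
    (mem_centralizer_singleton_iff.2 rfl) (mem_centralizer_singleton_iff.2 h.px)
    (fun _ hc => mem_centralizer_singleton_iff.2 (h.xcB2 hc).symm) hk)).symm

theorem wx2 : D.w.2 * D.x.2 * D.w.2⁻¹ = D.x.2⁻¹ := congrArg Prod.snd h.wx

theorem wx1 : D.w.1 * D.x.1 * D.w.1⁻¹ = D.x.1⁻¹ := congrArg Prod.fst h.wx

theorem wK' {k : M} (hk : k ∈ D.K) : D.w.2 * k * D.w.2⁻¹ ∈ D.K :=
  K_ind (P := D.K.comap (MulAut.conj D.w.2).toMonoidHom)
    (by change D.w.2 * _ * D.w.2⁻¹ ∈ D.K; rw [h.wx2]; exact D.K.inv_mem xK)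
    (by change D.w.2 * _ * D.w.2⁻¹ ∈ D.K; rw [h.pw]; exact pK)
    (fun _ hc => BK (h.wB' hc)) hk

theorem cov (m : M) : m ∈ D.K ∨ m * D.w.2⁻¹ ∈ D.K := by
  obtain ⟨W, hW⟩ := ext2 D.K D.w.2 (fun _ => h.wK') (BK h.ww)
  have : closure (insert D.w.2 (D.K : Set M)) ≤ W := (closure_le _).2 (by
    rintro c (rfl | hc)
    · exact (hW _).2 (Or.inr (by simp))
    · exact (hW _).2 (Or.inl hc))
  exact (hW m).1 (this (h.genM ▸ mem_top m))

theorem wK : D.w.2 ∉ D.K := fun hw => by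
  have e := h.wx2
  rw [← (h.Kx hw).eq, mul_inv_cancel_right] at e
  exact h.x2 (pow3_eq_one h.x32 (by nth_rewrite 1 [e]; simp))

theorem nX : (zpowers D.x.2).Normal := ⟨fun n hn m => by
  obtain ⟨j, rfl⟩ := mem_zpowers_iff.1 hn
  rcases h.cov m with hm | hm
  · rw [← ((h.Kx hm).zpow_left j).eq, mul_inv_cancel_right]; exact hn
  · have : m * D.x.2 ^ j * m⁻¹ = m * D.w.2⁻¹ * (D.x.2 ^ j)⁻¹ * (m * D.w.2⁻¹)⁻¹ := by
      rw [← inv_zpow, ← h.wx2, conj_zpow]; group
    rw [this, ← ((h.Kx hm).zpow_left j).inv_left.eq, mul_inv_cancel_right]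
    exact (zpowers _).inv_mem hn⟩

theorem ee2 : D.e1.2 * D.e1.2 = 1 := by
  rw [← h.pt]
  calc _ = D.p * D.t.2 * (D.p * D.p) * D.t.2 * D.p := by group
    _ = D.p * (D.t.2 * D.t.2) * D.p := by rw [h.pp]; group
    _ = 1 := by rw [h.tt2, mul_one, h.pp]

end MF

variable {G : Type*} [Group G] {φH : H →* G} {p : G} {k : ℕ}

/-- the homomorphism `φ` -/
structure Ph (D : MD H M) (φH : H →* G) (p : G) (k : ℕ) (φ : M →* G) : Prop where
  hB : ∀ c ∈ D.B, φ c.2 = φH c.1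
  hx : φ D.x.2 = φH D.x.1 ^ k
  hp : φ D.p = p
  hw : φ D.w.2 = φH D.w.1 ∨ φ D.w.2 = φH (D.w.1 * D.t.1)

theorem exists_ph [Finite G] [Finite M] (h : MF D) (tc : TC D.relA D.relP (G × M))
    (I : In D φH p k) : ∃ φ : M →* G, Ph D φH p k φ := by
  let f : H × M →* G × M := φH.prodMap (MonoidHom.id M)
  let gW : ℕ → G × M := Function.update (fun i => f (D.g i)) 7 (p, D.p)
  let ζ : G × M := (φH D.x.1 ^ k, D.x.2)
  have g6 : ∀ i, i ≠ 7 → gW i = f (D.g i) := fun i hi => Function.update_of_ne hi _ _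
  have g7 : gW 7 = (p, D.p) := Function.update_self _ _ _
  have e1 : Prod.fst ∘ gW = Function.update (fun i => φH (D.g i).1) 7 p := by
    funext i; by_cases hi : i = 7
    · subst hi; simp [g7]
    · simp [g6 i hi, Function.update_of_ne hi, f]
  have e2 : Prod.snd ∘ gW = D.gM := by
    funext i; by_cases hi : i = 7
    · subst hi; simp [g7, MF.gM7]
    · simp [g6 i hi, MD.gM, Function.update_of_ne hi, f]
  have pr : ∀ l : List ℕ, (l.map gW).prod =
      ((l.map (Function.update (fun i => φH (D.g i).1) 7 p)).prod, (l.map D.gM).prod) := fun l => by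
    rw [← e1, ← e2, ← List.map_map, ← List.map_map]
    exact Prod.ext (map_list_prod (MonoidHom.fst G M) _) (map_list_prod (MonoidHom.snd G M) _)
  have ζf : ∀ c ∈ D.B, Commute ζ (f c) := fun c hc =>
    Prod.ext ((((h.xcB1 hc).map φH).pow_left k).eq) (h.xcB2 hc).eq
  have hB : closure (gW '' Set.Icc 1 6) = D.B.map f := by
    rw [MD.B, MonoidHom.map_closure, ← Set.image_comp]
    congr 1
    exact Set.image_congr fun i hi => g6 i (by have := hi.2; omega)
  set W := closure (insert ζ (gW '' Set.Icc 1 7)) with hWdef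
  have cW : Nat.card W ≤ 3 * 22275 * 40320 := by
    refine (tc gW ζ ?_ ?_ ?_ ?_ ?_ ⟨1, ?_⟩).trans (Nat.mul_le_mul_left _ ?_)
    · refine Prod.ext ?_ h.x32
      change (φH D.x.1 ^ k) ^ 3 = 1
      rw [← pow_mul, mul_comm, pow_mul, ← map_pow, h.x31, map_one, one_pow]
    · intro i h1 h7
      rcases h7.eq_or_lt with rfl | h7
      · rw [g7]; exact Prod.ext (I.px.symm.pow_left k).eq h.px.symm.eq
      · rw [g6 i h7.ne]; exact ζf _ (MF.gB h1 (by omega))
    · intro i h1 h7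
      rcases h7.eq_or_lt with rfl | h7
      · rw [g7]; exact Prod.ext I.pp h.pp
      · rw [g6 i h7.ne, ← map_mul, h.gsq i h1 (by omega), map_one]
    · intro l hl
      rw [List.map_congr_left (g := f ∘ D.g) fun i hi => g6 i fun e => h.relA7 l hl (e ▸ hi),
        ← List.map_map, ← map_list_prod, h.relA l hl, map_one]
    · intro l hl
      rw [pr, I.relP l hl, h.relP l hl]; rfl
    · rw [pr, I.hk, h.pk, pow_one]
    · rw [hB]
      have : Finite H := Finite.of_injective _ I.inj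
      exact (Nat.card_le_card_of_surjective _ (f.subgroupMap_surjective D.B)).trans h.cardB
  have BW : ∀ c ∈ D.B, f c ∈ W := fun c hc =>
    closure_mono (fun q hq => Or.inr (Set.image_mono (Set.Icc_subset_Icc_right (by omega)) hq))
      (hB.ge ⟨c, hc, rfl⟩)
  have ζW : ζ ∈ W := subset_closure (Or.inl rfl)
  have pW : (p, D.p) ∈ W := subset_closure (Or.inr ⟨7, ⟨by omega, le_rfl⟩, g7⟩)
  have WK : W.map (MonoidHom.snd G M) = D.K := by
    rw [hWdef, MonoidHom.map_closure, Set.image_insert_eq, ← Set.image_comp, MD.K, ← e2]; rfl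
  have inj := inj_of_card W (MonoidHom.snd G M) (by rw [WK]; exact cW.trans h.cardK)
  have pt : p * φH D.t.1 * p = φH D.e1.1 := by
    have := inj _ (W.mul_mem (W.inv_mem (BW _ h.e1B)) (W.mul_mem (W.mul_mem pW (BW _ h.tB)) pW))
      (by simp [f, h.pt])
    rw [inv_mul_eq_one] at this
    exact (congrArg Prod.fst this).symm
  obtain ⟨w', hw', wp⟩ : ∃ w', (w' = D.w.1 ∨ w' = D.w.1 * D.t.1) ∧ φH w' * p * (φH w')⁻¹ = p := by
    rcases I.hw with e | e
    · exact ⟨_, Or.inl rfl, e⟩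
    refine ⟨_, Or.inr rfl, ?_⟩
    have ti : (φH D.t.1)⁻¹ = φH D.t.1 := inv_eq_of_mul_eq_one_right (by rw [← map_mul, h.tt, map_one])
    have h1 : φH D.t.1 * p = p * φH D.e1.1 := by
      rw [← pt, ← mul_assoc, ← mul_assoc, I.pp, one_mul]
    have ee : φH D.e1.1 * φH D.e1.1 = 1 := by
      rw [← pt]
      calc _ = p * φH D.t.1 * (p * p) * φH D.t.1 * p := by group
        _ = p * φH (D.t.1 * D.t.1) * p := by rw [I.pp, map_mul]; group
        _ = 1 := by rw [h.tt, map_one, mul_one, I.pp]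
    have h2 : φH D.w.1 * φH (D.e1.1 * D.t.1) = φH (D.e1.1 * D.t.1) * φH D.w.1 := by
      rw [← map_mul, ← map_mul, ← mul_assoc, h.we, mul_assoc, h.tc D.w.1, mul_assoc]
    calc φH (D.w.1 * D.t.1) * p * (φH (D.w.1 * D.t.1))⁻¹
        = φH D.w.1 * (φH D.t.1 * p) * φH D.t.1 * (φH D.w.1)⁻¹ := by rw [map_mul, mul_inv_rev, ti]; group
      _ = φH D.w.1 * p * (φH D.w.1)⁻¹ * (φH D.w.1 * φH (D.e1.1 * D.t.1)) * (φH D.w.1)⁻¹ := by
        rw [h1, map_mul]; group
      _ = p * φH D.t.1 * (φH D.e1.1 * φH D.e1.1) * φH D.t.1 := by rw [h2, e, map_mul, map_mul]; group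
      _ = p := by rw [ee, mul_one, mul_assoc, ← map_mul, h.tt, map_one, mul_one]
  have wc : ∀ a : H, w' * a * w'⁻¹ = D.w.1 * a * D.w.1⁻¹ := fun a => by
    rcases hw' with rfl | rfl
    · rfl
    · rw [mul_assoc _ _ a, ← h.tc a]; group
  have ww : w' * w' = D.w.1 * D.w.1 := by
    rcases hw' with rfl | rfl
    · rfl
    · rw [mul_assoc, ← mul_assoc D.t.1, ← h.tc D.w.1, mul_assoc, h.tt, mul_one]
  obtain ⟨W', hW'⟩ := ext2 W (φH w', D.w.2) (fun q hq => by
    have : W ≤ W.comap (MulAut.conj ((φH w', D.w.2) : G × M)).toMonoidHom := (closure_le _).2 (by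
      rintro _ (rfl | ⟨i, hi, rfl⟩)
      · change _ * ζ * _ ∈ W
        convert W.inv_mem ζW using 1
        refine Prod.ext ?_ h.wx2
        change φH w' * φH D.x.1 ^ k * (φH w')⁻¹ = (φH D.x.1 ^ k)⁻¹
        rw [← conj_pow, ← map_inv, ← map_mul, ← map_mul, wc, h.wx1, map_inv, inv_pow]
      · change _ * gW i * _ ∈ W
        rcases hi.2.eq_or_lt with rfl | h7
        · rw [g7]
          convert pW using 1
          exact Prod.ext wp h.pw
        · rw [g6 i h7.ne]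
          convert BW _ (h.wB i hi.1 (by omega)) using 1
          refine Prod.ext ?_ rfl
          change φH w' * φH (D.g i).1 * (φH w')⁻¹ = φH (D.w.1 * (D.g i).1 * D.w.1⁻¹)
          rw [← wc, map_mul, map_mul, map_inv])
    exact this hq) (by
    convert BW _ h.ww using 1
    refine Prod.ext ?_ rfl
    change φH w' * φH w' = φH (D.w.1 * D.w.1)
    rw [← map_mul, ww])
  obtain ⟨φ, hφ⟩ := hom_of_graph W' (fun m => by
    rcases h.cov m with hm | hm
    · obtain ⟨q, hq, rfl⟩ := WK.ge hm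
      exact ⟨q.1, (hW' _).2 (Or.inl hq)⟩
    · obtain ⟨q, hq, e⟩ := WK.ge hm
      refine ⟨q.1 * φH w', (hW' _).2 (Or.inr ?_)⟩
      have e' : ((q.1 * φH w', m) : G × M) * (φH w', D.w.2)⁻¹ = q :=
        Prod.ext (mul_inv_cancel_right q.1 (φH w')) (Eq.symm e : m * D.w.2⁻¹ = q.2)
      rw [e']; exact hq) (fun q hq e => by
    rcases (hW' q).1 hq with hq | hq
    · exact congrArg Prod.fst (inj q hq e)
    · refine absurd ?_ h.wK
      have := WK.le ⟨_, hq, rfl⟩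
      simpa [e] using this)
  refine ⟨φ, fun c hc => hφ _ ((hW' _).2 (Or.inl (BW c hc))), hφ _ ((hW' _).2 (Or.inl ζW)),
    hφ _ ((hW' _).2 (Or.inl pW)), ?_⟩
  have := hφ (φH w', D.w.2) ((hW' _).2 (Or.inr (by rw [mul_inv_cancel]; exact W.one_mem)))
  rcases hw' with rfl | rfl
  · exact Or.inl this
  · exact Or.inr this

end CfsgLY.L2
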