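/-
Lyons project, package L2: the main argument.
-/
import Cfsg.Agent.LY.L2b

set_option autoImplicit false
set_option linter.unusedSectionVars false

namespace CfsgLY.L2

open Subgroup

universe u

variable {H M : Type*} [Group H] [Group M] {D : MD H M}
  {G : Type u} [Group G] [Finite G] [Finite M] {φH : H →* G} {p : G} {k : ℕ} {φ : M →* G}

theorem MF.F1B (h : MF D) {u : H} (uu : u * u = 1) (u1 : u ≠ 1) (ut : u ≠ D.t.1)
    (ux : Commute u D.x.1) : ∃ c ∈ D.B, c.1 * D.e1.1 * c.1⁻¹ = u := by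
  obtain ⟨c, hc, e⟩ := h.F1x u uu u1 ut ux
  have xe : ∀ j : ℕ, D.x.1 ^ j * D.e1.1 * (D.x.1 ^ j)⁻¹ = D.e1.1 := fun j => by
    rw [((h.xcB1 h.e1B).pow_left j).eq, mul_inv_cancel_right]
  have we : D.w.1 * D.e1.1 * D.w.1⁻¹ = D.e1.1 := by rw [h.we, mul_inv_cancel_right]
  obtain ⟨b, hb, j, rfl | rfl⟩ := h.memN0 hc
  · refine ⟨b, hb, ?_⟩
    rw [← e]; nth_rewrite 1 [← xe j]
    simp only [Prod.fst_mul, Prod.pow_fst]; group
  · refine ⟨b, hb, ?_⟩
    rw [← e]; nth_rewrite 1 [← xe j]; nth_rewrite 1 [← we]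
    simp only [Prod.fst_mul, Prod.pow_fst]; group

theorem cm_central {Γ : Type*} [Group Γ] {a b c d : Γ} (h1 : Commute c a) (h2 : Commute c b)
    (h3 : Commute c d) (h4 : Commute d a) (h5 : Commute d b) : cm (a * c) (b * d) = cm a b := by
  have e1 : a * c * (b * d) = a * b * (c * d) := by
    rw [mul_assoc, ← mul_assoc c, h2.eq]; group
  have e2 : b * d * (a * c) = b * a * (c * d) := by
    rw [mul_assoc, ← mul_assoc d, h4.eq, mul_assoc, ← h3.eq]; group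
  calc cm (a * c) (b * d) = a * c * (b * d) * (b * d * (a * c))⁻¹ := by unfold cm; group
    _ = cm a b := by rw [e1, e2]; unfold cm; group

namespace Ph

variable (h : MF D) (I : In D φH p k) (P : Ph D φH p k φ)
include h I P

theorem xK {n : M} (hn : n ∈ D.K) : Commute (φH D.x.1) (φ n) :=
  (mem_centralizer_singleton_iff.1 (MF.K_ind (P := (centralizer {φH D.x.1}).comap φ)
    (mem_centralizer_singleton_iff.2 (by rw [P.hx]; exact (Commute.pow_self _ _).eq))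
    (mem_centralizer_singleton_iff.2 (by rw [P.hp]; exact I.px))
    (fun c hc => mem_centralizer_singleton_iff.2 (by
      rw [P.hB c hc]; exact ((h.xcB1 hc).map φH).symm)) hn)).symm

theorem t1 : φH D.t.1 ≠ 1 := fun e => h.t1 (I.inj (e.trans φH.map_one.symm))

theorem x1 : φH D.x.1 ≠ 1 := fun e => h.x1 (I.inj (e.trans φH.map_one.symm))

theorem ee1 : D.e1.1 * D.e1.1 = 1 := I.inj (by
  rw [map_mul, ← P.hB _ h.e1B, ← map_mul, h.ee2, map_one, map_one])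

theorem pt : p * φH D.t.1 * p⁻¹ = φH D.e1.1 := by
  rw [inv_eq_of_mul_eq_one_right I.pp, ← P.hB _ h.e1B, ← h.pt, map_mul, map_mul, P.hp, P.hB _ h.tB]

theorem e11 : D.e1.1 ≠ 1 := fun e => by
  have := P.pt h I
  rw [e, map_one, mul_inv_eq_one, mul_eq_left] at this
  exact P.t1 h I this

theorem te : ∃ n ∈ D.K, n * D.t.2 * n⁻¹ = D.t.2 * D.e1.2 := by
  obtain ⟨c, hc, e⟩ := h.F1B (u := D.t.1 * D.e1.1) (by
      rw [mul_assoc, ← mul_assoc D.e1.1, h.tc, mul_assoc, P.ee1 h I, mul_one, h.tt])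
    (fun e => h.et (by rw [← inv_eq_of_mul_eq_one_right e, inv_eq_of_mul_eq_one_right h.tt]))
    (fun e => P.e11 h I (mul_eq_left.1 e)) (h.xcB1 (D.B.mul_mem h.tB h.e1B)).symm
  have e' := h.eqB (D.B.mul_mem (D.B.mul_mem hc h.e1B) (D.B.inv_mem hc)) (D.B.mul_mem h.tB h.e1B) e
  refine ⟨c.2 * D.p, D.K.mul_mem (MF.BK hc) MF.pK, Eq.trans ?_ (congrArg Prod.snd e')⟩
  simp only [Prod.snd_mul, Prod.snd_inv, ← h.pt, mul_inv_rev, inv_eq_of_mul_eq_one_right h.pp]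
  group

theorem kerX {n : M} (hn : n ∈ D.K) (e : φ n ∈ zpowers (φH D.x.1)) : n ∈ zpowers D.x.2 := by
  have := h.nX
  let N := D.K ⊓ (zpowers (φH D.x.1)).comap φ
  have nrm : ∀ a ∈ D.K, ∀ n ∈ N, a * n * a⁻¹ ∈ N := fun a ha n hn => by
    refine ⟨D.K.mul_mem (D.K.mul_mem ha hn.1) (D.K.inv_mem ha), ?_⟩
    obtain ⟨j, hj⟩ := mem_zpowers_iff.1 (show φ n ∈ zpowers (φH D.x.1) from hn.2)
    change φ (a * n * a⁻¹) ∈ zpowers (φH D.x.1)
    rw [map_mul, map_mul, map_inv, ← hj, ← ((P.xK h I ha).zpow_left j).eq, mul_inv_cancel_right]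
    exact zpow_mem_zpowers _ _
  have xc : ∀ a ∈ D.K, ∀ ξ ∈ zpowers D.x.2, a * ξ = ξ * a := fun a ha ξ hξ => by
    obtain ⟨j, rfl⟩ := mem_zpowers_iff.1 hξ
    exact ((h.Kx ha).zpow_left j).eq.symm
  have ct : ∀ n ∈ N, n * D.t.2 = D.t.2 * n → n ∈ zpowers D.x.2 := fun n hn e => by
    obtain ⟨c, hc, j, rfl⟩ := h.CK n hn.1 e
    have h1 : φ (c.2 * D.x.2 ^ j) ∈ zpowers (φH D.x.1) := hn.2
    rw [map_mul, map_pow, P.hx, ← pow_mul, (zpowers _).mul_mem_cancel_right (npow_mem_zpowers _ _),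
      P.hB c hc, ← mem_powers_iff_mem_zpowers] at h1
    obtain ⟨i, hi⟩ := h1
    rw [h.xpowB hc (j := i) (I.inj (by rw [map_pow]; exact hi.symm))]
    simpa using npow_mem_zpowers _ _
  have ct' : ∀ a ∈ D.K, ∀ n ∈ N, n * (a * D.t.2 * a⁻¹) = a * D.t.2 * a⁻¹ * n → n ∈ zpowers D.x.2 :=
    fun a ha n hn e => by
      have := ct _ (nrm _ (D.K.inv_mem ha) n hn) (by
        calc a⁻¹ * n * a⁻¹⁻¹ * D.t.2 = a⁻¹ * (n * (a * D.t.2 * a⁻¹)) * a := by group
          _ = _ := by rw [e]; group)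
      have h2 := h.nX.conj_mem _ this a
      convert h2 using 1; group
  obtain ⟨a, ha, ea⟩ := P.te h I
  have pe : D.p * D.t.2 * D.p⁻¹ = D.e1.2 := by rw [inv_eq_of_mul_eq_one_right h.pp, h.pt]
  refine le_of_four (zpowers D.x.2) N (fun ξ hξ => pow3_eq_one ?_) h.tt2 h.ee2 (h.tcB2 h.e1B).symm
    (nrm _ (MF.BK h.tB)) (nrm _ (MF.BK h.e1B)) (xc _ (MF.BK h.tB)) (xc _ (MF.BK h.e1B)) ct
    (pe ▸ ct' _ MF.pK) (ea ▸ ct' a ha) ⟨hn, e⟩
  obtain ⟨j, rfl⟩ := mem_zpowers_iff.1 hξ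
  rw [← zpow_natCast, ← zpow_mul, mul_comm, zpow_mul, zpow_natCast, h.x32, one_zpow]

theorem ac : (φH (D.g 1).1 * φH (D.g 3).1) ^ 2 = φH D.t.1 := by
  rw [← map_mul, ← map_pow, h.t_eq]; rfl

theorem gsq {i : ℕ} (h1 : 1 ≤ i) (h6 : i ≤ 6) : φH (D.g i).1 * φH (D.g i).1 = 1 := by
  rw [← map_mul, ← Prod.fst_mul, h.gsq i h1 h6]; exact map_one _

theorem se1 : (∀ g, Commute g (φH D.x.1) → ∃ n ∈ D.K, ∃ j : ℕ, g = φ n * φH D.x.1 ^ j) ∧
    ∀ u, Commute u (φH D.x.1) → u ≠ 1 → u * u = 1 → ∃ n ∈ D.K, φ (n * D.t.2 * n⁻¹) = u := by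
  have x3 : φH D.x.1 ^ 3 = 1 := by rw [← map_pow, h.x31, map_one]
  let K' : Subgroup G :=
    { carrier := {g | ∃ n ∈ D.K, ∃ j : ℕ, g = φ n * φH D.x.1 ^ j}
      mul_mem' := by
        rintro _ _ ⟨a, ha, i, rfl⟩ ⟨b, hb, j, rfl⟩
        refine ⟨a * b, D.K.mul_mem ha hb, i + j, ?_⟩
        rw [mul_assoc, ← mul_assoc (_ ^ i), ((P.xK h I hb).pow_left i).eq, pow_add, map_mul]; group
      one_mem' := ⟨1, D.K.one_mem, 0, by simp⟩
      inv_mem' := by
        rintro _ ⟨a, ha, i, rfl⟩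
        refine ⟨a⁻¹, D.K.inv_mem ha, 2 * i, ?_⟩
        rw [mul_inv_rev, ← ((P.xK h I (D.K.inv_mem ha)).pow_left _).eq, map_inv]
        congr 1
        exact inv_eq_of_mul_eq_one_right (by
          rw [← pow_add, show i + 2 * i = 3 * i by ring, pow_mul, x3, one_pow]) }
  have mB : ∀ c ∈ D.B, φH c.1 ∈ centralizer {φH D.x.1} := fun c hc =>
    mem_centralizer_singleton_iff.2 ((h.xcB1 hc).map φH).symm
  obtain ⟨h1, h2⟩ := le_of_fus (Γ := centralizer {φH D.x.1}) (M := K') (mB _ h.tB) (P.t1 h I)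
    (by rw [← map_mul, h.tt, map_one]) (fun g hg e => by
      obtain ⟨a, rfl⟩ := I.rng g e
      obtain ⟨c, hc, j, rfl⟩ := h.CH a (I.inj (by
        rw [map_mul, map_mul]; exact mem_centralizer_singleton_iff.1 hg))
      exact ⟨c.2, MF.BK hc, j, by rw [map_mul, map_pow, P.hB c hc]⟩) (fun u hu u1 uu e => by
      obtain ⟨a, rfl⟩ := I.rng u e
      by_cases ht : a = D.t.1
      · exact ⟨1, one_mem _, one_mem _, by simp [ht]⟩
      obtain ⟨c, hc, e⟩ := h.F1B (u := a) (I.inj (by rw [map_mul, uu, map_one]))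
        (fun e => u1 (by rw [e, map_one])) ht (I.inj (by
          rw [map_mul, map_mul]; exact mem_centralizer_singleton_iff.1 hu))
      refine ⟨φH c.1 * p, mul_mem (mB c hc) (mem_centralizer_singleton_iff.2 I.px),
        ⟨c.2 * D.p, D.K.mul_mem (MF.BK hc) MF.pK, 0, by simp [P.hB c hc, P.hp]⟩, ?_⟩
      rw [← e, map_mul, map_mul, map_inv, ← P.pt h I]; group)
    (mB _ (MF.gB le_rfl (by omega))) (mB _ (MF.gB (i := 3) (by omega) (by omega)))
    (P.gsq h I le_rfl (by omega)) (P.gsq h I (by omega) (by omega)) (P.ac h I)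
  refine ⟨fun g hg => h1 (mem_centralizer_singleton_iff.2 hg), fun u hu u1 uu => ?_⟩
  obtain ⟨g, hg, e⟩ := h2 u (mem_centralizer_singleton_iff.2 hu) u1 uu
  obtain ⟨n, hn, j, rfl⟩ := h1 hg
  refine ⟨n, hn, ?_⟩
  rw [← e, map_mul, map_mul, map_inv, P.hB _ h.tB, mul_assoc (φ n) (_ ^ j),
    (((h.xcB1 h.tB).map φH).pow_left j).eq]
  group

omit I P in
theorem sy : D.s * D.y.1 * D.s = D.x.1 := by
  rw [← h.sx]
  calc _ = (D.s * D.s) * D.x.1 * (D.s * D.s) := by group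
    _ = _ := by rw [h.ss]; group

omit I P in
theorem σσ : φH D.s * φH D.s = 1 := by rw [← map_mul, h.ss, map_one]

omit I P in
theorem σ_comm {a b : G} (e : Commute a b) : Commute (φH D.s * a * φH D.s) (φH D.s * b * φH D.s) := by
  have := e.map (MulAut.conj (φH D.s))
  simpa [inv_eq_of_mul_eq_one_right (σσ (φH := φH) h)] using this

omit I P in
theorem σ_cm (a b : G) :
    cm (φH D.s * a * φH D.s) (φH D.s * b * φH D.s) = φH D.s * cm a b * φH D.s := by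
  nth_rewrite 2 4 6 [← inv_eq_of_mul_eq_one_right (σσ (φH := φH) h)]
  unfold cm; group

omit I P in
theorem σ_pow (a : G) (n : ℕ) : φH D.s * a ^ n * φH D.s = (φH D.s * a * φH D.s) ^ n := by
  nth_rewrite 2 4 [← inv_eq_of_mul_eq_one_right (σσ (φH := φH) h)]
  rw [conj_pow]

omit h I P in
theorem map_cm (a b : M) : φ (cm a b) = cm (φ a) (φ b) := by simp [cm]

theorem gcy : Commute (D.gc.2 * D.v * D.gc.2⁻¹) D.y.2 := by
  have : Commute D.gc.2 D.y.2 := congrArg Prod.snd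
    (h.eqB (D.B.mul_mem h.gcB h.yB) (D.B.mul_mem h.yB h.gcB) h.gcy)
  exact (this.mul_left h.vy).mul_left this.inv_left

theorem k_ne : k % 3 ≠ 0 := fun hk => by
  have x3 : φH D.x.1 ^ 3 = 1 := by rw [← map_pow, h.x31, map_one]
  have hx : φ D.x.2 = 1 := by
    rw [P.hx, ← Nat.mod_add_div k 3, hk, zero_add, pow_mul, x3, one_pow]
  have sy : φH D.s * φ D.y.2 * φH D.s = φH D.x.1 := by
    rw [P.hB _ h.yB, ← map_mul, ← map_mul, sy h]
  obtain ⟨a, ha, i, ea⟩ := (P.se1 h I).1 _ (sy ▸ σ_comm h (h.vy.map φ))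
  obtain ⟨b, hb, j, eb⟩ := (P.se1 h I).1 _ (sy ▸ σ_comm h ((P.gcy h I).map φ))
  have e := σ_cm (φH := φH) h (φ D.v) (φ (D.gc.2 * D.v * D.gc.2⁻¹))
  rw [ea, eb, cm_central ((P.xK h I ha).pow_left i) ((P.xK h I hb).pow_left i)
    (Commute.pow_pow_self _ _ _) ((P.xK h I ha).pow_left j) ((P.xK h I hb).pow_left j), ← map_cm,
    ← map_cm, h.comm, map_mul φ (D.y.2 ^ _), map_pow, map_pow, hx, one_pow, mul_one, σ_pow h, sy] at e
  have hm : cm a b ∈ D.K := D.K.mul_mem (D.K.mul_mem (D.K.mul_mem ha hb) (D.K.inv_mem ha)) (D.K.inv_mem hb)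
  obtain ⟨l, hl⟩ := mem_zpowers_iff.1 (P.kerX h I hm (e ▸ npow_mem_zpowers _ _))
  rw [← hl, map_zpow, hx, one_zpow, ← Nat.mod_add_div D.ca 3, pow_add, pow_mul, x3, one_pow,
    mul_one] at e
  have := h.ca3
  have : D.ca % 3 = 1 ∨ D.ca % 3 = 2 := by omega
  rcases this with e' | e' <;> rw [e'] at e
  · exact P.x1 h I (by simpa using e.symm)
  · exact P.x1 h I (pow3_eq_one x3 (by rw [← sq, e]))

variable (hk : k % 3 = 1)
include hk

theorem hx1 : φ D.x.2 = φH D.x.1 := by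
  rw [P.hx, ← Nat.mod_add_div k 3, hk, pow_add, pow_mul, ← map_pow φH _ 3, h.x31]; simp

theorem inj : Function.Injective φ := by
  have x3 : φH D.x.1 ^ 3 = 1 := by rw [← map_pow, h.x31, map_one]
  rw [injective_iff_map_eq_one]
  intro n e
  rcases h.cov n with hn | hn
  · obtain ⟨j, rfl⟩ := mem_zpowers_iff.1 (P.kerX h I hn (e ▸ one_mem _))
    have : Fact (Nat.Prime 3) := ⟨Nat.prime_three⟩
    rw [map_zpow, P.hx1 h I hk, ← orderOf_dvd_iff_zpow_eq_one, orderOf_eq_prime x3 (P.x1 h I)] at e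
    rw [← orderOf_dvd_iff_zpow_eq_one, orderOf_eq_prime h.x32 h.x2]
    exact e
  · have h1 := (P.xK h I hn).inv_right
    rw [map_mul, e, one_mul, map_inv, inv_inv] at h1
    have h2 := congrArg φ h.wx2
    rw [map_mul, map_mul, map_inv, map_inv, P.hx1 h I hk, ← h1.eq, mul_inv_cancel_right] at h2
    exact absurd (pow3_eq_one x3 (by nth_rewrite 1 [h2]; simp)) (P.x1 h I)

end Ph

/-- `σ a σ = b` -/
def Rl (σ : G) (φ : M →* G) (a b : M) : Prop := σ * φ a * σ⁻¹ = φ b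

theorem Rl.mul {σ : G} {a b c d : M} (h : Rl σ φ a b) (h' : Rl σ φ c d) : Rl σ φ (a * c) (b * d) := by
  unfold Rl at *; rw [map_mul, map_mul, ← h, ← h']; group

theorem Rl.inv {σ : G} {a b : M} (h : Rl σ φ a b) : Rl σ φ a⁻¹ b⁻¹ := by
  unfold Rl at *; rw [map_inv, map_inv, ← h]; group

theorem Rl.pow {σ : G} {a b : M} (h : Rl σ φ a b) (n : ℕ) : Rl σ φ (a ^ n) (b ^ n) := by
  unfold Rl at *; rw [map_pow, map_pow, ← h, conj_pow]

theorem Rl.cm {σ : G} {a b c d : M} (h : Rl σ φ a b) (h' : Rl σ φ c d) : Rl σ φ (cm a c) (cm b d) :=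
  ((h.mul h').mul h.inv).mul h'.inv

theorem Rl.uniq {σ : G} {a b c : M} (i : Function.Injective φ) (h : Rl σ φ a b) (h' : Rl σ φ a c) :
    b = c := i (h.symm.trans h')

namespace Ph

variable (h : MF D) (I : In D φH p k) (P : Ph D φH p k φ) (hk : k % 3 = 1)
include h I P hk

theorem rl {a b : M} {a' b' : H} (ea : φ a = φH a') (eb : φ b = φH b') (e : D.s * a' * D.s = b') :
    Rl (φH D.s) φ a b := by
  unfold Rl
  rw [inv_eq_of_mul_eq_one_right (σσ h), ea, eb, ← e, map_mul, map_mul]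

theorem rlW {r : M} (hr : Rl (φH D.s) φ D.v r) (a b : ℕ) : Rl (φH D.s) φ (D.W a b) (D.W' r a b) := by
  have g4 := P.rl h I hk (P.hB _ h.g4B) (P.hB _ h.g4B') h.sg4
  exact (hr.pow a).mul (((g4.mul hr).mul g4.inv).pow b)

theorem rl_pm : Rl (φH D.s) φ D.v D.vs ∨ Rl (φH D.s) φ D.v D.vs⁻¹ := by
  have inj := P.inj h I hk
  have σi : (φH D.s)⁻¹ = φH D.s := inv_eq_of_mul_eq_one_right (σσ h)
  have rx := P.rl h I hk (P.hx1 h I hk) (P.hB _ h.yB) h.sx
  have ry := P.rl h I hk (P.hB _ h.yB) (P.hx1 h I hk) (sy h)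
  have rz := P.rl h I hk (P.hB _ h.zB) (P.hB _ h.zB) h.sz
  have rt := P.rl h I hk (P.hB _ h.tB) (P.hB _ h.tB) (by rw [h.tc, mul_assoc, h.ss, mul_one])
  have rg := P.rl h I hk (P.hB _ h.gcB) (P.hB _ h.gcB') h.sgc
  have uK : D.v * D.t.2 ∈ D.K := D.K.mul_mem h.vK (MF.BK h.tB)
  have cy : Commute (D.v * D.t.2) D.y.2 := h.vy.mul_left (h.tcB2 h.yB).symm
  have cz : Commute (D.v * D.t.2) D.z.2 := h.vz.mul_left (h.tcB2 h.zB).symm
  have cx : Commute (D.v * D.t.2) D.x.2 := (h.Kx uK).symm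
  have cj : ∀ {a b : M}, Commute (D.v * D.t.2) a → Rl (φH D.s) φ a b →
      Commute (φH D.s * φ (D.v * D.t.2) * φH D.s) (φ b) := fun {a b} e r => by
    have := σ_comm (φH := φH) h (e.map φ)
    unfold Rl at r
    rwa [← r, σi]
  obtain ⟨n, hn, e⟩ := (P.se1 h I).2 (φH D.s * φ (D.v * D.t.2) * φH D.s)
    (P.hx1 h I hk ▸ cj cy ry) (fun e => h.vt1 (by
      have h1 : φ (D.v * D.t.2) = 1 := by
        calc _ = (φH D.s * φH D.s) * φ (D.v * D.t.2) * (φH D.s * φH D.s) := by rw [σσ h]; group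
          _ = φH D.s * (φH D.s * φ (D.v * D.t.2) * φH D.s) * φH D.s := by group
          _ = 1 := by rw [e, mul_one, σσ h]
      have h2 := (injective_iff_map_eq_one φ).1 inj _ h1
      rw [← inv_eq_of_mul_eq_one_left h2, inv_eq_of_mul_eq_one_right h.tt2])) (by
      calc _ = φH D.s * φ (D.v * D.t.2) * (φH D.s * φH D.s) * φ (D.v * D.t.2) * φH D.s := by group
        _ = φH D.s * φ (D.v * (D.t.2 * D.v * D.t.2)) * φH D.s := by
          rw [σσ h]; simp only [map_mul]; group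
        _ = 1 := by rw [h.vt, mul_inv_cancel, map_one, mul_one, σσ h])
  have ru : Rl (φH D.s) φ (D.v * D.t.2) (n * D.t.2 * n⁻¹) := by unfold Rl; rw [e, σi]
  have rv := ru.mul rt
  rw [mul_assoc D.v, h.tt2, mul_one] at rv
  have back : ∀ {b : M}, Commute (φH D.s * φ (D.v * D.t.2) * φH D.s) (φ b) →
      Commute (n * D.t.2 * n⁻¹) b := fun {b} c => inj (by
    rw [map_mul φ _ b, map_mul φ b, e]; exact c.eq)
  have c1 := rv.cm ((rg.mul rv).mul rg.inv)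
  rw [h.comm] at c1
  rcases h.nine n hn (back (cj cx rx)) (back (cj cz rz)) _ rfl
    (c1.uniq inj ((ry.pow _).mul (rx.pow _))) with e' | e'
  · exact Or.inl (e' ▸ rv)
  · exact Or.inr (e' ▸ rv)

theorem rl_v : Rl (φH D.s) φ D.v D.vs := by
  refine (P.rl_pm h I hk).resolve_right fun r => h.sg4' (P.inj h I hk ?_)
  have r1 := P.rlW h I hk r D.a1 D.b1
  have r2 := P.rlW h I hk r D.a2 D.b2
  have r3 := P.rlW h I hk r D.a3 D.b3
  rw [← h.sg1] at r1
  rw [← h.sg2] at r2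
  rw [← h.sg3] at r3
  unfold Rl at r1 r2 r3
  have c3 : (φH D.s * φ D.d.2) ^ 3 = 1 := by rw [P.hB _ h.dB, ← map_mul, ← map_pow, h.sd, map_one]
  simp only [map_mul, map_inv] at r1 r2 r3
  calc _ = (φH D.s * φ D.d.2) ^ 3 * φ D.v * ((φH D.s * φ D.d.2) ^ 3)⁻¹ := by
        rw [← r3, ← r2, ← r1]; simp only [pow_succ]; group
    _ = _ := by rw [c3]; group

theorem hw1 : φ D.w.2 = φH D.w.1 := by
  refine P.hw.resolve_right fun e => h.ep2 ?_
  have r := P.rl_v h I hk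
  obtain ⟨c, hc, j, ec⟩ := h.aXw
  have ra : Rl (φH D.s) φ D.aY.2 (D.aX.2 * D.t.2) := P.rl h I hk (P.hB _ h.aYB) (by
    rw [ec]
    simp only [Prod.snd_mul, Prod.fst_mul, Prod.pow_snd, Prod.pow_fst, map_mul, map_pow, e,
      P.hB c hc, P.hx1 h I hk, P.hB _ h.tB]
    rw [mul_assoc, mul_assoc (φH D.w.1), ← map_mul φH D.t.1, h.tt, map_one, mul_one]) h.saY
  have r1 := (ra.mul r).mul ra.inv
  rw [h.ep1] at r1
  exact r1.uniq (P.inj h I hk) (P.rlW h I hk r _ _)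

theorem out : Out D φH := by
  have hN : ∀ c ∈ D.N0, φ c.2 = φH c.1 := fun c hc => by
    obtain ⟨b, hb, j, rfl | rfl⟩ := h.memN0 hc <;>
      simp [P.hB b hb, P.hx1 h I hk, P.hw1 h I hk]
  have r := P.rl_v h I hk
  unfold Rl at r
  rw [inv_eq_of_mul_eq_one_right (σσ h)] at r
  refine ⟨φ, hN, r, ?_⟩
  have hH : ∀ a, φH a ∈ closure (Set.range φ ∪ {φH D.s}) := fun a => by
    have : closure (insert D.s (Prod.fst '' (D.N0 : Set (H × M)))) ≤
        (closure (Set.range φ ∪ {φH D.s})).comap φH := (closure_le _).2 (by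
      rintro _ (rfl | ⟨c, hc, rfl⟩)
      · exact subset_closure (Or.inr rfl)
      · exact subset_closure (Or.inl ⟨_, hN c hc⟩))
    exact this (h.genH ▸ mem_top a)
  refine eq_top_of_fus' (P.t1 h I) (by rw [← map_mul, h.tt, map_one]) (fun g e => ?_)
    (fun u u1 uu e => ?_) (P.gsq h I le_rfl (by omega)) (P.gsq h I (by omega) (by omega)) (P.ac h I)
  · obtain ⟨a, rfl⟩ := I.rng g e
    exact hH a
  · obtain ⟨a, rfl⟩ := I.rng u e
    by_cases ht : a = D.t.1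
    · exact ⟨1, one_mem _, by simp [ht]⟩
    obtain ⟨c, e⟩ := h.F1 a (I.inj (by rw [map_mul, uu, map_one])) (fun e => u1 (by rw [e, map_one])) ht
    refine ⟨φH c * p, mul_mem (hH c) (subset_closure (Or.inl ⟨_, P.hp⟩)), ?_⟩
    rw [← e, map_mul, map_mul, map_inv, ← P.pt h I]; group

end Ph

theorem main_ne (h : MF D) (tc : TC D.relA D.relP (G × M)) (I : In D φH p k) : k % 3 ≠ 0 :=
  let ⟨_, P⟩ := exists_ph h tc I; P.k_ne h I

theorem main (h : MF D) (tc : TC D.relA D.relP (G × M)) (I : In D φH p k) (hk : k % 3 = 1) :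
    Out D φH :=
  let ⟨_, P⟩ := exists_ph h tc I; P.out h I hk

end CfsgLY.L2
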