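/-
The Lyons group: the local analysis, assembled.
-/
import Cfsg.Agent.LY.I3
import Cfsg.Agent.LY.Am
import Cfsg.Agent.LY.L1t
import Cfsg.Agent.LY.L2

set_option autoImplicit false
set_option maxRecDepth 100000

universe u

namespace CfsgLY

open Subgroup

theorem fe_xg : ∀ i, 1 ≤ i → i ≤ 6 → Commute (DD relA).x ((DD relA).g i) := fun i h1 h6 => by
  have : ∀ i, i < 7 → 1 ≤ i → ([7, L5.reg i], [L5.reg i, 7]) ∈ LI3 := by decide
  exact i3_xg (this i (by omega) h1)

theorem fe_g : ∀ i, 1 ≤ i → i ≤ 6 → ((DD relA).g i).2 = mm (9 + i) := fun i h1 h6 => by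
  change mm (L5.reg i) = _
  interval_cases i <;> rfl

theorem fe_in {G : Type u} [Group G] {φ : H6 →* G} {p : G} {k : ℕ} (h : L1.Out1 φ p k) :
    L2.In (DD relA) φ p k where
  inj := h.inj
  rng := h.rng
  pp := h.pp
  px := h.px
  relP := h.relP
  hk := h.hk
  hw := by
    have := h.hw
    exact this

theorem fe_am (hF : L2.MF (DD relA)) {G : Type u} [Group G] [Finite G] [IsSimpleGroup G]
    (tc : L2.TC relA L5.relP (G × M6)) (t : G) (ht : orderOf t = 2)
    (hC : Cfsg.IsNonsplitDoubleCover (centralizer ({t} : Set G)) (alternatingGroup (Fin 11))) :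
    ∃ A : Am G, A.cl = ⊤ := by
  obtain ⟨φ, p, k, h⟩ := L1.exists_L1 ht hC
  obtain ⟨φ₂, k₂, hk, h₂⟩ := h.norm (L2.main_ne hF tc (fe_in h))
  exact am_of_out (L2.main hF tc (fe_in h₂) hk)

end CfsgLY
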