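/-
Lyons project, package M: all facts about the model of `3.McL:2`.
-/
import Cfsg.Agent.H6.LyN

set_option autoImplicit false

namespace CfsgLY

open CfsgH5 CfsgH6 Subgroup

theorem memS4 : CM.Mem RM ⊤ 1008806316530991104 := LyN.memS4

theorem cardK6 : Nat.card K6 = 2694384000 := M2.cardK6

theorem ubM : Nat.card M6 ≤ 5388768000 := M2.ubM

theorem cardM6 : Nat.card M6 = 5388768000 := le_antisymm ubM (by simpa using LyN.lbM)

theorem decT1 (m : M6) : ∃ τ ∈ AA, ∃ l ∈ LW1, ∃ a ∈ AA, m = τ * mw l * a := LyN.decT1 m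
theorem decT2 (m : M6) : ∃ τ ∈ S2, ∃ l ∈ LW2, ∃ a ∈ AA, m = τ * mw l * a := LyN.decT2 m
theorem decT3 (m : M6) : ∃ τ ∈ S3, ∃ l ∈ LW3, ∃ a ∈ AA, m = τ * mw l * a := LyN.decT3 m
theorem decT4 (m : M6) : ∃ τ ∈ S4, ∃ l ∈ LW4, ∃ a ∈ AA, m = τ * mw l * a := LyN.decT4 m

theorem lbA : 349920 ≤ Nat.card AA := LyN.lbA
theorem lbS2 : 10080 ≤ Nat.card S2 := LyN.lbS2
theorem lbS3 : 2880 ≤ Nat.card S3 := LyN.lbS3
theorem lbS4 : 750 ≤ Nat.card S4 := LyN.lbS4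

end CfsgLY
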