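/-
Lyons group: the field `nine` of the model facts.
-/
import Cfsg.Agent.LY.M5
import Cfsg.Agent.LY.IM2

set_option autoImplicit false

namespace CfsgLY

open CfsgH5 CfsgH6 L2

/-- the commutator condition selects two of the nine elements -/
theorem pick6 {r : M6} (e : ∃ i < 3, ∃ j < 3, r = mm 52 ^ i * mm 54 ^ j)
    (hc : r * (mm 45 * r * (mm 45)⁻¹) * r⁻¹ * (mm 45 * r * (mm 45)⁻¹)⁻¹ = mm 7 ^ 2 * mm 19 ^ 1) :
    r = mm 53 ∨ r = (mm 53)⁻¹ :=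
  M5.pick (m := fun i => CM.el (RM i)) n_id.1 n_id.2.2.2.1 n_id.2.2.2.2.2
    (B := [[], [54], [54, 54], [52, 54]] ++ [[52, 54, 54], [52, 52, 54], [52, 52, 54, 54]])
    (forall_app (M5.nes memM nchk69) (M5.nes memM nchk70)) (by decide) e hc

/-- the field `nine`, from the list of the nine elements -/
theorem mf_nine (relA : List (List ℕ))
    (h9 : ∀ k ∈ K6, Commute (k * mm 9 * k⁻¹) (mm 19) → Commute (k * mm 9 * k⁻¹) (mm 20) →
      ∃ i j : ℕ, i < 3 ∧ j < 3 ∧ k * mm 9 * k⁻¹ * mm 9 = mm 52 ^ i * mm 54 ^ j) :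
    ∀ k ∈ (DD relA).K, Commute (k * (DD relA).t.2 * k⁻¹) (DD relA).y.2 →
      Commute (k * (DD relA).t.2 * k⁻¹) (DD relA).z.2 →
      ∀ r, r = k * (DD relA).t.2 * k⁻¹ * (DD relA).t.2 →
        cm r ((DD relA).gc'.2 * r * (DD relA).gc'.2⁻¹) =
          (DD relA).x.2 ^ (DD relA).ca * (DD relA).y.2 ^ (DD relA).cb →
        r = (DD relA).vs ∨ r = (DD relA).vs⁻¹ := by
  rw [DD_K]
  intro k hk hy hz r hr hc
  obtain ⟨i, j, hi, hj, e⟩ := h9 k hk hy hz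
  exact pick6 ⟨i, hi, j, hj, hr.trans e⟩ hc

end CfsgLY
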