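/-
Lyons group: reductions for the coset enumeration.
-/
import Cfsg.Agent.LY.T0
import Cfsg.Agent.LY.L2a

set_option autoImplicit false

namespace CfsgLY

open CfsgH5 CfsgH5.KT Subgroup

universe u

/-- the result of the enumeration -/
def TC0 : Prop := ∀ (Γ : Type u) [Group Γ] [Finite Γ] (g : ℕ → Γ), (∀ x, g x * g x = 1) →
  (∀ l ∈ relA ++ relP, wl g l = 1) → Nat.card (grp g 7) ≤ 22275 * Nat.card (grp g 6)

theorem mem_sub {Γ : Type*} [Group Γ] {g : ℕ → Γ} {x : ℕ} (hx : tb 126 x = true) : g x ∈ grp g 6 := by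
  have h : x < 7 := by
    by_contra h
    rw [tb_eq, Nat.testBit_lt_two_pow (lt_of_lt_of_le (by norm_num : 126 < 2 ^ 7)
      (Nat.pow_le_pow_right (by norm_num) (not_lt.1 h)))] at hx
    cases hx
  refine mem_grp g (Nat.pos_of_ne_zero ?_) (by omega)
  rintro rfl
  revert hx; decide

theorem wd_rel : ∀ l ∈ relA ++ relP, ∀ x ∈ l, 1 ≤ x ∧ x ≤ 7 := by decide

variable {Γ : Type u} [Group Γ] [Finite Γ]

theorem tc1_of (h : TC0.{u}) (g : ℕ → Γ) (hsq : ∀ i, 1 ≤ i → i ≤ 7 → g i * g i = 1)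
    (hA : ∀ l ∈ relA, (l.map g).prod = 1) (hP : ∀ l ∈ relP, (l.map g).prod = 1) :
    Nat.card (closure (g '' Set.Icc 1 7)) ≤ 22275 * Nat.card (closure (g '' Set.Icc 1 6)) := by
  let g' : ℕ → Γ := fun i => if 1 ≤ i ∧ i ≤ 7 then g i else 1
  have h1 : ∀ x, g' x * g' x = 1 := fun x => by
    simp only [g']
    split_ifs with hx
    exacts [hsq x hx.1 hx.2, one_mul 1]
  have e : ∀ L, L ≤ 7 → grp g' L = closure (g '' Set.Icc 1 L) := fun L hL =>
    congrArg Subgroup.closure (Set.image_congr fun x hx => if_pos ⟨hx.1, hx.2.trans hL⟩)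
  rw [← e 7 le_rfl, ← e 6 (by norm_num)]
  refine h Γ g' h1 fun l hl => wl_eq_one h1 ?_
  rw [List.map_congr_left (g := g) fun x hx => if_pos (wd_rel l hl x hx)]
  exact (List.mem_append.1 hl).elim (hA l) (hP l)

theorem tc1c_of (h : TC0.{u}) (g : ℕ → Γ) (ζ : Γ) (h3 : ζ ^ 3 = 1)
    (hc : ∀ i, 1 ≤ i → i ≤ 7 → Commute ζ (g i)) (hsq : ∀ i, 1 ≤ i → i ≤ 7 → g i * g i = 1)
    (hA : ∀ l ∈ relA, (l.map g).prod = 1) (hP : ∀ l ∈ relP', (l.map g).prod = 1)
    (hk : ∃ k : ℕ, ([7, 5, 2, 7, 5, 2].map g).prod = ζ ^ k) :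
    Nat.card (closure (insert ζ (g '' Set.Icc 1 7))) ≤
      3 * 22275 * Nat.card (closure (g '' Set.Icc 1 6)) := by
  let C : Subgroup Γ := centralizer {ζ}
  have hζ : ζ ∈ C := mem_centralizer_singleton_iff.2 rfl
  let Z : Subgroup C := zpowers ⟨ζ, hζ⟩
  have : Z.Normal := ⟨fun n hn c => by
    obtain ⟨k, rfl⟩ := mem_zpowers_iff.1 hn
    have : Commute c (⟨ζ, hζ⟩ : C) := Subtype.ext (mem_centralizer_singleton_iff.1 c.2)
    rw [(this.zpow_right k).eq, mul_inv_cancel_right]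
    exact hn⟩
  let π := QuotientGroup.mk' Z
  let g' : ℕ → C := fun i => if hi : 1 ≤ i ∧ i ≤ 7 then
    ⟨g i, mem_centralizer_singleton_iff.2 (hc i hi.1 hi.2).symm.eq⟩ else 1
  have e0 : ∀ i, 1 ≤ i ∧ i ≤ 7 → (g' i : Γ) = g i := fun i hi => by simp only [g', dif_pos hi]
  have e1 : ∀ l : List ℕ, (∀ x ∈ l, 1 ≤ x ∧ x ≤ 7) → (((l.map g').prod : C) : Γ) = (l.map g).prod :=
    fun l hl => by
      rw [← C.coe_subtype, map_list_prod, List.map_map]
      exact congrArg List.prod (List.map_congr_left fun x hx => e0 x (hl x hx))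
  have e2 : ∀ l : List ℕ, (l.map (π ∘ g')).prod = π (l.map g').prod := fun l => by
    rw [map_list_prod, List.map_map]
  have e3 : ∀ l ∈ relA ++ relP, (l.map g).prod = 1 → (l.map (π ∘ g')).prod = 1 := fun l hl h => by
    rw [e2, show (l.map g').prod = 1 from Subtype.ext ((e1 l (wd_rel l hl)).trans h), map_one]
  have key := tc1_of h (π ∘ g') (fun i h1 h2 => by
      rw [Function.comp_apply, ← map_mul, show g' i * g' i = 1 from Subtype.ext (by
        rw [coe_mul, e0 i ⟨h1, h2⟩]; exact hsq i h1 h2), map_one])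
    (fun l hl => e3 l (List.mem_append_left _ hl) (hA l hl)) fun l hl => by
      rcases List.mem_cons.1 hl with rfl | hl'
      · obtain ⟨k, hk⟩ := hk
        rw [e2, QuotientGroup.mk'_apply, QuotientGroup.eq_one_iff,
          show ([7, 5, 2, 7, 5, 2].map g').prod = ⟨ζ, hζ⟩ ^ k from
            Subtype.ext ((e1 _ (by decide)).trans hk)]
        exact pow_mem (mem_zpowers _) k
      · exact e3 l (List.mem_append_right _ hl) (hP l hl')
  have e4 : ∀ L, closure ((π ∘ g') '' Set.Icc 1 L) = (closure (g' '' Set.Icc 1 L)).map π := fun L => by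
    rw [MonoidHom.map_closure, Set.image_comp]
  have e5 : ∀ L, L ≤ 7 → (closure (g' '' Set.Icc 1 L)).map C.subtype = closure (g '' Set.Icc 1 L) :=
    fun L hL => by
      rw [MonoidHom.map_closure, ← Set.image_comp]
      exact congrArg Subgroup.closure (Set.image_congr fun x hx => e0 x ⟨hx.1, hx.2.trans hL⟩)
  have hZ : Nat.card Z ≤ 3 := by
    rw [Nat.card_zpowers]
    exact orderOf_le_of_pow_eq_one (by norm_num) (Subtype.ext h3)
  have k1 : Nat.card (closure ((π ∘ g') '' Set.Icc 1 6)) ≤ Nat.card (closure (g '' Set.Icc 1 6)) := by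
    rw [e4, ← e5 6 (by norm_num), card_map_of_injective C.subtype_injective]
    exact Nat.le_of_dvd Nat.card_pos (card_map_dvd _ _)
  have k2 : closure (insert ζ (g '' Set.Icc 1 7)) ≤
      ((closure ((π ∘ g') '' Set.Icc 1 7)).comap π).map C.subtype := by
    rw [closure_le]
    rintro _ (rfl | ⟨i, hi, rfl⟩)
    · refine ⟨⟨_, hζ⟩, ?_, rfl⟩
      rw [SetLike.mem_coe, mem_comap, show π ⟨_, hζ⟩ = 1 from
        (QuotientGroup.eq_one_iff _).2 (mem_zpowers _)]
      exact one_mem _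
    · exact ⟨g' i, subset_closure ⟨i, hi, rfl⟩, e0 i hi⟩
  have k3 : ∀ K : Subgroup (C ⧸ Z), Nat.card (K.comap π) = Nat.card K * Nat.card Z := fun K => by
    rw [mul_comm]
    exact QuotientGroup.card_preimage_mk Z (K : Set (C ⧸ Z))
  calc _ ≤ _ := card_le_of_le k2
    _ = _ := by rw [card_map_of_injective C.subtype_injective, k3]
    _ ≤ 22275 * Nat.card (closure (g '' Set.Icc 1 6)) * 3 :=
      Nat.mul_le_mul (key.trans (Nat.mul_le_mul_left _ k1)) hZ
    _ = _ := by ring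

end CfsgLY
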