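/-
Lyons group: checks (generated).
-/
import Cfsg.Agent.LY.TD

set_option autoImplicit false
set_option maxRecDepth 100000
set_option linter.all false
set_option Elab.async false

namespace CfsgLY.TT

open CfsgH5 CfsgH5.KT

noncomputable section

theorem K_0 : allIco 0 2000 ck = true := by decide +kernel
theorem K_2000 : allIco 2000 4000 ck = true := by decide +kernel
theorem K_4000 : allIco 4000 6000 ck = true := by decide +kernel
theorem K_6000 : allIco 6000 8000 ck = true := by decide +kernel
theorem K_8000 : allIco 8000 10000 ck = true := by decide +kernel
theorem K_10000 : allIco 10000 12000 ck = true := by decide +kernel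
theorem K_12000 : allIco 12000 14000 ck = true := by decide +kernel
theorem K_14000 : allIco 14000 16000 ck = true := by decide +kernel
theorem K_16000 : allIco 16000 18000 ck = true := by decide +kernel
theorem K_18000 : allIco 18000 20000 ck = true := by decide +kernel
theorem K_20000 : allIco 20000 22000 ck = true := by decide +kernel
theorem K_22000 : allIco 22000 24000 ck = true := by decide +kernel
theorem K_24000 : allIco 24000 26000 ck = true := by decide +kernel
theorem K_26000 : allIco 26000 28000 ck = true := by decide +kernel
theorem K_28000 : allIco 28000 30000 ck = true := by decide +kernel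
theorem K_30000 : allIco 30000 32000 ck = true := by decide +kernel
theorem K_32000 : allIco 32000 34000 ck = true := by decide +kernel
theorem K_all0 (h : ∀ p, p < 0 → ck p = true) : ∀ p, p < 34000 → ck p = true := (all_of_blocks (all_of_blocks (all_of_blocks (all_of_blocks (all_of_blocks (all_of_blocks (all_of_blocks (all_of_blocks (all_of_blocks (all_of_blocks (all_of_blocks (all_of_blocks (all_of_blocks (all_of_blocks (all_of_blocks (all_of_blocks (all_of_blocks h K_0) K_2000) K_4000) K_6000) K_8000) K_10000) K_12000) K_14000) K_16000) K_18000) K_20000) K_22000) K_24000) K_26000) K_28000) K_30000) K_32000)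

end

end CfsgLY.TT
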