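/-
Lyons group: checks (generated).
-/
import Cfsg.Agent.LY.TD

set_option autoImplicit false
set_option maxRecDepth 100000
set_option linter.all false
set_option Elab.async false

namespace CfsgLY.TT

open CfsgH5 CfsgH5.KT

noncomputable section

theorem K_34000 : allIco 34000 36000 ck = true := by decide +kernel
theorem K_36000 : allIco 36000 38000 ck = true := by decide +kernel
theorem K_38000 : allIco 38000 40000 ck = true := by decide +kernel
theorem K_40000 : allIco 40000 42000 ck = true := by decide +kernel
theorem K_42000 : allIco 42000 44000 ck = true := by decide +kernel
theorem K_44000 : allIco 44000 46000 ck = true := by decide +kernel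
theorem K_46000 : allIco 46000 48000 ck = true := by decide +kernel
theorem K_48000 : allIco 48000 50000 ck = true := by decide +kernel
theorem K_50000 : allIco 50000 52000 ck = true := by decide +kernel
theorem K_52000 : allIco 52000 54000 ck = true := by decide +kernel
theorem K_54000 : allIco 54000 56000 ck = true := by decide +kernel
theorem K_56000 : allIco 56000 58000 ck = true := by decide +kernel
theorem K_58000 : allIco 58000 60000 ck = true := by decide +kernel
theorem K_60000 : allIco 60000 62000 ck = true := by decide +kernel
theorem K_62000 : allIco 62000 64000 ck = true := by decide +kernel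
theorem K_64000 : allIco 64000 66000 ck = true := by decide +kernel
theorem K_66000 : allIco 66000 68000 ck = true := by decide +kernel
theorem K_all1 (h : ∀ p, p < 34000 → ck p = true) : ∀ p, p < 68000 → ck p = true := (all_of_blocks (all_of_blocks (all_of_blocks (all_of_blocks (all_of_blocks (all_of_blocks (all_of_blocks (all_of_blocks (all_of_blocks (all_of_blocks (all_of_blocks (all_of_blocks (all_of_blocks (all_of_blocks (all_of_blocks (all_of_blocks (all_of_blocks h K_34000) K_36000) K_38000) K_40000) K_42000) K_44000) K_46000) K_48000) K_50000) K_52000) K_54000) K_56000) K_58000) K_60000) K_62000) K_64000) K_66000)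

end

end CfsgLY.TT
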