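/-
Lyons group: checks (generated).
-/
import Cfsg.Agent.LY.TD

set_option autoImplicit false
set_option maxRecDepth 100000
set_option linter.all false
set_option Elab.async false

namespace CfsgLY.TT

open CfsgH5 CfsgH5.KT

noncomputable section

theorem K_68000 : allIco 68000 70000 ck = true := by decide +kernel
theorem K_70000 : allIco 70000 72000 ck = true := by decide +kernel
theorem K_72000 : allIco 72000 74000 ck = true := by decide +kernel
theorem K_74000 : allIco 74000 76000 ck = true := by decide +kernel
theorem K_76000 : allIco 76000 78000 ck = true := by decide +kernel
theorem K_78000 : allIco 78000 80000 ck = true := by decide +kernel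
theorem K_80000 : allIco 80000 82000 ck = true := by decide +kernel
theorem K_82000 : allIco 82000 84000 ck = true := by decide +kernel
theorem K_84000 : allIco 84000 86000 ck = true := by decide +kernel
theorem K_86000 : allIco 86000 88000 ck = true := by decide +kernel
theorem K_88000 : allIco 88000 90000 ck = true := by decide +kernel
theorem K_90000 : allIco 90000 92000 ck = true := by decide +kernel
theorem K_92000 : allIco 92000 94000 ck = true := by decide +kernel
theorem K_94000 : allIco 94000 96000 ck = true := by decide +kernel
theorem K_96000 : allIco 96000 98000 ck = true := by decide +kernel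
theorem K_98000 : allIco 98000 100000 ck = true := by decide +kernel
theorem K_100000 : allIco 100000 102000 ck = true := by decide +kernel
theorem K_all2 (h : ∀ p, p < 68000 → ck p = true) : ∀ p, p < 102000 → ck p = true := (all_of_blocks (all_of_blocks (all_of_blocks (all_of_blocks (all_of_blocks (all_of_blocks (all_of_blocks (all_of_blocks (all_of_blocks (all_of_blocks (all_of_blocks (all_of_blocks (all_of_blocks (all_of_blocks (all_of_blocks (all_of_blocks (all_of_blocks h K_68000) K_70000) K_72000) K_74000) K_76000) K_78000) K_80000) K_82000) K_84000) K_86000) K_88000) K_90000) K_92000) K_94000) K_96000) K_98000) K_100000)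

end

end CfsgLY.TT
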