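/-
Lyons group: checks (generated).
-/
import Cfsg.Agent.LY.TD

set_option autoImplicit false
set_option maxRecDepth 100000
set_option linter.all false
set_option Elab.async false

namespace CfsgLY.TT

open CfsgH5 CfsgH5.KT

noncomputable section

theorem K_102000 : allIco 102000 104000 ck = true := by decide +kernel
theorem K_104000 : allIco 104000 106000 ck = true := by decide +kernel
theorem K_106000 : allIco 106000 108000 ck = true := by decide +kernel
theorem K_108000 : allIco 108000 110000 ck = true := by decide +kernel
theorem K_110000 : allIco 110000 112000 ck = true := by decide +kernel
theorem K_112000 : allIco 112000 114000 ck = true := by decide +kernel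
theorem K_114000 : allIco 114000 116000 ck = true := by decide +kernel
theorem K_116000 : allIco 116000 118000 ck = true := by decide +kernel
theorem K_118000 : allIco 118000 120000 ck = true := by decide +kernel
theorem K_120000 : allIco 120000 122000 ck = true := by decide +kernel
theorem K_122000 : allIco 122000 124000 ck = true := by decide +kernel
theorem K_124000 : allIco 124000 126000 ck = true := by decide +kernel
theorem K_126000 : allIco 126000 128000 ck = true := by decide +kernel
theorem K_128000 : allIco 128000 130000 ck = true := by decide +kernel
theorem K_130000 : allIco 130000 132000 ck = true := by decide +kernel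
theorem K_132000 : allIco 132000 134000 ck = true := by decide +kernel
theorem K_134000 : allIco 134000 136000 ck = true := by decide +kernel
theorem K_all3 (h : ∀ p, p < 102000 → ck p = true) : ∀ p, p < 136000 → ck p = true := (all_of_blocks (all_of_blocks (all_of_blocks (all_of_blocks (all_of_blocks (all_of_blocks (all_of_blocks (all_of_blocks (all_of_blocks (all_of_blocks (all_of_blocks (all_of_blocks (all_of_blocks (all_of_blocks (all_of_blocks (all_of_blocks (all_of_blocks h K_102000) K_104000) K_106000) K_108000) K_110000) K_112000) K_114000) K_116000) K_118000) K_120000) K_122000) K_124000) K_126000) K_128000) K_130000) K_132000) K_134000)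

end

end CfsgLY.TT
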