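/-
Lyons group: checks (generated).
-/
import Cfsg.Agent.LY.TD

set_option autoImplicit false
set_option maxRecDepth 100000
set_option linter.all false
set_option Elab.async false

namespace CfsgLY.TT

open CfsgH5 CfsgH5.KT

noncomputable section

theorem K_136000 : allIco 136000 138000 ck = true := by decide +kernel
theorem K_138000 : allIco 138000 140000 ck = true := by decide +kernel
theorem K_140000 : allIco 140000 142000 ck = true := by decide +kernel
theorem K_142000 : allIco 142000 144000 ck = true := by decide +kernel
theorem K_144000 : allIco 144000 146000 ck = true := by decide +kernel
theorem K_146000 : allIco 146000 148000 ck = true := by decide +kernel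
theorem K_148000 : allIco 148000 150000 ck = true := by decide +kernel
theorem K_150000 : allIco 150000 152000 ck = true := by decide +kernel
theorem K_152000 : allIco 152000 154000 ck = true := by decide +kernel
theorem K_154000 : allIco 154000 156000 ck = true := by decide +kernel
theorem K_156000 : allIco 156000 158000 ck = true := by decide +kernel
theorem K_158000 : allIco 158000 160000 ck = true := by decide +kernel
theorem K_160000 : allIco 160000 162000 ck = true := by decide +kernel
theorem K_162000 : allIco 162000 164000 ck = true := by decide +kernel
theorem K_164000 : allIco 164000 166000 ck = true := by decide +kernel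
theorem K_166000 : allIco 166000 168000 ck = true := by decide +kernel
theorem K_168000 : allIco 168000 170000 ck = true := by decide +kernel
theorem K_all4 (h : ∀ p, p < 136000 → ck p = true) : ∀ p, p < 170000 → ck p = true := (all_of_blocks (all_of_blocks (all_of_blocks (all_of_blocks (all_of_blocks (all_of_blocks (all_of_blocks (all_of_blocks (all_of_blocks (all_of_blocks (all_of_blocks (all_of_blocks (all_of_blocks (all_of_blocks (all_of_blocks (all_of_blocks (all_of_blocks h K_136000) K_138000) K_140000) K_142000) K_144000) K_146000) K_148000) K_150000) K_152000) K_154000) K_156000) K_158000) K_160000) K_162000) K_164000) K_166000) K_168000)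

end

end CfsgLY.TT
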