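/-
Lyons group: checks (generated).
-/
import Cfsg.Agent.LY.TD

set_option autoImplicit false
set_option maxRecDepth 100000
set_option linter.all false
set_option Elab.async false

namespace CfsgLY.TT

open CfsgH5 CfsgH5.KT

noncomputable section

theorem K_170000 : allIco 170000 172000 ck = true := by decide +kernel
theorem K_172000 : allIco 172000 174000 ck = true := by decide +kernel
theorem K_174000 : allIco 174000 176000 ck = true := by decide +kernel
theorem K_176000 : allIco 176000 178000 ck = true := by decide +kernel
theorem K_178000 : allIco 178000 180000 ck = true := by decide +kernel
theorem K_180000 : allIco 180000 182000 ck = true := by decide +kernel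
theorem K_182000 : allIco 182000 184000 ck = true := by decide +kernel
theorem K_184000 : allIco 184000 186000 ck = true := by decide +kernel
theorem K_186000 : allIco 186000 188000 ck = true := by decide +kernel
theorem K_188000 : allIco 188000 190000 ck = true := by decide +kernel
theorem K_190000 : allIco 190000 192000 ck = true := by decide +kernel
theorem K_192000 : allIco 192000 194000 ck = true := by decide +kernel
theorem K_194000 : allIco 194000 196000 ck = true := by decide +kernel
theorem K_196000 : allIco 196000 198000 ck = true := by decide +kernel
theorem K_198000 : allIco 198000 200000 ck = true := by decide +kernel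
theorem K_200000 : allIco 200000 202000 ck = true := by decide +kernel
theorem K_202000 : allIco 202000 204000 ck = true := by decide +kernel
theorem K_all5 (h : ∀ p, p < 170000 → ck p = true) : ∀ p, p < 204000 → ck p = true := (all_of_blocks (all_of_blocks (all_of_blocks (all_of_blocks (all_of_blocks (all_of_blocks (all_of_blocks (all_of_blocks (all_of_blocks (all_of_blocks (all_of_blocks (all_of_blocks (all_of_blocks (all_of_blocks (all_of_blocks (all_of_blocks (all_of_blocks h K_170000) K_172000) K_174000) K_176000) K_178000) K_180000) K_182000) K_184000) K_186000) K_188000) K_190000) K_192000) K_194000) K_196000) K_198000) K_200000) K_202000)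

end

end CfsgLY.TT
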