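/-
Lyons group: checks (generated).
-/
import Cfsg.Agent.LY.TD

set_option autoImplicit false
set_option maxRecDepth 100000
set_option linter.all false
set_option Elab.async false

namespace CfsgLY.TT

open CfsgH5 CfsgH5.KT

noncomputable section

theorem K_204000 : allIco 204000 206000 ck = true := by decide +kernel
theorem K_206000 : allIco 206000 208000 ck = true := by decide +kernel
theorem K_208000 : allIco 208000 210000 ck = true := by decide +kernel
theorem K_210000 : allIco 210000 212000 ck = true := by decide +kernel
theorem K_212000 : allIco 212000 214000 ck = true := by decide +kernel
theorem K_214000 : allIco 214000 216000 ck = true := by decide +kernel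
theorem K_216000 : allIco 216000 218000 ck = true := by decide +kernel
theorem K_218000 : allIco 218000 220000 ck = true := by decide +kernel
theorem K_220000 : allIco 220000 222000 ck = true := by decide +kernel
theorem K_222000 : allIco 222000 224000 ck = true := by decide +kernel
theorem K_224000 : allIco 224000 226000 ck = true := by decide +kernel
theorem K_226000 : allIco 226000 228000 ck = true := by decide +kernel
theorem K_228000 : allIco 228000 230000 ck = true := by decide +kernel
theorem K_230000 : allIco 230000 232000 ck = true := by decide +kernel
theorem K_232000 : allIco 232000 234000 ck = true := by decide +kernel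
theorem K_234000 : allIco 234000 236000 ck = true := by decide +kernel
theorem K_236000 : allIco 236000 238000 ck = true := by decide +kernel
theorem K_all6 (h : ∀ p, p < 204000 → ck p = true) : ∀ p, p < 238000 → ck p = true := (all_of_blocks (all_of_blocks (all_of_blocks (all_of_blocks (all_of_blocks (all_of_blocks (all_of_blocks (all_of_blocks (all_of_blocks (all_of_blocks (all_of_blocks (all_of_blocks (all_of_blocks (all_of_blocks (all_of_blocks (all_of_blocks (all_of_blocks h K_204000) K_206000) K_208000) K_210000) K_212000) K_214000) K_216000) K_218000) K_220000) K_222000) K_224000) K_226000) K_228000) K_230000) K_232000) K_234000) K_236000)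

end

end CfsgLY.TT
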