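/-
Lyons group: checks (generated).
-/
import Cfsg.Agent.LY.TD

set_option autoImplicit false
set_option maxRecDepth 100000
set_option linter.all false
set_option Elab.async false

namespace CfsgLY.TT

open CfsgH5 CfsgH5.KT

noncomputable section

theorem K_238000 : allIco 238000 240000 ck = true := by decide +kernel
theorem K_240000 : allIco 240000 242000 ck = true := by decide +kernel
theorem K_242000 : allIco 242000 244000 ck = true := by decide +kernel
theorem K_244000 : allIco 244000 246000 ck = true := by decide +kernel
theorem K_246000 : allIco 246000 248000 ck = true := by decide +kernel
theorem K_248000 : allIco 248000 250000 ck = true := by decide +kernel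
theorem K_250000 : allIco 250000 252000 ck = true := by decide +kernel
theorem K_252000 : allIco 252000 254000 ck = true := by decide +kernel
theorem K_254000 : allIco 254000 256000 ck = true := by decide +kernel
theorem K_256000 : allIco 256000 256694 ck = true := by decide +kernel
theorem K_all7 (h : ∀ p, p < 238000 → ck p = true) : ∀ p, p < 256694 → ck p = true := (all_of_blocks (all_of_blocks (all_of_blocks (all_of_blocks (all_of_blocks (all_of_blocks (all_of_blocks (all_of_blocks (all_of_blocks (all_of_blocks h K_238000) K_240000) K_242000) K_244000) K_246000) K_248000) K_250000) K_252000) K_254000) K_256000)

end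

end CfsgLY.TT
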