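/-
Lyons group: the coset enumeration for the McLaughlin amalgam.
-/
import Cfsg.Agent.LY.TK0
import Cfsg.Agent.LY.TK1
import Cfsg.Agent.LY.TK2
import Cfsg.Agent.LY.TK3
import Cfsg.Agent.LY.TK4
import Cfsg.Agent.LY.TK5
import Cfsg.Agent.LY.TK6
import Cfsg.Agent.LY.TK7
import Cfsg.Agent.LY.T1

set_option autoImplicit false

namespace CfsgLY

open CfsgH5 CfsgH5.KT Subgroup

universe u

theorem TT.all : ∀ p, p < 256694 → TT.ck p = true :=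
  TT.K_all7 (TT.K_all6 (TT.K_all5 (TT.K_all4 (TT.K_all3 (TT.K_all2 (TT.K_all1 (TT.K_all0
    fun _ h => absurd h (Nat.not_lt_zero _))))))))

theorem tc0 : TC0.{u} := fun _ _ _ _ hg hr =>
  (KW.card_le (let_T hg hr TT.ok) (by norm_num) (by norm_num)
    (fun x h1 h2 => by interval_cases x <;> simp) TT.all fun x hx => mem_sub hx).2

variable {Γ : Type*} [Group Γ] [Finite Γ]

theorem tc1 (g : ℕ → Γ) (hsq : ∀ i, 1 ≤ i → i ≤ 7 → g i * g i = 1)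
    (hA : ∀ l ∈ relA, (l.map g).prod = 1) (hP : ∀ l ∈ relP, (l.map g).prod = 1) :
    Nat.card (closure (g '' Set.Icc 1 7)) ≤ 22275 * Nat.card (closure (g '' Set.Icc 1 6)) :=
  tc1_of tc0 g hsq hA hP

theorem tc1c (g : ℕ → Γ) (ζ : Γ) (h3 : ζ ^ 3 = 1) (hc : ∀ i, 1 ≤ i → i ≤ 7 → Commute ζ (g i))
    (hsq : ∀ i, 1 ≤ i → i ≤ 7 → g i * g i = 1)
    (hA : ∀ l ∈ relA, (l.map g).prod = 1) (hP : ∀ l ∈ relP', (l.map g).prod = 1)
    (hk : ∃ k : ℕ, ([7, 5, 2, 7, 5, 2].map g).prod = ζ ^ k) :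
    Nat.card (closure (insert ζ (g '' Set.Icc 1 7))) ≤
      3 * 22275 * Nat.card (closure (g '' Set.Icc 1 6)) :=
  tc1c_of tc0 g ζ h3 hc hsq hA hP hk

theorem tcTC (Γ : Type*) [Group Γ] [Finite Γ] : L2.TC relA relP' Γ := tc1c

end CfsgLY
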