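import Cfsg.Agent.LY.UK
import Cfsg.Agent.LY.AmG

/-! Lyons project: the universal bound for completions mapping to the model. -/

set_option autoImplicit false
set_option maxRecDepth 100000

universe u

namespace CfsgLY

open CfsgH5 CfsgH6 Subgroup

noncomputable section

/-- facts on the model of `3.McL:2` -/
structure UF : Prop where
  memS4 : CM.Mem RM ⊤ 1008806316530991104
  ubM : Nat.card M6 ≤ 5388768000
  dec1 : ∀ m : M6, ∃ τ ∈ AA, ∃ l ∈ LW1, ∃ a ∈ AA, m = τ * mw l * a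
  dec2 : ∀ m : M6, ∃ τ ∈ S2, ∃ l ∈ LW2, ∃ a ∈ AA, m = τ * mw l * a
  dec3 : ∀ m : M6, ∃ τ ∈ S3, ∃ l ∈ LW3, ∃ a ∈ AA, m = τ * mw l * a
  dec4 : ∀ m : M6, ∃ τ ∈ S4, ∃ l ∈ LW4, ∃ a ∈ AA, m = τ * mw l * a
  lbA : 349920 ≤ Nat.card AA
  lb2 : 10080 ≤ Nat.card S2
  lb3 : 2880 ≤ Nat.card S3
  lb4 : 750 ≤ Nat.card S4

theorem bit_mem {M N : ℕ} {l : List ℕ} (hN : Nat.blt M (2 ^ N) = true)
    (h : allLt N (fun i => bimp (tb M i) (l.elem i)) = true) {i : ℕ} (hi : M.testBit i = true) :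
    i ∈ l := by
  rw [blt_true_iff] at hN
  have h1 : i < N := by
    by_contra hn
    rw [Nat.testBit_lt_two_pow (hN.trans_le (Nat.pow_le_pow_right (by norm_num) (by omega)))] at hi
    exact absurd hi (by simp)
  have := (allLt_iff _ _).1 h i h1
  simpa [hi] using this

theorem mm56 : mm 56 = mw lr4 := by
  have h0 := (slpL_sound (vM.sub (M' := 64512) (by decide +kernel)) slpM0).1
  have h1 := (slpL_sound (h0.lor' vM (M'' := 1681660089204734) (by decide +kernel)) slpM1).1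
  exact (slpL_sound (h1.lor' vM (M'' := 4503599627370494) (by decide +kernel)) slpM2).2
    (56, lr4) (by decide +kernel)

theorem mw1 (r : ℕ) : mw [r] = mm r := by simp [wl]

theorem code_mm {r : ℕ} (h : tb MM r = true) : C1.code (fstM (mm r)) = R1 r := by
  rw [← fst_mm h]
  exact (mem1.get (by rw [tb_eq, testBit_ins]; exact Or.inl (by rwa [tb_eq] at h))).code_el

theorem hx7 (m : M6) : Sim (mm 7) (m * mm 7 * m⁻¹) := by
  have x3 : mm 7 ^ 3 = 1 := by simpa [pow_succ, mul_assoc] using mEq x3c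
  refine GC.gen_induction (C := CM) (R := RM) (M := 2251799813750144)
    (P := fun m => Sim (mm 7) (m * mm 7 * m⁻¹)) (Or.inl (by simp)) (fun a b ha hb => ?_)
    (fun i hi => ?_) m (topM ▸ mem_top m)
  · rw [show a * b * mm 7 * (a * b)⁻¹ = a * (b * mm 7 * b⁻¹) * a⁻¹ by group]
    rcases hb with hb | hb <;> rw [hb]
    · exact ha
    · rcases ha with ha | ha
      · exact Or.inr (by rw [show a * (mm 7)⁻¹ * a⁻¹ = (a * mm 7 * a⁻¹)⁻¹ by group, ha])
      · exact Or.inl (by rw [show a * (mm 7)⁻¹ * a⁻¹ = (a * mm 7 * a⁻¹)⁻¹ by group, ha, inv_inv])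
  · have h := (allL_iff _ _).1 xn i (bit_mem (N := 52) (by decide +kernel) (by decide +kernel) hi)
    simp only [bor_eq, Bool.or_eq_true] at h
    rcases h with h | h
    · have := mEq h
      simp only [wl_cons, wl_nil, mul_one] at this
      exact Or.inl (by rw [this]; group)
    · have := mEq h
      simp only [wl_cons, wl_nil, mul_one] at this
      exact Or.inr (by rw [this, inv_cube x3]; group)

/-- double coset representatives -/
def rr (i : ℕ) : M6 :=
  if i = 0 then 1 else if i = 1 then mm 21 else if i = 2 then mw lr2 else if i = 3 then mw lr3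
    else mw lr4

theorem fst_mw {l : List ℕ} (h : allL l (tb MM) = true) : fstM (mw l) = wl C1 R1 l :=
  map_wl fstM (MonoidHom.id _) (fun _ hi => (fst_mm hi).symm) h

/-- the word of the element of order three of a vertex at distance two -/
def yw (l : List ℕ) : List ℕ := [60] ++ l ++ [60, 7, 60] ++ l.reverse ++ [60]

def ywB (l : List ℕ) : Bool :=
  band (allL (yw l) (tb (ins MM 60))) (eqL OM RM MM (l ++ l.reverse) [])

theorem yw_spec (ss : s6 * s6 = 1) {l : List ℕ} (h : ywB l = true) :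
    C1.code (s6 * fstM (mw l) * s6 * fstM (mm 7) * (s6 * fstM (mw l) * s6)⁻¹) =
      evL P.ops R1 (yw l) := by
  simp only [ywB, band_eq, Bool.and_eq_true] at h
  have e := mEq h.2
  have h3 := h.2
  simp only [eqL, band_eq, Bool.and_eq_true, allL_iff, List.mem_append] at h3
  have a1 : allL l (tb MM) = true := (allL_iff _ _).2 fun a ha => h3.1.1 a (Or.inl ha)
  have a2 : allL l.reverse (tb MM) = true := (allL_iff _ _).2 fun a ha => h3.1.1 a (Or.inr ha)
  rw [← (wl_spec mem1 h.1).2]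
  refine congrArg C1.code ?_
  have e1 : (fstM (mw l))⁻¹ = fstM (mw l.reverse) := by
    rw [← map_inv]
    exact congrArg fstM (inv_eq_of_mul_eq_one_right (by rw [← wl_append]; exact e))
  have e2 : s6⁻¹ = s6 := inv_eq_of_mul_eq_one_left ss
  rw [mul_inv_rev, mul_inv_rev, e1, e2, fst_mw a1, fst_mw a2, ← fst_mm (by decide +kernel)]
  simp only [yw, wl_append, wl_cons, wl_nil, mul_one, mul_assoc]

theorem yw2 : band (ywB lr2) (bnot (cmB P.ops (R1 7) (evL P.ops R1 (yw lr2)))) = true := by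
  decide +kernel
theorem yw3 : band (ywB lr3) (bnot (cmB P.ops (R1 7) (evL P.ops R1 (yw lr3)))) = true := by
  decide +kernel
theorem yw4 : band (ywB lr4) (bnot (cmB P.ops (R1 7) (evL P.ops R1 (yw lr4)))) = true := by
  decide +kernel
theorem yw5 : n5B P.ops (R1 7) (evL P.ops R1 (yw lr4)) = true := by decide +kernel
theorem yw1 : band (neL P.ops R1 (ins MM 60) [60, 7, 60] [7])
    (neL P.ops R1 (ins MM 60) [60, 7, 60] [7, 7]) = true := by decide +kernel

theorem x73 : mm 7 ^ 3 = 1 := by simpa [pow_succ, mul_assoc] using mEq x3c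

theorem yw_nc (ss : s6 * s6 = 1) {l : List ℕ}
    (h : band (ywB l) (bnot (cmB P.ops (R1 7) (evL P.ops R1 (yw l)))) = true) :
    ¬ Commute (fstM (mm 7))
      (s6 * fstM (mw l) * s6 * fstM (mm 7) * (s6 * fstM (mw l) * s6)⁻¹) := by
  simp only [band_eq, Bool.and_eq_true, bnot_eq, Bool.not_eq_true'] at h
  rw [← cmB_iff (C := C1), yw_spec ss h.1, code_mm (by decide +kernel), h.2]; simp

theorem not_sim {L : Type*} [Group L] {s x : L} (ss : s * s = 1) (x3 : x ^ 3 = 1)
    (e1 : s * (x * s) ≠ x) (e2 : s * (x * s) ≠ x * x) : ¬ Sim x (s * x * s⁻¹) := by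
  rw [inv_eq_of_mul_eq_one_left ss, mul_assoc]
  rintro (e | e)
  · exact e1 e
  · exact e2 (by rw [e, inv_cube x3])

theorem yw_n1 (ss : s6 * s6 = 1) : ¬ Sim (fstM (mm 7)) (s6 * fstM (mm 7) * s6⁻¹) := by
  have h := yw1
  simp only [band_eq, Bool.and_eq_true] at h
  have e1 := neL_sound mem1 h.1
  have e2 := neL_sound mem1 h.2
  simp only [wl_cons, wl_nil, mul_one] at e1 e2
  have c : fstM (mm 7) ^ 3 = 1 := by rw [← map_pow, x73, map_one]
  rw [← fst_mm (r := 7) (by decide +kernel)] at c ⊢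
  exact not_sim ss c e1 e2

variable {Q : Type u} [Group Q] (F : UF) (A : AmG mm 21 LA LS Q) (π : Q →* GL111)
  (h1 : ∀ m, π (A.φ m) = fstM m) (h2 : π A.σ = s6)

include h2 in
theorem s6_sq : s6 * s6 = 1 := by rw [← h2, ← map_mul, A.sq, map_one]

/-- the complex of a completion -/
def cxA : Cx M6 Q GL111 where
  φ := A.φ
  σ := A.σ
  π := π
  x := mm 7
  A := AA
  r := rr
  sq := A.sq
  tri := A.tri
  hA := GC.gen_induction (C := CM) (R := RM) (by simp [A.sq]) (fun a b ha hb => by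
      have := mul_mem ha hb
      rwa [show A.σ * A.φ a * A.σ * (A.σ * A.φ b * A.σ) =
        A.σ * A.φ a * (A.σ * A.σ) * A.φ b * A.σ by group, A.sq, mul_one, mul_assoc A.σ,
        ← map_mul] at this) fun i hi => by
      have := bit_mem (N := 53) (l := LA.map Prod.fst) (by decide +kernel) (by decide +kernel) hi
      obtain ⟨e, he, rfl⟩ := List.mem_map.1 this
      exact ⟨_, (A.cA e he).symm⟩
  hx := hx7
  dec m := by
    obtain ⟨τ, hτ, l, hl, a, ha, e⟩ := F.dec1 m
    refine ⟨τ, hτ, ?_⟩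
    simp only [LW1, List.mem_cons, List.not_mem_nil, or_false] at hl
    rcases hl with rfl | rfl | rfl | rfl | rfl
    exacts [⟨0, by omega, a, ha, e⟩, ⟨1, by omega, a, ha, by rw [e, mw1]; rfl⟩,
      ⟨2, by omega, a, ha, e⟩, ⟨3, by omega, a, ha, e⟩,
      ⟨4, by omega, a, ha, by rw [e, mw1, mm56]; rfl⟩]
  r0 := rfl
  n1 := by rw [h1, h2]; exact yw_n1 (s6_sq A π h2)
  n2 i a b := by
    simp only [map_mul, h1, h2]
    have : i = 2 ∨ i = 3 ∨ i = 4 := by omega
    rcases this with rfl | rfl | rfl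
    exacts [yw_nc (s6_sq A π h2) yw2, yw_nc (s6_sq A π h2) yw3, yw_nc (s6_sq A π h2) yw4]
  n5 := by
    simp only [map_mul, h1, h2]
    have c : fstM (mm 7) ^ 3 = 1 := by rw [← map_pow, x73, map_one]
    have h := yw4
    simp only [band_eq, Bool.and_eq_true] at h
    rw [← n5B_iff (C := C1) c (by rw [conj_pow, c]; group), code_mm (by decide +kernel)]
    exact (congrArg (n5B P.ops (R1 7)) (yw_spec (s6_sq A π h2) h.1)).trans yw5

theorem lkA : Lk (cxA F A π h1 h2) C1 R1 mm IV where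
  hm r hr := by
    have h0 : r < 121 := by
      by_contra hn
      rw [tb_eq, Nat.testBit_lt_two_pow (lt_of_lt_of_le (by decide +kernel : IV < 2 ^ 121)
        (Nat.pow_le_pow_right (by norm_num) (by omega)))] at hr
      exact absurd hr (by simp)
    have h := (allLt_iff _ _).1 ivsq r h0
    rw [hr, bimp_eq, Bool.not_true, Bool.false_or] at h
    refine ⟨?_, by simpa using mEq h⟩
    simp only [eqL, band_eq, Bool.and_eq_true, allL_iff] at h
    exact (congrArg _ (h1 _)).trans (code_mm (h.1.1 r List.mem_cons_self))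
  hs := (congrArg _ h2).trans vS.code_el
  hx := (congrArg _ (h1 _)).trans (code_mm (by decide +kernel))
  x3 := x73

theorem fixS {N : ℕ} {r : ℕ} {g : Q} (hg : g = A.σ * A.φ (mm r) * A.σ)
    (h : ∀ i, N.testBit i = true → ∃ j, (r, i, j) ∈ LS) :
    ∀ τ ∈ CM.gen RM N, (cxA F A π h1 h2).Eqv g (A.φ τ * g) := by
  refine GC.gen_induction (by simpa using Cx.Eqv.refl g) (fun a b ha hb => ?_) fun i hi => ?_
  · rw [map_mul, mul_assoc]; exact ha.trans (hb.mul _)
  · obtain ⟨j, hj⟩ := h i hi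
    exact ⟨mm j, by rw [hg]; exact A.cS _ hj⟩

theorem orb2 : (cxA F A π h1 h2).Orb 2 S2 {w | ∃ l ∈ LW2, w = mw l} where
  two := le_rfl
  four := by omega
  fix := fixS F A π h1 h2 (r := 30) (by rw [← mw1]; rfl) fun i hi => by
    have := bit_mem (N := 35) (l := [32, 33, 34]) (by decide +kernel) (by decide +kernel) hi
    simp only [List.mem_cons, List.not_mem_nil, or_false] at this
    rcases this with rfl | rfl | rfl
    exacts [⟨35, by decide⟩, ⟨36, by decide⟩, ⟨37, by decide⟩]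
  dec m := by
    obtain ⟨τ, hτ, l, hl, a, ha, e⟩ := F.dec2 m
    exact ⟨τ, hτ, _, ⟨l, hl, rfl⟩, a, ha, e⟩

theorem orb3 : (cxA F A π h1 h2).Orb 3 S3 {w | ∃ l ∈ LW3, w = mw l} where
  two := by omega
  four := by omega
  fix := fixS F A π h1 h2 (r := 31) (by rw [← mw1]; rfl) fun i hi => by
    have := bit_mem (N := 41) (l := [38, 39, 40]) (by decide +kernel) (by decide +kernel) hi
    simp only [List.mem_cons, List.not_mem_nil, or_false] at this
    rcases this with rfl | rfl | rfl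
    exacts [⟨41, by decide⟩, ⟨42, by decide⟩, ⟨43, by decide⟩]
  dec m := by
    obtain ⟨τ, hτ, l, hl, a, ha, e⟩ := F.dec3 m
    exact ⟨τ, hτ, _, ⟨l, hl, rfl⟩, a, ha, e⟩

variable {F A π h1 h2}

theorem pentA {i : ℕ} {l : List ℕ} {PT : List (List ℕ × ℕ × List (ℕ × ℕ × ℕ × ℕ × ℕ × List ℕ))}
    {LW : List (List ℕ)} (hG : (cxA F A π h1 h2).G i = A.σ * A.φ (mw l) * A.σ)
    (hp : ∀ t ∈ PT, pentB P.ops R1 IV l t = true) (hl : LW = [] :: PT.map Prod.fst) :
    (∀ w ∈ {w | ∃ l ∈ LW, w = mw l}, w = 1 ∨ ¬ Commute ((cxA F A π h1 h2).el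
      ((cxA F A π h1 h2).φ w * (cxA F A π h1 h2).σ)) ((cxA F A π h1 h2).el ((cxA F A π h1 h2).G i))) ∧
    ((cxA F A π h1 h2).SQ 2 → (cxA F A π h1 h2).SQ 3 → (cxA F A π h1 h2).SQ 4 →
      ∀ w ∈ {w | ∃ l ∈ LW, w = mw l}, (cxA F A π h1 h2).Near ((cxA F A π h1 h2).G i)
        ((cxA F A π h1 h2).φ w * (cxA F A π h1 h2).σ)) := by
  subst hl
  rw [hG]
  refine ⟨?_, fun q2 q3 q4 => ?_⟩ <;> rintro _ ⟨l', hl', rfl⟩ <;>
    rcases List.mem_cons.1 hl' with rfl | hl'
  · exact Or.inl rfl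
  · obtain ⟨t, ht, rfl⟩ := List.mem_map.1 hl'
    exact Or.inr (pentB_sound (lkA F A π h1 h2) (hp t ht)).1
  · exact ⟨A.σ, Cx.Adj.mk (X := cxA F A π h1 h2) _ _, Or.inl ⟨1, by simp [cxA]⟩⟩
  · obtain ⟨t, ht, rfl⟩ := List.mem_map.1 hl'
    exact (pentB_sound (lkA F A π h1 h2) (hp t ht)).2 q2 q3 q4

theorem orb4 (q2 : (cxA F A π h1 h2).SQ 2) (q3 : (cxA F A π h1 h2).SQ 3) :
    (cxA F A π h1 h2).Orb 4 S4 {w | ∃ l ∈ LW4, w = mw l} where
  two := by omega
  four := le_rfl
  fix := by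
    refine GC.gen_induction (C := CM) (R := RM) (by simpa using Cx.Eqv.refl _)
      (fun a b ha hb => ?_) fun i hi => ?_
    · rw [map_mul, mul_assoc]; exact ha.trans (hb.mul _)
    · have hr : C1.code ((cxA F A π h1 h2).π ((cxA F A π h1 h2).φ (mm i))) = R1 i :=
        (congrArg _ (h1 _)).trans ((hM1 _).trans (congrArg _ (F.memS4 i hi).code_el))
      have := bit_mem (N := 60) (l := [57, 58, 59]) (by decide +kernel) (by decide +kernel) hi
      simp only [List.mem_cons, List.not_mem_nil, or_false] at this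
      rcases this with rfl | rfl | rfl
      exacts [fixB_sound (lkA F A π h1 h2) q2 q3 fix57 hr, fixB_sound (lkA F A π h1 h2) q2 q3 fix58 hr,
        fixB_sound (lkA F A π h1 h2) q2 q3 fix59 hr]
  dec m := by
    obtain ⟨τ, hτ, l, hl, a, ha, e⟩ := F.dec4 m
    exact ⟨τ, hτ, _, ⟨l, hl, rfl⟩, a, ha, e⟩

/-- the universal bound -/
theorem thmU' (F : UF) (Q : Type u) [Group Q] [Finite Q] (A : AmG mm 21 LA LS Q) (π : Q →* GL111)
    (h1 : ∀ m, π (A.φ m) = fstM m) (h2 : π A.σ = s6) : Nat.card A.cl ≤ 51765179004000000 := by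
  have p2 := pentA (F := F) (h1 := h1) (h2 := h2) (i := 2) rfl pent2 lw2
  have p3 := pentA (F := F) (h1 := h1) (h2 := h2) (i := 3) rfl pent3 lw3
  have p4 := pentA (F := F) (h1 := h1) (h2 := h2) (i := 4) rfl pent4 lw4
  have q2 := (orb2 F A π h1 h2).sq p2.1
  have q3 := (orb3 F A π h1 h2).sq p3.1
  have q4 := (orb4 q2 q3).sq p4.1
  have u := F.ubM
  have b := (cxA F A π h1 h2).bound (fun i => if i = 2 then S2 else if i = 3 then S3 else S4)
    (fun i => {w | ∃ l ∈ (if i = 2 then LW2 else if i = 3 then LW3 else LW4), w = mw l})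
    (fun i => if i = 1 then 15400 else if i = 2 then 534600 else if i = 3 then 1871100 else 7185024)
    (fun i a b => by
      have : i = 2 ∨ i = 3 ∨ i = 4 := by omega
      rcases this with rfl | rfl | rfl
      · exact ⟨orb2 F A π h1 h2, p2.2 q2 q3 q4,
          u.trans (show _ ≤ 534600 * Nat.card S2 by have := F.lb2; omega)⟩
      · exact ⟨orb3 F A π h1 h2, p3.2 q2 q3 q4,
          u.trans (show _ ≤ 1871100 * Nat.card S3 by have := F.lb3; omega)⟩
      · exact ⟨orb4 q2 q3, p4.2 q2 q3 q4,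
          u.trans (show _ ≤ 7185024 * Nat.card S4 by have := F.lb4; omega)⟩)
    (u.trans (show _ ≤ 15400 * Nat.card AA by have := F.lbA; omega))
  exact le_trans b ((Nat.mul_le_mul_right _ u).trans (by decide +kernel))

end

end CfsgLY
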