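/-
The Lyons group: the two specifications.
-/
import Cfsg.Agent.LY.FE
import Cfsg.Agent.LY.F0
import Cfsg.Agent.LY.T
import Cfsg.Agent.LY.U
import Cfsg.Agent.LY.M
import Cfsg.Agent.LY.M5n

set_option autoImplicit false

universe u

namespace CfsgLY

theorem fin_mf : L2.MF (DD relA) :=
  mf_of (by rw [cardK6]) (M2.mf_CK (DD relA) fe_g rfl rfl rfl fe_xg) (mf_nine relA M2.nine6)

theorem fin_uf : UF := ⟨memS4, ubM, decT1, decT2, decT3, decT4, lbA, lbS2, lbS3, lbS4⟩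

theorem fin_E : SpecE.{u} (fun r => mm r) 21 LA LS := fun G _ _ _ t ht hC =>
  fe_am fin_mf (tcTC (G × M6)) t ht hC

theorem fin_U : SpecU.{u} (fun r => mm r) 21 LA LS amGL := fun Q _ _ A π h1 h2 =>
  thmU' fin_uf Q A π h1 h2

end CfsgLY
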