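/-
Lyons project, package M: order of `3.McL`, the centraliser of `t`, the nine involutions.
-/
import Cfsg.Agent.H6.LyM
import Cfsg.Agent.LY.L2a

set_option autoImplicit false

namespace CfsgLY.M1

open CfsgH5 CfsgH6 CfsgH6.LyM Subgroup

noncomputable section

/-- the ambient group -/
abbrev GM := (Matrix (Fin 111) (Fin 111) (ZMod 5))ˣ × (Matrix (Fin 275) (Fin 275) (ZMod 2))ˣ

/-- an embedding under which the letters have the codes of the registers -/
structure Emb {M : Type*} [Group M] (ι : M →* GM) (g : ℕ → M) (x t y z : M) : Prop where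
  inj : Function.Injective ι
  hg : ∀ i, 1 ≤ i → i ≤ 7 → CG.code (ι (g i)) = R i
  hx : CG.code (ι x) = R 8
  ht : CG.code (ι t) = R 9
  hy : CG.code (ι y) = R 10
  hz : CG.code (ι z) = R 11

theorem tb_small {M n : ℕ} (h : M < 2 ^ n) {i : ℕ} (hi : M.testBit i = true) : i < n := by
  by_contra hn
  rw [Nat.testBit_lt_two_pow (h.trans_le (Nat.pow_le_pow_right (by norm_num) (not_lt.1 hn)))] at hi
  exact absurd hi (by simp)

/-- the nine words -/
def W9 : List (List ℕ) := [[], [4, 2, 7, 4, 6, 7, 6, 1, 4, 7], [4, 2, 7, 4, 6, 2, 7, 6, 4, 7],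
  [4, 7, 5, 3, 4, 6, 7, 6, 4, 7], [4, 6, 2, 7, 6, 5, 4, 7, 6, 4, 7], [5, 1, 4, 2, 7, 6, 4, 7, 6, 4, 7],
  [6, 2, 5, 4, 7, 6, 5, 4, 7, 6, 2, 7], [6, 7, 5, 4, 5, 7, 5, 6, 5, 1, 4, 7],
  [5, 4, 3, 7, 1, 6, 4, 7, 5, 6, 4, 7]]

variable {M : Type*} [Group M] {ι : M →* GM} {g : ℕ → M} {x t y z : M}

theorem el_of {m : M} {c : ℕ} (h : CG.code (ι m) = c) : CG.el c = ι m := by rw [← h, GC.el_code]

namespace Emb

variable (h : Emb ι g x t y z)
include h

theorem mapK : (closure (insert x (g '' Set.Icc 1 7))).map ι = CG.gen R 510 := by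
  rw [MonoidHom.map_closure, GC.gen]
  congr 1
  ext a
  constructor
  · rintro ⟨_, rfl | ⟨i, ⟨h1, h2⟩, rfl⟩, rfl⟩
    · exact ⟨8, by decide, (el_of h.hx).symm⟩
    · exact ⟨i, by interval_cases i <;> decide, (el_of (h.hg i h1 h2)).symm⟩
  · rintro ⟨i, hi, rfl⟩
    have h9 : i < 9 := tb_small (by norm_num) hi
    by_cases h8 : i = 8
    · subst h8; exact ⟨x, Or.inl rfl, (el_of h.hx).symm⟩
    · have h1 : 1 ≤ i := by
        rcases Nat.eq_zero_or_pos i with rfl | h0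
        · exact absurd hi (by decide)
        · exact h0
      exact ⟨g i, Or.inr ⟨i, ⟨h1, by omega⟩, rfl⟩, (el_of (h.hg i h1 (by omega))).symm⟩

theorem mapK0 : (closure (insert x (g '' Set.Icc 1 6))).map ι = CG.gen R 382 := by
  rw [MonoidHom.map_closure, GC.gen]
  congr 1
  ext a
  constructor
  · rintro ⟨_, rfl | ⟨i, ⟨h1, h2⟩, rfl⟩, rfl⟩
    · exact ⟨8, by decide, (el_of h.hx).symm⟩
    · exact ⟨i, by interval_cases i <;> decide, (el_of (h.hg i h1 (by omega))).symm⟩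
  · rintro ⟨i, hi, rfl⟩
    have h9 : i < 9 := tb_small (by norm_num) hi
    by_cases h8 : i = 8
    · subst h8; exact ⟨x, Or.inl rfl, (el_of h.hx).symm⟩
    · have h1 : 1 ≤ i := by
        rcases Nat.eq_zero_or_pos i with rfl | h0
        · exact absurd hi (by decide)
        · exact h0
      have h7 : i ≠ 7 := by rintro rfl; exact absurd hi (by decide)
      exact ⟨g i, Or.inr ⟨i, ⟨h1, by omega⟩, rfl⟩, (el_of (h.hg i h1 (by omega))).symm⟩

theorem cardK : Nat.card (closure (insert x (g '' Set.Icc 1 7))) = 2694384000 := by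
  rw [← LyM.cardK, ← h.mapK]
  exact Nat.card_congr (equivMapOfInjective _ _ h.inj).toEquiv

theorem CK (k : M) (hk : k ∈ closure (insert x (g '' Set.Icc 1 7))) (hc : k * t = t * k) :
    k ∈ closure (insert x (g '' Set.Icc 1 6)) := by
  have h1 : ι k ∈ CG.gen R 510 ⊓ centralizer {CG.el (R 9)} := by
    refine ⟨h.mapK ▸ mem_map_of_mem ι hk, mem_centralizer_singleton_iff.2 ?_⟩
    rw [el_of h.ht, ← map_mul, ← map_mul, hc]
  rw [CKt, ← h.mapK0] at h1
  exact (mem_map_iff_mem h.inj).1 h1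

theorem wd_eq {w : ℕ} (hw : ∀ i ∈ Nat.digits 1024 w, 1 ≤ i ∧ i ≤ 7) :
    CG.wd R w = ι ((Nat.digits 1024 w).map g).prod := by
  rw [GC.wd, map_list_prod, List.map_map]
  congr 1
  exact List.map_congr_left fun i hi => el_of (h.hg i (hw i hi).1 (hw i hi).2)

theorem nine (k : M) (hk : k ∈ closure (insert x (g '' Set.Icc 1 7)))
    (h1 : Commute (k * t * k⁻¹) y) (h2 : Commute (k * t * k⁻¹) z) :
    ∃ l ∈ W9, k * t * k⁻¹ = (l.map g).prod * t * ((l.map g).prod)⁻¹ := by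
  have e : ι (k * t * k⁻¹) = ι k * CG.el (R 9) * (ι k)⁻¹ := by rw [el_of h.ht]; simp
  obtain ⟨w, hw, e2⟩ := LyM.nine (ι k) (h.mapK ▸ mem_map_of_mem ι hk)
    (by rw [← e, el_of h.hy]; exact h1.map ι) (by rw [← e, el_of h.hz]; exact h2.map ι)
  have h3 : Nat.digits 1024 w ∈ W9 ∧ ∀ i ∈ Nat.digits 1024 w, 1 ≤ i ∧ i ≤ 7 := by
    clear e2 e h1 h2 hk h; revert w; decide +kernel
  refine ⟨_, h3.1, h.inj ?_⟩
  rw [e, e2, h.wd_eq h3.2, el_of h.ht]
  simp

end Emb

end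

end CfsgLY.M1
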