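/-
Lyons project, package M: the facts on `K6` and the order of `M6`.
-/
import Cfsg.Agent.LY.M0
import Cfsg.Agent.LY.M1
import Cfsg.Agent.H6.DCm

set_option autoImplicit false
set_option maxRecDepth 100000
set_option maxHeartbeats 200000
set_option Elab.async false

namespace CfsgLY.M2

open CfsgH5 CfsgH6 Subgroup

noncomputable section

theorem hC1 : LyM.C1 = C1 := rfl

theorem prod_congr {O₁ O₂ : GOps} {Γ₁ Γ₂ : Type*} [Group Γ₁] [Group Γ₂] {C C' : GC O₁ Γ₁}
    (C₂ : GC O₂ Γ₂) (B : ℕ) (h : ∀ g, C.code g < 2 ^ B) (h' : ∀ g, C'.code g < 2 ^ B) (e : C = C') :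
    C.prod C₂ B h = C'.prod C₂ B h' := by subst e; rfl

theorem hCG0 : LyM.CG = CM0 := prod_congr _ _ LyM.hB hB hC1

theorem hCG (g : GM) : LyM.CG.code g = CM0.code g := by rw [hCG0]

theorem code_mm {r c : ℕ} (h : tb MM r = true) (e : Nat.beq (RM r) c = true) :
    LyM.CG.code (M6.subtype (mm r)) = c := by
  rw [hCG, sub_code, (memM.get h).code_el]
  exact (beq_true_iff _ _).1 e

section

variable {g : ℕ → M6} (hg : ∀ i, 1 ≤ i → i ≤ 6 → g i = mm (9 + i)) (h7 : g 7 = mm 51)
include hg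

theorem K0_eq : Subgroup.closure (insert (mm 7) (g '' Set.Icc 1 6)) = K0 := by
  refine le_antisymm ((closure_le _).2 ?_) ((closure_le _).2 ?_)
  · rintro _ (rfl | ⟨i, ⟨h1, h2⟩, rfl⟩)
    · exact subset_closure ⟨7, by decide, rfl⟩
    · rw [hg i h1 h2]
      exact subset_closure ⟨9 + i, by interval_cases i <;> decide, rfl⟩
  · have h : ∀ i, 1 ≤ i → i ≤ 6 → mm (9 + i) ∈ Subgroup.closure (insert (mm 7) (g '' Set.Icc 1 6)) :=
      fun i h1 h2 => subset_closure (Or.inr ⟨i, ⟨h1, h2⟩, hg i h1 h2⟩)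
    exact GC.forall_els (L := [7, 10, 11, 12, 13, 14, 15])
      (forall_cons (subset_closure (Or.inl rfl)) (forall_cons (h 1 (by decide) (by decide))
      (forall_cons (h 2 (by decide) (by decide)) (forall_cons (h 3 (by decide) (by decide))
      (forall_cons (h 4 (by decide) (by decide)) (forall_cons (h 5 (by decide) (by decide))
      (forall_cons (h 6 (by decide) (by decide)) forall_nil))))))) (by decide +kernel)

include h7

theorem K_eq : Subgroup.closure (insert (mm 7) (g '' Set.Icc 1 7)) = K6 := by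
  refine le_antisymm ((closure_le _).2 ?_) ((closure_le _).2 ?_)
  · rintro _ (rfl | ⟨i, ⟨h1, h2⟩, rfl⟩)
    · exact subset_closure ⟨7, by decide, rfl⟩
    · rcases Nat.lt_or_ge i 7 with h3 | h3
      · rw [hg i h1 (by omega)]
        exact subset_closure ⟨9 + i, by interval_cases i <;> decide, rfl⟩
      · obtain rfl : i = 7 := by omega
        rw [h7]
        exact subset_closure ⟨51, by decide, rfl⟩
  · have h : ∀ i, 1 ≤ i → i ≤ 6 → mm (9 + i) ∈ Subgroup.closure (insert (mm 7) (g '' Set.Icc 1 7)) :=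
      fun i h1 h2 => subset_closure (Or.inr ⟨i, ⟨h1, by omega⟩, hg i h1 h2⟩)
    exact GC.forall_els (L := [7, 10, 11, 12, 13, 14, 15, 51])
      (forall_cons (subset_closure (Or.inl rfl)) (forall_cons (h 1 (by decide) (by decide))
      (forall_cons (h 2 (by decide) (by decide)) (forall_cons (h 3 (by decide) (by decide))
      (forall_cons (h 4 (by decide) (by decide)) (forall_cons (h 5 (by decide) (by decide))
      (forall_cons (h 6 (by decide) (by decide))
      (forall_cons (subset_closure (Or.inr ⟨7, ⟨by decide, by decide⟩, h7⟩)) forall_nil))))))))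
      (by decide +kernel)

theorem emb : M1.Emb M6.subtype g (mm 7) (mm 9) (mm 19) (mm 20) where
  inj := M6.subtype_injective
  hg i h1 h2 := by
    rcases Nat.lt_or_ge i 7 with h3 | h3
    · rw [hg i h1 (by omega)]
      interval_cases i <;> exact code_mm (by decide +kernel) (by decide +kernel)
    · obtain rfl : i = 7 := by omega
      rw [h7]; exact code_mm (by decide +kernel) (by decide +kernel)
  hx := code_mm (by decide +kernel) (by decide +kernel)
  ht := code_mm (by decide +kernel) (by decide +kernel)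
  hy := code_mm (by decide +kernel) (by decide +kernel)
  hz := code_mm (by decide +kernel) (by decide +kernel)

end

/-- the register of a letter -/
def rg (i : ℕ) : ℕ := if i = 7 then 51 else 9 + i

theorem rg6 : ∀ i, 1 ≤ i → i ≤ 6 → mm (rg i) = mm (9 + i) := fun i _ h => by
  rw [rg, if_neg (by omega)]

theorem cardK6 : Nat.card K6 = 2694384000 := K_eq rg6 rfl ▸ (emb rg6 rfl).cardK

theorem CK6 (k : M6) (hk : k ∈ K6) (h : k * mm 9 = mm 9 * k) : k ∈ K0 :=
  K0_eq rg6 ▸ (emb rg6 rfl).CK k (K_eq rg6 rfl ▸ hk) h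

/-- the check for one of the nine words -/
def nchk (l : List ℕ) (i j : ℕ) : Bool :=
  eqL OM RM MM (l.map rg ++ [9]) (List.replicate i 52 ++ List.replicate j 54 ++ [9] ++ l.map rg)

theorem tt : mm 9 * mm 9 = 1 := by
  simpa using mEq (l := [9, 9]) (l' := []) (by decide +kernel)

theorem nchk_sound {l : List ℕ} {i j : ℕ} (h : nchk l i j = true) :
    (l.map fun i => mm (rg i)).prod * mm 9 * ((l.map fun i => mm (rg i)).prod)⁻¹ * mm 9 =
      mm 52 ^ i * mm 54 ^ j := by
  have h1 := mEq h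
  have h2 : mw (l.map rg) = (l.map fun i => mm (rg i)).prod := by simp [wl, Function.comp_def]
  have h3 : ∀ n r, mw (List.replicate n r) = mm r ^ n := fun n r => by simp [wl]
  simp only [wl_append, h2, h3, wl_cons, wl_nil, mul_one] at h1
  rw [h1, mul_inv_cancel_right, mul_assoc _ (mm 9), tt, mul_one]

theorem n0 : nchk [] 0 0 = true := by decide +kernel
theorem n1 : nchk [4, 2, 7, 4, 6, 7, 6, 1, 4, 7] 1 0 = true := by decide +kernel
theorem n2 : nchk [4, 2, 7, 4, 6, 2, 7, 6, 4, 7] 2 0 = true := by decide +kernel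
theorem n3 : nchk [4, 7, 5, 3, 4, 6, 7, 6, 4, 7] 1 2 = true := by decide +kernel
theorem n4 : nchk [4, 6, 2, 7, 6, 5, 4, 7, 6, 4, 7] 2 1 = true := by decide +kernel
theorem n5 : nchk [5, 1, 4, 2, 7, 6, 4, 7, 6, 4, 7] 0 2 = true := by decide +kernel
theorem n6 : nchk [6, 2, 5, 4, 7, 6, 5, 4, 7, 6, 2, 7] 2 2 = true := by decide +kernel
theorem n7 : nchk [6, 7, 5, 4, 5, 7, 5, 6, 5, 1, 4, 7] 1 1 = true := by decide +kernel
theorem n8 : nchk [5, 4, 3, 7, 1, 6, 4, 7, 5, 6, 4, 7] 0 1 = true := by decide +kernel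

/-- the conjugates of `t` commuting with `y` and `z` -/
theorem nine6 (k : M6) (hk : k ∈ K6) (h1 : Commute (k * mm 9 * k⁻¹) (mm 19))
    (h2 : Commute (k * mm 9 * k⁻¹) (mm 20)) :
    ∃ i j : ℕ, i < 3 ∧ j < 3 ∧ k * mm 9 * k⁻¹ * mm 9 = mm 52 ^ i * mm 54 ^ j := by
  obtain ⟨l, hl, e⟩ := (emb rg6 rfl).nine k (K_eq rg6 rfl ▸ hk) h1 h2
  rw [e]
  simp only [M1.W9, List.mem_cons, List.not_mem_nil, or_false] at hl
  rcases hl with rfl | rfl | rfl | rfl | rfl | rfl | rfl | rfl | rfl
  exacts [⟨_, _, by decide, by decide, nchk_sound n0⟩, ⟨_, _, by decide, by decide, nchk_sound n1⟩,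
    ⟨_, _, by decide, by decide, nchk_sound n2⟩, ⟨_, _, by decide, by decide, nchk_sound n3⟩,
    ⟨_, _, by decide, by decide, nchk_sound n4⟩, ⟨_, _, by decide, by decide, nchk_sound n5⟩,
    ⟨_, _, by decide, by decide, nchk_sound n6⟩, ⟨_, _, by decide, by decide, nchk_sound n7⟩,
    ⟨_, _, by decide, by decide, nchk_sound n8⟩]

theorem memK6 : CM.Mem RM K6 3933459902889726 := by
  have h0 : CM.Mem RM K6 2251799813749888 := (vM.sub (by decide +kernel)).gen
  exact (slpL_sound (h0.sub (M' := 64512) (by decide +kernel)) slpM0).1.lor' h0 (by decide +kernel)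

theorem ubM' : Nat.card (⊤ : Subgroup M6) ≤ 5388768000 := by
  have h := memK6.pc (t := 8) (w := 0) (m := 2)
    (L := [0x701c07, 0x100300a, 0x4038030280b, 0x100280c, 0x8050540d, 0xa0c80e, 0x540f, 0xcc33])
    (vM.get (by decide +kernel)) (vM.sub (by decide +kernel)) (by decide +kernel) (by decide +kernel)
  rw [show ins 2251799813749888 8 = 2251799813750144 by decide +kernel, topM, cardK6] at h
  exact Nat.le_of_dvd (by norm_num) h

theorem ubM : Nat.card M6 ≤ 5388768000 := by simpa using ubM'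

theorem split_K0 {H M : Type*} [Group H] [Group M] (D : L2.MD H M) (x3 : D.x.2 ^ 3 = 1)
    (xg : ∀ i, 1 ≤ i → i ≤ 6 → Commute D.x (D.g i)) (k : M)
    (h1 : k ∈ closure (insert D.x.2 ((fun i => (D.g i).2) '' Set.Icc 1 6))) :
    ∃ c ∈ D.B, ∃ j : ℕ, k = c.2 * D.x.2 ^ j := by
  have hB : ∀ c ∈ D.B, Commute D.x c := fun c hc => by
    induction hc using closure_induction with
    | mem x hx => obtain ⟨i, ⟨h1, h2⟩, rfl⟩ := hx; exact xg i h1 h2
    | one => exact Commute.one_right _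
    | mul x y _ _ h1 h2 => exact h1.mul_right h2
    | inv x _ h1 => exact h1.inv_right
  induction h1 using closure_induction_left with
  | one => exact ⟨1, one_mem _, 0, by simp⟩
  | mul_left a ha b _ ih =>
    obtain ⟨c, hc, j, rfl⟩ := ih
    rcases ha with rfl | ⟨i, hi, rfl⟩
    · refine ⟨c, hc, j + 1, ?_⟩
      have : D.x.2 * c.2 = c.2 * D.x.2 := congrArg Prod.snd (hB c hc).eq
      rw [← mul_assoc, this, mul_assoc, ← pow_succ']
    · exact ⟨D.g i * c, mul_mem (subset_closure ⟨i, hi, rfl⟩) hc, j, by simp [mul_assoc]⟩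
  | inv_mul_cancel a ha b _ ih =>
    obtain ⟨c, hc, j, rfl⟩ := ih
    rcases ha with rfl | ⟨i, hi, rfl⟩
    · refine ⟨c, hc, j + 2, ?_⟩
      have h3 : D.x.2⁻¹ = D.x.2 ^ 2 := by rw [inv_eq_iff_mul_eq_one, ← pow_succ', x3]
      have : Commute (D.x.2 ^ 2) c.2 :=
        Commute.pow_left (congrArg Prod.snd (hB c hc).eq : D.x.2 * c.2 = c.2 * D.x.2) 2
      rw [h3, ← mul_assoc, this.eq, mul_assoc, ← pow_add, add_comm]
    · exact ⟨(D.g i)⁻¹ * c, mul_mem (inv_mem (subset_closure ⟨i, hi, rfl⟩)) hc, j,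
        by simp [mul_assoc]⟩

theorem xxx : mm 7 ^ 3 = 1 := by
  have := mEq (l := [7, 7, 7]) (l' := []) (by decide +kernel)
  simp only [wl_cons, wl_nil, mul_one] at this
  rw [pow_three]; exact this

section MD

variable {H : Type*} [Group H] (D : L2.MD H M6) (hg : ∀ i, 1 ≤ i → i ≤ 6 → (D.g i).2 = mm (9 + i))
  (hp : D.p = mm 51) (hx : D.x.2 = mm 7)
include hg hp hx

omit [Group H] in
theorem md_K : D.K = K6 := by
  rw [L2.MD.K, hx]
  refine K_eq (fun i h1 h2 => ?_) ?_
  · rw [L2.MD.gM, Function.update_of_ne (by omega), hg i h1 h2]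
  · rw [L2.MD.gM, Function.update_self, hp]

omit [Group H] in
theorem mf_cardK : 3 * 22275 * 40320 ≤ Nat.card D.K := by rw [md_K D hg hp hx, cardK6]

theorem mf_CK (ht : D.t.2 = mm 9) (xg : ∀ i, 1 ≤ i → i ≤ 6 → Commute D.x (D.g i)) :
    ∀ k ∈ D.K, k * D.t.2 = D.t.2 * k → ∃ c ∈ D.B, ∃ j : ℕ, k = c.2 * D.x.2 ^ j := by
  intro k hk hc
  have h1 := (K0_eq hg).ge (CK6 k ((md_K D hg hp hx).le hk)
    ((congrArg (k * ·) ht).symm.trans (hc.trans (congrArg (· * k) ht))))
  exact split_K0 D ((congrArg (· ^ 3) hx).trans xxx) xg k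
    ((congrArg (fun a => Subgroup.closure (insert a ((fun i => (D.g i).2) '' Set.Icc 1 6))) hx).ge h1)

end MD

end

end CfsgLY.M2
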