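import Cfsg.Agent.LY.M5D0

set_option autoImplicit false
set_option maxRecDepth 100000
set_option linter.all false
set_option Elab.async false

namespace CfsgLY

open CfsgH5 CfsgH6 Subgroup MulAction Pointwise

noncomputable section

theorem nchk27 : band (pieces (fun c v => (app2 275 276 9) (pr2 197136 c) v) (fun x => x) ntab25 RM 64640 [10, 11, 12, 13, 14, 15] npt1c nl26) (allL nl26 fun p => subW 2251799813749888 p.2.1) = true := by decide +kernel
theorem nchk28 : cover 22275 nQ1 (nl26) 0 = true := by decide +kernel
theorem nchk54 : band (pieces (fun c v => (app2 275 276 9) (pr2 197136 c) v) (fun x => x) ntab52 RM 22869841860362240 [19, 21, 46, 48, 52, 54] npt1c nl53) (allL nl53 fun p => subW 2251799813749888 p.2.1) = true := by decide +kernel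
theorem nchk55 : cover 22275 nQ2 (nl53) 0 = true := by decide +kernel
theorem nchk57 : band (fixL (fun c v => (app2 275 276 9) (pr2 197136 c) v) (fun x => x) RM [7, 10, 11, 12, 13, 14, 15] npt1c) (subM 64640 (insL [7, 10, 11, 12, 13, 14, 15] 0)) = true := by decide +kernel
theorem nchk59 : M5.ncChk (fun c v => (app2 275 276 9) (pr2 197136 c) v) (fun x => x) RM nQ1 9 npt2c = true := by decide +kernel
theorem nchk60 : M5.mvChk (fun c v => (app2 275 276 9) (pr2 197136 c) v) (fun x => x) RM nQ2 19 20 npt1c = true := by decide +kernel
theorem nchk61 : allL nQ1 (subW 2251799813749888) = true := by decide +kernel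
theorem nchk62 : allL nQ2 (subW 2251799813749888) = true := by decide +kernel
theorem nchk63 : slpL OM RM nLT 3933459902889726 = true := by decide +kernel
end

end CfsgLY
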