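import Cfsg.Agent.LY.M5D0

set_option autoImplicit false
set_option maxRecDepth 100000
set_option linter.all false
set_option Elab.async false

namespace CfsgLY

open CfsgH5 CfsgH6 Subgroup MulAction Pointwise

noncomputable section

theorem nchk64 : allL nIY (fun e => eqL OM RM MM [e.1, e.2.1] (e.2.2 ++ [e.1])) = true := by decide +kernel
theorem nchk65 : allL nIW (fun e => eqL OM RM MM [e.1, e.2.1] (e.2.2 ++ [e.1])) = true := by decide +kernel
theorem nchk66 : allL nIT (fun e => eqL OM RM MM [e.1, 9] (e.2 ++ [9, e.1])) = true := by decide +kernel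
theorem nchk67 : allL [7, 10, 11, 12, 13, 14, 15] (fun g => eqL OM RM MM [g, 9] [9, g]) = true := by decide +kernel
theorem nchk68 : allL [([52, 52, 52], []), ([54, 54, 54], []), ([52, 54], [54, 52]), ([45, 45, 45, 9], []), ([9, 9], []), ([53], [52, 52])] (fun e => eqL OM RM MM e.1 e.2) = true := by decide +kernel
end

end CfsgLY
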