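import Cfsg.Agent.LY.M5D0

set_option autoImplicit false
set_option maxRecDepth 100000
set_option linter.all false
set_option Elab.async false

namespace CfsgLY

open CfsgH5 CfsgH6 Subgroup MulAction Pointwise

noncomputable section

theorem nchk69 : allL [[], [54], [54, 54], [52, 54]] (fun r => neL OM RM MM (r ++ 45 :: r ++ [45, 45, 9]) ([7, 7, 19, 45] ++ r ++ [45, 45, 9] ++ r)) = true := by decide +kernel
theorem nchk70 : allL [[52, 54, 54], [52, 52, 54], [52, 52, 54, 54]] (fun r => neL OM RM MM (r ++ 45 :: r ++ [45, 45, 9]) ([7, 7, 19, 45] ++ r ++ [45, 45, 9] ++ r)) = true := by decide +kernel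
theorem nchk71 : allL [7, 10, 11, 12, 13, 14, 15, 51] (fun g => eqL OM RM MM [g, 7] [7, g]) = true := by decide +kernel
end

end CfsgLY
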