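/-
Lyons group: abstract lemmas for the model facts `CK` and `nine`.
-/
import Cfsg.Agent.LY.L5a
import Cfsg.Agent.LY.A0

set_option autoImplicit false

namespace CfsgLY.M5

open L5 CfsgH5 CfsgH6

theorem gen_le_of {O : GOps} {Γ : Type*} [Group Γ] {C : GC O Γ} {R : ℕ → ℕ} {M : ℕ} (L : List ℕ)
    {H : Subgroup Γ} (hP : ∀ i ∈ L, C.el (R i) ∈ H)
    (h : band (allL L fun i => Nat.blt i 1024) (subM M (insL L 0)) = true) : C.gen R M ≤ H :=
  (Subgroup.closure_le _).2 (GC.forall_els (P := fun g => g ∈ H) hP h)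

theorem gen_le_cl {O : GOps} {Γ : Type*} [Group Γ] {C : GC O Γ} {R : ℕ → ℕ} {M : ℕ} (L : List ℕ)
    (h : band (allL L fun i => Nat.blt i 1024) (subM M (insL L 0)) = true) :
    C.gen R M ≤ Subgroup.closure ((fun i => C.el (R i)) '' {r | r ∈ L}) :=
  gen_le_of L (fun i hi => Subgroup.subset_closure ⟨i, hi, rfl⟩) h

theorem eqs {O : GOps} {Γ : Type*} [Group Γ] {C : GC O Γ} {R : ℕ → ℕ} {M : ℕ} (hM : C.Mem R ⊤ M)
    {α : Type} {L : List α} {f g : α → List ℕ}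
    (h : allL L (fun e => eqL O R M (f e) (g e)) = true) :
    ∀ e ∈ L, ev (fun i => C.el (R i)) (f e) = ev (fun i => C.el (R i)) (g e) :=
  fun e he => eqL_sound hM ((allL_iff _ _).1 h e he)

theorem nes {O : GOps} {Γ : Type*} [Group Γ] {C : GC O Γ} {R : ℕ → ℕ} {M : ℕ} (hM : C.Mem R ⊤ M)
    {α : Type} {L : List α} {f g : α → List ℕ}
    (h : allL L (fun e => neL O R M (f e) (g e)) = true) :
    ∀ e ∈ L, ev (fun i => C.el (R i)) (f e) ≠ ev (fun i => C.el (R i)) (g e) :=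
  fun e he => neL_sound hM ((allL_iff _ _).1 h e he)

/-- the nontrivial words of `Q` do not commute with the register `t` -/
noncomputable def ncChk (app : ℕ → ℕ → ℕ) (key : ℕ → ℕ) (R : ℕ → ℕ) (Q : List ℕ) (t e : ℕ) : Bool :=
  allL Q fun w => bor (Nat.beq w 0)
    (bnot (Nat.beq (key (appW app R w (app (R t) e))) (key (app (R t) (appW app R w e)))))

/-- the images of `e` under the nontrivial words of `Q` are moved by `y` or `z` -/
noncomputable def mvChk (app : ℕ → ℕ → ℕ) (key : ℕ → ℕ) (R : ℕ → ℕ) (Q : List ℕ) (y z e : ℕ) : Bool :=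
  allL Q fun w => bor (Nat.beq w 0)
    (bor (bnot (Nat.beq (key (app (R y) (appW app R w e))) (key (appW app R w e))))
      (bnot (Nat.beq (key (app (R z) (appW app R w e))) (key (appW app R w e)))))

section
variable {O : GOps} {Γ : Type*} [Group Γ] {C : GC O Γ} {α : Type*} [MulAction Γ α]
  {app : ℕ → ℕ → ℕ} {key : ℕ → ℕ} {A : Act C α app key} {R : ℕ → ℕ} {H : Subgroup Γ} {M : ℕ}
  {Q : List ℕ} {e : ℕ} {x : α}

theorem nc_sound (hM : C.Mem R H M) {t : ℕ} (ht : C.In ⊤ (R t)) (he : A.Rep e x)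
    (hs : allL Q (subW M) = true) (h : ncChk app key R Q t e = true) :
    ∀ ρ ∈ C.wds R Q, ρ * C.el (R t) = C.el (R t) * ρ → ρ = 1 := by
  rintro _ ⟨w, hw, rfl⟩ h1
  have h2 := (allL_iff _ _).1 h w hw
  have h3 := (allL_iff _ _).1 hs w hw
  simp only [bor_eq, Bool.or_eq_true, beq_true_iff, bnot_eq, Bool.not_eq_true',
    ← Bool.not_eq_true] at h2
  rcases h2 with rfl | h2
  · exact GC.wd_zero ..
  · refine absurd ((A.key_iff _ _ _ _ (Act.appW_ok hM h3 (Act.app_el ht he))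
      (Act.app_el ht (Act.appW_ok hM h3 he))).2 ?_) h2
    rw [← mul_smul, ← mul_smul, h1]

theorem mv_sound (hM : C.Mem R H M) {y z : ℕ} (hy : C.In ⊤ (R y)) (hz : C.In ⊤ (R z))
    (he : A.Rep e x) (hs : allL Q (subW M) = true) (h : mvChk app key R Q y z e = true) :
    ∀ ρ ∈ C.wds R Q, C.el (R y) • ρ • x = ρ • x → C.el (R z) • ρ • x = ρ • x → ρ = 1 := by
  rintro _ ⟨w, hw, rfl⟩ h0 h1
  have h2 := (allL_iff _ _).1 h w hw
  have h3 := (allL_iff _ _).1 hs w hw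
  simp only [bor_eq, Bool.or_eq_true, beq_true_iff, bnot_eq, Bool.not_eq_true',
    ← Bool.not_eq_true] at h2
  rcases h2 with rfl | h2 | h2
  · exact GC.wd_zero ..
  · exact absurd ((A.key_iff _ _ _ _ (Act.app_el hy (Act.appW_ok hM h3 he))
      (Act.appW_ok hM h3 he)).2 h0) h2
  · exact absurd ((A.key_iff _ _ _ _ (Act.app_el hz (Act.appW_ok hM h3 he))
      (Act.appW_ok hM h3 he)).2 h1) h2

end

variable {M : Type*} [Group M] {m : ℕ → M}

/-- the subgroup generated by some registers -/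
def cl (m : ℕ → M) (S : List ℕ) : Subgroup M := Subgroup.closure (m '' {r | r ∈ S})

theorem mem_cl {S : List ℕ} {r : ℕ} (h : r ∈ S) : m r ∈ cl m S := Subgroup.subset_closure ⟨r, h, rfl⟩

theorem ev_mem {S l : List ℕ} (h : ∀ s ∈ l, s ∈ S) : ev m l ∈ cl m S := by
  induction l with
  | nil => exact one_mem _
  | cons s l ih =>
    rw [ev_cons]
    exact mul_mem (mem_cl (h s List.mem_cons_self)) (ih fun u hu => h u (List.mem_cons_of_mem _ hu))

theorem cl_le {S : List ℕ} {H : Subgroup M} (h : ∀ r ∈ S, m r ∈ H) : cl m S ≤ H :=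
  (Subgroup.closure_le _).2 (by rintro _ ⟨r, hr, rfl⟩; exact h r hr)

theorem cl_comm {S : List ℕ} {t : ℕ} (h : ∀ g ∈ S, ev m [g, t] = ev m [t, g]) :
    ∀ k ∈ cl m S, k * m t = m t * k := fun _ hk =>
  Subgroup.mem_centralizer_singleton_iff.1 (cl_le (H := Subgroup.centralizer {m t}) (fun g hg =>
    Subgroup.mem_centralizer_singleton_iff.2 (by simpa [ev] using h g hg)) hk)

theorem cl_norm [Finite M] {T S : List ℕ} {L : List (ℕ × ℕ × List ℕ)}
    (h : ∀ e ∈ L, ev m [e.1, e.2.1] = ev m (e.2.2 ++ [e.1]))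
    (hL : ∀ g ∈ T, ∀ r ∈ S, ∃ e ∈ L, e.1 = g ∧ e.2.1 = r ∧ ∀ s ∈ e.2.2, s ∈ S) :
    cl m T ≤ Subgroup.normalizer (cl m S : Set M) := cl_le fun g hg => by
  refine Subgroup.mem_normalizer_fintype (S := (cl m S : Set M)) fun y hy => ?_
  refine cl_le (H := (cl m S).comap (MulAut.conj (m g)).toMonoidHom) (fun r hr => ?_) hy
  obtain ⟨e, he, rfl, rfl, h3⟩ := hL g hg r hr
  have := h e he
  simp only [ev_append, ev_cons, ev_nil, mul_one] at this
  show m e.1 * m e.2.1 * (m e.1)⁻¹ ∈ cl m S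
  rw [this, mul_inv_cancel_right]
  exact ev_mem h3

theorem cl_two {a b : ℕ} (h1 : m a ^ 3 = 1) (h2 : m b ^ 3 = 1) (h3 : Commute (m a) (m b)) {r : M}
    (hr : r ∈ cl m [a, b]) : ∃ i < 3, ∃ j < 3, r = m a ^ i * m b ^ j := by
  suffices ∃ i j : ℕ, r = m a ^ i * m b ^ j by
    obtain ⟨i, j, rfl⟩ := this
    exact ⟨i % 3, Nat.mod_lt _ (by norm_num), j % 3, Nat.mod_lt _ (by norm_num), by
      rw [← pow_eq_pow_mod i h1, ← pow_eq_pow_mod j h2]⟩
  induction hr using Subgroup.closure_induction with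
  | mem x hx =>
    obtain ⟨r, hr, rfl⟩ := hx
    rcases List.mem_pair.1 hr with rfl | rfl
    exacts [⟨1, 0, by simp⟩, ⟨0, 1, by simp⟩]
  | one => exact ⟨0, 0, by simp⟩
  | mul x y _ _ a b =>
    obtain ⟨i, j, rfl⟩ := a
    obtain ⟨k, l, rfl⟩ := b
    exact ⟨i + k, j + l, by rw [(h3.pow_pow k j).symm.mul_mul_mul_comm, pow_add, pow_add]⟩
  | inv x _ a =>
    obtain ⟨i, j, rfl⟩ := a
    refine ⟨2 * i, 2 * j, inv_eq_of_mul_eq_one_right ?_⟩
    rw [(h3.pow_pow _ _).symm.mul_mul_mul_comm, ← pow_add, ← pow_add,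
      show i + 2 * i = 3 * i by ring, show j + 2 * j = 3 * j by ring, pow_mul, pow_mul, h1, h2]
    simp

theorem cl_t {T S : List ℕ} {t : ℕ} (tt : m t * m t = 1)
    (hN : cl m T ≤ Subgroup.normalizer (cl m S : Set M)) {L : List (ℕ × List ℕ)}
    (h : ∀ e ∈ L, ev m [e.1, t] = ev m (e.2 ++ [t, e.1]))
    (hL : ∀ g ∈ T, ∃ e ∈ L, e.1 = g ∧ ∀ s ∈ e.2, s ∈ S) :
    ∀ τ ∈ cl m T, τ * m t * τ⁻¹ * m t ∈ cl m S := by
  intro τ hτ
  induction hτ using Subgroup.closure_induction with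
  | mem x hx =>
    obtain ⟨g, hg, rfl⟩ := hx
    obtain ⟨e, he, rfl, h3⟩ := hL g hg
    have := h e he
    simp only [ev_append, ev_cons, ev_nil, mul_one] at this
    rw [this, ← mul_assoc, mul_inv_cancel_right, mul_assoc, tt, mul_one]
    exact ev_mem h3
  | one => rw [one_mul, inv_one, mul_one, tt]; exact one_mem _
  | mul x y hx _ a b =>
    have := mul_mem ((Subgroup.mem_normalizer_iff.1 (hN hx) _).1 b) a
    convert this using 1
    calc _ = x * (y * m t * y⁻¹) * x⁻¹ * m t := by group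
      _ = x * (y * m t * y⁻¹ * m t) * x⁻¹ * (x * m t * x⁻¹ * m t) := by
        rw [← mul_one (y * m t * y⁻¹), ← tt]
        simp only [mul_assoc, inv_mul_cancel_left]
        rw [← mul_assoc (m t) (m t) (m t * _), tt, one_mul]
  | inv x hx a =>
    have := (Subgroup.mem_normalizer_iff.1 (inv_mem (hN hx)) _).1 (inv_mem a)
    convert this using 1
    rw [mul_inv_rev, mul_inv_rev, mul_inv_rev, inv_eq_of_mul_eq_one_right tt]; group

theorem cancel_comm {τ ρ κ t : M} (a1 : τ * t = t * τ) (a2 : κ * t = t * κ)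
    (hc : τ * ρ * κ * t = t * (τ * ρ * κ)) : ρ * t = t * ρ :=
  calc ρ * t = τ⁻¹ * (τ * ρ * (t * κ)) * κ⁻¹ := by group
    _ = τ⁻¹ * (t * τ) * ρ := by rw [← a2, ← mul_assoc _ κ, hc]; group
    _ = _ := by rw [← a1]; group

theorem conj_comm {k t y : M} (h : Commute (k * t * k⁻¹) y) : k⁻¹ * y * k * t = t * (k⁻¹ * y * k) :=
  calc _ = k⁻¹ * (y * (k * t * k⁻¹)) * k := by group
    _ = _ := by rw [← h.eq]; group

theorem fix_of {α : Type*} [MulAction M α] {β : α} {k y : M}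
    (h : k⁻¹ * y * k ∈ MulAction.stabilizer M β) : y ∈ MulAction.stabilizer M (k • β) := by
  rwa [MulAction.mem_stabilizer_iff, mul_smul, mul_smul, inv_smul_eq_iff] at h

theorem fix_rep {α : Type*} [MulAction M α] {β : α} {τ ρ κ y : M} {Y : Subgroup M}
    (hY : Y ≤ MulAction.stabilizer M ((τ * ρ * κ) • β)) (hτ : τ ∈ Subgroup.normalizer (Y : Set M))
    (hκ : κ ∈ MulAction.stabilizer M β) (hy : y ∈ Y) : y • ρ • β = ρ • β := by
  have := hY ((Subgroup.mem_normalizer_iff.1 hτ _).1 hy)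
  rw [MulAction.mem_stabilizer_iff, mul_smul _ κ, MulAction.mem_stabilizer_iff.1 hκ, mul_smul,
    mul_smul, mul_smul, inv_smul_smul] at this
  exact smul_left_cancel _ this

theorem conj_t {τ κ t : M} (h : κ * t = t * κ) :
    τ * 1 * κ * t * (τ * 1 * κ)⁻¹ * t = τ * t * τ⁻¹ * t := by
  rw [mul_one, mul_assoc τ κ, h]; group

theorem ids (h : ∀ e ∈ ([([52, 52, 52], []), ([54, 54, 54], []), ([52, 54], [54, 52]),
      ([45, 45, 45, 9], []), ([9, 9], []), ([53], [52, 52])] : List (List ℕ × List ℕ)),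
      ev m e.1 = ev m e.2) :
    m 52 ^ 3 = 1 ∧ m 54 ^ 3 = 1 ∧ Commute (m 52) (m 54) ∧
      (m 45)⁻¹ = ev m [45, 45, 9] ∧ m 9 * m 9 = 1 ∧ m 53 = m 52 ^ 2 := by
  simp only [List.mem_cons, List.not_mem_nil, or_false, forall_eq_or_imp, forall_eq, ev_cons, ev_nil,
    mul_one] at h ⊢
  exact ⟨by rw [← h.1, pow_three], by rw [← h.2.1, pow_three], h.2.2.1,
    inv_eq_of_mul_eq_one_right h.2.2.2.1, h.2.2.2.2.1, by rw [h.2.2.2.2.2, pow_two]⟩

theorem pick (h1 : m 52 ^ 3 = 1) (h4 : (m 45)⁻¹ = ev m [45, 45, 9]) (h6 : m 53 = m 52 ^ 2)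
    {B : List (List ℕ)} (hB : ∀ l ∈ B, ev m (l ++ 45 :: l ++ [45, 45, 9]) ≠
      ev m ([7, 7, 19, 45] ++ l ++ [45, 45, 9] ++ l))
    (hc : ∀ i < 3, ∀ j < 3, (i = 2 ∧ j = 0) ∨ (i = 1 ∧ j = 0) ∨
      List.replicate i 52 ++ List.replicate j 54 ∈ B) {r : M}
    (e : ∃ i < 3, ∃ j < 3, r = m 52 ^ i * m 54 ^ j)
    (h : r * (m 45 * r * (m 45)⁻¹) * r⁻¹ * (m 45 * r * (m 45)⁻¹)⁻¹ = m 7 ^ 2 * m 19 ^ 1) :
    r = m 53 ∨ r = (m 53)⁻¹ := by
  obtain ⟨i, hi, j, hj, e⟩ := e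
  rcases hc i hi j hj with ⟨rfl, rfl⟩ | ⟨rfl, rfl⟩ | h'
  · left; rw [e, h6, pow_zero, mul_one]
  · right; rw [e, h6, pow_zero, mul_one, pow_one, eq_inv_iff_mul_eq_one, ← pow_succ', h1]
  · refine absurd ?_ (hB _ h')
    have e1 : ev m (List.replicate i 52 ++ List.replicate j 54) = r := by rw [e]; simp [ev]
    generalize List.replicate i 52 ++ List.replicate j 54 = l at e1
    rw [mul_inv_eq_iff_eq_mul, mul_inv_eq_iff_eq_mul] at h
    simp only [ev_append, ← h4, e1]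
    simp only [ev_cons, ev_nil, e1, mul_one]
    calc _ = r * (m 45 * r * (m 45)⁻¹) := by group
      _ = _ := by rw [h, pow_two]; group

theorem ck_of {K K0 : Subgroup M} {W : Set M} {t : M} (hd : Dec K K0 W K0)
    (h0 : ∀ k ∈ K0, k * t = t * k) (hW : ∀ ρ ∈ W, ρ * t = t * ρ → ρ = 1) :
    ∀ k ∈ K, k * t = t * k → k ∈ K0 := fun k hk hc => by
  obtain ⟨τ, hτ, ρ, hρ, κ, hκ, rfl⟩ := hd k hk
  rw [hW ρ hρ (cancel_comm (h0 τ hτ) (h0 κ hκ) hc), mul_one]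
  exact mul_mem hτ hκ

theorem nine_of {α : Type*} [MulAction M α] {β : α} {K K0 T : Subgroup M} {W : Set M} {LT : List ℕ}
    (hd : Dec K T W K0) (hT : T ≤ cl m LT) (h0 : ∀ k ∈ K0, k * m 9 = m 9 * k)
    (hf : K0 ≤ MulAction.stabilizer M β) (ck : ∀ k ∈ K, k * m 9 = m 9 * k → k ∈ K0)
    (hx : ∀ k ∈ K, k * m 7 = m 7 * k) (m7 : m 7 ∈ K) (m9 : m 9 ∈ K) (m19 : m 19 ∈ K) (m20 : m 20 ∈ K)
    (hN : cl m LT ≤ Subgroup.normalizer (cl m [7, 19, 20] : Set M))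
    (hW : ∀ ρ ∈ W, m 19 • ρ • β = ρ • β → m 20 • ρ • β = ρ • β → ρ = 1)
    (ht : ∀ τ ∈ cl m LT, τ * m 9 * τ⁻¹ * m 9 ∈ cl m [52, 54]) : ∀ k ∈ K,
    Commute (k * m 9 * k⁻¹) (m 19) → Commute (k * m 9 * k⁻¹) (m 20) →
    k * m 9 * k⁻¹ * m 9 ∈ cl m [52, 54] := fun k hk hy hz => by
  have fx : ∀ y ∈ K, Commute (k * m 9 * k⁻¹) y → y ∈ MulAction.stabilizer M (k • β) :=
    fun y h1 h2 => fix_of (hf (ck _ (mul_mem (mul_mem (inv_mem hk) h1) hk) (conj_comm h2)))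
  have hY : cl m [7, 19, 20] ≤ MulAction.stabilizer M (k • β) := cl_le fun r hr => by
    simp only [List.mem_cons, List.not_mem_nil, or_false] at hr
    rcases hr with rfl | rfl | rfl
    exacts [fx _ m7 (hx _ (mul_mem (mul_mem hk m9) (inv_mem hk))), fx _ m19 hy, fx _ m20 hz]
  obtain ⟨τ, hτ, ρ, hρ, κ, hκ, rfl⟩ := hd k hk
  have f2 := fun r hr => fix_rep hY (hN (hT hτ)) (hf hκ) (mem_cl (r := r) hr)
  obtain rfl := hW ρ hρ (f2 19 (by decide)) (f2 20 (by decide))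
  rw [conj_t (h0 κ hκ)]
  exact ht τ (hT hτ)

end CfsgLY.M5
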