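import Cfsg.Agent.LY.A0

/-! Lyons project: the coset graph of an amalgam completion. -/

set_option autoImplicit false

namespace CfsgLY

open CfsgH6 Subgroup

/-- equal up to inversion -/
def Sim {L : Type*} [Group L] (a b : L) : Prop := b = a ∨ b = a⁻¹

/-- the commutator has order dividing five -/
def N5 {L : Type*} [Group L] (a b : L) : Prop := (a * b * a⁻¹ * b⁻¹) ^ 5 = 1

/-- relations invariant under conjugation and inversion -/
structure Inva {L : Type*} [Group L] (P : L → L → Prop) : Prop where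
  cj : ∀ g a b, P a b → P (g * a * g⁻¹) (g * b * g⁻¹)
  l : ∀ a b, P a b → P a⁻¹ b
  r : ∀ a b, P a b → P a b⁻¹

section

variable {L : Type*} [Group L]

theorem Sim.symm {a b : L} (h : Sim a b) : Sim b a := by
  rcases h with rfl | rfl
  exacts [Or.inl rfl, Or.inr (inv_inv _).symm]

theorem Sim.commute {a b : L} (h : Sim a b) : Commute a b := by
  rcases h with rfl | rfl
  exacts [Commute.refl _, (Commute.refl _).inv_right]

theorem Inva.sim {P : L → L → Prop} (h : Inva P) {a b a' b' : L} (h1 : Sim a a') (h2 : Sim b b')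
    (p : P a b) : P a' b' := by
  rcases h1 with rfl | rfl <;> rcases h2 with rfl | rfl
  exacts [p, h.r _ _ p, h.l _ _ p, h.l _ _ (h.r _ _ p)]

theorem inva_commute : Inva (Commute : L → L → Prop) :=
  ⟨fun g _ _ h => by simpa using h.map (MulAut.conj g), fun _ _ h => h.inv_left,
    fun _ _ h => h.inv_right⟩

theorem inva_sim : Inva (Sim : L → L → Prop) :=
  ⟨fun g a b h => by
    rcases h with rfl | rfl
    exacts [Or.inl rfl, Or.inr (by group)],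
   fun a b h => by
    rcases h with rfl | rfl
    exacts [Or.inr (inv_inv _).symm, Or.inl rfl],
   fun a b h => by
    rcases h with rfl | rfl
    exacts [Or.inr rfl, Or.inl (inv_inv _)]⟩

theorem inva_n5 : Inva (N5 : L → L → Prop) :=
  ⟨fun g a b h => by
    rw [N5, show g * a * g⁻¹ * (g * b * g⁻¹) * (g * a * g⁻¹)⁻¹ * (g * b * g⁻¹)⁻¹ =
      g * (a * b * a⁻¹ * b⁻¹) * g⁻¹ by group, conj_pow, h]; group,
   fun a b h => by
    rw [N5, show a⁻¹ * b * a⁻¹⁻¹ * b⁻¹ = a⁻¹ * (a * b * a⁻¹ * b⁻¹)⁻¹ * a⁻¹⁻¹ by group, conj_pow,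
      inv_pow, h]; group,
   fun a b h => by
    rw [N5, show a * b⁻¹ * a⁻¹ * b⁻¹⁻¹ = b⁻¹ * (a * b * a⁻¹ * b⁻¹)⁻¹ * b⁻¹⁻¹ by group, conj_pow,
      inv_pow, h]; group⟩

end

/-- the data of a completion with a map to the model -/
structure Cx (M Q L : Type*) [Group M] [Group Q] [Group L] where
  φ : M →* Q
  σ : Q
  π : Q →* L
  x : M
  A : Subgroup M
  r : ℕ → M
  sq : σ * σ = 1
  tri : (σ * φ (r 1)) ^ 3 = 1
  hA : ∀ a ∈ A, σ * φ a * σ ∈ φ.range
  hx : ∀ m, Sim x (m * x * m⁻¹)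
  dec : ∀ m, ∃ τ ∈ A, ∃ i, i ≤ 4 ∧ ∃ a ∈ A, m = τ * r i * a
  r0 : r 0 = 1
  n1 : ¬ Sim (π (φ x)) (π σ * π (φ x) * (π σ)⁻¹)
  n2 : ∀ i, 2 ≤ i → i ≤ 4 →
    ¬ Commute (π (φ x)) (π (σ * φ (r i) * σ) * π (φ x) * (π (σ * φ (r i) * σ))⁻¹)
  n5 : N5 (π (φ x)) (π (σ * φ (r 4) * σ) * π (φ x) * (π (σ * φ (r 4) * σ))⁻¹)

namespace Cx

variable {M Q L : Type*} [Group M] [Group Q] [Group L] (X : Cx M Q L)

/-- same vertex -/
def Eqv (g h : Q) : Prop := ∃ m, h = g * X.φ m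
/-- equal or adjacent vertices -/
def Adj (g h : Q) : Prop := X.Eqv g h ∨ ∃ m m', h = g * X.φ m * X.σ * X.φ m'
/-- the element of order three of a vertex -/
def el (g : Q) : L := X.π g * X.π (X.φ X.x) * (X.π g)⁻¹
/-- double coset representatives -/
def G (i : ℕ) : Q := if i = 0 then 1 else if i = 1 then X.σ else X.σ * X.φ (X.r i) * X.σ
/-- relative position -/
def DC (g h : Q) (i : ℕ) : Prop := ∃ m, X.Eqv (g * X.φ m * X.G i) h
/-- distance at most two -/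
def Near (g h : Q) : Prop := ∃ c, X.Adj c g ∧ X.Adj c h

variable {X}

theorem σ_inv : X.σ⁻¹ = X.σ := inv_eq_of_mul_eq_one_left X.sq

theorem Eqv.refl (g : Q) : X.Eqv g g := ⟨1, by simp⟩
theorem Eqv.mk (g : Q) (m : M) : X.Eqv g (g * X.φ m) := ⟨m, rfl⟩
theorem Eqv.symm {g h : Q} (e : X.Eqv g h) : X.Eqv h g := by
  obtain ⟨m, rfl⟩ := e; exact ⟨m⁻¹, by simp⟩
theorem Eqv.trans {g h k : Q} (e : X.Eqv g h) (e' : X.Eqv h k) : X.Eqv g k := by
  obtain ⟨m, rfl⟩ := e; obtain ⟨m', rfl⟩ := e'; exact ⟨m * m', by simp [mul_assoc]⟩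
theorem Eqv.mul {g h : Q} (e : X.Eqv g h) (k : Q) : X.Eqv (k * g) (k * h) := by
  obtain ⟨m, rfl⟩ := e; exact ⟨m, by simp [mul_assoc]⟩

theorem Adj.refl (g : Q) : X.Adj g g := Or.inl (Eqv.refl g)
theorem Adj.mk (g : Q) (m : M) : X.Adj g (g * X.φ m * X.σ) := Or.inr ⟨m, 1, by simp⟩
theorem Adj.symm {g h : Q} (e : X.Adj g h) : X.Adj h g := by
  rcases e with e | ⟨m, m', rfl⟩
  · exact Or.inl e.symm
  · refine Or.inr ⟨m'⁻¹, m⁻¹, ?_⟩
    rw [map_inv, map_inv]; nth_rewrite 2 [← σ_inv]; group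
theorem Adj.eqv_r {g h k : Q} (e : X.Adj g h) (e' : X.Eqv h k) : X.Adj g k := by
  rcases e with e | ⟨m, m', rfl⟩
  · exact Or.inl (e.trans e')
  · obtain ⟨n, rfl⟩ := e'; exact Or.inr ⟨m, m' * n, by simp [mul_assoc]⟩
theorem Adj.eqv_l {g h k : Q} (e : X.Adj g h) (e' : X.Eqv g k) : X.Adj k h :=
  (e.symm.eqv_r e').symm
theorem Adj.mul {g h : Q} (e : X.Adj g h) (k : Q) : X.Adj (k * g) (k * h) := by
  rcases e with e | ⟨m, m', rfl⟩
  · exact Or.inl (e.mul k)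
  · exact Or.inr ⟨m, m', by simp [mul_assoc]⟩

theorem el_mul (k g : Q) : X.el (k * g) = X.π k * X.el g * (X.π k)⁻¹ := by
  simp [el, mul_assoc]

theorem Eqv.sim {g h : Q} (e : X.Eqv g h) : Sim (X.el g) (X.el h) := by
  obtain ⟨m, rfl⟩ := e
  have : X.el (g * X.φ m) = X.π g * X.π (X.φ (m * X.x * m⁻¹)) * (X.π g)⁻¹ := by
    simp [el, mul_assoc]
  rw [this]
  rcases X.hx m with h | h <;> rw [h]
  · exact Or.inl rfl
  · exact Or.inr (by simp [el, mul_assoc])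

/-- invariant relations descend along a translation -/
theorem transl {P : L → L → Prop} (hP : Inva P) {k a b g h : Q} (e1 : X.Eqv (k * a) g)
    (e2 : X.Eqv (k * b) h) (p : P (X.el g) (X.el h)) : P (X.el a) (X.el b) := by
  have := hP.cj (X.π k)⁻¹ _ _ (hP.sim e1.symm.sim e2.symm.sim p)
  simpa [el_mul, mul_assoc] using this

theorem DC.inva {P : L → L → Prop} (hP : Inva P) {g h : Q} {i : ℕ} (e : X.DC g h i)
    (p : P (X.el g) (X.el h)) : P (X.el 1) (X.el (X.G i)) := by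
  obtain ⟨m, e⟩ := e
  exact transl hP (k := g * X.φ m) (by simpa using (Eqv.mk g m).symm) e p

theorem DC.adj {g h : Q} {i : ℕ} (e : X.DC g h i) (hi : i ≤ 1) : X.Adj g h := by
  obtain ⟨m, e⟩ := e
  refine Adj.eqv_r ?_ e
  interval_cases i
  · exact Or.inl (by simpa [G] using Eqv.mk g m)
  · simpa [G] using Adj.mk g m

theorem Adj.dc {g h : Q} (e : X.Adj g h) : ∃ i, i ≤ 1 ∧ X.DC g h i := by
  rcases e with e | ⟨m, m', rfl⟩
  · exact ⟨0, by omega, 1, by simpa [G] using e⟩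
  · exact ⟨1, le_rfl, m, by simpa [G] using Eqv.mk _ m'⟩

theorem two {a b c : Q} (h1 : X.Adj a b) (h2 : X.Adj a c) : ∃ i, i ≤ 4 ∧ X.DC b c i := by
  rcases h1 with h1 | ⟨m, m', rfl⟩
  · obtain ⟨i, hi, e⟩ := (h2.eqv_l h1).dc; exact ⟨i, by omega, e⟩
  rcases h2 with h2 | ⟨n, n', rfl⟩
  · obtain ⟨i, hi, e⟩ := (((Adj.mk a m).eqv_r (Eqv.mk _ m')).symm.eqv_r h2).dc
    exact ⟨i, by omega, e⟩
  obtain ⟨τ, hτ, i, hi, α, hα, e⟩ := X.dec (m⁻¹ * n)
  obtain ⟨τ', e1⟩ := X.hA τ hτ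
  obtain ⟨α', e2⟩ := X.hA α hα
  have key : a * X.φ n * X.σ * X.φ n' = a * X.φ m * X.σ * X.φ m' * X.φ (m'⁻¹ * τ') *
      (X.σ * X.φ (X.r i) * X.σ) * X.φ (α' * n') := by
    rw [show n = m * (τ * X.r i * α) by rw [← e]; group]
    simp only [map_mul, map_inv, e1, e2, mul_assoc, mul_inv_cancel_left]
    simp only [← mul_assoc X.σ X.σ, X.sq, one_mul]
  rw [key]
  by_cases h0 : i = 0
  · refine ⟨0, by omega, m'⁻¹ * τ', α' * n', ?_⟩
    simp [G, h0, X.r0, X.sq]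
  by_cases h1 : i = 1
  · refine ⟨1, by omega, m'⁻¹ * τ' * (X.r 1)⁻¹, (X.r 1)⁻¹ * (α' * n'), ?_⟩
    have t : X.σ * X.φ (X.r 1) * X.σ = (X.φ (X.r 1))⁻¹ * X.σ * (X.φ (X.r 1))⁻¹ := by
      have := X.tri
      nth_rewrite 3 [← σ_inv]
      calc _ = (X.φ (X.r 1))⁻¹ * X.σ⁻¹ * (X.σ * X.φ (X.r 1)) ^ 3 * (X.φ (X.r 1))⁻¹ := by
            simp only [pow_succ, pow_zero]; group
        _ = _ := by rw [this]; group
    simp [G, h1, t, mul_assoc]
  · exact ⟨i, hi, m'⁻¹ * τ', α' * n', by simp [G, h0, h1]⟩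

theorem el_one : X.el 1 = X.π (X.φ X.x) := by simp [el]

theorem DC.le_one {g h : Q} {i : ℕ} (e : X.DC g h i) (hi : i ≤ 4)
    (p : Commute (X.el g) (X.el h)) : i ≤ 1 := by
  by_contra hn
  have := e.inva inva_commute p
  rw [el_one, G, if_neg (by omega), if_neg (by omega)] at this
  exact X.n2 i (by omega) hi this

/-- triangles -/
theorem rule1 {a b c : Q} (h1 : X.Adj a b) (h2 : X.Adj a c) (p : Commute (X.el b) (X.el c)) :
    X.Adj b c := by
  obtain ⟨i, hi, e⟩ := two h1 h2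
  exact e.adj (e.le_one hi p)

/-- local injectivity -/
theorem rule0 {a b c : Q} (h1 : X.Adj a b) (h2 : X.Adj a c) (p : Sim (X.el b) (X.el c)) :
    X.Eqv b c := by
  obtain ⟨i, hi, e⟩ := two h1 h2
  have h3 := e.le_one hi p.commute
  have h4 := e.inva inva_sim p
  interval_cases i
  · obtain ⟨m, e⟩ := e
    exact (Eqv.mk b m).trans (by simpa [G] using e)
  · rw [el_one] at h4; exact absurd h4 X.n1

theorem ruleF {γ a b : Q} (h0 : X.Eqv a (γ * a)) (h1 : X.Adj a b)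
    (p : Sim (X.el b) (X.π γ * X.el b * (X.π γ)⁻¹)) : X.Eqv b (γ * b) :=
  rule0 h1 ((h1.mul γ).eqv_l h0.symm) (by rwa [el_mul])

/-- the orbits of the stabiliser of the vertex `G i` on the neighbours of the base vertex -/
structure Orb (X : Cx M Q L) (i : ℕ) (S : Subgroup M) (W : Set M) : Prop where
  two : 2 ≤ i
  four : i ≤ 4
  fix : ∀ τ ∈ S, X.Eqv (X.G i) (X.φ τ * X.G i)
  dec : ∀ m, ∃ τ ∈ S, ∃ w ∈ W, ∃ a ∈ X.A, m = τ * w * a

theorem Orb.G_eq {i : ℕ} {S : Subgroup M} {W : Set M} (h : X.Orb i S W) :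
    X.G i = X.σ * X.φ (X.r i) * X.σ := by
  have := h.two
  rw [G, if_neg (by omega), if_neg (by omega)]

theorem Orb.red {i : ℕ} {S : Subgroup M} {W : Set M} (h : X.Orb i S W) {b c q : Q}
    (e : X.DC b c i) (hq : X.Adj b q) :
    X.Eqv b q ∨ ∃ k, ∃ w ∈ W, X.Eqv (k * (X.φ w * X.σ)) q ∧ X.Eqv (k * X.G i) c := by
  obtain ⟨m, e⟩ := e
  rcases hq with hq | ⟨n, n', rfl⟩
  · exact Or.inl hq
  obtain ⟨τ, hτ, w, hw, α, hα, e1⟩ := h.dec (m⁻¹ * n)
  obtain ⟨α', e2⟩ := X.hA α hα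
  refine Or.inr ⟨b * X.φ m * X.φ τ, w, hw, ⟨α' * n', ?_⟩, Eqv.trans ?_ e⟩
  · rw [show n = m * (τ * w * α) by rw [← e1]; group]
    simp only [map_mul, e2, mul_assoc]
    simp only [← mul_assoc X.σ X.σ, X.sq, one_mul]
  · rw [mul_assoc]; exact ((h.fix τ hτ).mul _).symm

/-- squares of type `i` -/
def SQ (X : Cx M Q L) (i : ℕ) : Prop :=
  ∀ b c q, X.DC b c i → X.Adj b q → Commute (X.el q) (X.el c) → X.Adj q c

theorem Orb.sq {i : ℕ} {S : Subgroup M} {W : Set M} (h : X.Orb i S W)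
    (hn : ∀ w ∈ W, w = 1 ∨ ¬ Commute (X.el (X.φ w * X.σ)) (X.el (X.G i))) : X.SQ i := by
  intro b c q e hq p
  rcases h.red e hq with e1 | ⟨k, w, hw, e1, e2⟩
  · have := e.le_one h.four (inva_commute.sim e1.symm.sim (Or.inl rfl) p)
    have := h.two
    omega
  · rcases hn w hw with rfl | hn
    · refine (Adj.eqv_l (g := k * (X.φ 1 * X.σ)) ?_ e1).eqv_r e2
      rw [h.G_eq]
      simpa [mul_assoc] using Adj.mk (k * X.σ) (X.r i)
    · exact absurd (transl inva_commute e1 e2 p) hn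

theorem sq_low {i : ℕ} (hi : i ≤ 1) : X.SQ i := fun _ _ _ e hq p => rule1 hq (e.adj hi) p

/-- slides; `all` says that squares of type four are available -/
theorem ruleS {all : Prop} (h2 : X.SQ 2) (h3 : X.SQ 3) (h4 : all → X.SQ 4) {a b c q : Q}
    (h1 : X.Adj a b) (h1' : X.Adj a c) (hq : X.Adj b q) (p : Commute (X.el q) (X.el c))
    (hn : all ∨ ¬ N5 (X.el b) (X.el c)) : X.Adj q c := by
  obtain ⟨i, hi, e⟩ := two h1 h1'
  refine (?_ : X.SQ i) b c q e hq p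
  interval_cases i
  exacts [sq_low (by omega), sq_low le_rfl, h2, h3, by
    rcases hn with hn | hn
    · exact h4 hn
    · refine absurd ?_ hn
      obtain ⟨m, e⟩ := e
      refine transl inva_n5 (k := (b * X.φ m)⁻¹) (g := 1) (h := X.G 4) ?_ ?_ ?_
      · simpa using ((Eqv.mk (X := X) b m).mul (b * X.φ m)⁻¹)
      · simpa [mul_assoc] using (e.mul (b * X.φ m)⁻¹).symm
      · rw [el_one]; exact X.n5]

theorem Orb.pent {i : ℕ} {S : Subgroup M} {W : Set M} (h : X.Orb i S W)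
    (hn : ∀ w ∈ W, X.Near (X.G i) (X.φ w * X.σ)) {b c q : Q} (e : X.DC b c i) (hq : X.Adj b q) :
    X.Near c q := by
  rcases h.red e hq with e1 | ⟨k, w, hw, e1, e2⟩
  · obtain ⟨m, e⟩ := e
    refine ⟨b * X.φ m * X.σ, Adj.eqv_r ?_ e, (Adj.mk b m).symm.eqv_r e1⟩
    rw [h.G_eq]
    simpa [mul_assoc] using Adj.mk (b * X.φ m * X.σ) (X.r i)
  · obtain ⟨d, d1, d2⟩ := hn w hw
    exact ⟨k * d, (d1.mul k).eqv_r e2, (d2.mul k).eqv_r e1⟩

theorem bound [Finite M] [Finite Q] (S : ℕ → Subgroup M) (W : ℕ → Set M) (n : ℕ → ℕ)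
    (h : ∀ i, 2 ≤ i → i ≤ 4 → X.Orb i (S i) (W i) ∧ (∀ w ∈ W i, X.Near (X.G i) (X.φ w * X.σ)) ∧
      Nat.card M ≤ n i * Nat.card (S i)) (hA : Nat.card M ≤ n 1 * Nat.card X.A) :
    Nat.card (closure (Set.range X.φ ∪ {X.σ})) ≤ Nat.card M * (1 + (n 1 + (n 2 + (n 3 + n 4)))) := by
  have step : ∀ g q, X.Near 1 g → X.Adj g q → X.Near 1 q := by
    rintro g q ⟨c, c1, c2⟩ hq
    obtain ⟨i, hi, e⟩ := two c2 c1
    by_cases h1 : i ≤ 1
    · exact ⟨g, e.adj h1, hq⟩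
    · exact (h i (by omega) hi).1.pent (h i (by omega) hi).2.1 e hq
  have all : ∀ g ∈ closure (Set.range X.φ ∪ {X.σ}), X.Near 1 g := by
    intro g hg
    induction hg using closure_induction_right with
    | one => exact ⟨1, Adj.refl _, Adj.refl _⟩
    | mul_right g _ s hs ih =>
      rcases hs with ⟨m, rfl⟩ | rfl
      · exact step _ _ ih (Or.inl (Eqv.mk g m))
      · exact step _ _ ih (by simpa using Adj.mk (X := X) g 1)
    | mul_inv_cancel g _ s hs ih =>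
      rcases hs with ⟨m, rfl⟩ | rfl
      · exact step _ _ ih (Or.inl (by simpa using Eqv.mk g m⁻¹))
      · exact step _ _ ih (by simpa [σ_inv] using Adj.mk (X := X) g 1)
  have eH : X.φ.range = (⊤ : Subgroup M).map X.φ := MonoidHom.range_eq_map _
  have b := card_le_DCs (G := closure (Set.range X.φ ∪ {X.σ})) (H := X.φ.range)
    [((X.G 1)⁻¹, n 1), ((X.G 2)⁻¹, n 2), ((X.G 3)⁻¹, n 3), ((X.G 4)⁻¹, n 4)] (fun g hg => by
      obtain ⟨c, c1, c2⟩ := all g hg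
      obtain ⟨i, hi, m, m', e⟩ := two c2 c1
      have e' : g = X.φ m'⁻¹ * (X.G i)⁻¹ * X.φ m⁻¹ := by
        rw [map_inv, map_inv]
        calc g = g * X.φ m * X.G i * X.φ m' * ((X.φ m')⁻¹ * (X.G i)⁻¹ * (X.φ m)⁻¹) := by group
          _ = _ := by rw [← e, one_mul]
      by_cases h0 : i = 0
      · exact Or.inl ⟨m'⁻¹ * m⁻¹, by rw [e', h0]; simp [G]⟩
      · refine Or.inr ⟨(X.G i)⁻¹, ?_, _, ⟨_, rfl⟩, _, ⟨_, rfl⟩, e'⟩
        have : i = 1 ∨ i = 2 ∨ i = 3 ∨ i = 4 := by omega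
        rcases this with rfl | rfl | rfl | rfl <;> simp) (by
      have key : ∀ i, 2 ≤ i → i ≤ 4 →
          (DC1 X.φ.range (X.G i)⁻¹).ncard ≤ Nat.card X.φ.range * n i := fun i h1 h2 =>
        ncard_DC1_map X.φ eH rfl (T := S i) le_top (by
          rintro _ ⟨τ, hτ, rfl⟩
          obtain ⟨m, e⟩ := (h i h1 h2).1.fix τ hτ
          exact ⟨m, by rw [inv_inv, mul_assoc, e]; group⟩) (by rw [card_top]; exact (h i h1 h2).2.2)
      refine forall_cons ?_ (forall_cons (key 2 (by omega) (by omega)) (forall_cons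
        (key 3 (by omega) (by omega)) (forall_cons (key 4 (by omega) (by omega)) forall_nil)))
      exact ncard_DC1_map X.φ eH rfl (T := X.A) le_top (by
        rintro _ ⟨τ, hτ, rfl⟩
        simpa [G, σ_inv] using X.hA τ hτ) (by rw [card_top]; exact hA))
  refine b.trans ?_
  simp only [List.map_cons, List.map_nil, List.sum_cons, List.sum_nil, add_zero]
  refine Nat.mul_le_mul_right _ ?_
  rw [eH, ← card_top (G := M)]; exact card_map_le _ _

end Cx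

end CfsgLY
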