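import Cfsg.Agent.LY.U0

/-! Lyons project: the checker for disc certificates. -/

set_option autoImplicit false

namespace CfsgLY

open CfsgH5 CfsgH6 Subgroup

def upd (f : ℕ → ℕ) (n v : ℕ) : ℕ → ℕ := fun i => bif' (Nat.beq i n) v (f i)

def mulR (O : GOps) (R : ℕ → ℕ) (l : List ℕ) : ℕ → ℕ :=
  List.rec (motive := fun _ => ℕ → ℕ) (fun a => a) (fun r _ ih a => fH (O.mul a (force r R)) ih) l

def mulL (O : GOps) (R : ℕ → ℕ) (l : List ℕ) : ℕ → ℕ :=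
  List.rec (motive := fun _ => ℕ → ℕ) (fun a => a) (fun r _ ih a => fH (O.mul (force r R) a) ih) l

def ab (AD a b : ℕ) : Bool := band (Nat.blt b 64) (tb AD (Nat.add (Nat.mul 64 a) b))

def setA (AD a b : ℕ) : ℕ := ins (ins AD (Nat.add (Nat.mul 64 a) b)) (Nat.add (Nat.mul 64 b) a)

def cmB (O : GOps) (e f : ℕ) : Bool := fH e fun e => fH f fun f => Nat.beq (O.mul e f) (O.mul f e)

def n5B (O : GOps) (e f : ℕ) : Bool := fH e fun e => fH f fun f =>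
  fH (O.mul e f) fun a => fH (O.mul a e) fun a => fH (O.mul a e) fun a => fH (O.mul a f) fun a =>
  fH (O.mul a f) fun c => fH (O.mul c c) fun c2 => fH (O.mul c2 c2) fun c4 =>
  Nat.beq (O.mul c4 c) O.one

def simB (O : GOps) (t e : ℕ) : Bool := fH t fun t => fH e fun e => fH (O.mul e t) fun a =>
  fH (O.mul t e) fun b => bor (Nat.beq b a) (Nat.beq b (O.mul e a))

/-- a new vertex -/
def newV (O : GOps) (R : ℕ → ℕ) (IV p : ℕ) (l : List ℕ) (n : ℕ) (H HI E : ℕ → ℕ) (AD : ℕ)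
    (k : ℕ → (ℕ → ℕ) → (ℕ → ℕ) → (ℕ → ℕ) → ℕ → Bool) : Bool :=
  band (band (Nat.blt p n) (Nat.blt n 64)) (band (allL l (tb IV))
    (fH (fH (fH (H p) (mulR O R l)) fun a => O.mul a (R 60)) fun h =>
      fH (fH (fH (HI p) (mulL O R l)) fun a => O.mul (R 60) a) fun hi =>
      fH (fH (O.mul h (R 7)) fun a => O.mul a hi) fun e =>
      force (Nat.succ n) fun n' => force (setA AD p n) (k n' (upd H n h) (upd HI n hi) (upd E n e))))

/-- the interpreter -/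
def run (O : GOps) (R : ℕ → ℕ) (IV : ℕ) (al : Bool) (k : (ℕ → ℕ) → ℕ → Bool)
    (ops : List (ℕ × ℕ × ℕ × ℕ × ℕ × List ℕ)) :
    ℕ → (ℕ → ℕ) → (ℕ → ℕ) → (ℕ → ℕ) → ℕ → Bool :=
  List.rec (motive := fun _ => ℕ → (ℕ → ℕ) → (ℕ → ℕ) → (ℕ → ℕ) → ℕ → Bool)
    (fun _ _ _ E AD => k E AD)
    (fun o _ ih n H HI E AD => bif' (Nat.beq o.1 0) (newV O R IV o.2.1 o.2.2.2.2.2 n H HI E AD ih)
      (band (band (ab AD o.2.1 o.2.2.1) (ab AD o.2.1 o.2.2.2.1))
        (bif' (Nat.beq o.1 1)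
          (band (cmB O (E o.2.2.1) (E o.2.2.2.1)) (force (setA AD o.2.2.1 o.2.2.2.1) (ih n H HI E)))
          (band (band (ab AD o.2.2.1 o.2.2.2.2.1) (cmB O (E o.2.2.2.2.1) (E o.2.2.2.1)))
            (band (bor al (bnot (n5B O (E o.2.2.1) (E o.2.2.2.1))))
              (force (setA AD o.2.2.2.2.1 o.2.2.2.1) (ih n H HI E))))))) ops

/-- the four initial vertices -/
def init (O : GOps) (R : ℕ → ℕ) (IV : ℕ) (l₂ l₃ : List ℕ)
    (k : ℕ → (ℕ → ℕ) → (ℕ → ℕ) → (ℕ → ℕ) → ℕ → Bool) : Bool :=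
  newV O R IV 0 [] 1 (fun _ => O.one) (fun _ => O.one) (fun _ => R 7) 0 fun n H HI E AD =>
    newV O R IV 1 l₂ n H HI E AD fun n H HI E AD => newV O R IV 0 l₃ n H HI E AD k

variable {M Q L : Type*} [Group M] [Group Q] [Group L] {X : Cx M Q L} {O : GOps} {C : GC O L}
  {R : ℕ → ℕ} {mm : ℕ → M} {IV : ℕ}

/-- the link between the registers and the completion -/
structure Lk (X : Cx M Q L) (C : GC O L) (R : ℕ → ℕ) (mm : ℕ → M) (IV : ℕ) : Prop where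
  hm : ∀ r, tb IV r = true → C.code (X.π (X.φ (mm r))) = R r ∧ mm r * mm r = 1
  hs : C.code (X.π X.σ) = R 60
  hx : C.code (X.π (X.φ X.x)) = R 7
  x3 : X.x ^ 3 = 1

structure Inv (X : Cx M Q L) (C : GC O L) (vs : ℕ → Q) (n : ℕ) (H HI E : ℕ → ℕ) (AD : ℕ) : Prop where
  le : n ≤ 64
  h : ∀ i, i < n → C.code (X.π (vs i)) = H i
  hi : ∀ i, i < n → C.code (X.π (vs i))⁻¹ = HI i
  e : ∀ i, i < n → C.code (X.el (vs i)) = E i
  ad : ∀ a b, ab AD a b = true → a < n ∧ b < n ∧ X.Adj (vs a) (vs b)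

theorem Inv.set {vs : ℕ → Q} {n : ℕ} {H HI E : ℕ → ℕ} {AD a b : ℕ} (h : Inv X C vs n H HI E AD)
    (ha : a < n) (hb : b < n) (e : X.Adj (vs a) (vs b)) : Inv X C vs n H HI E (setA AD a b) := by
  refine ⟨h.le, h.h, h.hi, h.e, fun c d hcd => ?_⟩
  have := h.le
  simp only [ab, setA, band_eq, Bool.and_eq_true, blt_true_iff, tb_eq, testBit_ins, Nat.add_eq,
    Nat.mul_eq] at hcd
  obtain ⟨h1, (h2 | h2) | h2⟩ := hcd
  · exact h.ad c d (by simp [ab, blt_true_iff, h1, h2])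
  · obtain ⟨rfl, rfl⟩ : a = c ∧ b = d := by omega
    exact ⟨ha, hb, e⟩
  · obtain ⟨rfl, rfl⟩ : b = c ∧ a = d := by omega
    exact ⟨hb, ha, e.symm⟩

theorem mulR_spec (k : Lk X C R mm IV) {l : List ℕ} (hl : allL l (tb IV) = true) (g : L) :
    mulR O R l (C.code g) = C.code (g * X.π (X.φ (l.map mm).prod)) ∧
    mulL O R l (C.code g) = C.code ((X.π (X.φ (l.map mm).prod))⁻¹ * g) := by
  rw [allL_iff] at hl
  induction l generalizing g with
  | nil => simp [mulR, mulL]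
  | cons r l ih =>
    have h1 := k.hm r (hl r List.mem_cons_self)
    have h2 := ih fun i hi => hl i (List.mem_cons_of_mem _ hi)
    constructor
    · show fH (O.mul (C.code g) (force r R)) (mulR O R l) = _
      rw [fH_eq, force_eq, ← h1.1, ← C.code_mul, (h2 _).1]; simp [mul_assoc]
    · show fH (O.mul (force r R) (C.code g)) (mulL O R l) = _
      have : (X.π (X.φ (mm r)))⁻¹ = X.π (X.φ (mm r)) :=
        inv_eq_of_mul_eq_one_left (by rw [← map_mul, ← map_mul, h1.2]; simp)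
      rw [fH_eq, force_eq, ← h1.1, ← C.code_mul, (h2 _).2]; simp [mul_assoc, this]

theorem newV_sound (k : Lk X C R mm IV) {vs : ℕ → Q} {n : ℕ} {H HI E : ℕ → ℕ} {AD p : ℕ}
    {l : List ℕ} {K : ℕ → (ℕ → ℕ) → (ℕ → ℕ) → (ℕ → ℕ) → ℕ → Bool} (h : Inv X C vs n H HI E AD)
    (hc : newV O R IV p l n H HI E AD K = true) : ∃ H' HI' E' AD',
      Inv X C (Function.update vs n (vs p * X.φ (l.map mm).prod * X.σ)) (n + 1) H' HI' E' AD' ∧
      K (n + 1) H' HI' E' AD' = true := by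
  simp only [newV, band_eq, Bool.and_eq_true, blt_true_iff, fH_eq, force_eq] at hc
  obtain ⟨⟨hp, hn⟩, hl, hK⟩ := hc
  refine ⟨_, _, _, _, ?_, hK⟩
  set g := vs p * X.φ (l.map mm).prod * X.σ with hg
  have e1 : O.mul (mulR O R l (H p)) (R 60) = C.code (X.π g) := by
    rw [← h.h p hp, (mulR_spec k hl _).1, ← k.hs, ← C.code_mul]; simp [hg]
  have e2 : O.mul (R 60) (mulL O R l (HI p)) = C.code (X.π g)⁻¹ := by
    rw [← h.hi p hp, (mulR_spec k hl _).2, ← k.hs, ← C.code_mul]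
    simp only [hg, map_mul, mul_inv_rev]
    rw [← map_inv X.π X.σ, Cx.σ_inv]
  rw [e1, e2, ← k.hx, ← C.code_mul, ← C.code_mul]
  have ne : ∀ i, i < n → Function.update vs n g i = vs i := fun i hi =>
    Function.update_of_ne (by omega) _ _
  have up : ∀ (f : ℕ → ℕ) (F : Q → ℕ), (∀ i, i < n → F (vs i) = f i) → ∀ i, i < n + 1 →
      F (Function.update vs n g i) = upd f n (F g) i := fun f F hf i hi => by
    rw [upd, bif'_eq]
    by_cases hi' : i = n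
    · subst hi'; simp
    · rw [if_neg (by rwa [beq_true_iff]), ne i (by omega), hf i (by omega)]
  refine Inv.set ⟨hn, up H (fun g => C.code (X.π g)) h.h, up HI (fun g => C.code (X.π g)⁻¹) h.hi,
    up E (fun g => C.code (X.el g)) h.e, fun a b hab => ?_⟩ (by omega) (by omega) ?_
  · obtain ⟨h1, h2, h3⟩ := h.ad a b hab
    exact ⟨by omega, by omega, by rwa [ne a h1, ne b h2]⟩
  · rw [ne p hp, Function.update_self]; exact Cx.Adj.mk _ _

theorem cmB_iff (a b : L) : cmB O (C.code a) (C.code b) = true ↔ Commute a b := by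
  simp only [cmB, fH_eq, beq_true_iff, ← C.code_mul, C.inj.eq_iff]; rfl

theorem inv_cube {a : L} (h : a ^ 3 = 1) : a⁻¹ = a * a := by
  rw [inv_eq_iff_mul_eq_one, ← h]; simp [pow_succ, mul_assoc]

theorem n5B_iff {a b : L} (ha : a ^ 3 = 1) (hb : b ^ 3 = 1) :
    n5B O (C.code a) (C.code b) = true ↔ N5 a b := by
  simp only [n5B, fH_eq, beq_true_iff, ← C.code_mul, ← C.code_one, C.inj.eq_iff, N5, inv_cube ha,
    inv_cube hb, pow_succ, pow_zero, one_mul, mul_assoc]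

theorem simB_sound {t a : L} (ha : a ^ 3 = 1) (h : simB O (C.code t) (C.code a) = true) :
    Sim a (t * a * t⁻¹) := by
  simp only [simB, fH_eq, bor_eq, Bool.or_eq_true, beq_true_iff, ← C.code_mul, C.inj.eq_iff] at h
  rcases h with h | h
  · exact Or.inl (by rw [h]; group)
  · exact Or.inr (by rw [h, inv_cube ha]; group)

theorem Lk.cube (k : Lk X C R mm IV) (g : Q) : X.el g ^ 3 = 1 := by
  rw [Cx.el, conj_pow, ← map_pow, ← map_pow, k.x3]; simp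

theorem run_sound (k : Lk X C R mm IV) {al : Bool} (h2 : X.SQ 2) (h3 : X.SQ 3)
    (h4 : al = true → X.SQ 4) {K : (ℕ → ℕ) → ℕ → Bool} (ops : List (ℕ × ℕ × ℕ × ℕ × ℕ × List ℕ)) :
    ∀ {vs : ℕ → Q} {n : ℕ} {H HI E : ℕ → ℕ} {AD : ℕ}, Inv X C vs n H HI E AD →
      run O R IV al K ops n H HI E AD = true → ∃ vs' n' H' HI' E' AD',
        Inv X C vs' n' H' HI' E' AD' ∧ n ≤ n' ∧ (∀ i, i < n → vs' i = vs i) ∧ K E' AD' = true := by
  induction ops with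
  | nil => exact fun h hc => ⟨_, _, _, _, _, _, h, le_rfl, fun _ _ => rfl, hc⟩
  | cons o ops ih =>
    intro vs n H HI E AD h hc
    have hc : bif' (Nat.beq o.1 0) (newV O R IV o.2.1 o.2.2.2.2.2 n H HI E AD (run O R IV al K ops))
      (band (band (ab AD o.2.1 o.2.2.1) (ab AD o.2.1 o.2.2.2.1))
        (bif' (Nat.beq o.1 1)
          (band (cmB O (E o.2.2.1) (E o.2.2.2.1))
            (force (setA AD o.2.2.1 o.2.2.2.1) (run O R IV al K ops n H HI E)))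
          (band (band (ab AD o.2.2.1 o.2.2.2.2.1) (cmB O (E o.2.2.2.2.1) (E o.2.2.2.1)))
            (band (bor al (bnot (n5B O (E o.2.2.1) (E o.2.2.2.1))))
              (force (setA AD o.2.2.2.2.1 o.2.2.2.1) (run O R IV al K ops n H HI E)))))) = true := hc
    rw [bif'_eq] at hc
    split_ifs at hc
    · obtain ⟨_, _, _, _, i1, i2⟩ := newV_sound k h hc
      obtain ⟨vs', n', _, _, _, _, j1, j2, j3, j4⟩ := ih i1 i2
      exact ⟨vs', n', _, _, _, _, j1, by omega, fun i hi => by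
        rw [j3 i (by omega), Function.update_of_ne (by omega)], j4⟩
    · simp only [band_eq, Bool.and_eq_true, bif'_eq, force_eq] at hc
      obtain ⟨⟨a1, a2⟩, hc⟩ := hc
      obtain ⟨-, b1, a1⟩ := h.ad _ _ a1
      obtain ⟨-, b2, a2⟩ := h.ad _ _ a2
      split_ifs at hc
      · rw [Bool.and_eq_true, ← h.e _ b1, ← h.e _ b2, cmB_iff] at hc
        exact ih (h.set b1 b2 (Cx.rule1 a1 a2 hc.1)) hc.2
      · simp only [Bool.and_eq_true, bor_eq, bnot_eq, Bool.or_eq_true, Bool.not_eq_true'] at hc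
        obtain ⟨⟨a3, c1⟩, c2, c3⟩ := hc
        obtain ⟨-, b3, a3⟩ := h.ad _ _ a3
        rw [← h.e _ b3, ← h.e _ b2, cmB_iff] at c1
        rw [← h.e _ b1, ← h.e _ b2, ← Bool.not_eq_true, n5B_iff (k.cube _) (k.cube _)] at c2
        exact ih (h.set b3 b2 (Cx.ruleS h2 h3 h4 a1 a2 a3 c1 c2)) c3

theorem init_sound (k : Lk X C R mm IV) {l₂ l₃ : List ℕ}
    {K : ℕ → (ℕ → ℕ) → (ℕ → ℕ) → (ℕ → ℕ) → ℕ → Bool} (hc : init O R IV l₂ l₃ K = true) :
    ∃ vs H HI E AD, Inv X C vs 4 H HI E AD ∧ vs 0 = 1 ∧ vs 1 = X.σ ∧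
      vs 2 = X.σ * X.φ (l₂.map mm).prod * X.σ ∧ vs 3 = X.φ (l₃.map mm).prod * X.σ ∧
      K 4 H HI E AD = true := by
  have h0 : Inv X C (fun _ => 1) 1 (fun _ => O.one) (fun _ => O.one) (fun _ => R 7) 0 :=
    ⟨by omega, fun _ _ => by simp [C.code_one], fun _ _ => by simp [C.code_one],
      fun _ _ => by rw [Cx.el_one, k.hx], fun a b h => by simp [ab] at h⟩
  obtain ⟨_, _, _, _, h1, c1⟩ := newV_sound k h0 hc
  obtain ⟨_, _, _, _, h2, c2⟩ := newV_sound k h1 c1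
  obtain ⟨_, _, _, _, h3, c3⟩ := newV_sound k h2 c2
  exact ⟨_, _, _, _, _, h3, by simp, by simp, by simp, by simp, c3⟩

/-- pentagon task: word, common neighbour, certificate -/
def pentB (O : GOps) (R : ℕ → ℕ) (IV : ℕ) (l₂ : List ℕ)
    (t : List ℕ × ℕ × List (ℕ × ℕ × ℕ × ℕ × ℕ × List ℕ)) : Bool :=
  init O R IV l₂ t.1 fun n H HI E AD => band (bnot (cmB O (E 3) (E 2)))
    (run O R IV true (fun _ AD => band (ab AD t.2.1 2) (ab AD t.2.1 3)) t.2.2 n H HI E AD)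

theorem pentB_sound (k : Lk X C R mm IV) {l₂ : List ℕ}
    {t : List ℕ × ℕ × List (ℕ × ℕ × ℕ × ℕ × ℕ × List ℕ)} (hc : pentB O R IV l₂ t = true) :
    ¬ Commute (X.el (X.φ (t.1.map mm).prod * X.σ)) (X.el (X.σ * X.φ (l₂.map mm).prod * X.σ)) ∧
    (X.SQ 2 → X.SQ 3 → X.SQ 4 →
      X.Near (X.σ * X.φ (l₂.map mm).prod * X.σ) (X.φ (t.1.map mm).prod * X.σ)) := by
  obtain ⟨vs, H, HI, E, AD, h, -, -, e2, e3, c⟩ := init_sound k hc
  simp only [band_eq, Bool.and_eq_true, bnot_eq, Bool.not_eq_true'] at c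
  rw [← e2, ← e3]
  refine ⟨?_, fun h2 h3 h4 => ?_⟩
  · rw [← cmB_iff (C := C), h.e 3 (by omega), h.e 2 (by omega), c.1]; simp
  · obtain ⟨vs', _, _, _, _, _, j1, -, j3, j4⟩ := run_sound k h2 h3 (fun _ => h4) _ h c.2
    simp only [band_eq, Bool.and_eq_true] at j4
    exact ⟨vs' t.2.1, j3 2 (by omega) ▸ (j1.ad _ _ j4.1).2.2, j3 3 (by omega) ▸ (j1.ad _ _ j4.2).2.2⟩

/-- the register `r` fixes the vertex 2, through the common neighbour `a` -/
def fixB (O : GOps) (R : ℕ → ℕ) (IV : ℕ) (l₂ : List ℕ) (r a : ℕ)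
    (ops : List (ℕ × ℕ × ℕ × ℕ × ℕ × List ℕ)) : Bool :=
  init O R IV l₂ [] (run O R IV false (fun E AD => band (band (ab AD 0 a) (ab AD a 2))
    (band (simB O (R r) (E a)) (simB O (R r) (E 2)))) ops)

theorem fixB_sound (k : Lk X C R mm IV) (h2 : X.SQ 2) (h3 : X.SQ 3) {l₂ : List ℕ} {r a : ℕ}
    {ops : List (ℕ × ℕ × ℕ × ℕ × ℕ × List ℕ)} (hc : fixB O R IV l₂ r a ops = true) {τ : M}
    (hr : C.code (X.π (X.φ τ)) = R r) : X.Eqv (X.σ * X.φ (l₂.map mm).prod * X.σ)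
      (X.φ τ * (X.σ * X.φ (l₂.map mm).prod * X.σ)) := by
  obtain ⟨vs, H, HI, E, AD, h, e0, -, e2, -, c⟩ := init_sound k hc
  obtain ⟨vs', _, _, _, _, _, j1, j2, j3, j4⟩ := run_sound k h2 h3 (by simp) _ h c
  simp only [band_eq, Bool.and_eq_true] at j4
  obtain ⟨⟨a1, a2⟩, s1, s2⟩ := j4
  obtain ⟨-, b1, a1⟩ := j1.ad _ _ a1
  obtain ⟨-, b2, a2⟩ := j1.ad _ _ a2
  rw [← hr, ← j1.e _ b1] at s1
  rw [← hr, ← j1.e _ b2] at s2
  rw [← e2, ← j3 2 (by omega)]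
  refine Cx.ruleF (Cx.ruleF ?_ a1 (simB_sound (k.cube _) s1)) a2 (simB_sound (k.cube _) s2)
  rw [j3 0 (by omega), e0]; exact ⟨τ, by simp⟩

end CfsgLY
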