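import Cfsg.Agent.LY.UD

set_option autoImplicit false
set_option maxRecDepth 100000
set_option Elab.async false

namespace CfsgLY

open CfsgH5 CfsgH6

theorem cpt4_25 : pentB P.ops R1 IV lr4 pt4_25 = true := by decide +kernel
theorem cpt2_6 : pentB P.ops R1 IV lr2 pt2_6 = true := by decide +kernel
theorem fix59 : fixB P.ops R1 IV lr4 59 8 sq4 = true := by decide +kernel
theorem cpt4_27 : pentB P.ops R1 IV lr4 pt4_27 = true := by decide +kernel
theorem xn : allL [7, 8, 10, 11, 12, 13, 14, 15, 51] (fun r => bor (eqL OM RM MM [r, 7] [7, r]) (eqL OM RM MM [r, 7] [7, 7, r])) = true := by decide +kernel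
theorem cpt4_34 : pentB P.ops R1 IV lr4 pt4_34 = true := by decide +kernel
theorem cpt3_7 : pentB P.ops R1 IV lr3 pt3_7 = true := by decide +kernel
theorem cpt4_33 : pentB P.ops R1 IV lr4 pt4_33 = true := by decide +kernel
theorem nc5 : init P.ops R1 IV lr4 [] (fun _ _ _ E _ => band (n5B P.ops (E 0) (E 2)) (band (bnot (Nat.beq (E 1) (E 0))) (bnot (Nat.beq (E 1) (P.ops.mul (E 0) (E 0)))))) = true := by decide +kernel
theorem cpt4_16 : pentB P.ops R1 IV lr4 pt4_16 = true := by decide +kernel
theorem cpt3_3 : pentB P.ops R1 IV lr3 pt3_3 = true := by decide +kernel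
theorem x3c : eqL OM RM MM [7, 7, 7] [] = true := by decide +kernel
end CfsgLY
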