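import Cfsg.Agent.LY.UD

set_option autoImplicit false
set_option maxRecDepth 100000
set_option Elab.async false

namespace CfsgLY

open CfsgH5 CfsgH6

theorem cpt4_12 : pentB P.ops R1 IV lr4 pt4_12 = true := by decide +kernel
theorem cpt4_21 : pentB P.ops R1 IV lr4 pt4_21 = true := by decide +kernel
theorem cpt3_2 : pentB P.ops R1 IV lr3 pt3_2 = true := by decide +kernel
theorem cpt4_9 : pentB P.ops R1 IV lr4 pt4_9 = true := by decide +kernel
theorem cpt4_8 : pentB P.ops R1 IV lr4 pt4_8 = true := by decide +kernel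
theorem cpt3_5 : pentB P.ops R1 IV lr3 pt3_5 = true := by decide +kernel
theorem cpt4_22 : pentB P.ops R1 IV lr4 pt4_22 = true := by decide +kernel
theorem cpt4_35 : pentB P.ops R1 IV lr4 pt4_35 = true := by decide +kernel
theorem cpt4_28 : pentB P.ops R1 IV lr4 pt4_28 = true := by decide +kernel
theorem cpt2_4 : pentB P.ops R1 IV lr2 pt2_4 = true := by decide +kernel
theorem nc2 : init P.ops R1 IV lr2 [] (fun _ _ _ E _ => bnot (cmB P.ops (E 0) (E 2))) = true := by decide +kernel
end CfsgLY
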