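import Cfsg.Agent.LY.UD

set_option autoImplicit false
set_option maxRecDepth 100000
set_option Elab.async false

namespace CfsgLY

open CfsgH5 CfsgH6

theorem cpt4_6 : pentB P.ops R1 IV lr4 pt4_6 = true := by decide +kernel
theorem cpt2_1 : pentB P.ops R1 IV lr2 pt2_1 = true := by decide +kernel
theorem cpt4_26 : pentB P.ops R1 IV lr4 pt4_26 = true := by decide +kernel
theorem cpt3_1 : pentB P.ops R1 IV lr3 pt3_1 = true := by decide +kernel
theorem cpt4_31 : pentB P.ops R1 IV lr4 pt4_31 = true := by decide +kernel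
theorem cpt4_19 : pentB P.ops R1 IV lr4 pt4_19 = true := by decide +kernel
theorem cpt2_3 : pentB P.ops R1 IV lr2 pt2_3 = true := by decide +kernel
theorem cpt3_8 : pentB P.ops R1 IV lr3 pt3_8 = true := by decide +kernel
theorem fix57 : fixB P.ops R1 IV lr4 57 1 [] = true := by decide +kernel
theorem cpt4_11 : pentB P.ops R1 IV lr4 pt4_11 = true := by decide +kernel
theorem cpt2_2 : pentB P.ops R1 IV lr2 pt2_2 = true := by decide +kernel
theorem cpt3_6 : pentB P.ops R1 IV lr3 pt3_6 = true := by decide +kernel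
end CfsgLY
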