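import Cfsg.Agent.LY.UD

set_option autoImplicit false
set_option maxRecDepth 100000
set_option Elab.async false

namespace CfsgLY

open CfsgH5 CfsgH6

theorem cpt4_18 : pentB P.ops R1 IV lr4 pt4_18 = true := by decide +kernel
theorem cpt3_12 : pentB P.ops R1 IV lr3 pt3_12 = true := by decide +kernel
theorem cpt4_17 : pentB P.ops R1 IV lr4 pt4_17 = true := by decide +kernel
theorem cpt4_14 : pentB P.ops R1 IV lr4 pt4_14 = true := by decide +kernel
theorem cpt4_20 : pentB P.ops R1 IV lr4 pt4_20 = true := by decide +kernel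
theorem cpt2_0 : pentB P.ops R1 IV lr2 pt2_0 = true := by decide +kernel
theorem cpt3_13 : pentB P.ops R1 IV lr3 pt3_13 = true := by decide +kernel
theorem cpt4_30 : pentB P.ops R1 IV lr4 pt4_30 = true := by decide +kernel
theorem cpt3_4 : pentB P.ops R1 IV lr3 pt3_4 = true := by decide +kernel
theorem cpt4_4 : pentB P.ops R1 IV lr4 pt4_4 = true := by decide +kernel
theorem nc4 : init P.ops R1 IV lr4 [] (fun _ _ _ E _ => bnot (cmB P.ops (E 0) (E 2))) = true := by decide +kernel
end CfsgLY
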