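import Cfsg.Agent.LY.UD

set_option autoImplicit false
set_option maxRecDepth 100000
set_option Elab.async false

namespace CfsgLY

open CfsgH5 CfsgH6

theorem cpt3_9 : pentB P.ops R1 IV lr3 pt3_9 = true := by decide +kernel
theorem cpt4_5 : pentB P.ops R1 IV lr4 pt4_5 = true := by decide +kernel
theorem cpt4_7 : pentB P.ops R1 IV lr4 pt4_7 = true := by decide +kernel
theorem cpt4_2 : pentB P.ops R1 IV lr4 pt4_2 = true := by decide +kernel
theorem cpt4_24 : pentB P.ops R1 IV lr4 pt4_24 = true := by decide +kernel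
theorem cpt4_10 : pentB P.ops R1 IV lr4 pt4_10 = true := by decide +kernel
theorem cpt4_23 : pentB P.ops R1 IV lr4 pt4_23 = true := by decide +kernel
theorem cpt4_1 : pentB P.ops R1 IV lr4 pt4_1 = true := by decide +kernel
theorem cpt4_3 : pentB P.ops R1 IV lr4 pt4_3 = true := by decide +kernel
theorem cpt4_29 : pentB P.ops R1 IV lr4 pt4_29 = true := by decide +kernel
theorem nc3 : init P.ops R1 IV lr3 [] (fun _ _ _ E _ => bnot (cmB P.ops (E 0) (E 2))) = true := by decide +kernel
end CfsgLY
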