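import Cfsg.Agent.LY.UK0
import Cfsg.Agent.LY.UK1
import Cfsg.Agent.LY.UK2
import Cfsg.Agent.LY.UK3
import Cfsg.Agent.LY.UK4
import Cfsg.Agent.LY.UK5

set_option autoImplicit false
set_option maxRecDepth 100000
set_option Elab.async false

namespace CfsgLY

open CfsgH5 CfsgH6

theorem pent2 : ∀ t ∈ PT2, pentB P.ops R1 IV lr2 t = true := (forall_cons cpt2_0 (forall_cons cpt2_1 (forall_cons cpt2_2 (forall_cons cpt2_3 (forall_cons cpt2_4 (forall_cons cpt2_5 (forall_cons cpt2_6 forall_nil)))))))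
theorem lw2 : LW2 = [] :: PT2.map Prod.fst := by decide
theorem pent3 : ∀ t ∈ PT3, pentB P.ops R1 IV lr3 t = true := (forall_cons cpt3_0 (forall_cons cpt3_1 (forall_cons cpt3_2 (forall_cons cpt3_3 (forall_cons cpt3_4 (forall_cons cpt3_5 (forall_cons cpt3_6 (forall_cons cpt3_7 (forall_cons cpt3_8 (forall_cons cpt3_9 (forall_cons cpt3_10 (forall_cons cpt3_11 (forall_cons cpt3_12 (forall_cons cpt3_13 (forall_cons cpt3_14 forall_nil)))))))))))))))
theorem lw3 : LW3 = [] :: PT3.map Prod.fst := by decide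
theorem pent4 : ∀ t ∈ PT4, pentB P.ops R1 IV lr4 t = true := (forall_cons cpt4_0 (forall_cons cpt4_1 (forall_cons cpt4_2 (forall_cons cpt4_3 (forall_cons cpt4_4 (forall_cons cpt4_5 (forall_cons cpt4_6 (forall_cons cpt4_7 (forall_cons cpt4_8 (forall_cons cpt4_9 (forall_cons cpt4_10 (forall_cons cpt4_11 (forall_cons cpt4_12 (forall_cons cpt4_13 (forall_cons cpt4_14 (forall_cons cpt4_15 (forall_cons cpt4_16 (forall_cons cpt4_17 (forall_cons cpt4_18 (forall_cons cpt4_19 (forall_cons cpt4_20 (forall_cons cpt4_21 (forall_cons cpt4_22 (forall_cons cpt4_23 (forall_cons cpt4_24 (forall_cons cpt4_25 (forall_cons cpt4_26 (forall_cons cpt4_27 (forall_cons cpt4_28 (forall_cons cpt4_29 (forall_cons cpt4_30 (forall_cons cpt4_31 (forall_cons cpt4_32 (forall_cons cpt4_33 (forall_cons cpt4_34 (forall_cons cpt4_35 (forall_cons cpt4_36 forall_nil)))))))))))))))))))))))))))))))))))))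
theorem lw4 : LW4 = [] :: PT4.map Prod.fst := by decide
end CfsgLY
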