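import Cfsg.Agent.LY.UD

set_option autoImplicit false
set_option maxRecDepth 100000
set_option Elab.async false

namespace CfsgLY

open CfsgH5 CfsgH6

theorem ivsq : allLt 121 (fun r => bimp (tb IV r) (eqL OM RM MM [r, r] [])) = true := by decide +kernel
theorem cpt3_14 : pentB P.ops R1 IV lr3 pt3_14 = true := by decide +kernel
theorem cpt3_0 : pentB P.ops R1 IV lr3 pt3_0 = true := by decide +kernel
theorem cpt4_36 : pentB P.ops R1 IV lr4 pt4_36 = true := by decide +kernel
theorem cpt3_11 : pentB P.ops R1 IV lr3 pt3_11 = true := by decide +kernel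
theorem cpt4_13 : pentB P.ops R1 IV lr4 pt4_13 = true := by decide +kernel
theorem cpt4_0 : pentB P.ops R1 IV lr4 pt4_0 = true := by decide +kernel
theorem cpt4_32 : pentB P.ops R1 IV lr4 pt4_32 = true := by decide +kernel
theorem fix58 : fixB P.ops R1 IV lr4 58 1 [] = true := by decide +kernel
theorem cpt4_15 : pentB P.ops R1 IV lr4 pt4_15 = true := by decide +kernel
theorem cpt2_5 : pentB P.ops R1 IV lr2 pt2_5 = true := by decide +kernel
theorem cpt3_10 : pentB P.ops R1 IV lr3 pt3_10 = true := by decide +kernel
end CfsgLY
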